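import Mathlib
import Cfsg.Agent.Lib.Classical.Herm.SU
import Cfsg.Agent.Lib.Classical.Herm.PGChar

/-!
# Prime graph of unitary groups: eigenvalues and the map `x ↦ x ^ (-q)`

The root multiset of the characteristic polynomial of a form-preserving matrix is stable, with
multiplicities, under `x ↦ (x ^ q)⁻¹`.
-/

set_option autoImplicit false
set_option linter.unusedSectionVars false

namespace Cfsg.Agent.Lib.Classical.Herm.PGUnitary

open Polynomial Matrix Module Cfsg
open Cfsg.Agent.Lib.Classical.Herm.PGRoots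
open Cfsg.Agent.Lib.Classical.Herm.GU Cfsg.Agent.Lib.Classical.Herm.SU Cfsg.Agent.Lib.Classical.Herm.Basic

variable {F : Type*} [Field F] [Fintype F] {q n : ℕ}

local notation "Ω" => AlgebraicClosure F

/-- `q` is a power of the characteristic. -/
theorem exists_pow_eq (p : ℕ) [hp : Fact p.Prime] [CharP F p] (hF : Fintype.card F = q ^ 2) :
    ∃ k, q = p ^ k := by
  obtain ⟨f, hpp, hf⟩ := FiniteField.card F p
  have h1 : q ∣ p ^ (f : ℕ) := by
    rw [← hf, hF]
    exact dvd_pow_self _ two_ne_zero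
  obtain ⟨k, -, rfl⟩ := (Nat.dvd_prime_pow hpp).1 h1
  exact ⟨k, rfl⟩

/-- There is a ring endomorphism `x ↦ x ^ q` of the algebraic closure. -/
theorem exists_frobQ (hF : Fintype.card F = q ^ 2) :
    ∃ Φ : (AlgebraicClosure F) →+* (AlgebraicClosure F), ∀ x, Φ x = x ^ q := by
  obtain ⟨p, hp⟩ := CharP.exists F
  obtain ⟨f, hpp, hf⟩ := FiniteField.card F p
  haveI : Fact p.Prime := ⟨hpp⟩
  obtain ⟨k, rfl⟩ := exists_pow_eq p hF
  haveI : CharP Ω p := charP_of_injective_algebraMap (algebraMap F Ω).injective p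
  haveI : ExpChar Ω p := ExpChar.prime hpp
  exact ⟨iterateFrobenius Ω p k, fun x => iterateFrobenius_def p k x⟩

theorem reverse_X_sub_C' {K : Type*} [Field K] {ν : K} (hν : ν ≠ 0) :
    (X - C ν : K[X]).reverse = C (-ν) * (X - C ν⁻¹) := by
  have h1 : (X - C ν : K[X]) = X + C (-ν) := by simp [sub_eq_add_neg]
  have h2 : (X : K[X]).reverse = 1 := by
    have := reverse_mul_X (1 : K[X])
    rw [one_mul] at this
    rw [this]
    simpa using reverse_C (1 : K)
  rw [h1, reverse_add_C, h2, natDegree_X, pow_one, mul_sub, ← C_mul]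
  simp [hν, sub_eq_add_neg, add_comm]

theorem reverse_dvd {K : Type*} [Field K] {ν : K} (hν : ν ≠ 0) {k : ℕ} {P : K[X]}
    (h : (X - C ν) ^ k ∣ P) : (X - C ν⁻¹) ^ k ∣ P.reverse := by
  induction k generalizing P with
  | zero => simp
  | succ k ih =>
    obtain ⟨Q, rfl⟩ := h
    have h0 : (X - C ν) ^ (k + 1) * Q = (X - C ν) * ((X - C ν) ^ k * Q) := by rw [pow_succ', mul_assoc]
    rw [h0, reverse_mul_of_domain, reverse_X_sub_C' hν, pow_succ']
    exact mul_dvd_mul (Dvd.intro_left _ rfl) (ih ⟨Q, rfl⟩)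

theorem chi_map_sigma (hF : Fintype.card F = q ^ 2) (Φ : (AlgebraicClosure F) →+* (AlgebraicClosure F))
    (hΦ : ∀ x, Φ x = x ^ q) (M : Matrix (Fin n) (Fin n) F) :
    chi (M.map (sigma hF)) = (chi M).map Φ := by
  have h1 : (M.map (sigma hF)).charpoly = M.charpoly.map (sigma hF) := Matrix.charpoly_map M (sigma hF)
  rw [chi, chi, h1, Polynomial.map_map, Polynomial.map_map]
  congr 1
  ext x
  simp [hΦ]

/-- Multiplicities do not decrease under `x ↦ (x ^ q)⁻¹`. -/
theorem mult_sig (hF : Fintype.card F = q ^ 2) {M : Matrix (Fin n) (Fin n) F} (hM : Preserves q M)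
    {μ : Ω} (hμ : μ ≠ 0) :
    (chi M).rootMultiplicity μ ≤ (chi M).rootMultiplicity (μ ^ q)⁻¹ := by
  obtain ⟨Φ, hΦ⟩ := exists_frobQ hF
  have hq0 : q ≠ 0 := by
    have := two_le_q hF
    omega
  have hT := transpose_mul_map hF M hM
  rw [le_rootMultiplicity_iff (chi_ne_zero M)]
  set k := (chi M).rootMultiplicity μ with hk
  have h1 : (X - C μ) ^ k ∣ chi M := pow_rootMultiplicity_dvd _ _
  have h2 : (X - C (μ ^ q)) ^ k ∣ chi (M.map (sigma hF)) := by
    rw [chi_map_sigma hF Φ hΦ]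
    have := Polynomial.map_dvd Φ h1
    simpa [Polynomial.map_pow, hΦ] using this
  set BΩ := (M.map (sigma hF)).map (algebraMap F Ω) with hB
  set MΩ := (Mᵀ).map (algebraMap F Ω) with hMΩ
  have h3 : MΩ * BΩ = 1 := by
    have := congrArg (fun Z : Matrix (Fin n) (Fin n) F => Z.map (algebraMap F Ω)) hT
    simpa [Matrix.map_mul, hB, hMΩ] using this
  have hunit : IsUnit BΩ := (Matrix.isUnit_iff_isUnit_det _).2 (Matrix.isUnit_det_of_left_inverse h3)
  have h4 : BΩ⁻¹ = MΩ := Matrix.inv_eq_left_inv h3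
  have h5 : chi M = MΩ.charpoly := by
    rw [chi_eq, hMΩ]
    have : (Mᵀ).map (algebraMap F Ω) = (M.map (algebraMap F Ω))ᵀ := (Matrix.transpose_map).symm
    rw [this, Matrix.charpoly_transpose]
  rw [h5, ← h4, Matrix.charpoly_inv _ hunit, ← Matrix.reverse_charpoly, ← chi_eq]
  apply Dvd.dvd.mul_left
  exact reverse_dvd (pow_ne_zero _ hμ) h2

/-- The iterates of `x ↦ (x ^ q)⁻¹`, written in the unit group. -/
theorem mult_sig_iter (hF : Fintype.card F = q ^ 2) {M : Matrix (Fin n) (Fin n) F} (hM : Preserves q M)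
    (u : Ωˣ) (j : ℕ) :
    (chi M).rootMultiplicity (u : Ω) ≤
      (chi M).rootMultiplicity (((u ^ ((-(q : ℤ)) ^ j) : Ωˣ)) : Ω) := by
  induction j with
  | zero => simp
  | succ j ih =>
    refine ih.trans ?_
    set w : Ωˣ := u ^ ((-(q : ℤ)) ^ j) with hw
    have h1 := mult_sig hF hM (μ := (w : Ω)) w.ne_zero
    have h2 : ((u ^ ((-(q : ℤ)) ^ (j + 1)) : Ωˣ) : Ω) = ((w : Ω) ^ q)⁻¹ := by
      rw [pow_succ, _root_.zpow_mul, ← hw]
      have : w ^ (-(q : ℤ)) = (w ^ q)⁻¹ := by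
        rw [_root_.zpow_neg, zpow_natCast]
      rw [this]
      simp
    rw [h2]
    exact h1

section orbit

variable {ℓ : ℕ} [hℓ : Fact ℓ.Prime]

/-- The orbit of a unit under `x ↦ (x ^ q)⁻¹`. -/
noncomputable def sOrb (u : Ωˣ) (e : ℕ) : Finset Ω := by
  classical
  exact (Finset.range e).image (fun j => ((u ^ ((-(q : ℤ)) ^ j) : Ωˣ) : Ω))

theorem mem_sOrb {u : Ωˣ} {e : ℕ} {x : Ω} :
    x ∈ sOrb (q := q) u e ↔ ∃ j, j < e ∧ ((u ^ ((-(q : ℤ)) ^ j) : Ωˣ) : Ω) = x := by
  classical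
  simp [sOrb]

theorem neg_q_ne_zero (hq : ¬ ℓ ∣ q) : (-(q : ZMod ℓ)) ≠ 0 := by
  intro h
  apply hq
  rw [neg_eq_zero] at h
  exact (ZMod.natCast_eq_zero_iff q ℓ).1 h

theorem orderOf_neg_q_pos (hq : ¬ ℓ ∣ q) : 0 < orderOf (-(q : ZMod ℓ)) := by
  rw [orderOf_pos_iff, isOfFinOrder_iff_pow_eq_one]
  exact ⟨ℓ - 1, by have := hℓ.out.two_le; omega, ZMod.pow_card_sub_one_eq_one (neg_q_ne_zero hq)⟩

theorem card_sOrb (hq : ¬ ℓ ∣ q) {u : Ωˣ} (hu : orderOf u = ℓ) :
    (sOrb (q := q) u (orderOf (-(q : ZMod ℓ)))).card = orderOf (-(q : ZMod ℓ)) := by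
  classical
  unfold sOrb
  rw [Finset.card_image_of_injOn, Finset.card_range]
  intro i hi j hj hij
  simp only [Finset.coe_range, Set.mem_Iio] at hi hj
  have h1 : u ^ ((-(q : ℤ)) ^ i) = u ^ ((-(q : ℤ)) ^ j) := Units.ext hij
  have h2 := zpow_eq_zpow_iff_modEq.1 h1
  rw [hu] at h2
  have h3 := (ZMod.intCast_eq_intCast_iff _ _ ℓ).2 h2
  push_cast at h3
  set y : ZMod ℓ := -(q : ZMod ℓ) with hy
  have hy0 : y ≠ 0 := neg_q_ne_zero hq
  set y' : (ZMod ℓ)ˣ := Units.mk0 y hy0 with hy'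
  have hord : orderOf y' = orderOf y := by
    rw [← orderOf_units (y := y')]
    rfl
  have h4 : y' ^ i = y' ^ j := by
    apply Units.ext
    simpa [hy'] using h3
  rw [← hord] at hi hj
  exact pow_injOn_Iio_orderOf hi hj h4

theorem sOrb_ne_one (hq : ¬ ℓ ∣ q) {u : Ωˣ} (hu : orderOf u = ℓ) {x : Ω} {e : ℕ}
    (hx : x ∈ sOrb (q := q) u e) : x ≠ 1 := by
  obtain ⟨j, -, rfl⟩ := mem_sOrb.1 hx
  intro h
  have h1 : u ^ ((-(q : ℤ)) ^ j) = 1 := Units.ext (by simpa using h)
  have h2 := orderOf_dvd_iff_zpow_eq_one.2 h1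
  rw [hu] at h2
  have h3 : (ℓ : ℤ) ∣ (-(q : ℤ)) := (Int.prime_iff_natAbs_prime.2 (by simpa using hℓ.out)).dvd_of_dvd_pow h2
  apply hq
  have := (Int.dvd_neg.1 h3)
  exact_mod_cast this

/-- A form-preserving semisimple element of prime order commuting with a nilpotent: size bound. -/
theorem order_bound (hF : Fintype.card F = q ^ 2) {A : Matrix (Fin n) (Fin n) F} (hA : Preserves q A)
    (hpow : A ^ ℓ = 1) (hne : A ≠ 1) (hℓF : (ℓ : F) ≠ 0) (hq : ¬ ℓ ∣ q)
    {lam : Ω} (hlam : 2 ≤ (chi A).rootMultiplicity lam) :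
    orderOf (-(q : ZMod ℓ)) + 2 ≤ n ∨ 2 * orderOf (-(q : ZMod ℓ)) ≤ n := by
  classical
  set e := orderOf (-(q : ZMod ℓ)) with he
  have hroot : ∀ {x : Ω}, (chi A).IsRoot x → x ^ ℓ = 1 := by
    intro x hx
    have h1 : A ^ ℓ = (1 : F) • (1 : Matrix (Fin n) (Fin n) F) := by simp [hpow]
    simpa using root_pow hx h1
  have hne0 : ∀ {x : Ω}, x ^ ℓ = 1 → x ≠ 0 := by
    rintro x hx rfl
    rw [zero_pow hℓ.out.ne_zero] at hx
    exact zero_ne_one hx
  have hord : ∀ {x : Ωˣ}, (x : Ω) ^ ℓ = 1 → (x : Ω) ≠ 1 → orderOf x = ℓ := by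
    intro x hx hx1
    haveI := hℓ
    apply orderOf_eq_prime
    · exact Units.ext (by simpa using hx)
    · intro h
      apply hx1
      simp [h]
  have hlr : (chi A).IsRoot lam := by
    have : 0 < (chi A).rootMultiplicity lam := by omega
    exact (rootMultiplicity_pos (chi_ne_zero A)).1 this
  have hlam1 := hroot hlr
  by_cases hl : lam = 1
  · -- a root different from `1`
    obtain ⟨μ, hμr, hμ1⟩ : ∃ μ : Ω, (chi A).IsRoot μ ∧ μ ≠ 1 := by
      by_contra hcon
      push Not at hcon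
      apply hne
      have := pow_eq_one_of_roots (t := 1) (N := ℓ) hpow (by exact hℓF) (by
        intro μ hμ
        rw [pow_one]
        exact hcon μ hμ)
      simpa using this
    have hμ2 := hroot hμr
    set u : Ωˣ := Units.mk0 μ (hne0 hμ2) with hu
    have huo : orderOf u = ℓ := hord (by simpa [hu] using hμ2) (by simpa [hu] using hμ1)
    have hsm := sum_mult_le A (insert (1 : Ω) (sOrb (q := q) u e))
    have hnot : (1 : Ω) ∉ sOrb (q := q) u e := fun h => sOrb_ne_one hq huo h rfl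
    rw [Finset.sum_insert hnot] at hsm
    have hge : e ≤ ∑ x ∈ sOrb (q := q) u e, (chi A).rootMultiplicity x := by
      calc e = (sOrb (q := q) u e).card := (card_sOrb hq huo).symm
        _ = ∑ x ∈ sOrb (q := q) u e, 1 := by simp
        _ ≤ _ := by
          apply Finset.sum_le_sum
          intro x hx
          obtain ⟨j, -, rfl⟩ := mem_sOrb.1 hx
          have h1 := mult_sig_iter hF hA u j
          have h2 : 1 ≤ (chi A).rootMultiplicity (u : Ω) := one_le_mult hμr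
          omega
    subst hl
    simp only [Fintype.card_fin] at hsm
    left
    omega
  · set u : Ωˣ := Units.mk0 lam (hne0 hlam1) with hu
    have huo : orderOf u = ℓ := hord (by simpa [hu] using hlam1) (by simpa [hu] using hl)
    have hsm := sum_mult_le A (sOrb (q := q) u e)
    have hge : 2 * e ≤ ∑ x ∈ sOrb (q := q) u e, (chi A).rootMultiplicity x := by
      calc 2 * e = ∑ x ∈ sOrb (q := q) u e, 2 := by
            simp [card_sOrb hq huo, he, mul_comm]
        _ ≤ _ := by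
          apply Finset.sum_le_sum
          intro x hx
          obtain ⟨j, -, rfl⟩ := mem_sOrb.1 hx
          have h1 := mult_sig_iter hF hA u j
          have h2 : (chi A).rootMultiplicity (u : Ω) = (chi A).rootMultiplicity lam := rfl
          omega
    simp only [Fintype.card_fin] at hsm
    right
    omega

end orbit

/-! ### Group theory: lifting elements -/

/-- Lifting an element of a quotient when the exponent of the kernel is coprime to its order. -/
theorem exists_lift_of_pow {G : Type*} [Group G] (Z : Subgroup G) [Z.Normal] {N : ℕ}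
    (hZ : ∀ z ∈ Z, z ^ N = 1) (g : G ⧸ Z) {l : ℕ} (hg : g ^ l = 1) (hc : l.Coprime N) :
    ∃ x : G, (x : G ⧸ Z) = g ∧ x ^ l = 1 := by
  obtain ⟨x₀, rfl⟩ := QuotientGroup.mk_surjective g
  rcases Nat.lt_or_ge l 2 with hl | hl
  · interval_cases l
    · -- `l = 0`
      have hN : N = 1 := by simpa using hc
      subst hN
      refine ⟨x₀, rfl, by simp⟩
    · refine ⟨1, ?_, by simp⟩
      have : (x₀ : G ⧸ Z) = 1 := by simpa using hg
      rw [this]
      rfl
  obtain ⟨s, -, hs⟩ := Nat.exists_mul_mod_eq_of_coprime (n := N) (k := l) 1 hc.symm (by omega)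
  rw [Nat.mod_eq_of_lt (by omega : 1 < l)] at hs
  have hmem : x₀ ^ l ∈ Z := by
    rw [← QuotientGroup.eq_one_iff]
    exact hg
  refine ⟨x₀ ^ (N * s), ?_, ?_⟩
  · have h1 : ((x₀ ^ (N * s) : G) : G ⧸ Z) = (x₀ : G ⧸ Z) ^ (N * s) := rfl
    rw [h1, pow_eq_pow_mod (N * s) hg, hs, pow_one]
  · have h2 : (x₀ ^ (N * s)) ^ l = ((x₀ ^ l) ^ N) ^ s := by
      rw [← pow_mul, ← pow_mul, ← pow_mul]
      congr 1
      ring
    rw [h2, hZ _ hmem, one_pow]

/-- Elements of the centre of `SU_n` have order dividing `q + 1`. -/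
theorem center_pow (hF : Fintype.card F = q ^ 2) (hn : 1 ≤ n) (z : SU n F q)
    (hz : z ∈ Subgroup.center (SU n F q)) : z ^ (q + 1) = 1 := by
  obtain ⟨c, hc⟩ := center_scalar hF z hz
  have hT := transpose_mul_map hF _ (preserves_su z)
  rw [hc] at hT
  have h1 := congrFun (congrFun hT ⟨0, hn⟩) ⟨0, hn⟩
  have h2 : c * c ^ q = 1 := by
    rw [Matrix.scalar_apply, Matrix.diagonal_transpose, Matrix.diagonal_map (map_zero _),
      Matrix.diagonal_mul_diagonal, Matrix.diagonal_apply_eq] at h1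
    exact h1
  apply Subtype.ext
  apply Subtype.ext
  change ((z : Matrix.SpecialLinearGroup (Fin n) F) : Matrix (Fin n) (Fin n) F) ^ (q + 1) = 1
  rw [hc, ← map_pow, pow_succ', h2, map_one]

/-- Explicit order of `SU_n`, without the factor `q + 1`. -/
theorem card_SU' (hF : Fintype.card F = q ^ 2) (hn : 2 ≤ n) :
    Nat.card (SU n F q) = q ^ (n * (n - 1) / 2) *
      ∏ i ∈ Finset.range (n - 1), (if Even (i + 1) then q ^ (i + 2) + 1 else q ^ (i + 2) - 1) := by
  have h := card_SU hF (by omega : 1 ≤ n)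
  obtain ⟨m, rfl⟩ : ∃ m, n = m + 1 := ⟨n - 1, by omega⟩
  rw [Finset.prod_range_succ'] at h
  simp only [Even.zero, if_true, zero_add, pow_one] at h
  have hq : q + 1 ≠ 0 := by omega
  apply Nat.eq_of_mul_eq_mul_left (Nat.pos_of_ne_zero hq)
  rw [h]
  simp only [Nat.add_sub_cancel]
  ring

theorem dvd_card_SU (hF : Fintype.card F = q ^ 2) (hn : 2 ≤ n) {j : ℕ} (hj : 1 ≤ j) (hjn : j < n) :
    (if Even j then q ^ (j + 1) + 1 else q ^ (j + 1) - 1) ∣ Nat.card (SU n F q) := by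
  rw [card_SU' hF hn]
  apply Dvd.dvd.mul_left
  obtain ⟨i, rfl⟩ : ∃ i, j = i + 1 := ⟨j - 1, by omega⟩
  exact Finset.dvd_prod_of_mem (fun i => if Even (i + 1) then q ^ (i + 2) + 1 else q ^ (i + 2) - 1)
    (Finset.mem_range.2 (by omega))

theorem q_dvd_card_SU (hF : Fintype.card F = q ^ 2) (hn : 2 ≤ n) : q ∣ Nat.card (SU n F q) := by
  rw [card_SU' hF hn]
  apply Dvd.dvd.mul_right
  apply dvd_pow_self
  obtain ⟨m, rfl⟩ : ∃ m, n = m + 2 := ⟨n - 2, by omega⟩
  have : 1 ≤ (m + 2) * (m + 2 - 1) / 2 := by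
    rw [Nat.le_div_iff_mul_le (by norm_num)]
    simp only [Nat.add_succ_sub_one]
    nlinarith
  omega

end Cfsg.Agent.Lib.Classical.Herm.PGUnitary
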