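import Mathlib
import Cfsg.Agent.Lib.Classical.Herm.PGUnitary
import Cfsg.Agent.Lib.Classical.Herm.PGLinear
import Cfsg.Agent.Lib.Classical.Herm.SU3Witness
import Cfsg.Agent.Lib.Classical.Spectra.Ppd

/-!
# Elements of order `q ^ (n / 2) ± 1` in `PSL_n(q)` and `PSU_n(q)`

Matrices with a full orbit of eigenvalues under `x ↦ x ^ y` (`y = q` or `y = -q`): the eigenvalues are
distinct, the matrix is semisimple, and its order modulo scalars is controlled by one eigenvalue.
-/

set_option autoImplicit false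
set_option linter.unusedSectionVars false

namespace Cfsg.Agent.Lib.Classical.Herm.HalfTorus

open Polynomial Matrix Module Cfsg
open Cfsg.Agent.Lib.Classical.Herm.PGRoots
open Cfsg.Agent.Lib.Classical.Herm.PGUnitary

variable {F : Type*} [Field F] [Fintype F] {ι : Type*} [Fintype ι] [DecidableEq ι]

local notation "Ω" => AlgebraicClosure F

/-! ### Matrices with a full set of distinct eigenvalues -/

theorem roots_eq_of_card {A : Matrix ι ι F} {S : Finset (AlgebraicClosure F)}
    (hS : ∀ x ∈ S, (chi A).IsRoot x) (hc : S.card = Fintype.card ι) : (chi A).roots = S.val := by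
  symm
  apply Multiset.eq_of_le_of_card_le
  · rw [Multiset.le_iff_subset S.nodup]
    intro x hx
    exact (mem_roots (chi_ne_zero A)).2 (hS x hx)
  · have := card_roots' (chi A)
    rw [chi_natDegree] at this
    simpa [hc] using this

theorem det_eq_prod {A : Matrix ι ι F} {S : Finset (AlgebraicClosure F)}
    (hS : ∀ x ∈ S, (chi A).IsRoot x) (hc : S.card = Fintype.card ι) :
    algebraMap F Ω A.det = ∏ x ∈ S, x := by
  have h1 : (A.map (algebraMap F Ω)).det = algebraMap F Ω A.det := (RingHom.map_det _ _).symm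
  rw [← h1, Matrix.det_eq_prod_roots_charpoly, ← chi_eq, roots_eq_of_card hS hc]
  exact Finset.prod_val S

theorem pow_eq_of_roots {A : Matrix ι ι F} {S : Finset (AlgebraicClosure F)}
    (hS : ∀ x ∈ S, (chi A).IsRoot x) (hc : S.card = Fintype.card ι) {t : ℕ} (ht : 1 ≤ t) {c : Ω}
    (hx : ∀ x ∈ S, x ^ t = c) : (A.map (algebraMap F Ω)) ^ t = c • (1 : Matrix ι ι Ω) := by
  have hne : (X ^ t - C c : (AlgebraicClosure F)[X]) ≠ 0 := X_pow_sub_C_ne_zero ht c
  have hd : chi A ∣ X ^ t - C c := by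
    have hsplit := (IsAlgClosed.splits (chi A)).eq_prod_roots_of_monic (chi_monic A)
    have h2 : ((chi A).roots.map fun a => X - C a).prod ∣ (X ^ t - C c : (AlgebraicClosure F)[X]) := by
      rw [Multiset.prod_X_sub_C_dvd_iff_le_roots hne, roots_eq_of_card hS hc,
        Multiset.le_iff_subset S.nodup]
      intro x hx'
      rw [mem_roots hne]
      simp [hx x hx']
    rw [← hsplit] at h2
    exact h2
  obtain ⟨Q, hQ⟩ := hd
  have h1 := congrArg (aeval (A.map (algebraMap F Ω))) hQ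
  rw [map_mul, chi_eq, Matrix.aeval_self_charpoly, zero_mul] at h1
  simp only [map_sub, map_pow, aeval_X, aeval_C, sub_eq_zero] at h1
  rw [h1, Algebra.algebraMap_eq_smul_one]

theorem exists_scalar_pow {A : Matrix ι ι F} {S : Finset (AlgebraicClosure F)}
    (hS : ∀ x ∈ S, (chi A).IsRoot x) (hc : S.card = Fintype.card ι) {t : ℕ} (ht : 1 ≤ t) {c : Ω}
    (hx : ∀ x ∈ S, x ^ t = c) : ∃ c' : F, A ^ t = c' • (1 : Matrix ι ι F) := by
  classical
  have h1 := pow_eq_of_roots hS hc ht hx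
  have h2 : (A ^ t).map (algebraMap F Ω) = c • (1 : Matrix ι ι Ω) := by
    rw [← h1]
    have : (A.map (algebraMap F Ω)) = (algebraMap F Ω).mapMatrix A := rfl
    rw [this, ← map_pow]
    rfl
  have hinj := (algebraMap F Ω).injective
  by_cases hne : Nonempty ι
  · obtain ⟨i₀⟩ := hne
    have h3 : algebraMap F Ω ((A ^ t) i₀ i₀) = c := by
      have := congrFun (congrFun h2 i₀) i₀
      simpa using this
    refine ⟨(A ^ t) i₀ i₀, ?_⟩
    ext i j
    apply hinj
    have := congrFun (congrFun h2 i) j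
    rw [Matrix.map_apply] at this
    rw [this]
    by_cases hij : i = j
    · subst hij
      simp [h3]
    · simp [hij]
  · refine ⟨0, ?_⟩
    ext i
    exact absurd ⟨i⟩ hne

/-- A root whose order is divisible by `r`. -/
theorem exists_root_of_dvd (p : ℕ) [hp : Fact p.Prime] [CharP F p] {A : Matrix ι ι F} {o r : ℕ}
    [hr : Fact r.Prime] (hrp : r ≠ p) (ho : o ≠ 0) (hA : A ^ o = 1) (hdvd : ∀ o', A ^ o' = 1 → r ∣ o') :
    ∃ y : Ω, (chi A).IsRoot y ∧ r ∣ orderOf y := by
  classical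
  by_contra hcon
  push Not at hcon
  obtain ⟨b, o₁, ho₁, rfl⟩ := Nat.exists_eq_pow_mul_and_not_dvd ho r hr.out.ne_one
  have hrt : ∀ y : Ω, (chi A).IsRoot y → y ^ o₁ = 1 := by
    intro y hy
    have h1 : A ^ (r ^ b * o₁) = (1 : F) • (1 : Matrix ι ι F) := by simp [hA]
    have h2 : y ^ (r ^ b * o₁) = 1 := by simpa using root_pow hy h1
    have h3 : orderOf y ∣ r ^ b * o₁ := orderOf_dvd_of_pow_eq_one h2
    have h4 : (orderOf y).Coprime (r ^ b) :=
      Nat.Coprime.pow_right _ ((Nat.Prime.coprime_iff_not_dvd hr.out).2 (hcon y hy)).symm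
    have h5 : orderOf y ∣ o₁ := h4.dvd_of_dvd_mul_left h3
    exact orderOf_dvd_iff_pow_eq_one.1 h5
  have hm : Fintype.card ι ≤ p ^ (Fintype.card ι) := (Nat.lt_pow_self hp.out.one_lt).le
  have h1 := pow_eq_scalar_of_roots p hm (t := o₁) (c := 1) hrt
  simp only [one_pow, one_smul] at h1
  have h2 : A ^ (o₁ * p ^ Fintype.card ι) = 1 := by
    have h3 : (A.map (algebraMap F Ω)) = (algebraMap F Ω).mapMatrix A := rfl
    rw [h3, ← map_pow] at h1
    have h4 : (A ^ (o₁ * p ^ Fintype.card ι)).map (algebraMap F Ω) = (1 : Matrix ι ι F).map (algebraMap F Ω) := by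
      rw [Matrix.map_one _ (map_zero _) (map_one _)]
      exact h1
    exact Matrix.map_injective (algebraMap F Ω).injective h4
  have h3 := hdvd _ h2
  rcases (Nat.Prime.dvd_mul hr.out).1 h3 with h4 | h4
  · exact ho₁ h4
  · exact hrp ((Nat.prime_dvd_prime_iff_eq hr.out hp.out).1 (hr.out.dvd_of_dvd_pow h4))

/-! ### Orbits under a power map -/

section orbit

variable {r : ℕ} [hr : Fact r.Prime]

/-- The orbit of a unit under `y ↦ y ^ x`. -/
noncomputable def orbZ (u : Ωˣ) (x : ℤ) (n : ℕ) : Finset Ω := by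
  classical
  exact (Finset.range n).image (fun j => ((u ^ (x ^ j) : Ωˣ) : Ω))

theorem mem_orbZ {u : Ωˣ} {x : ℤ} {n : ℕ} {y : Ω} :
    y ∈ orbZ u x n ↔ ∃ j, j < n ∧ ((u ^ (x ^ j) : Ωˣ) : Ω) = y := by
  classical
  simp [orbZ]

theorem orbZ_injOn {u : Ωˣ} {x : ℤ} (hu : r ∣ orderOf u) (hx : (x : ZMod r) ≠ 0) {n : ℕ}
    (hord : orderOf (x : ZMod r) = n) :
    Set.InjOn (fun j : ℕ => ((u ^ (x ^ j) : Ωˣ) : Ω)) (Finset.range n : Set ℕ) := by
  intro i hi j hj hij
  simp only [Finset.coe_range, Set.mem_Iio] at hi hj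
  have h1 : u ^ (x ^ i) = u ^ (x ^ j) := Units.ext hij
  have h2 := zpow_eq_zpow_iff_modEq.1 h1
  have h2' : x ^ i ≡ x ^ j [ZMOD (r : ℤ)] := h2.of_dvd (by exact_mod_cast hu)
  have h3 := (ZMod.intCast_eq_intCast_iff _ _ r).2 h2'
  push_cast at h3
  set y' : (ZMod r)ˣ := Units.mk0 (x : ZMod r) hx with hy'
  have hordy : orderOf y' = n := by
    rw [← hord, ← orderOf_units (y := y')]
    rfl
  have h4 : y' ^ i = y' ^ j := by
    apply Units.ext
    simpa [hy'] using h3
  rw [← hordy] at hi hj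
  exact pow_injOn_Iio_orderOf hi hj h4

theorem card_orbZ {u : Ωˣ} {x : ℤ} (hu : r ∣ orderOf u) (hx : (x : ZMod r) ≠ 0) {n : ℕ}
    (hord : orderOf (x : ZMod r) = n) : (orbZ u x n).card = n := by
  classical
  unfold orbZ
  rw [Finset.card_image_of_injOn (orbZ_injOn hu hx hord), Finset.card_range]

theorem prod_zpow_range {G : Type*} [CommGroup G] (u : G) (x : ℤ) (n : ℕ) :
    ∏ j ∈ Finset.range n, u ^ (x ^ j) = u ^ (∑ j ∈ Finset.range n, x ^ j) := by
  induction n with
  | zero => simp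
  | succ n ih => rw [Finset.prod_range_succ, ih, Finset.sum_range_succ, _root_.zpow_add]

theorem prod_orbZ {u : Ωˣ} {x : ℤ} (hu : r ∣ orderOf u) (hx : (x : ZMod r) ≠ 0) {n : ℕ}
    (hord : orderOf (x : ZMod r) = n) :
    ∏ y ∈ orbZ u x n, y = ((u ^ (∑ j ∈ Finset.range n, x ^ j) : Ωˣ) : Ω) := by
  classical
  unfold orbZ
  rw [Finset.prod_image (orbZ_injOn hu hx hord), ← prod_zpow_range, Units.coe_prod]

/-- Main structure lemma: a matrix having a unit eigenvalue with a full orbit. -/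
theorem key_general {A : Matrix ι ι F} {x : ℤ}
    (hroot : ∀ v : Ωˣ, (chi A).IsRoot (v : Ω) → (chi A).IsRoot ((v ^ x : Ωˣ) : Ω))
    {u : Ωˣ} (hu : (chi A).IsRoot (u : Ω)) (huo : r ∣ orderOf u) (hx : (x : ZMod r) ≠ 0)
    (hord : orderOf (x : ZMod r) = Fintype.card ι) :
    (A.det = 1 → u ^ (∑ j ∈ Finset.range (Fintype.card ι), x ^ j) = 1) ∧
      ∀ t : ℕ, 1 ≤ t → u ^ ((t : ℤ) * (x - 1)) = 1 → ∃ c : F, A ^ t = c • (1 : Matrix ι ι F) := by
  classical
  have hroots : ∀ y ∈ orbZ u x (Fintype.card ι), (chi A).IsRoot y := by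
    intro y hy
    obtain ⟨j, -, rfl⟩ := mem_orbZ.1 hy
    clear hy
    induction j with
    | zero => simpa using hu
    | succ j ih =>
      rw [pow_succ, _root_.zpow_mul]
      exact hroot _ ih
  have hcard := card_orbZ (u := u) huo hx hord
  constructor
  · intro hdet
    have h1 := det_eq_prod hroots hcard
    rw [hdet, prod_orbZ huo hx hord, map_one] at h1
    exact Units.ext h1.symm
  · intro t ht h
    have h2 : (u ^ t) ^ x = u ^ t := by
      have h3 : (t : ℤ) * (x - 1) = t * x - t := by ring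
      rw [h3, _root_.zpow_sub, _root_.zpow_mul, zpow_natCast, mul_inv_eq_one] at h
      exact h
    refine exists_scalar_pow hroots hcard ht (c := ((u ^ t : Ωˣ) : Ω)) ?_
    intro y hy
    obtain ⟨j, -, rfl⟩ := mem_orbZ.1 hy
    have h4 : ((u ^ (x ^ j)) ^ t : Ωˣ) = u ^ t := by
      clear hy
      induction j with
      | zero => simp
      | succ j ih =>
        have h5 : (u ^ (x ^ (j + 1))) ^ t = ((u ^ (x ^ j)) ^ t) ^ x := by
          rw [pow_succ, _root_.zpow_mul]
          rw [← zpow_natCast, ← zpow_natCast, ← _root_.zpow_mul, ← _root_.zpow_mul, ← _root_.zpow_mul, ← _root_.zpow_mul]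
          congr 1
          ring
        rw [h5, ih, h2]
    rw [← Units.val_pow_eq_pow_val, h4]

end orbit

/-! ### Arithmetic -/

/-- The geometric sum. -/
def geo (x : ℤ) (m : ℕ) : ℤ := ∑ j ∈ Finset.range m, x ^ j

theorem geo_mul (x : ℤ) (m : ℕ) : geo x m * (x - 1) = x ^ m - 1 := geom_sum_mul x m

theorem sub_one_dvd_geo_sub (x : ℤ) (m : ℕ) : (x - 1) ∣ geo x m - m := by
  induction m with
  | zero => simp [geo]
  | succ m ih =>
    have h1 : geo x (m + 1) - ((m + 1 : ℕ) : ℤ) = (geo x m - m) + (x ^ m - 1) := by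
      simp only [geo, Finset.sum_range_succ]
      push_cast
      ring
    rw [h1]
    refine dvd_add ih ?_
    simpa using sub_dvd_pow_sub_pow x 1 m

theorem geo_two_mul {x : ℤ} (hx : x - 1 ≠ 0) (a : ℕ) : geo x (2 * a) = geo x a * (x ^ a + 1) := by
  apply mul_right_cancel₀ hx
  rw [geo_mul, mul_right_comm, geo_mul]
  ring

theorem dvd_geo_iff {x : ℤ} {d : ℕ} (hd : (d : ℤ) ∣ x - 1) (m : ℕ) : (d : ℤ) ∣ geo x m ↔ (d : ℤ) ∣ m := by
  have h1 := hd.trans (sub_one_dvd_geo_sub x m)
  constructor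
  · intro h
    have := dvd_sub h h1
    simpa using this
  · intro h
    have := dvd_add h h1
    simpa using this

/-- From a unit with the orbit structure to a divisibility. -/
theorem group_arith {H : Type*} [Group H] (u : H) {G D : ℤ} (hG : u ^ G = 1) {N : ℕ}
    (h : ∀ t : ℕ, u ^ ((t : ℤ) * D) = 1 → N ∣ t) (hG0 : G ≠ 0) :
    N * Nat.gcd G.natAbs D.natAbs ∣ G.natAbs := by
  set e := Nat.gcd G.natAbs D.natAbs with he
  have he0 : e ≠ 0 := (Nat.gcd_pos_of_pos_left _ (Int.natAbs_pos.2 hG0)).ne'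
  obtain ⟨g', hg'⟩ : e ∣ G.natAbs := Nat.gcd_dvd_left _ _
  obtain ⟨d', hd'⟩ : e ∣ D.natAbs := Nat.gcd_dvd_right _ _
  have h1 : (G : ℤ) ∣ (g' : ℤ) * D := by
    rw [← Int.natAbs_dvd_natAbs, Int.natAbs_mul, hg', hd']
    simp only [Int.natAbs_natCast]
    exact ⟨d', by ring⟩
  obtain ⟨c, hc⟩ := h1
  have h2 : u ^ ((g' : ℤ) * D) = 1 := by
    rw [hc, _root_.zpow_mul, hG, _root_.one_zpow]
  have h3 := h g' h2
  rw [hg', mul_comm e]
  exact Nat.mul_dvd_mul_right h3 e

/-- Forward arithmetic. -/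
theorem forward_arith {x : ℤ} {a : ℕ} (hx : x - 1 ≠ 0) (ha : a ≠ 0) (hN : x ^ a + 1 ≠ 0)
    (h : (x ^ a + 1).natAbs * Nat.gcd (geo x (2 * a)).natAbs (x - 1).natAbs ∣ (geo x (2 * a)).natAbs) :
    padicValNat 2 (x - 1).natAbs < padicValNat 2 (2 * a) := by
  set d := Nat.gcd (2 * a) (x - 1).natAbs with hd
  have hdD : (d : ℤ) ∣ x - 1 := by
    rw [Int.natCast_dvd]
    exact Nat.gcd_dvd_right _ _
  have hd2a : ((d : ℕ) : ℤ) ∣ ((2 * a : ℕ) : ℤ) := by
    exact_mod_cast Nat.gcd_dvd_left _ _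
  have h1 : d ∣ (geo x (2 * a)).natAbs := by
    rw [← Int.natCast_dvd]
    exact (dvd_geo_iff hdD _).2 hd2a
  have h2 : d ∣ Nat.gcd (geo x (2 * a)).natAbs (x - 1).natAbs := Nat.dvd_gcd h1 (Nat.gcd_dvd_right _ _)
  have h3 : (x ^ a + 1).natAbs * d ∣ (x ^ a + 1).natAbs * (geo x a).natAbs := by
    have h4 : (geo x (2 * a)).natAbs = (x ^ a + 1).natAbs * (geo x a).natAbs := by
      rw [geo_two_mul hx, Int.natAbs_mul, mul_comm]
    rw [← h4]
    exact (Nat.mul_dvd_mul_left _ h2).trans h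
  have h5 : d ∣ (geo x a).natAbs := Nat.dvd_of_mul_dvd_mul_left (Int.natAbs_pos.2 hN) h3
  have h6 : (d : ℤ) ∣ (a : ℤ) := (dvd_geo_iff hdD a).1 (Int.natCast_dvd.2 h5)
  have h7 : d ∣ a := by exact_mod_cast h6
  by_contra hcon
  push Not at hcon
  have hDne : (x - 1).natAbs ≠ 0 := Int.natAbs_ne_zero.2 hx
  have h8 : 2 ^ padicValNat 2 (2 * a) ∣ (x - 1).natAbs := (padicValNat_dvd_iff_le hDne).2 hcon
  have h9 : 2 ^ padicValNat 2 (2 * a) ∣ d := Nat.dvd_gcd pow_padicValNat_dvd h8
  have h10 : 2 ^ padicValNat 2 (2 * a) ∣ a := h9.trans h7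
  have h11 := (padicValNat_dvd_iff_le ha).1 h10
  rw [padicValNat.mul (by norm_num) ha] at h11
  simp at h11

/-- Backward arithmetic. -/
theorem backward_arith {x : ℤ} {a : ℕ} (hx : x - 1 ≠ 0) (ha : a ≠ 0) (hN : x ^ a + 1 ≠ 0)
    (hG : geo x a ≠ 0)
    (h : padicValNat 2 (x - 1).natAbs < padicValNat 2 (2 * a)) :
    ∃ s : ℕ, ∀ k : ℕ, (x ^ (2 * a) - 1).natAbs ∣ (x - 1).natAbs * s * k * (x - 1).natAbs ↔
      (x ^ a + 1).natAbs ∣ k := by
  set D := (x - 1).natAbs with hD
  set N := (x ^ a + 1).natAbs with hNdef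
  set T := (geo x a).natAbs with hT
  set d := Nat.gcd (2 * a) D with hd
  have hD0 : D ≠ 0 := Int.natAbs_ne_zero.2 hx
  have hT0 : T ≠ 0 := Int.natAbs_ne_zero.2 hG
  have h2a0 : 2 * a ≠ 0 := by omega
  have hd0 : d ≠ 0 := (Nat.gcd_pos_of_pos_left _ (Nat.pos_of_ne_zero h2a0)).ne'
  have hdD : d ∣ D := Nat.gcd_dvd_right _ _
  have hdDz : (d : ℤ) ∣ x - 1 := Int.natCast_dvd.2 hdD
  have h1 : (x ^ (2 * a) - 1).natAbs = T * D * N := by
    have h2 : x ^ (2 * a) - 1 = geo x a * (x - 1) * (x ^ a + 1) := by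
      rw [geo_mul]
      ring
    rw [h2, Int.natAbs_mul, Int.natAbs_mul]
  -- `d ∣ a`
  have hda : d ∣ a := by
    obtain ⟨c, hc⟩ : d ∣ 2 * a := Nat.gcd_dvd_left _ _
    rcases Nat.even_or_odd c with hce | hco
    · obtain ⟨c', rfl⟩ := hce
      exact ⟨c', by nlinarith⟩
    · exfalso
      have hc0 : c ≠ 0 := by
        rintro rfl
        simp at hc
        omega
      have h3 : padicValNat 2 (2 * a) = padicValNat 2 d := by
        rw [hc, padicValNat.mul hd0 hc0, padicValNat.eq_zero_of_not_dvd (p := 2) (n := c)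
          (by rw [← even_iff_two_dvd]; exact Nat.not_even_iff_odd.2 hco)]
        simp
      have h4 : padicValNat 2 d ≤ padicValNat 2 D :=
        (padicValNat_dvd_iff_le hD0).1 (pow_padicValNat_dvd.trans hdD)
      omega
  have hdT : d ∣ T := Int.natCast_dvd.1 ((dvd_geo_iff hdDz a).2 (by exact_mod_cast hda))
  obtain ⟨s, hs⟩ := hdT
  obtain ⟨v, hv⟩ := hdD
  have hs0 : s ≠ 0 := by
    rintro rfl
    simp at hs
    exact hT0 hs
  have hv0 : v ≠ 0 := by
    rintro rfl
    simp at hv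
    exact hD0 hv
  have hvodd : ¬ 2 ∣ v := by
    rintro ⟨v', rfl⟩
    have hv'0 : v' ≠ 0 := by
      rintro rfl
      simp at hv0
    have h3 : 2 ^ padicValNat 2 D ∣ d := Nat.dvd_gcd
      ((padicValNat_dvd_iff_le h2a0).2 h.le) pow_padicValNat_dvd
    have h4 := (padicValNat_dvd_iff_le hd0).1 h3
    rw [hv, padicValNat.mul hd0 (by omega), padicValNat.mul (by norm_num) hv'0] at h4
    simp at h4
  have hcop : N.Coprime v := by
    set c := Nat.gcd N v with hc
    have hcN : c ∣ N := Nat.gcd_dvd_left _ _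
    have hcv : c ∣ v := Nat.gcd_dvd_right _ _
    have hcD : (c : ℤ) ∣ x - 1 := Int.natCast_dvd.2 (hcv.trans ⟨d, by change D = v * d; rw [hv]; ring⟩)
    have hc1 : (c : ℤ) ∣ x ^ a - 1 := by
      refine hcD.trans ?_
      simpa using sub_dvd_pow_sub_pow x 1 a
    have hc2 : (c : ℤ) ∣ x ^ a + 1 := Int.natCast_dvd.2 hcN
    have hc3 : (c : ℤ) ∣ 2 := by
      have := dvd_sub hc2 hc1
      have h5 : x ^ a + 1 - (x ^ a - 1) = 2 := by ring
      rwa [h5] at this
    have hc4 : c ∣ 2 := by exact_mod_cast hc3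
    rcases (Nat.dvd_prime Nat.prime_two).1 hc4 with h6 | h6
    · exact h6
    · exfalso
      rw [h6] at hcv
      exact hvodd hcv
  refine ⟨s, fun k => ?_⟩
  rw [h1]
  have h7 : T * D * N = (d * s * D) * N := by rw [hs]
  have h8 : D * s * k * D = (d * s * D) * (k * v) := by
    calc D * s * k * D = D * s * k * (d * v) := by rw [← hv]
      _ = _ := by ring
  rw [h7, h8, Nat.mul_dvd_mul_iff_left (by positivity), hcop.dvd_mul_right]

/-! ### A Singer matrix -/

section singer

local notation "q'" => Fintype.card F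

theorem mem_range_of_pow_card {K : Type*} [Field K] [Algebra F K] {y : K} (hy : y ^ q' = y) :
    ∃ c : F, algebraMap F K c = y := by
  classical
  by_contra hcon
  push Not at hcon
  have h1q : 1 < q' := Fintype.one_lt_card
  have hne : (X ^ q' - X : K[X]) ≠ 0 := FiniteField.X_pow_card_sub_X_ne_zero K h1q
  have hdeg := card_roots' (X ^ q' - X : K[X])
  rw [FiniteField.X_pow_card_sub_X_natDegree_eq K h1q] at hdeg
  set S : Finset K := Finset.univ.image (algebraMap F K) with hS
  have hcard : S.card = q' := by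
    rw [hS, Finset.card_image_of_injective _ (algebraMap F K).injective, Finset.card_univ]
  have hyS : y ∉ S := by
    simp only [hS, Finset.mem_image, Finset.mem_univ, true_and, not_exists]
    exact hcon
  have hsub : insert y S ⊆ (X ^ q' - X : K[X]).roots.toFinset := by
    intro z hz
    rw [Multiset.mem_toFinset, mem_roots hne]
    rcases Finset.mem_insert.1 hz with rfl | hz
    · simp [hy]
    · obtain ⟨c, -, rfl⟩ := Finset.mem_image.1 hz
      simp [← map_pow, FiniteField.pow_card]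
  have h2 := Finset.card_le_card hsub
  rw [Finset.card_insert_of_notMem hyS, hcard] at h2
  have h3 := Multiset.toFinset_card_le (X ^ q' - X : K[X]).roots
  omega

/-- A Singer matrix. -/
theorem exists_singer (n : ℕ) (hn : 1 ≤ n) :
    ∃ W : Matrix (Fin n) (Fin n) F, W ^ (q' ^ n - 1) = 1 ∧
      ∀ e, e ∣ q' - 1 → ∀ m : ℕ, (∃ c : F, W ^ m = c • (1 : Matrix (Fin n) (Fin n) F) ∧ c ^ e = 1) ↔
        (q' ^ n - 1) ∣ m * e := by
  classical
  let p := ringChar F
  haveI : Fact p.Prime := ⟨CharP.char_is_prime F p⟩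
  haveI : CharP F p := ringChar.charP F
  haveI : NeZero n := ⟨by omega⟩
  let K := FiniteField.Extension F p n
  let b : Module.Basis (Fin n) F K := Module.finBasisOfFinrankEq F K (FiniteField.finrank_extension F p n)
  let L : K →ₐ[F] Matrix (Fin n) (Fin n) F := Algebra.leftMulMatrix b
  have hL : Function.Injective L := Algebra.leftMulMatrix_injective b
  obtain ⟨ζ, hζ⟩ := IsCyclic.exists_generator (α := Kˣ)
  have hord : orderOf ζ = q' ^ n - 1 := by
    rw [orderOf_eq_card_of_forall_mem_zpowers hζ, Nat.card_units, FiniteField.natCard_extension,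
      Nat.card_eq_fintype_card]
  have hpow1 : (ζ : K) ^ (q' ^ n - 1) = 1 := by
    rw [← hord, ← Units.val_pow_eq_pow_val, pow_orderOf_eq_one]
    rfl
  refine ⟨L ζ, ?_, ?_⟩
  · rw [← map_pow, hpow1, map_one]
  · intro e he m
    constructor
    · rintro ⟨c, hc, hce⟩
      have h1 : (ζ : K) ^ m = algebraMap F K c := by
        apply hL
        rw [map_pow, hc, AlgHom.commutes, Algebra.algebraMap_eq_smul_one]
      have h2 : (ζ : K) ^ (m * e) = 1 := by
        rw [pow_mul, h1, ← map_pow, hce, map_one]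
      have h3 : ζ ^ (m * e) = 1 := Units.ext (by simpa using h2)
      rw [← hord]
      exact orderOf_dvd_of_pow_eq_one h3
    · intro hd
      rw [← hord] at hd
      have h1 : ζ ^ (m * e) = 1 := orderOf_dvd_iff_pow_eq_one.1 hd
      have h2 : ((ζ : K) ^ m) ^ e = 1 := by
        rw [← pow_mul, ← Units.val_pow_eq_pow_val, h1]
        rfl
      have h3 : ((ζ : K) ^ m) ^ (q' - 1) = 1 := by
        obtain ⟨f, hf⟩ := he
        rw [hf, pow_mul, h2, one_pow]
      have h4 : ((ζ : K) ^ m) ^ q' = (ζ : K) ^ m := by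
        have h5 : (q' - 1) + 1 = q' := by
          have := Fintype.one_lt_card (α := F)
          omega
        calc ((ζ : K) ^ m) ^ q' = ((ζ : K) ^ m) ^ ((q' - 1) + 1) := by rw [h5]
          _ = ((ζ : K) ^ m) ^ (q' - 1) * (ζ : K) ^ m := pow_succ _ _
          _ = (ζ : K) ^ m := by rw [h3, one_mul]
      obtain ⟨c, hc⟩ := mem_range_of_pow_card (F := F) h4
      refine ⟨c, ?_, ?_⟩
      · rw [← map_pow, ← hc, AlgHom.commutes, Algebra.algebraMap_eq_smul_one]
      · apply (algebraMap F K).injective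
        rw [map_pow, hc, h2, map_one]

end singer

/-! ### The Levi model for unitary groups -/

section levi

open Cfsg.Agent.Lib.Classical.Herm.Basic Cfsg.Agent.Lib.Classical.Herm.GU
open Cfsg.Agent.Lib.Classical.Herm.SU Cfsg.Agent.Lib.Classical.Herm.Form
open Cfsg.Agent.Lib.Classical.Herm.HermOnb Cfsg.Agent.Lib.Classical.Herm.SU3Witness

variable {q a : ℕ}

theorem hermForm_adj (hF : Fintype.card F = q ^ 2) {A B : Matrix (Fin a) (Fin a) F}
    (h : Aᵀ * B.map (sigma hF) = 1) (u w : Fin a → F) :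
    hermForm a F q (A *ᵥ u) (B *ᵥ w) = hermForm a F q u w := by
  have h1 : ∀ i, ((B *ᵥ w) i) ^ q = ((B.map (sigma hF)) *ᵥ (fun j => w j ^ q)) i := by
    intro i
    exact RingHom.map_mulVec (sigma hF) B w i
  have h2 : hermForm a F q (A *ᵥ u) (B *ᵥ w) = (A *ᵥ u) ⬝ᵥ ((B.map (sigma hF)) *ᵥ (fun j => w j ^ q)) := by
    simp only [hermForm, dotProduct, h1]
  have h3 : hermForm a F q u w = u ⬝ᵥ (fun j => w j ^ q) := rfl
  rw [h2, h3, ← Matrix.vecMul_transpose, ← Matrix.dotProduct_mulVec, Matrix.mulVec_mulVec, h,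
    Matrix.one_mulVec]

/-- The hyperbolic form on a pair of coordinate spaces. -/
def hypForm (a : ℕ) (F : Type*) [Field F] (q : ℕ) (v w : (Fin a → F) × (Fin a → F)) : F :=
  hermForm a F q v.1 w.2 + hermForm a F q v.2 w.1

theorem isHerm_hypForm (hF : Fintype.card F = q ^ 2) : IsHerm q (hypForm a F q) := by
  have hs := isHerm_hermForm hF a
  refine ⟨?_, ?_, ?_, ?_⟩
  · intro x y z
    simp only [hypForm, Prod.fst_add, Prod.snd_add, hs.add_left]
    ring
  · intro c x y
    simp only [hypForm, Prod.smul_fst, Prod.smul_snd, hs.smul_left]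
    ring
  · intro x y
    simp only [hypForm]
    rw [pow_q_add hF, ← hs.herm, ← hs.herm, add_comm]
  · intro x hx
    have hq0 : q ≠ 0 := by
      have := two_le_q hF
      omega
    have h0 : ∀ u : Fin a → F, hermForm a F q u 0 = 0 := by
      intro u
      simp [hermForm, hq0]
    ext1
    · apply hs.nondeg
      intro w
      have := hx (0, w)
      simpa [hypForm, h0] using this
    · apply hs.nondeg
      intro w
      have := hx (w, 0)
      simpa [hypForm, h0] using this

/-- The abstract Levi witness: from `A` on a half-dimensional space. -/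
theorem exists_order_of_levi (hF : Fintype.card F = q ^ 2) (ha : 1 ≤ a) (A : Matrix (Fin a) (Fin a) F)
    (hdet0 : A.det ≠ 0) (hdet : A.det ^ q = A.det) (N : ℕ)
    (hN : ∀ k : ℕ, (∃ c : F, A ^ k = c • (1 : Matrix (Fin a) (Fin a) F) ∧ c ^ (q + 1) = 1) ↔ N ∣ k) :
    ∃ m : PSU (2 * a) F q, orderOf m = N := by
  classical
  have hq2 := two_le_q hF
  have hq0 : q ≠ 0 := by omega
  have hu : IsUnit A.det := isUnit_iff_ne_zero.2 hdet0
  set B : Matrix (Fin a) (Fin a) F := ((A⁻¹)ᵀ).map (sigma hF) with hB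
  have hσσ : ∀ M : Matrix (Fin a) (Fin a) F, (M.map (sigma hF)).map (sigma hF) = M := by
    intro M
    ext i j
    simp only [Matrix.map_apply]
    exact sigma_sigma hF _
  have hAB : Aᵀ * B.map (sigma hF) = 1 := by
    rw [hB, hσσ, ← Matrix.transpose_mul, Matrix.nonsing_inv_mul _ hu, Matrix.transpose_one]
  have hBA : Bᵀ * A.map (sigma hF) = 1 := by
    have h1 : Bᵀ = (A⁻¹).map (sigma hF) := by
      rw [hB]
      ext i j
      rfl
    rw [h1]
    have h2 : (A⁻¹).map (sigma hF) * A.map (sigma hF) = (A⁻¹ * A).map (sigma hF) := by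
      rw [Matrix.map_mul]
    rw [h2, Matrix.nonsing_inv_mul _ hu, Matrix.map_one _ (map_zero _) (map_one _)]
  -- the isometry
  let g : ((Fin a → F) × (Fin a → F)) →ₗ[F] ((Fin a → F) × (Fin a → F)) :=
    (Matrix.toLin' A).prodMap (Matrix.toLin' B)
  have hgapp : ∀ v, g v = (A *ᵥ v.1, B *ᵥ v.2) := fun v => rfl
  have hgpow : ∀ (k : ℕ) v, (g ^ k) v = ((A ^ k) *ᵥ v.1, (B ^ k) *ᵥ v.2) := by
    intro k
    induction k with
    | zero =>
      intro v
      simp
    | succ k ih =>
      intro v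
      rw [pow_succ, Module.End.mul_apply, ih, hgapp, pow_succ, pow_succ]
      simp [Matrix.mulVec_mulVec]
  have hV : finrank F ((Fin a → F) × (Fin a → F)) = 2 * a := by
    rw [Module.finrank_prod]
    simp
    ring
  refine exists_order hF hV (isHerm_hypForm hF) g ?_ ?_ N ?_
  · intro x y
    simp only [hgapp, hypForm]
    rw [hermForm_adj hF hAB, hermForm_adj hF hBA]
  · rw [LinearMap.det_prodMap, LinearMap.det_toLin', LinearMap.det_toLin']
    have h1 : B.det = (A.det ^ q)⁻¹ := by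
      rw [hB]
      have h2 : (((A⁻¹)ᵀ).map (sigma hF)).det = sigma hF ((A⁻¹)ᵀ).det := ((sigma hF).map_det _).symm
      rw [h2, Matrix.det_transpose, Matrix.det_nonsing_inv, sigma_apply, Ring.inverse_eq_inv', inv_pow]
    rw [h1, hdet, mul_inv_cancel₀ hdet0]
  · intro k
    rw [← hN]
    -- relation between the powers
    have hcomm : Commute Aᵀ (B.map (sigma hF)) := by
      rw [commute_iff_eq, hAB]
      exact (mul_eq_one_comm.1 hAB).symm
    have hpow : (A ^ k)ᵀ * (B ^ k).map (sigma hF) = 1 := by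
      have h1 : (B ^ k).map (sigma hF) = (B.map (sigma hF)) ^ k := by
        have : ∀ M : Matrix (Fin a) (Fin a) F, M.map (sigma hF) = (sigma hF).mapMatrix M := fun _ => rfl
        rw [this, this, map_pow]
      rw [h1, Matrix.transpose_pow, ← hcomm.mul_pow, hAB, one_pow]
    have hsc : ∀ (M : Matrix (Fin a) (Fin a) F) (c : F),
        (∀ x, M *ᵥ x = c • x) ↔ M = c • (1 : Matrix (Fin a) (Fin a) F) := by
      intro M c
      constructor
      · intro h
        apply Matrix.toLin'.injective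
        ext1 x
        apply LinearMap.ext
        intro y
        simp [h]
      · rintro rfl x
        simp [Matrix.smul_mulVec]
    constructor
    · rintro ⟨c, hc⟩
      have hA1 : A ^ k = c • (1 : Matrix (Fin a) (Fin a) F) := by
        rw [← hsc]
        intro x
        have := hc (x, 0)
        rw [hgpow] at this
        exact congrArg Prod.fst this
      have hB1 : B ^ k = c • (1 : Matrix (Fin a) (Fin a) F) := by
        rw [← hsc]
        intro x
        have := hc (0, x)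
        rw [hgpow] at this
        exact congrArg Prod.snd this
      refine ⟨c, hA1, ?_⟩
      rw [hA1, hB1] at hpow
      have h1 := congrFun (congrFun hpow ⟨0, ha⟩) ⟨0, ha⟩
      have h2 : c * c ^ q = 1 := by
        simpa [Matrix.mul_apply, Matrix.one_apply, apply_ite, hq0] using h1
      rw [pow_succ, mul_comm]
      exact h2
    · rintro ⟨c, hc, hc1⟩
      refine ⟨c, fun v => ?_⟩
      have hc2 : c ^ q * c = 1 := by rw [← pow_succ]; exact hc1
      have hc0 : c ≠ 0 := by
        rintro rfl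
        simp [hq0] at hc2
      have h1 : (B ^ k).map (sigma hF) = c⁻¹ • (1 : Matrix (Fin a) (Fin a) F) := by
        rw [hc, Matrix.transpose_smul, Matrix.transpose_one, Matrix.smul_mul, Matrix.one_mul] at hpow
        rw [← one_smul F ((B ^ k).map (sigma hF)), ← inv_mul_cancel₀ hc0, mul_smul, hpow]
      have h2 : B ^ k = c • (1 : Matrix (Fin a) (Fin a) F) := by
        rw [← hσσ (B ^ k), h1]
        ext i j
        by_cases hij : i = j
        · subst hij
          simp only [Matrix.map_apply, Matrix.smul_apply, Matrix.one_apply_eq, smul_eq_mul, mul_one, sigma_apply]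
          rw [inv_pow]
          exact inv_eq_of_mul_eq_one_right hc2
        · simp [Matrix.one_apply_ne hij, hq0]
      rw [hgpow, hc, h2]
      simp only [Matrix.smul_mulVec, Matrix.one_mulVec]
      rfl

end levi

/-! ### The main theorems -/

section main

open Cfsg.Agent.Lib.Classical.Herm.PGLinear

variable {n : ℕ}

theorem psl_of_singer_power (hn : 1 ≤ n) {N s : ℕ} (hq : 1 < Fintype.card F ^ n)
    {W : Matrix (Fin n) (Fin n) F}
    (hW1 : W ^ (Fintype.card F ^ n - 1) = 1)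
    (hW2 : ∀ e, e ∣ Fintype.card F - 1 → ∀ m : ℕ, (∃ c : F, W ^ m = c • (1 : Matrix (Fin n) (Fin n) F) ∧ c ^ e = 1) ↔
        (Fintype.card F ^ n - 1) ∣ m * e)
    (hs : ∀ k : ℕ, (Fintype.card F ^ n - 1) ∣ (Fintype.card F - 1) * s * k * (Fintype.card F - 1) ↔ N ∣ k) :
    ∃ g : ProjectiveSpecialLinearGroup (Fin n) F, orderOf g = N := by
  classical
  haveI : Nonempty (Fin n) := ⟨⟨0, hn⟩⟩
  have hW0 : W.det ≠ 0 := by
    intro h
    have h1 := congrArg Matrix.det hW1
    rw [Matrix.det_pow, h, zero_pow (by omega), Matrix.det_one] at h1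
    exact zero_ne_one h1
  have hdet : (W ^ ((Fintype.card F - 1) * s)).det = 1 := by
    rw [Matrix.det_pow, pow_mul, FiniteField.pow_card_sub_one_eq_one _ hW0, one_pow]
  let y : SpecialLinearGroup (Fin n) F := ⟨W ^ ((Fintype.card F - 1) * s), hdet⟩
  refine ⟨QuotientGroup.mk y, order_eq_of_iff' _ _ fun t => ?_⟩
  rw [psl_pow_eq_one_iff, ← hs, ← hW2 _ dvd_rfl]
  have hy : ((y : Matrix (Fin n) (Fin n) F)) ^ t = W ^ ((Fintype.card F - 1) * s * t) := by
    exact (pow_mul W _ t).symm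
  rw [hy]
  constructor
  · rintro ⟨c, hc⟩
    refine ⟨c, hc, FiniteField.pow_card_sub_one_eq_one _ ?_⟩
    rintro rfl
    have h1 : W ^ ((Fintype.card F - 1) * s * t) = 0 := by simpa using hc
    have h2 := congrArg Matrix.det h1
    rw [Matrix.det_pow, Matrix.det_zero] at h2
    have h3 : W.det ^ ((Fintype.card F - 1) * s * t) ≠ 0 := pow_ne_zero _ hW0
    exact h3 h2
  · rintro ⟨c, hc, -⟩
    exact ⟨c, hc⟩

end main

end Cfsg.Agent.Lib.Classical.Herm.HalfTorus
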