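import Mathlib
import Cfsg.Agent.S2253

/-!
# A bound for nilpotent permutation groups of odd order
-/

set_option autoImplicit false
set_option linter.unusedSectionVars false
set_option linter.unusedSimpArgs false
set_option linter.unusedVariables false

namespace Cfsg.Agent.Lib.Classical.Herm.NilpNum

open Cfsg.Agent.S2253
open scoped Nat

/-- The bound for odd-order nilpotent permutation groups. -/
noncomputable def Cc : ℕ → ℕ
  | 0 => 1
  | 1 => 1
  | 2 => 1
  | 3 => 3
  | 4 => 3
  | 5 => 5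
  | 6 => 9
  | 7 => 12
  | 8 => 64
  | 9 => 81
  | n + 10 => B (n + 10) / 2

theorem Cc_large (n : ℕ) (hn : 10 ≤ n) : Cc n = B n / 2 := by
  obtain ⟨m, rfl⟩ : ∃ m, n = m + 10 := ⟨n - 10, by omega⟩
  rfl

theorem B3 : 3 ≤ B 3 := by
  rw [B_eq (by norm_num)]
  nlinarith [pow_pos (show 0 < 2 by norm_num) (h (3 - 3))]
theorem B4 : 8 ≤ B 4 := B_ge_two_pow (j := 3) (by norm_num [Nat.factorial])
theorem B2 : 2 ≤ B 2 := B_ge_two_pow (j := 1) (by norm_num [Nat.factorial])
theorem B5 : 8 ≤ B 5 := B_ge_two_pow (j := 3) (by norm_num [Nat.factorial])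
theorem B6 : 16 ≤ B 6 := B_ge_two_pow (j := 4) (by norm_num [Nat.factorial])

theorem three_mul_le {n j : ℕ} (hn : n % 4 = 3) (hd : 2 ^ j ∣ (n - 3)!) : 3 * 2 ^ j ≤ B n := by
  rw [B_eq hn]
  exact Nat.mul_le_mul_left _ (Nat.pow_le_pow_right (by norm_num) (h_ge _ _ hd))

theorem B7 : 24 ≤ B 7 := three_mul_le (j := 3) (by norm_num) (by norm_num [Nat.factorial])
theorem B8 : 128 ≤ B 8 := B_ge_two_pow (j := 7) (by norm_num [Nat.factorial])
theorem B9 : 128 ≤ B 9 := B_ge_two_pow (j := 7) (by norm_num [Nat.factorial])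
theorem B10 : 256 ≤ B 10 := B_ge_two_pow (j := 8) (by norm_num [Nat.factorial])
theorem B11 : 384 ≤ B 11 := three_mul_le (j := 7) (by norm_num) (by norm_num [Nat.factorial])
theorem B12 : 1024 ≤ B 12 := B_ge_two_pow (j := 10) (by norm_num [Nat.factorial])
theorem B13 : 1024 ≤ B 13 := B_ge_two_pow (j := 10) (by norm_num [Nat.factorial])
theorem B14 : 2048 ≤ B 14 := B_ge_two_pow (j := 11) (by norm_num [Nat.factorial])
theorem B15 : 3072 ≤ B 15 := three_mul_le (j := 10) (by norm_num) (by norm_num [Nat.factorial])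
theorem B16 : 32768 ≤ B 16 := B_ge_two_pow (j := 15) (by norm_num [Nat.factorial])
theorem B17 : 32768 ≤ B 17 := B_ge_two_pow (j := 15) (by norm_num [Nat.factorial])
theorem B18 : 65536 ≤ B 18 := B_ge_two_pow (j := 16) (by norm_num [Nat.factorial])
theorem B19 : 98304 ≤ B 19 := three_mul_le (j := 15) (by norm_num) (by norm_num [Nat.factorial])
theorem B20 : 262144 ≤ B 20 := B_ge_two_pow (j := 18) (by norm_num [Nat.factorial])
theorem B21 : 262144 ≤ B 21 := B_ge_two_pow (j := 18) (by norm_num [Nat.factorial])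
theorem B22 : 524288 ≤ B 22 := B_ge_two_pow (j := 19) (by norm_num [Nat.factorial])
theorem B23 : 786432 ≤ B 23 := three_mul_le (j := 18) (by norm_num) (by norm_num [Nat.factorial])

theorem Cc_ge {n x : ℕ} (hn : 10 ≤ n) (hx : 2 * x ≤ B n) : x ≤ Cc n := by
  rw [Cc_large n hn, Nat.le_div_iff_mul_le (by norm_num)]
  omega

theorem Cc_le_B (n : ℕ) : Cc n ≤ B n := by
  by_cases hn : 10 ≤ n
  · rw [Cc_large n hn]
    exact Nat.div_le_self _ _
  · push Not at hn
    interval_cases n
    · exact B_pos 0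
    · exact B_pos 1
    · exact B_pos 2
    · exact B3
    · exact le_trans (by decide) B4
    · exact le_trans (by decide) B5
    · exact le_trans (by decide) B6
    · exact le_trans (by decide) B7
    · exact le_trans (by decide) B8
    · exact le_trans (by decide) B9

theorem Cc_mono : Monotone Cc := by
  apply monotone_nat_of_le_succ
  intro n
  by_cases hn : 10 ≤ n
  · rw [Cc_large n hn, Cc_large (n + 1) (by omega)]
    exact Nat.div_le_div_right (B_le_succ n)
  · push Not at hn
    interval_cases n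
    · exact le_refl _
    · exact le_refl _
    · decide
    · exact le_refl _
    · decide
    · decide
    · decide
    · decide
    · decide
    · have hc : (81 : ℕ) ≤ Cc 10 := Cc_ge (by norm_num) (by have := B10; omega)
      exact hc

theorem Cc_pos (n : ℕ) : 1 ≤ Cc n := by
  have := Cc_mono (Nat.zero_le n)
  have h0 : Cc 0 = 1 := rfl
  omega

theorem Cc_super (m k : ℕ) : Cc m * Cc k ≤ Cc (m + k) := by
  have big : ∀ m k : ℕ, 10 ≤ m → Cc m * Cc k ≤ Cc (m + k) := by
    intro m k hm
    rw [Cc_large m hm, Cc_large (m + k) (by omega)]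
    calc B m / 2 * Cc k ≤ B m / 2 * B k := Nat.mul_le_mul_left _ (Cc_le_B k)
      _ ≤ B m * B k / 2 := by
          rw [Nat.le_div_iff_mul_le (by norm_num)]
          calc B m / 2 * B k * 2 = (B m / 2 * 2) * B k := by ring
            _ ≤ B m * B k := Nat.mul_le_mul_right _ (Nat.div_mul_le_self _ _)
      _ ≤ B (m + k) / 2 := Nat.div_le_div_right (B_super m k)
  by_cases hm : 10 ≤ m
  · exact big m k hm
  by_cases hk : 10 ≤ k
  · rw [mul_comm, add_comm]
    exact big k m hk
  push Not at hm hk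
  have c10 : 128 ≤ Cc 10 := Cc_ge (by norm_num) (by have := B10; omega)
  have c11 : 192 ≤ Cc 11 := Cc_ge (by norm_num) (by have := B11; omega)
  have c12 : 512 ≤ Cc 12 := Cc_ge (by norm_num) (by have := B12; omega)
  have c13 : 512 ≤ Cc 13 := Cc_ge (by norm_num) (by have := B13; omega)
  have c14 : 1024 ≤ Cc 14 := Cc_ge (by norm_num) (by have := B14; omega)
  have c15 : 1536 ≤ Cc 15 := Cc_ge (by norm_num) (by have := B15; omega)
  have c16 : 16384 ≤ Cc 16 := Cc_ge (by norm_num) (by have := B16; omega)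
  have c17 : 16384 ≤ Cc 17 := Cc_ge (by norm_num) (by have := B17; omega)
  have c18 : 32768 ≤ Cc 18 := Cc_ge (by norm_num) (by have := B18; omega)
  have hC0 : Cc 0 = 1 := rfl
  have hC1 : Cc 1 = 1 := rfl
  have hC2 : Cc 2 = 1 := rfl
  have hC3 : Cc 3 = 3 := rfl
  have hC4 : Cc 4 = 3 := rfl
  have hC5 : Cc 5 = 5 := rfl
  have hC6 : Cc 6 = 9 := rfl
  have hC7 : Cc 7 = 12 := rfl
  have hC8 : Cc 8 = 64 := rfl
  have hC9 : Cc 9 = 81 := rfl
  interval_cases m <;> interval_cases k <;>
    simp only [hC0, hC1, hC2, hC3, hC4, hC5, hC6, hC7, hC8, hC9, Nat.reduceAdd, Nat.reduceMul] <;> omega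

/-- `2 * Cc n ≤ B n` outside the exceptions. -/
theorem two_Cc_le (n : ℕ) (h2 : 2 ≤ n) (h3 : n ≠ 3) (h5 : n ≠ 5) (h6 : n ≠ 6) (h9 : n ≠ 9) :
    2 * Cc n ≤ B n := by
  by_cases hn : 10 ≤ n
  · rw [Cc_large n hn]
    have : 2 * (B n / 2) ≤ B n := Nat.mul_div_le _ _
    exact this
  · push Not at hn
    have hC2 : Cc 2 = 1 := rfl
    have hC4 : Cc 4 = 3 := rfl
    have hC7 : Cc 7 = 12 := rfl
    have hC8 : Cc 8 = 64 := rfl
    have := B2
    have := B4
    have := B7
    have := B8
    interval_cases n <;> first | omega | contradiction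

/-- `4 * 3 ^ (n - 1) ≤ B n ^ 2` for `n ≥ 16`. -/
theorem three_pow_le' (n : ℕ) (hn : 16 ≤ n) : 4 * 3 ^ (n - 1) ≤ B n ^ 2 := by
  induction n using Nat.strong_induction_on with
  | _ n ih =>
  by_cases h24 : 24 ≤ n
  · have h1 := ih (n - 8) (by omega) (by omega)
    have h2 := B_eight (n - 8)
    rw [show n - 8 + 8 = n by omega] at h2
    calc 4 * 3 ^ (n - 1) = 3 ^ 8 * (4 * 3 ^ (n - 8 - 1)) := by
          rw [show n - 1 = 8 + (n - 8 - 1) by omega, pow_add]
          ring
      _ ≤ 128 ^ 2 * B (n - 8) ^ 2 := by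
          apply Nat.mul_le_mul (by norm_num) h1
      _ = (128 * B (n - 8)) ^ 2 := by ring
      _ ≤ B n ^ 2 := Nat.pow_le_pow_left h2 2
  · have key : ∀ (a : ℕ), 4 * 3 ^ (n - 1) ≤ a ^ 2 → a ≤ B n → 4 * 3 ^ (n - 1) ≤ B n ^ 2 :=
      fun a h1 h2 => le_trans h1 (Nat.pow_le_pow_left h2 2)
    push Not at h24
    interval_cases n
    · exact key 32768 (by norm_num) B16
    · exact key 32768 (by norm_num) B17
    · exact key 65536 (by norm_num) B18
    · exact key 98304 (by norm_num) B19
    · exact key 262144 (by norm_num) B20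
    · exact key 262144 (by norm_num) B21
    · exact key 524288 (by norm_num) B22
    · exact key 786432 (by norm_num) B23

/-- Odd prime powers dividing `n!` are at most `Cc n`. -/
theorem prime_pow_le_Cc {p k n : ℕ} (hp : p.Prime) (hp3 : 3 ≤ p) (hd : p ^ k ∣ n !) : p ^ k ≤ Cc n := by
  rcases Nat.eq_zero_or_pos k with rfl | hk
  · simpa using Cc_pos n
  have hpn : p ≤ n := (Nat.Prime.dvd_factorial hp).mp (dvd_trans (dvd_pow_self p hk.ne') hd)
  haveI : Fact p.Prime := ⟨hp⟩
  by_cases hn16 : 16 ≤ n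
  · have h0 : n ≠ 0 := by omega
    have h1 := sub_one_mul_padicValNat_factorial_lt_of_ne_zero p h0
    have h2 : k ≤ padicValNat p n ! := (padicValNat_dvd_iff_le (Nat.factorial_ne_zero _)).mp hd
    have h3 : (p - 1) * k ≤ n - 1 := by
      have : (p - 1) * k ≤ (p - 1) * padicValNat p n ! := Nat.mul_le_mul_left _ h2
      omega
    have h4 : (2 * p ^ k) ^ 2 ≤ B n ^ 2 := by
      calc (2 * p ^ k) ^ 2 = 4 * (p ^ 2) ^ k := by ring
        _ ≤ 4 * (3 ^ (p - 1)) ^ k := Nat.mul_le_mul_left _ (Nat.pow_le_pow_left (sq_le_three_pow p hp3) k)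
        _ = 4 * 3 ^ ((p - 1) * k) := by rw [pow_mul]
        _ ≤ 4 * 3 ^ (n - 1) := Nat.mul_le_mul_left _ (Nat.pow_le_pow_right (by norm_num) h3)
        _ ≤ B n ^ 2 := three_pow_le' n hn16
    have h5 : 2 * p ^ k ≤ B n := (Nat.pow_le_pow_iff_left (by norm_num)).mp h4
    exact Cc_ge (by omega) h5
  · push Not at hn16
    have c3 : 3 ≤ Cc 3 := le_refl _
    have c4 : 3 ≤ Cc 4 := le_refl _
    have c5 : 5 ≤ Cc 5 := le_refl _
    have c6 : 9 ≤ Cc 6 := le_refl _
    have c7 : 9 ≤ Cc 7 := by decide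
    have c8 : 9 ≤ Cc 8 := by decide
    have c9 : 81 ≤ Cc 9 := le_refl _
    have c10 : 128 ≤ Cc 10 := Cc_ge (by norm_num) (by have := B10; omega)
    have c11 : 192 ≤ Cc 11 := Cc_ge (by norm_num) (by have := B11; omega)
    have c12 : 512 ≤ Cc 12 := Cc_ge (by norm_num) (by have := B12; omega)
    have c13 : 512 ≤ Cc 13 := Cc_ge (by norm_num) (by have := B13; omega)
    have c14 : 1024 ≤ Cc 14 := Cc_ge (by norm_num) (by have := B14; omega)
    have c15 : 1536 ≤ Cc 15 := Cc_ge (by norm_num) (by have := B15; omega)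
    have hn3 : 3 ≤ n := by omega
    interval_cases n <;> interval_cases p <;> first
      | (exfalso; revert hp; norm_num; done)
      | (refine le_trans (pow_le_of_not_dvd (K := 1) (by norm_num) hd ?_) ?_
         · norm_num [Nat.factorial]; done
         · norm_num; linarith)
      | (refine le_trans (pow_le_of_not_dvd (K := 2) (by norm_num) hd ?_) ?_
         · norm_num [Nat.factorial]; done
         · norm_num; linarith)
      | (refine le_trans (pow_le_of_not_dvd (K := 3) (by norm_num) hd ?_) ?_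
         · norm_num [Nat.factorial]; done
         · norm_num; linarith)
      | (refine le_trans (pow_le_of_not_dvd (K := 4) (by norm_num) hd ?_) ?_
         · norm_num [Nat.factorial]; done
         · norm_num; linarith)
      | (refine le_trans (pow_le_of_not_dvd (K := 5) (by norm_num) hd ?_) ?_
         · norm_num [Nat.factorial]; done
         · norm_num; linarith)
      | (refine le_trans (pow_le_of_not_dvd (K := 6) (by norm_num) hd ?_) ?_
         · norm_num [Nat.factorial]; done
         · norm_num; linarith)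

section Action

open MulAction

/-- The induction hypothesis used below. -/
def IHo (n : ℕ) : Prop :=
  ∀ m < n, ∀ (H X : Type) [Group H] [Finite H] [Group.IsNilpotent H] [Finite X] [MulAction H X]
    [FaithfulSMul H X], Odd (Nat.card H) → Nat.card X = m → Nat.card H ≤ Cc m

theorem range_bound {n : ℕ} (ih : IHo n) (H Y : Type) [Group H] [Finite H] [Group.IsNilpotent H]
    [Finite Y] [MulAction H Y] (hodd : Odd (Nat.card H)) (hY : Nat.card Y < n) :
    Nat.card (toPermHom H Y).range ≤ Cc (Nat.card Y) := by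
  haveI : Group.IsNilpotent (toPermHom H Y).range :=
    Group.nilpotent_of_surjective (toPermHom H Y).rangeRestrict (toPermHom H Y).rangeRestrict_surjective
  refine ih _ hY _ Y ?_ rfl
  exact Odd.of_dvd_nat hodd (Subgroup.card_range_dvd _)

/-- Intransitive case. -/
theorem split_case {n : ℕ} (ih : IHo n) (H X : Type) [Group H] [Finite H] [Group.IsNilpotent H]
    [Finite X] [MulAction H X] [FaithfulSMul H X] (hodd : Odd (Nat.card H)) (hX : Nat.card X = n) (A : Set X)
    (hA : ∀ (g : H), ∀ x ∈ A, g • x ∈ A) (hne : A.Nonempty) (hne' : Aᶜ.Nonempty) :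
    Nat.card H ≤ Cc n := by
  have hA' : ∀ (g : H), ∀ x ∈ Aᶜ, g • x ∈ Aᶜ := by
    intro g x hx hgx
    apply hx
    have := hA g⁻¹ _ hgx
    simpa using this
  let S₁ : SubMulAction H X := ⟨A, fun g x hx => hA g x hx⟩
  let S₂ : SubMulAction H X := ⟨Aᶜ, fun g x hx => hA' g x hx⟩
  have hc1 : Nat.card S₁ = A.ncard := rfl
  have hc2 : Nat.card S₂ = Aᶜ.ncard := rfl
  have hsum : A.ncard + Aᶜ.ncard = n := by rw [Set.ncard_add_ncard_compl, hX]
  have hpos1 : 0 < A.ncard := (Set.ncard_pos).mpr hne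
  have hpos2 : 0 < Aᶜ.ncard := (Set.ncard_pos).mpr hne'
  have h1 := range_bound ih H S₁ hodd (by omega)
  have h2 := range_bound ih H S₂ hodd (by omega)
  -- embed
  let f : H → (toPermHom H S₁).range × (toPermHom H S₂).range :=
    fun g => ((toPermHom H S₁).rangeRestrict g, (toPermHom H S₂).rangeRestrict g)
  have hf : Function.Injective f := by
    intro u v huv
    apply FaithfulSMul.eq_of_smul_eq_smul (α := X)
    intro x
    by_cases hx : x ∈ A
    · have h3 : (toPermHom H S₁).rangeRestrict u = (toPermHom H S₁).rangeRestrict v := congrArg Prod.fst huv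
      have h4 : toPermHom H S₁ u = toPermHom H S₁ v := congrArg Subtype.val h3
      have h5 := congrArg (fun e : Equiv.Perm S₁ => ((e ⟨x, hx⟩ : S₁) : X)) h4
      exact h5
    · have h3 : (toPermHom H S₂).rangeRestrict u = (toPermHom H S₂).rangeRestrict v := congrArg Prod.snd huv
      have h4 : toPermHom H S₂ u = toPermHom H S₂ v := congrArg Subtype.val h3
      have h5 := congrArg (fun e : Equiv.Perm S₂ => ((e ⟨x, hx⟩ : S₂) : X)) h4
      exact h5
  have hle := Nat.card_le_card_of_injective f hf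
  rw [Nat.card_prod] at hle
  calc Nat.card H ≤ _ := hle
    _ ≤ Cc (Nat.card S₁) * Cc (Nat.card S₂) := Nat.mul_le_mul h1 h2
    _ ≤ Cc (Nat.card S₁ + Nat.card S₂) := Cc_super _ _
    _ = Cc n := by rw [hc1, hc2, hsum]

/-- Transitive, not of prime power order. -/
theorem trans_case {n : ℕ} (ih : IHo n) (H X : Type) [Group H] [Finite H] [Group.IsNilpotent H]
    [Finite X] [MulAction H X] [FaithfulSMul H X] [IsPretransitive H X] (hodd : Odd (Nat.card H)) (hX : Nat.card X = n)
    (x : X) (hpg : ¬ ∃ p, p.Prime ∧ IsPGroup p H) : Nat.card H ≤ Cc n := by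
  have hcard1 : Nat.card H ≠ 1 := by
    intro h1
    apply hpg
    exact ⟨2, Nat.prime_two, IsPGroup.of_card (n := 0) (by simpa using h1)⟩
  set p := (Nat.card H).minFac with hp_def
  have hp : p.Prime := Nat.minFac_prime hcard1
  haveI : Fact p.Prime := ⟨hp⟩
  have hpdvd : p ∣ Nat.card H := Nat.minFac_dvd _
  let P : Sylow p H := Classical.arbitrary _
  haveI hPn : (P : Subgroup H).Normal := inferInstance
  have hcop := P.card_coprime_index
  obtain ⟨K, hK⟩ := Subgroup.exists_right_complement'_of_coprime hcop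
  have hmul : Nat.card (P : Subgroup H) * Nat.card K = Nat.card H := hK.card_mul
  have hKcard : Nat.card K = (P : Subgroup H).index := by
    have h1 := (P : Subgroup H).card_mul_index
    have hpos : 0 < Nat.card (P : Subgroup H) := Nat.card_pos
    exact Nat.eq_of_mul_eq_mul_left hpos (hmul.trans h1.symm)
  have hcoprime : (Nat.card (P : Subgroup H)).Coprime (Nat.card K) := by rw [hKcard]; exact hcop
  -- commute
  have hcomm : ∀ a ∈ (P : Subgroup H), ∀ b ∈ K, a * b = b * a := by
    intro a ha b hb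
    have h1 : orderOf a ∣ Nat.card (P : Subgroup H) := Subgroup.orderOf_dvd_natCard _ ha
    have h2 : orderOf b ∣ Nat.card K := Subgroup.orderOf_dvd_natCard _ hb
    exact Cfsg.Agent.Lib.Nilpotent.Elements.commute_of_coprime_orderOf (Nat.Coprime.of_dvd h1 h2 hcoprime)
  have hdecomp1 : ∀ g : H, ∃ b ∈ K, ∃ a ∈ (P : Subgroup H), g = b * a := by
    intro g
    obtain ⟨⟨⟨a, ha⟩, ⟨b, hb⟩⟩, hab⟩ := hK.existsUnique g |>.exists
    refine ⟨b, hb, a, ha, ?_⟩
    rw [← hab]
    exact hcomm a ha b hb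
  have hdecomp2 : ∀ g : H, ∃ a ∈ (P : Subgroup H), ∃ b ∈ K, g = a * b := by
    intro g
    obtain ⟨⟨⟨a, ha⟩, ⟨b, hb⟩⟩, hab⟩ := hK.existsUnique g |>.exists
    exact ⟨a, ha, b, hb, hab.symm⟩
  haveI hKn : K.Normal := by
    constructor
    intro k hk g
    obtain ⟨a, ha, b, hb, rfl⟩ := hdecomp2 g
    have h1 : a * b * k * (a * b)⁻¹ = b * k * b⁻¹ := by
      have e1 := hcomm a ha (b * k * b⁻¹) (K.mul_mem (K.mul_mem hb hk) (K.inv_mem hb))
      calc a * b * k * (a * b)⁻¹ = a * (b * k * b⁻¹) * a⁻¹ := by group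
        _ = (b * k * b⁻¹) * a * a⁻¹ := by rw [e1]
        _ = b * k * b⁻¹ := by group
    rw [h1]
    exact K.mul_mem (K.mul_mem hb hk) (K.inv_mem hb)
  -- the orbits
  haveI fY : FaithfulSMul ↥(P : Subgroup H) (orbit ↥(P : Subgroup H) x) :=
    faithful_orbit (P : Subgroup H) K hcomm hdecomp1 x
  haveI fZ : FaithfulSMul ↥K (orbit ↥K x) :=
    faithful_orbit K (P : Subgroup H) (fun a ha b hb => (hcomm b hb a ha).symm) hdecomp2 x
  have hYne : (orbit ↥(P : Subgroup H) x).Nonempty := ⟨x, mem_orbit_self x⟩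
  have hZne : (orbit ↥K x).Nonempty := ⟨x, mem_orbit_self x⟩
  have hYdvd : (orbit ↥(P : Subgroup H) x).ncard ∣ Nat.card X :=
    (IsBlock.orbit_of_normal x).ncard_dvd_card hYne
  have hZdvd : (orbit ↥K x).ncard ∣ Nat.card X :=
    (IsBlock.orbit_of_normal x).ncard_dvd_card hZne
  have hYP : (orbit ↥(P : Subgroup H) x).ncard ∣ Nat.card (P : Subgroup H) := by
    rw [← index_stabilizer]; exact Subgroup.index_dvd_card _
  have hZK : (orbit ↥K x).ncard ∣ Nat.card K := by
    rw [← index_stabilizer]; exact Subgroup.index_dvd_card _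
  have hYZ : (orbit ↥(P : Subgroup H) x).ncard * (orbit ↥K x).ncard ∣ Nat.card X :=
    Nat.Coprime.mul_dvd_of_dvd_of_dvd (Nat.Coprime.of_dvd hYP hZK hcoprime) hYdvd hZdvd
  haveI : Nonempty X := ⟨x⟩
  have hXpos : 0 < Nat.card X := Nat.card_pos
  -- both orbits are nontrivial
  have hY2 : 2 ≤ (orbit ↥(P : Subgroup H) x).ncard := by
    by_contra hlt
    have h1 : (orbit ↥(P : Subgroup H) x).ncard ≤ 1 := by omega
    have hsub : Subsingleton (orbit ↥(P : Subgroup H) x) := by
      rw [Set.subsingleton_coe]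
      exact (Set.ncard_le_one_iff_subsingleton).mp h1
    have htriv : Subsingleton ↥(P : Subgroup H) := by
      refine ⟨fun u v => ?_⟩
      apply fY.eq_of_smul_eq_smul
      intro y
      exact Subsingleton.elim _ _
    have hc1 : Nat.card (P : Subgroup H) = 1 := Nat.card_of_subsingleton (1 : ↥(P : Subgroup H))
    rw [Sylow.card_eq_multiplicity] at hc1
    have hf : 0 < (Nat.card H).factorization p :=
      hp.factorization_pos_of_dvd Nat.card_pos.ne' hpdvd
    have := Nat.one_lt_pow hf.ne' hp.one_lt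
    omega
  have hZ2 : 2 ≤ (orbit ↥K x).ncard := by
    by_contra hlt
    have h1 : (orbit ↥K x).ncard ≤ 1 := by omega
    have hsub : Subsingleton (orbit ↥K x) := by
      rw [Set.subsingleton_coe]
      exact (Set.ncard_le_one_iff_subsingleton).mp h1
    have htriv : Subsingleton ↥K := by
      refine ⟨fun u v => ?_⟩
      apply fZ.eq_of_smul_eq_smul
      intro y
      exact Subsingleton.elim _ _
    have hc1 : Nat.card K = 1 := Nat.card_of_subsingleton (1 : ↥K)
    apply hpg
    refine ⟨p, hp, IsPGroup.of_card (n := (Nat.card H).factorization p) ?_⟩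
    calc Nat.card H = Nat.card (P : Subgroup H) * Nat.card K := hmul.symm
      _ = Nat.card (P : Subgroup H) := by rw [hc1, mul_one]
      _ = _ := Sylow.card_eq_multiplicity P
  have hle : (orbit ↥(P : Subgroup H) x).ncard * (orbit ↥K x).ncard ≤ n := by
    rw [← hX]; exact Nat.le_of_dvd hXpos hYZ
  have hY1 : (orbit ↥(P : Subgroup H) x).ncard < n := by nlinarith
  have hZ1 : (orbit ↥K x).ncard < n := by nlinarith
  have h1 : Nat.card (P : Subgroup H) ≤ Cc (orbit ↥(P : Subgroup H) x).ncard :=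
    ih _ hY1 ↥(P : Subgroup H) (orbit ↥(P : Subgroup H) x)
      (Odd.of_dvd_nat hodd (Subgroup.card_subgroup_dvd_card _)) rfl
  have h2 : Nat.card K ≤ Cc (orbit ↥K x).ncard :=
    ih _ hZ1 ↥K (orbit ↥K x) (Odd.of_dvd_nat hodd (Subgroup.card_subgroup_dvd_card _)) rfl
  calc Nat.card H = Nat.card (P : Subgroup H) * Nat.card K := hmul.symm
    _ ≤ Cc (orbit ↥(P : Subgroup H) x).ncard * Cc (orbit ↥K x).ncard := Nat.mul_le_mul h1 h2
    _ ≤ Cc ((orbit ↥(P : Subgroup H) x).ncard + (orbit ↥K x).ncard) := Cc_super _ _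
    _ ≤ Cc n := Cc_mono (by nlinarith)

/-- The main bound for groups of odd order. -/
theorem odd_main (n : ℕ) : ∀ (H X : Type) [Group H] [Finite H] [Group.IsNilpotent H] [Finite X]
    [MulAction H X] [FaithfulSMul H X], Odd (Nat.card H) → Nat.card X = n → Nat.card H ≤ Cc n := by
  induction n using Nat.strong_induction_on with
  | _ n ih =>
  intro H X _ _ _ _ _ _ hodd hX
  by_cases hpg : ∃ p, p.Prime ∧ IsPGroup p H
  · obtain ⟨p, hp, hH⟩ := hpg
    haveI := Fact.mk hp
    obtain ⟨k, hk⟩ := IsPGroup.iff_card.mp hH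
    rw [hk]
    rcases hp.two_le.eq_or_lt with rfl | hp3
    · have hk0 : k = 0 := by
        by_contra hk0
        rw [hk] at hodd
        exact (Nat.not_even_iff_odd.2 hodd) ((Nat.even_pow' hk0).2 (by decide))
      rw [hk0, pow_zero]
      exact Cc_pos n
    apply prime_pow_le_Cc hp hp3
    rw [← hk, ← hX]
    have hinj : Function.Injective (toPermHom H X) := toPerm_injective
    have := Subgroup.card_dvd_of_injective _ hinj
    rwa [Nat.card_perm] at this
  by_cases hnt : ∃ x y : X, y ∉ orbit H x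
  · obtain ⟨x, y, hy⟩ := hnt
    refine split_case ih H X hodd hX (orbit H x) (fun g z hz => ?_) ⟨x, mem_orbit_self x⟩ ⟨y, hy⟩
    obtain ⟨k, rfl⟩ := hz
    exact ⟨g * k, mul_smul _ _ _⟩
  · push Not at hnt
    haveI : Nontrivial H := by
      by_contra hnon
      rw [not_nontrivial_iff_subsingleton] at hnon
      exact hpg ⟨2, Nat.prime_two, IsPGroup.of_card (n := 0) (by simp)⟩
    obtain ⟨g, hg⟩ := exists_ne (1 : H)
    obtain ⟨x, -⟩ : ∃ x : X, g • x ≠ (1 : H) • x := by
      by_contra hcon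
      push Not at hcon
      exact hg (FaithfulSMul.eq_of_smul_eq_smul hcon)
    haveI : IsPretransitive H X := by
      constructor
      intro a b
      exact hnt a b
    exact trans_case ih H X hodd hX x hpg

end Action

end Cfsg.Agent.Lib.Classical.Herm.NilpNum
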