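import Mathlib
import Cfsg.Agent.S2253
import Cfsg.Agent.Lib.Classical.Herm.NilpNum

/-!
# Largest nilpotent subgroups of `S_n` and `A_n`

Extremal nilpotent subgroups for `n ≡ 3 (mod 4)` are `C₃ × P` with `P` a Sylow 2-subgroup on the
complement of a 3-cycle; the alternating bound reduces to the symmetric bound by adjoining an odd
2-element of the centraliser of the odd part.
-/

set_option autoImplicit false
set_option linter.unusedSectionVars false
set_option linter.unusedSimpArgs false
set_option linter.unusedVariables false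

namespace Cfsg.Agent.Lib.Classical.Herm.NilpSym

open Equiv Equiv.Perm Cfsg.Agent.S2253 Cfsg.Agent.Lib.Classical.Herm.NilpNum
open scoped Nat

section Numeric

theorem num_three {n k : ℕ} (hn : n % 4 = 3) (hk : 2 ≤ k) (h3 : 3 * k ≤ n) :
    h (n - 3 * k) + h k + 2 ≤ h (n - 3) := by
  have h1 := h_super (n - 3 * k) k
  have h2 : h (n - 3 * k + k) ≤ h (n - 4) := h_mono (by omega)
  obtain ⟨j, hj⟩ : ∃ j, n = 4 * j + 4 + 3 := ⟨(n - 7) / 4, by omega⟩
  have e1 : n - 3 = 4 * j + 4 := by omega
  have e2 : n - 4 = 4 * j + 3 := by omega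
  rw [e1]
  rw [e2] at h2
  have h3' := hC j
  have h4 := hD j
  omega

end Numeric

section Decomp

variable {G : Type*} [Group G] [Finite G]

/-- The decomposition of a nilpotent group of order `3 * 2^a`. -/
theorem nilp_decomp (N : Subgroup G) (hN : Group.IsNilpotent N) {a : ℕ}
    (hcard : Nat.card N = 3 * 2 ^ a) :
    ∃ (z : G) (T : Subgroup G), z ∈ N ∧ orderOf z = 3 ∧ T ≤ N ∧ Nat.card T = 2 ^ a ∧ IsPGroup 2 T ∧
      (∀ t ∈ T, t * z = z * t) ∧ N = T ⊔ Subgroup.zpowers z := by
  classical
  haveI : Fact (Nat.Prime 2) := ⟨Nat.prime_two⟩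
  haveI : Fact (Nat.Prime 3) := ⟨Nat.prime_three⟩
  obtain ⟨z, hz⟩ : ∃ z : N, orderOf z = 3 := exists_prime_orderOf_dvd_card' 3 (by rw [hcard]; exact dvd_mul_right _ _)
  let P : Sylow 2 N := Classical.arbitrary _
  have hPc : Nat.card P = 2 ^ a := by
    rw [Sylow.card_eq_multiplicity, hcard, Nat.factorization_mul (by norm_num) (by positivity),
      Nat.Prime.factorization_pow Nat.prime_two]
    have h3 : (Nat.factorization 3) 2 = 0 := Nat.factorization_eq_zero_of_not_dvd (by norm_num)
    simp [h3]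
  have hTc : Nat.card (P.1.map N.subtype) = 2 ^ a := by
    rw [Subgroup.card_map_of_injective N.subtype_injective]
    exact hPc
  have hzo : orderOf (z : G) = 3 := by
    rw [Subgroup.orderOf_coe, hz]
  refine ⟨z, P.1.map N.subtype, z.2, hzo, ?_, hTc, ?_, ?_, ?_⟩
  · rintro _ ⟨t, -, rfl⟩
    exact t.2
  · apply IsPGroup.of_card hTc
  · rintro _ ⟨t, ht, rfl⟩
    have hto : orderOf t ∣ 2 ^ a := by
      rw [← hPc]
      exact Subgroup.orderOf_dvd_natCard _ ht
    have hcop : (orderOf t).Coprime (orderOf z) := by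
      rw [hz]
      exact Nat.Coprime.coprime_dvd_left hto (Nat.Coprime.pow_left _ (by norm_num))
    have := Cfsg.Agent.Lib.Nilpotent.Elements.commute_of_coprime_orderOf hcop
    exact congrArg Subtype.val this
  · symm
    apply Subgroup.eq_of_le_of_card_ge
    · rw [sup_le_iff]
      constructor
      · rintro _ ⟨t, -, rfl⟩
        exact t.2
      · rw [Subgroup.zpowers_le]
        exact z.2
    · rw [hcard]
      apply Nat.le_of_dvd Nat.card_pos
      have h1 : 2 ^ a ∣ Nat.card ↥(P.1.map N.subtype ⊔ Subgroup.zpowers (z : G)) := by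
        rw [← hTc]
        exact Subgroup.card_dvd_of_le le_sup_left
      have h2 : 3 ∣ Nat.card ↥(P.1.map N.subtype ⊔ Subgroup.zpowers (z : G)) := by
        have : Nat.card (Subgroup.zpowers (z : G)) = 3 := by
          rw [Nat.card_zpowers, hzo]
        rw [← this]
        exact Subgroup.card_dvd_of_le le_sup_right
      exact Nat.Coprime.mul_dvd_of_dvd_of_dvd (Nat.Coprime.pow_right _ (by norm_num)) h2 h1

/-- Two `p`-subgroups of the full `p`-part order in `H` are conjugate in `H`. -/
theorem conj_of_card {p : ℕ} [Fact p.Prime] (H P₁ P₂ : Subgroup G) (h₁ : P₁ ≤ H) (h₂ : P₂ ≤ H)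
    {a : ℕ} (hc₁ : Nat.card P₁ = p ^ a) (hc₂ : Nat.card P₂ = p ^ a)
    (hH : ¬ p ^ (a + 1) ∣ Nat.card H) :
    ∃ f ∈ H, P₁.map (MulAut.conj f).toMonoidHom = P₂ := by
  classical
  have hp : p.Prime := Fact.out
  have key : ∀ P : Subgroup G, P ≤ H → Nat.card P = p ^ a →
      ∃ Q : Sylow p H, (Q : Subgroup H) = P.subgroupOf H := by
    intro P hPH hPc
    have hc : Nat.card (P.subgroupOf H) = p ^ a := by
      rw [← hPc]
      exact Nat.card_congr (Subgroup.subgroupOfEquivOfLe hPH).toEquiv
    have hpg : IsPGroup p (P.subgroupOf H) := IsPGroup.of_card hc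
    obtain ⟨Q, hQ⟩ := hpg.exists_le_sylow
    refine ⟨Q, ?_⟩
    symm
    apply Subgroup.eq_of_le_of_card_ge hQ
    rw [hc, Sylow.card_eq_multiplicity]
    apply Nat.pow_le_pow_right hp.pos
    by_contra hlt
    push Not at hlt
    apply hH
    exact dvd_trans (pow_dvd_pow p hlt) (Nat.ordProj_dvd _ _)
  obtain ⟨Q₁, hQ₁⟩ := key P₁ h₁ hc₁
  obtain ⟨Q₂, hQ₂⟩ := key P₂ h₂ hc₂
  obtain ⟨f, hf⟩ := MulAction.exists_smul_eq H Q₁ Q₂
  refine ⟨f, f.2, ?_⟩
  apply Subgroup.eq_of_le_of_card_ge
  · rintro _ ⟨y, hy, rfl⟩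
    have hyH : y ∈ H := h₁ hy
    have h3 : (⟨y, hyH⟩ : H) ∈ (Q₁ : Subgroup H) := by
      rw [hQ₁]
      exact hy
    have h4 : MulAut.conj f • (⟨y, hyH⟩ : H) ∈ ((f • Q₁ : Sylow p H) : Subgroup H) := by
      rw [Sylow.smul_def, Sylow.pointwise_smul_def]
      exact Subgroup.smul_mem_pointwise_smul _ _ _ h3
    rw [hf, hQ₂] at h4
    exact h4
  · rw [Subgroup.card_map_of_injective (MulAut.conj (f : G)).injective, hc₁, hc₂]

end Decomp

section Perm

variable {X : Type} [Fintype X] [DecidableEq X]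

/-- A 2-element commuting with a 3-cycle fixes its support pointwise. -/
theorem fix_of_comm {z t : Perm X} (hz : z.IsThreeCycle) (htz : t * z = z * t) {b : ℕ}
    (ht : t ^ 2 ^ b = 1) {x : X} (hx : x ∈ z.support) : t x = x := by
  have hcyc : z.IsCycle := hz.isCycle
  have hx' : z x ≠ x := mem_support.1 hx
  have hy' : z (t x) ≠ t x := by
    intro h
    apply hx'
    apply t.injective
    have := congrArg (fun f : Perm X => f x) htz
    simp only [Perm.coe_mul, Function.comp_apply] at this
    rw [this, h]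
  obtain ⟨i, hi⟩ := hcyc.sameCycle hx' hy'
  set u : Perm X := z ^ i with hu
  have hut : t * u = u * t := by
    have : Commute t z := htz
    exact (this.zpow_right i).eq
  have hu3 : u ^ 3 = 1 := by
    have h3 : z ^ 3 = 1 := by
      rw [← hz.orderOf]
      exact pow_orderOf_eq_one z
    rw [hu, ← zpow_natCast, ← zpow_mul, mul_comm, zpow_mul, zpow_natCast, h3, one_zpow]
  have hpow : ∀ m : ℕ, (t ^ m) x = (u ^ m) x := by
    intro m
    induction m with
    | zero => simp
    | succ m ih =>
      rw [pow_succ, pow_succ', Perm.coe_mul, Perm.coe_mul, Function.comp_apply, Function.comp_apply,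
        ← hi, ← ih]
      have : Commute (t ^ m) u := (Commute.pow_left hut m)
      have h2 := congrArg (fun f : Perm X => f x) this.eq
      simp only [Perm.coe_mul, Function.comp_apply] at h2
      exact h2
  have h1 : (u ^ 2 ^ b) x = x := by
    rw [← hpow, ht]
    rfl
  have h2 : u ^ 2 ^ b = u ^ (2 ^ b % 3) := pow_eq_pow_mod _ hu3
  have h4 : 2 ^ b % 3 = 1 ∨ 2 ^ b % 3 = 2 := by
    have : ∀ b : ℕ, 2 ^ b % 3 = 1 ∨ 2 ^ b % 3 = 2 := by
      intro b
      induction b with
      | zero => simp
      | succ b ih =>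
        rw [pow_succ]
        omega
    exact this b
  have h5 : u x = x := by
    rw [h2] at h1
    rcases h4 with h4 | h4
    · rw [h4, pow_one] at h1
      exact h1
    · rw [h4] at h1
      have e : u = (u ^ 2)⁻¹ := by
        rw [eq_inv_iff_mul_eq_one, ← pow_succ', hu3]
      rw [e, Perm.inv_eq_iff_eq]
      exact h1.symm
  rw [← hi]
  exact h5

/-- Structure of extremal nilpotent subgroups. -/
theorem three_cycle_structure (N : Subgroup (Perm X)) (hN : Group.IsNilpotent N)
    (hn : Fintype.card X % 4 = 3) {a : ℕ} (hcard : Nat.card N = 3 * 2 ^ a)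
    (ha : h (Fintype.card X - 3) ≤ a + 1) :
    ∃ (z : Perm X) (T : Subgroup (Perm X)), z ∈ N ∧ z.IsThreeCycle ∧ T ≤ N ∧ Nat.card T = 2 ^ a ∧
      (∀ t ∈ T, ∀ x ∈ z.support, t x = x) ∧ N = T ⊔ Subgroup.zpowers z := by
  classical
  haveI : Fact (Nat.Prime 2) := ⟨Nat.prime_two⟩
  obtain ⟨z, T, hzN, hzo, hTN, hTc, hTp, hcomm, hsup⟩ := nilp_decomp N hN hcard
  obtain ⟨m, hm⟩ := cycleType_prime_order (σ := z) (by rw [hzo]; exact Nat.prime_three)
  rw [hzo] at hm
  have hTC : T ≤ Subgroup.centralizer {z} := by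
    intro t ht
    rw [Subgroup.mem_centralizer_singleton_iff]
    exact hcomm t ht
  have hd : 2 ^ a ∣ Nat.card (Subgroup.centralizer {z}) := by
    rw [← hTc]
    exact Subgroup.card_dvd_of_le hTC
  have hsum := sum_cycleType_le z
  rw [nat_card_centralizer, hm] at hd
  rw [hm] at hsum
  simp only [Multiset.sum_replicate, Multiset.prod_replicate, smul_eq_mul, Multiset.toFinset_replicate] at hd hsum
  have hne : m + 1 ≠ 0 := by omega
  simp only [hne, if_false, Finset.prod_singleton, Multiset.count_replicate_self] at hd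
  have hd2 : 2 ^ a ∣ (Fintype.card X - (m + 1) * 3)! * (m + 1)! := by
    have h1 : (2 ^ a).Coprime (3 ^ (m + 1)) := Nat.Coprime.pow _ _ (by norm_num)
    have e : (Fintype.card X - (m + 1) * 3)! * 3 ^ (m + 1) * (m + 1)! =
        3 ^ (m + 1) * ((Fintype.card X - (m + 1) * 3)! * (m + 1)!) := by ring
    rw [e] at hd
    exact h1.dvd_of_dvd_mul_left hd
  have ha2 : a ≤ h (Fintype.card X - (m + 1) * 3) + h (m + 1) := by
    have h1 := (padicValNat_dvd_iff_le (p := 2) (by positivity)).1 hd2
    rwa [padicValNat.mul (Nat.factorial_ne_zero _) (Nat.factorial_ne_zero _)] at h1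
  have hm0 : m = 0 := by
    by_contra hm0
    have h1 := num_three (n := Fintype.card X) (k := m + 1) hn (by omega) (by omega)
    have e : 3 * (m + 1) = (m + 1) * 3 := by ring
    rw [e] at h1
    omega
  subst hm0
  have hz3 : z.IsThreeCycle := by
    rw [IsThreeCycle, hm]
    rfl
  refine ⟨z, T, hzN, hz3, hTN, hTc, ?_, hsup⟩
  intro t ht x hx
  obtain ⟨b, hb⟩ := Cfsg.Agent.Lib.Nilpotent.Elements.exists_pow_eq_one_of_mem hTp ht
  exact fix_of_comm hz3 (hcomm t ht) hb hx

/-- The permutations supported on a finset. -/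
abbrev Rng (s : Finset X) : Subgroup (Perm X) := (ofSubtype (p := (· ∈ s))).range

theorem mem_Rng_of_fix {s : Finset X} {t : Perm X} (h : ∀ x, x ∉ s → t x = x) : t ∈ Rng s := by
  rw [mem_range_ofSubtype_iff]
  intro x hx
  by_contra hn
  exact (mem_support.1 hx) (h x hn)

theorem fix_of_mem_Rng {s : Finset X} {t : Perm X} (ht : t ∈ Rng s) {x : X} (hx : x ∉ s) : t x = x := by
  obtain ⟨f, rfl⟩ := ht
  exact ofSubtype_apply_of_not_mem f hx

/-- Extremal nilpotent subgroups are conjugate. -/
theorem conj_main (A N₁ N₂ : Subgroup (Perm X)) {a : ℕ}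
    (hn : Fintype.card X % 4 = 3) (h₁ : Group.IsNilpotent N₁) (h₂ : Group.IsNilpotent N₂)
    (hN₁A : N₁ ≤ A) (hN₂A : N₂ ≤ A)
    (hc₁ : Nat.card N₁ = 3 * 2 ^ a) (hc₂ : Nat.card N₂ = 3 * 2 ^ a)
    (ha : h (Fintype.card X - 3) ≤ a + 1)
    (hconj : ∀ z₁ z₂ : Perm X, z₁ ∈ A → z₂ ∈ A → z₁.IsThreeCycle → z₂.IsThreeCycle →
      ∃ g ∈ A, g * z₁ * g⁻¹ = z₂)
    (hH : ∀ s : Finset X, s.card + 3 = Fintype.card X → ¬ 2 ^ (a + 1) ∣ Nat.card ↥(Rng s ⊓ A)) :
    ∃ w ∈ A, N₂ = N₁.map (MulAut.conj w).toMonoidHom := by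
  classical
  haveI : Fact (Nat.Prime 2) := ⟨Nat.prime_two⟩
  obtain ⟨z₁, T₁, hz₁N, hz₁, hT₁N, hT₁c, hT₁f, hs₁⟩ := three_cycle_structure N₁ h₁ hn hc₁ ha
  obtain ⟨z₂, T₂, hz₂N, hz₂, hT₂N, hT₂c, hT₂f, hs₂⟩ := three_cycle_structure N₂ h₂ hn hc₂ ha
  obtain ⟨g, hgA, hg⟩ := hconj z₁ z₂ (hN₁A hz₁N) (hN₂A hz₂N) hz₁ hz₂
  set s : Finset X := (z₂.support)ᶜ with hs
  have hscard : s.card + 3 = Fintype.card X := by
    rw [hs, Finset.card_compl, hz₂.card_support]
    have : z₂.support.card ≤ Fintype.card X := Finset.card_le_univ _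
    rw [hz₂.card_support] at this
    omega
  have hle₁ : T₁.map (MulAut.conj g).toMonoidHom ≤ Rng s ⊓ A := by
    rintro _ ⟨t, ht, rfl⟩
    refine ⟨mem_Rng_of_fix ?_, ?_⟩
    · intro x hx
      have hx2 : x ∈ z₂.support := by
        rw [hs, Finset.mem_compl, not_not] at hx
        exact hx
      have hx3 : g⁻¹ x ∈ z₁.support := by
        rw [mem_support] at hx2 ⊢
        intro h0
        apply hx2
        rw [← hg]
        simp only [Perm.coe_mul, Function.comp_apply]
        rw [h0]
        simp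
      have h3 := hT₁f t ht _ hx3
      simp only [MulEquiv.coe_toMonoidHom, MulAut.conj_apply, Perm.coe_mul, Function.comp_apply]
      rw [h3]
      simp
    · have ht' : t ∈ A := hN₁A (hT₁N ht)
      exact A.mul_mem (A.mul_mem hgA ht') (A.inv_mem hgA)
  have hle₂ : T₂ ≤ Rng s ⊓ A := by
    intro t ht
    refine ⟨mem_Rng_of_fix ?_, hN₂A (hT₂N ht)⟩
    intro x hx
    rw [hs, Finset.mem_compl, not_not] at hx
    exact hT₂f t ht x hx
  have hc3 : Nat.card (T₁.map (MulAut.conj g).toMonoidHom) = 2 ^ a := by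
    rw [Subgroup.card_map_of_injective (MulAut.conj g).injective, hT₁c]
  obtain ⟨f, hf, hfT⟩ := conj_of_card (p := 2) (Rng s ⊓ A) _ T₂ hle₁ hle₂ hc3 hT₂c (hH s hscard)
  have hfz : f * z₂ * f⁻¹ = z₂ := by
    have hdisj : Disjoint f z₂ := by
      intro x
      by_cases hx : x ∈ s
      · right
        rw [hs, Finset.mem_compl, mem_support, not_not] at hx
        exact hx
      · left
        exact fix_of_mem_Rng hf.1 hx
    rw [hdisj.commute.eq]
    simp
  refine ⟨f * g, A.mul_mem hf.2 hgA, ?_⟩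
  have e1 : z₂ = (f * g) * z₁ * (f * g)⁻¹ := by
    calc z₂ = f * z₂ * f⁻¹ := hfz.symm
      _ = f * (g * z₁ * g⁻¹) * f⁻¹ := by rw [hg]
      _ = (f * g) * z₁ * (f * g)⁻¹ := by group
  have e2 : T₂ = T₁.map (MulAut.conj (f * g)).toMonoidHom := by
    rw [← hfT, Subgroup.map_map]
    congr 1
  rw [hs₂, hs₁, Subgroup.map_sup, MonoidHom.map_zpowers, ← e2]
  simp only [MulEquiv.coe_toMonoidHom, MulAut.conj_apply]
  rw [← e1]

/-- The conjugacy of 3-cycles in the full symmetric group. -/
theorem hconj_top (z₁ z₂ : Perm X) (h₁ : z₁.IsThreeCycle) (h₂ : z₂.IsThreeCycle) :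
    ∃ g ∈ (⊤ : Subgroup (Perm X)), g * z₁ * g⁻¹ = z₂ := by
  have h : IsConj z₁ z₂ := by
    rw [isConj_iff_cycleType_eq, h₁, h₂]
  obtain ⟨c, hc⟩ := isConj_iff.1 h
  exact ⟨c, trivial, hc⟩

/-- The conjugacy of 3-cycles in the alternating group. -/
theorem hconj_alt (hX : 5 ≤ Fintype.card X) (z₁ z₂ : Perm X) (ha₁ : z₁ ∈ alternatingGroup X)
    (ha₂ : z₂ ∈ alternatingGroup X) (h₁ : z₁.IsThreeCycle) (h₂ : z₂.IsThreeCycle) :
    ∃ g ∈ alternatingGroup X, g * z₁ * g⁻¹ = z₂ := by
  have h : IsConj z₁ z₂ := by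
    rw [isConj_iff_cycleType_eq, h₁, h₂]
  have h3 : IsConj (⟨z₁, ha₁⟩ : alternatingGroup X) ⟨z₂, ha₂⟩ := by
    apply alternatingGroup.isConj_of h
    change z₁.support.card + 2 ≤ _
    rw [h₁.card_support]
    omega
  obtain ⟨c, hc⟩ := isConj_iff.1 h3
  exact ⟨c.1, c.2, congrArg Subtype.val hc⟩

theorem card_Rng (s : Finset X) : Nat.card (Rng s) = (s.card)! := by
  have hinj : Function.Injective (ofSubtype (p := (· ∈ s))) := ofSubtype_injective
  rw [Nat.card_congr (MonoidHom.ofInjective hinj).toEquiv.symm, Nat.card_perm]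
  simp

theorem card_Rng_alt (s : Finset X) (hs : 2 ≤ s.card) :
    2 * Nat.card ↥(Rng s ⊓ alternatingGroup X) = (s.card)! := by
  rw [← alternatingGroup.map_ofSubtype,
    Subgroup.card_map_of_injective (ofSubtype_injective (p := (· ∈ s)))]
  haveI : Nontrivial (s : Type) := by
    rw [← Fintype.one_lt_card_iff_nontrivial]
    simp
    omega
  rw [two_mul_nat_card_alternatingGroup, Nat.card_perm]
  simp

end Perm

section AltBound

variable {X : Type} [Fintype X] [DecidableEq X]

theorem sign_of_involution {s : Perm X} (hs : s * s = 1) (hne : s ≠ 1) {m : ℕ}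
    (hm : s.support.card = 2 * m) (hodd : Odd m) : sign s = -1 := by
  haveI : Fact (Nat.Prime 2) := ⟨Nat.prime_two⟩
  have ho : orderOf s = 2 := orderOf_eq_prime (by rw [pow_two]; exact hs) hne
  obtain ⟨k, hk⟩ := cycleType_prime_order (σ := s) (by rw [ho]; exact Nat.prime_two)
  rw [ho] at hk
  have h1 := sum_cycleType s
  rw [hk, hm] at h1
  simp only [Multiset.sum_replicate, smul_eq_mul] at h1
  have hkm : k + 1 = m := by omega
  rw [sign_of_cycleType, hk]
  simp only [Multiset.sum_replicate, smul_eq_mul, Multiset.card_replicate]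
  rw [hkm]
  have : Odd (m * 2 + m) := by
    obtain ⟨r, rfl⟩ := hodd
    exact ⟨3 * r + 1, by ring⟩
  exact this.neg_one_pow

/-- An involution centralising a group of odd order yields an odd involution centralising it. -/
theorem exists_odd_involution (O : Subgroup (Perm X)) (hO : Odd (Nat.card O)) {t : Perm X}
    (ht : t * t = 1) (htne : t ≠ 1) (htO : ∀ o ∈ O, t * o = o * t) :
    ∃ s : Perm X, s * s = 1 ∧ (∀ o ∈ O, s * o = o * s) ∧ sign s = -1 := by
  classical
  obtain ⟨x, hx⟩ : ∃ x, t x ≠ x := by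
    by_contra hcon
    push Not at hcon
    exact htne (Equiv.ext hcon)
  have htt : ∀ y, t (t y) = y := fun y => by
    have := congrArg (fun f : Perm X => f y) ht
    simpa using this
  have hcomm : ∀ o ∈ O, ∀ y, t (o y) = o (t y) := fun o ho y => by
    have := congrArg (fun f : Perm X => f y) (htO o ho)
    simpa using this
  have hnot : ∀ o ∈ O, t x ≠ o x := by
    intro o ho h
    have h1 : (o * o) x = x := by
      calc (o * o) x = o (o x) := rfl
        _ = o (t x) := by rw [← h]
        _ = t (o x) := (hcomm o ho x).symm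
        _ = t (t x) := by rw [← h]
        _ = x := htt x
    have hord : Odd (orderOf o) := Odd.of_dvd_nat hO (Subgroup.orderOf_dvd_natCard O ho)
    obtain ⟨r, hr⟩ := hord
    have h2 : o ^ (2 * r + 1) = 1 := by
      rw [← hr]
      exact pow_orderOf_eq_one o
    have h3 : (o * o) ^ (r + 1) = o := by
      calc (o * o) ^ (r + 1) = o ^ (2 * r + 1) * o := by
            rw [← pow_two, ← pow_mul, ← pow_succ]
            ring_nf
          _ = o := by rw [h2, one_mul]
    have h4 : ∀ j : ℕ, ((o * o) ^ j) x = x := by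
      intro j
      induction j with
      | zero => rfl
      | succ j ih =>
        rw [pow_succ, Perm.coe_mul, Function.comp_apply, h1, ih]
    have h5 : o x = x := by
      have := h4 (r + 1)
      rwa [h3] at this
    exact hx (h.trans h5)
  let A : Finset X := (MulAction.orbit ↥O x).toFinset
  have hA : ∀ y, y ∈ A ↔ ∃ o ∈ O, o x = y := by
    intro y
    simp only [A, Set.mem_toFinset, MulAction.mem_orbit_iff]
    constructor
    · rintro ⟨o, rfl⟩
      exact ⟨o.1, o.2, rfl⟩
    · rintro ⟨o, ho, rfl⟩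
      exact ⟨⟨o, ho⟩, rfl⟩
  have hAcard : Odd A.card := by
    have h1 : A.card = (MulAction.orbit ↥O x).ncard := (Set.ncard_eq_toFinset_card' _).symm
    rw [h1, ← MulAction.index_stabilizer]
    exact Odd.of_dvd_nat hO (Subgroup.index_dvd_card _)
  let Y : Finset X := A ∪ A.image t
  have hY : ∀ y, y ∈ Y ↔ (∃ o ∈ O, o x = y) ∨ ∃ o ∈ O, t (o x) = y := by
    intro y
    simp only [Y, Finset.mem_union, Finset.mem_image, hA]
    constructor
    · rintro (h | ⟨a, ⟨o, ho, rfl⟩, rfl⟩)
      · exact Or.inl h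
      · exact Or.inr ⟨o, ho, rfl⟩
    · rintro (h | ⟨o, ho, rfl⟩)
      · exact Or.inl h
      · exact Or.inr ⟨_, ⟨o, ho, rfl⟩, rfl⟩
  have hYt : ∀ y, y ∈ Y → t y ∈ Y := by
    intro y hy
    rw [hY] at hy ⊢
    rcases hy with ⟨o, ho, rfl⟩ | ⟨o, ho, rfl⟩
    · exact Or.inr ⟨o, ho, rfl⟩
    · exact Or.inl ⟨o, ho, (htt _).symm⟩
  have hYO : ∀ o ∈ O, ∀ y, y ∈ Y → o y ∈ Y := by
    intro o ho y hy
    rw [hY] at hy ⊢
    rcases hy with ⟨o', ho', rfl⟩ | ⟨o', ho', rfl⟩
    · exact Or.inl ⟨o * o', O.mul_mem ho ho', rfl⟩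
    · refine Or.inr ⟨o * o', O.mul_mem ho ho', ?_⟩
      rw [Perm.coe_mul, Function.comp_apply, hcomm o ho]
  have hYmove : ∀ y, y ∈ Y → t y ≠ y := by
    intro y hy h
    rw [hY] at hy
    rcases hy with ⟨o, ho, rfl⟩ | ⟨o, ho, rfl⟩
    · rw [hcomm o ho] at h
      exact hx (o.injective h)
    · rw [htt] at h
      rw [hcomm o ho] at h
      exact hx (o.injective h.symm)
  let s : Perm X :=
    { toFun := fun y => if y ∈ Y then t y else y
      invFun := fun y => if y ∈ Y then t y else y
      left_inv := by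
        intro y
        by_cases hy : y ∈ Y
        · simp only [hy, if_true, hYt y hy, htt]
        · simp only [hy, if_false]
      right_inv := by
        intro y
        by_cases hy : y ∈ Y
        · simp only [hy, if_true, hYt y hy, htt]
        · simp only [hy, if_false] }
  have hs : ∀ y, s y = if y ∈ Y then t y else y := fun y => rfl
  have hss : s * s = 1 := by
    ext y
    change s (s y) = y
    rw [hs y]
    by_cases hy : y ∈ Y
    · rw [if_pos hy, hs, if_pos (hYt y hy), htt]
    · rw [if_neg hy, hs, if_neg hy]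
  have hsupp : s.support = Y := by
    ext y
    rw [mem_support, hs]
    by_cases hy : y ∈ Y
    · simp only [hy, if_true, iff_true]
      exact hYmove y hy
    · simp [hy]
  have hdisj : Disjoint A (A.image t) := by
    rw [Finset.disjoint_left]
    intro y hy hy2
    obtain ⟨a, ha, rfl⟩ := Finset.mem_image.1 hy2
    obtain ⟨o, ho, rfl⟩ := (hA a).1 ha
    obtain ⟨o', ho', h⟩ := (hA _).1 hy
    rw [hcomm o ho] at h
    apply hnot (o⁻¹ * o') (O.mul_mem (O.inv_mem ho) ho')
    rw [Perm.coe_mul, Function.comp_apply, h]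
    simp
  have hYcard : Y.card = 2 * A.card := by
    rw [Finset.card_union_of_disjoint hdisj, Finset.card_image_of_injective _ t.injective]
    ring
  have hxY : x ∈ Y := (hY x).2 (Or.inl ⟨1, O.one_mem, rfl⟩)
  have hsne : s ≠ 1 := by
    intro h
    have := congrArg (fun f : Perm X => f x) h
    simp only [hs, hxY, if_true] at this
    exact hx this
  refine ⟨s, hss, ?_, sign_of_involution hss hsne (by rw [hsupp, hYcard]) hAcard⟩
  intro o ho
  ext y
  change s (o y) = o (s y)
  rw [hs, hs]
  by_cases hy : y ∈ Y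
  · rw [if_pos hy, if_pos (hYO o ho y hy), hcomm o ho]
  · have hoy : o y ∉ Y := by
      intro h
      apply hy
      have := hYO o⁻¹ (O.inv_mem ho) _ h
      simpa using this
    rw [if_neg hy, if_neg hoy]

/-- The alternating bound, up to the case of odd order. -/
theorem alt_bound_aux (N : Subgroup (Perm X)) (hNA : N ≤ alternatingGroup X)
    (hN : Group.IsNilpotent N) :
    2 * Nat.card N ≤ B (Fintype.card X) ∨ Odd (Nat.card N) := by
  classical
  haveI : Fact (Nat.Prime 2) := ⟨Nat.prime_two⟩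
  let P : Sylow 2 N := Classical.arbitrary _
  have hcop := P.card_coprime_index
  obtain ⟨K, hK⟩ := Subgroup.exists_right_complement'_of_coprime hcop
  have hmul : Nat.card (P : Subgroup N) * Nat.card K = Nat.card N := hK.card_mul
  have hKcard : Nat.card K = (P : Subgroup N).index := by
    have h1 := (P : Subgroup N).card_mul_index
    have hpos : 0 < Nat.card (P : Subgroup N) := Nat.card_pos
    exact Nat.eq_of_mul_eq_mul_left hpos (hmul.trans h1.symm)
  have hKodd : Odd (Nat.card K) := by
    rw [hKcard, ← Nat.not_even_iff_odd, even_iff_two_dvd]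
    exact P.not_dvd_index
  set T : Subgroup (Perm X) := (P : Subgroup N).map N.subtype with hT
  set O : Subgroup (Perm X) := K.map N.subtype with hO
  have hTc : Nat.card T = Nat.card (P : Subgroup N) :=
    Subgroup.card_map_of_injective N.subtype_injective
  have hOc : Nat.card O = Nat.card K := Subgroup.card_map_of_injective N.subtype_injective
  have hTp : IsPGroup 2 T := by
    apply IsPGroup.of_card (n := (Nat.card N).factorization 2)
    rw [hTc, Sylow.card_eq_multiplicity]
  have hOodd : Odd (Nat.card O) := by rwa [hOc]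
  have hTOcop : ∀ m : ℕ, (2 ^ m).Coprime (Nat.card O) := fun m =>
    Nat.Coprime.pow_left _ (Nat.coprime_two_left.2 hOodd)
  have hcomm : ∀ t ∈ T, ∀ o ∈ O, t * o = o * t := by
    rintro _ ⟨a, ha, rfl⟩ _ ⟨b, hb, rfl⟩
    have h1 : orderOf a ∣ Nat.card (P : Subgroup N) := Subgroup.orderOf_dvd_natCard _ ha
    have h2 : orderOf b ∣ Nat.card K := Subgroup.orderOf_dvd_natCard _ hb
    have hcoprime : (Nat.card (P : Subgroup N)).Coprime (Nat.card K) := by rw [hKcard]; exact hcop
    have := Cfsg.Agent.Lib.Nilpotent.Elements.commute_of_coprime_orderOf (Nat.Coprime.of_dvd h1 h2 hcoprime)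
    exact congrArg Subtype.val this
  let C : Subgroup (Perm X) := Subgroup.centralizer (O : Set (Perm X))
  have hmemC : ∀ y : Perm X, y ∈ C ↔ ∀ o ∈ O, y * o = o * y := by
    intro y
    rw [Subgroup.mem_centralizer_iff]
    constructor
    · intro h o ho
      exact (h o ho).symm
    · intro h o ho
      exact (h o ho).symm
  have hTC : T ≤ C := fun t ht => (hmemC t).2 (hcomm t ht)
  have hTsub : IsPGroup 2 (T.subgroupOf C) := by
    have e : Nat.card (T.subgroupOf C) = Nat.card T :=
      Nat.card_congr (Subgroup.subgroupOfEquivOfLe hTC).toEquiv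
    obtain ⟨j, hj⟩ := IsPGroup.iff_card.1 hTp
    exact IsPGroup.of_card (e.trans hj)
  obtain ⟨Q, hQ⟩ := hTsub.exists_le_sylow
  set T2 : Subgroup (Perm X) := (Q : Subgroup C).map C.subtype with hT2
  have hTT2 : T ≤ T2 := by
    intro t ht
    exact ⟨⟨t, hTC ht⟩, hQ ht, rfl⟩
  have hT2C : T2 ≤ C := by
    rintro _ ⟨y, -, rfl⟩
    exact y.2
  have hT2p : Nat.card T2 = 2 ^ (Nat.card C).factorization 2 := by
    rw [hT2, Subgroup.card_map_of_injective C.subtype_injective, Sylow.card_eq_multiplicity]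
  by_cases hT2A : T2 ≤ alternatingGroup X
  · -- no involution in `C`
    right
    have hnoinv : ∀ t : Perm X, t ∈ C → t * t = 1 → t = 1 := by
      intro t htC htt
      by_contra htne
      obtain ⟨s, hss, hsO, hsign⟩ := exists_odd_involution O hOodd htt htne ((hmemC t).1 htC)
      have hsC : s ∈ C := (hmemC s).2 hsO
      let s' : C := ⟨s, hsC⟩
      have hs'2 : s' ^ 2 = 1 := by
        apply Subtype.ext
        change s ^ 2 = 1
        rw [pow_two, hss]
      have hpz : IsPGroup 2 (Subgroup.zpowers s') := by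
        apply IsPGroup.of_card (n := (orderOf s').factorization 2)
        rw [Nat.card_zpowers]
        have hd2 : orderOf s' ∣ 2 ^ 1 := by simpa using orderOf_dvd_of_pow_eq_one hs'2
        obtain ⟨i, -, hi⟩ := (Nat.dvd_prime_pow Nat.prime_two).1 hd2
        rw [hi]
        simp [Nat.Prime.factorization_self Nat.prime_two]
      obtain ⟨Q', hQ'⟩ := hpz.exists_le_sylow
      obtain ⟨c, hc⟩ := MulAction.exists_smul_eq C Q' Q
      have h1 : s' ∈ (Q' : Subgroup C) := hQ' (Subgroup.mem_zpowers s')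
      have h2 : MulAut.conj c • s' ∈ ((c • Q' : Sylow 2 C) : Subgroup C) := by
        rw [Sylow.smul_def, Sylow.pointwise_smul_def]
        exact Subgroup.smul_mem_pointwise_smul _ _ _ h1
      rw [hc] at h2
      have h3 : ((MulAut.conj c • s' : C) : Perm X) ∈ T2 := ⟨_, h2, rfl⟩
      have h4 := hT2A h3
      rw [mem_alternatingGroup] at h4
      have h5 : ((MulAut.conj c • s' : C) : Perm X) = (c : Perm X) * s * (c : Perm X)⁻¹ := rfl
      rw [h5, Perm.sign_mul, Perm.sign_mul, Perm.sign_inv, hsign] at h4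
      have hu := Int.units_eq_one_or (sign (c : Perm X))
      rcases hu with hu | hu <;> simp [hu] at h4
    have hT1 : Nat.card T = 1 := by
      by_contra hne
      obtain ⟨j, hj⟩ := IsPGroup.iff_card.1 hTp
      have hj0 : j ≠ 0 := by
        rintro rfl
        exact hne (by simpa using hj)
      have hd : 2 ∣ Nat.card T := by
        rw [hj]
        exact dvd_pow_self _ hj0
      obtain ⟨t, ht⟩ := exists_prime_orderOf_dvd_card' (G := T) 2 hd
      have hne1 : (t : Perm X) = 1 := by
        apply hnoinv t (hTC t.2)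
        have := pow_orderOf_eq_one t
        rw [ht, pow_two] at this
        exact congrArg Subtype.val this
      have : t = 1 := Subtype.ext hne1
      rw [this, orderOf_one] at ht
      omega
    rw [← hmul, ← hTc, hT1, one_mul]
    exact hKodd
  · -- adjoin an odd 2-element
    left
    have hlt : 2 * Nat.card T ≤ Nat.card T2 := by
      have hd : Nat.card T ∣ Nat.card T2 := Subgroup.card_dvd_of_le hTT2
      obtain ⟨k, hk⟩ := hd
      have hk0 : k ≠ 0 := by
        rintro rfl
        rw [mul_zero] at hk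
        exact (Nat.card_pos (α := T2)).ne' hk
      have hk1 : k ≠ 1 := by
        rintro rfl
        rw [mul_one] at hk
        apply hT2A
        have : T = T2 := Subgroup.eq_of_le_of_card_ge hTT2 hk.le
        rw [← this]
        rintro _ ⟨a, -, rfl⟩
        exact hNA a.2
      have h2k : 2 ≤ k := by omega
      rw [hk, mul_comm 2]
      exact Nat.mul_le_mul_left _ h2k
    have hphc : ∀ (a : T2) (b : O), Commute (T2.subtype a) (O.subtype b) := by
      intro a b
      exact (hmemC a.1).1 (hT2C a.2) b.1 b.2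
    let ph : T2 × O →* Perm X := MonoidHom.noncommCoprod T2.subtype O.subtype hphc
    have hph : Function.Injective ph := by
      rw [injective_iff_map_eq_one]
      rintro ⟨a, b⟩ hab
      have hab' : (a : Perm X) * (b : Perm X) = 1 := hab
      have e : (a : Perm X) = (b : Perm X)⁻¹ := eq_inv_of_mul_eq_one_left hab'
      have h1 : orderOf (a : Perm X) ∣ Nat.card T2 := Subgroup.orderOf_dvd_natCard _ a.2
      have h2 : orderOf (a : Perm X) ∣ Nat.card O := by
        rw [e, orderOf_inv]
        exact Subgroup.orderOf_dvd_natCard _ b.2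
      have h3 : orderOf (a : Perm X) = 1 := by
        have hcp : (Nat.card T2).Coprime (Nat.card O) := by
          rw [hT2p]
          exact hTOcop _
        exact Nat.eq_one_of_dvd_coprimes hcp h1 h2
      have h4 : (a : Perm X) = 1 := orderOf_eq_one_iff.1 h3
      have h5 : (b : Perm X) = 1 := by
        rw [h4, one_mul] at hab'
        exact hab'
      exact Prod.ext (Subtype.ext h4) (Subtype.ext h5)
    haveI : Group.IsNilpotent T2 :=
      IsPGroup.isNilpotent (p := 2) (IsPGroup.of_card hT2p)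
    haveI : Group.IsNilpotent O :=
      Group.nilpotent_of_surjective (K.equivMapOfInjective N.subtype N.subtype_injective).toMonoidHom
        (K.equivMapOfInjective N.subtype N.subtype_injective).surjective
    haveI : Group.IsNilpotent ph.range :=
      Group.nilpotent_of_surjective ph.rangeRestrict ph.rangeRestrict_surjective
    have h1 := main (Fintype.card X) ↥ph.range X (by simp)
    have h2 : Nat.card ph.range = Nat.card T2 * Nat.card O := by
      rw [Nat.card_congr (MonoidHom.ofInjective hph).toEquiv.symm, Nat.card_prod]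
    rw [h2] at h1
    calc 2 * Nat.card N = 2 * Nat.card T * Nat.card O := by
          rw [← hmul, hTc, hOc, mul_assoc]
      _ ≤ Nat.card T2 * Nat.card O := Nat.mul_le_mul_right _ hlt
      _ ≤ _ := h1

/-- The alternating bound. -/
theorem alt_bound (N : Subgroup (Perm X)) (hNA : N ≤ alternatingGroup X)
    (hN : Group.IsNilpotent N) (h2 : 2 ≤ Fintype.card X) (h3 : Fintype.card X ≠ 3)
    (h5 : Fintype.card X ≠ 5) (h6 : Fintype.card X ≠ 6) (h9 : Fintype.card X ≠ 9) :
    2 * Nat.card N ≤ B (Fintype.card X) := by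
  rcases alt_bound_aux N hNA hN with h | h
  · exact h
  · have h1 := odd_main (Fintype.card X) ↥N X h (by simp)
    exact le_trans (Nat.mul_le_mul_left _ h1) (two_Cc_le _ h2 h3 h5 h6 h9)

end AltBound

section Exist

/-- `C₃` acting on `ZMod 3`. -/
def c3Hom : Multiplicative (ZMod 3) →* Perm (ZMod 3) where
  toFun x := Equiv.addLeft (Multiplicative.toAdd x)
  map_one' := by
    ext y
    simp
  map_mul' a b := by
    ext y
    simp [add_assoc]

theorem c3Hom_injective : Function.Injective c3Hom := by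
  intro a b hab
  have := congrArg (fun f : Perm (ZMod 3) => f 0) hab
  simpa [c3Hom] using this

theorem sign_c3Hom (c : Multiplicative (ZMod 3)) : sign (c3Hom c) = 1 := by
  have h3 : (c3Hom c) ^ 3 = 1 := by
    rw [← map_pow]
    have : c ^ 3 = 1 := by
      revert c
      decide
    rw [this, map_one]
  have h4 := congrArg sign h3
  rw [map_pow, map_one] at h4
  rcases Int.units_eq_one_or (sign (c3Hom c)) with h | h
  · exact h
  · rw [h] at h4
    exact absurd h4 (by decide)

theorem exists_emb {α : Type} [Fintype α] [DecidableEq α] {K : Type*} [Group K] {n : ℕ}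
    (ι : K →* Perm α) (hι : Function.Injective ι) (hn : Fintype.card α + 3 = n) :
    ∃ ph : K × Multiplicative (ZMod 3) →* Perm (Fin n), Function.Injective ph ∧
      ∀ x, sign (ph x) = sign (ι x.1) := by
  have hcard : Fintype.card (α ⊕ ZMod 3) = n := by
    rw [Fintype.card_sum, ZMod.card, hn]
  let e : α ⊕ ZMod 3 ≃ Fin n := Fintype.equivFinOfCardEq hcard
  let ph : K × Multiplicative (ZMod 3) →* Perm (Fin n) :=
    (e.permCongrHom.toMonoidHom).comp ((sumCongrHom α (ZMod 3)).comp (ι.prodMap c3Hom))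
  refine ⟨ph, ?_, ?_⟩
  · apply e.permCongrHom.injective.comp
    apply (sumCongrHom_injective).comp
    rintro ⟨a, b⟩ ⟨a', b'⟩ hab
    have h1 := congrArg Prod.fst hab
    have h2 := congrArg Prod.snd hab
    exact Prod.ext (hι h1) (c3Hom_injective h2)
  · rintro ⟨a, b⟩
    change sign (e.permCongr (Perm.sumCongr (ι a) (c3Hom b))) = sign (ι a)
    rw [sign_permCongr, sign_sumCongr, sign_c3Hom, mul_one]

end Exist

section Final

theorem card_sylow_perm (m : ℕ) (P : Sylow 2 (Perm (Fin m))) : Nat.card P = 2 ^ h m := by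
  haveI : Fact (Nat.Prime 2) := ⟨Nat.prime_two⟩
  rw [Sylow.card_eq_multiplicity, Nat.card_perm]
  simp [h, Nat.factorization_def _ Nat.prime_two]

theorem card_sylow_alt (m : ℕ) (hm : 2 ≤ m) (P : Sylow 2 (alternatingGroup (Fin m))) :
    2 * Nat.card P = 2 ^ h m := by
  haveI : Fact (Nat.Prime 2) := ⟨Nat.prime_two⟩
  haveI : Nontrivial (Fin m) := Fin.nontrivial_iff_two_le.2 hm
  have h1 : 2 * Nat.card (alternatingGroup (Fin m)) = m ! := by
    rw [two_mul_nat_card_alternatingGroup, Nat.card_perm]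
    simp
  have hpos : Nat.card (alternatingGroup (Fin m)) ≠ 0 := Nat.card_pos.ne'
  rw [Sylow.card_eq_multiplicity, Nat.factorization_def _ Nat.prime_two, h, ← h1,
    padicValNat.mul (by norm_num) hpos, padicValNat.self (by norm_num), pow_add, pow_one]

theorem h_large {m : ℕ} (hm : 2 ≤ m) : 1 ≤ h m := by
  have h1 : h 2 = 1 := by
    have := h_succ 1
    have h2 : h 1 = h 0 + padicValNat 2 1 := h_succ 0
    have h3 : h 0 = 0 := by simp [h]
    simp at this h2
    omega
  have := h_mono hm
  omega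

theorem card_sylow_alt' (m : ℕ) (hm : 2 ≤ m) (P : Sylow 2 (alternatingGroup (Fin m))) :
    Nat.card P = 2 ^ (h m - 1) := by
  have h1 := card_sylow_alt m hm P
  have h2 := h_large hm
  obtain ⟨k, hk⟩ : ∃ k, h m = k + 1 := ⟨h m - 1, by omega⟩
  rw [hk, pow_succ] at h1
  rw [hk, Nat.add_sub_cancel]
  omega

theorem nilp_map {m : ℕ} (N : Subgroup (alternatingGroup (Fin m))) (hN : Group.IsNilpotent N) :
    Group.IsNilpotent (N.map (alternatingGroup (Fin m)).subtype) :=
  Group.nilpotent_of_surjective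
    (N.equivMapOfInjective _ (alternatingGroup (Fin m)).subtype_injective).toMonoidHom
    (N.equivMapOfInjective _ (alternatingGroup (Fin m)).subtype_injective).surjective

theorem card_map_alt {m : ℕ} (N : Subgroup (alternatingGroup (Fin m))) :
    Nat.card (N.map (alternatingGroup (Fin m)).subtype) = Nat.card N :=
  Subgroup.card_map_of_injective (alternatingGroup (Fin m)).subtype_injective

theorem map_le_alt {m : ℕ} (N : Subgroup (alternatingGroup (Fin m))) :
    N.map (alternatingGroup (Fin m)).subtype ≤ alternatingGroup (Fin m) := by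
  rintro _ ⟨a, -, rfl⟩
  exact a.2

/-- The symmetric group statement. -/
theorem sym_main (n : ℕ) (hn : n % 4 = 3) (P : Sylow 2 (Perm (Fin (n - 3)))) :
    (∀ N : Subgroup (Perm (Fin n)), Group.IsNilpotent N → Nat.card N ≤ 3 * Nat.card P) ∧
    (∃ M : Subgroup (Perm (Fin n)), Group.IsNilpotent M ∧ Nat.card M = 3 * Nat.card P ∧
      Nonempty (M ≃* (↥(P : Subgroup (Perm (Fin (n - 3)))) × Multiplicative (ZMod 3)))) ∧
    (∀ N₁ N₂ : Subgroup (Perm (Fin n)), Group.IsNilpotent N₁ → Group.IsNilpotent N₂ →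
      Nat.card N₁ = 3 * Nat.card P → Nat.card N₂ = 3 * Nat.card P →
      ∃ g : Perm (Fin n), N₂ = N₁.map (MulAut.conj g).toMonoidHom) := by
  classical
  haveI : Fact (Nat.Prime 2) := ⟨Nat.prime_two⟩
  have hP := card_sylow_perm (n - 3) P
  have hcardX : Fintype.card (Fin n) = n := Fintype.card_fin n
  refine ⟨fun N hN => ?_, ?_, fun N₁ N₂ h₁ h₂ hc₁ hc₂ => ?_⟩
  · have h1 := main n ↥N (Fin n) (by simp)
    rw [B_eq hn] at h1
    rw [hP]
    exact h1
  · obtain ⟨ph, hph, -⟩ := exists_emb (n := n) (P : Subgroup (Perm (Fin (n - 3)))).subtype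
      (Subgroup.subtype_injective _) (by rw [Fintype.card_fin]; omega)
    haveI : Group.IsNilpotent ↥(P : Subgroup (Perm (Fin (n - 3)))) := P.isPGroup'.isNilpotent
    haveI : Group.IsNilpotent ph.range :=
      Group.nilpotent_of_surjective ph.rangeRestrict ph.rangeRestrict_surjective
    refine ⟨ph.range, inferInstance, ?_, ⟨(MonoidHom.ofInjective hph).symm⟩⟩
    rw [Nat.card_congr (MonoidHom.ofInjective hph).toEquiv.symm, Nat.card_prod]
    have : Nat.card (Multiplicative (ZMod 3)) = 3 := by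
      simp [Nat.card_eq_fintype_card, ZMod.card]
    rw [this, mul_comm]
  · rw [hP] at hc₁ hc₂
    obtain ⟨w, -, hw⟩ := conj_main (X := Fin n) ⊤ N₁ N₂ (a := h (n - 3))
      (by rw [hcardX]; exact hn) h₁ h₂ le_top le_top hc₁ hc₂ (by rw [hcardX]; omega)
      (fun z₁ z₂ _ _ h1 h2 => hconj_top z₁ z₂ h1 h2)
      (by
        intro s hs hd
        rw [inf_top_eq, card_Rng, show s.card = n - 3 by rw [hcardX] at hs; omega] at hd
        have := (padicValNat_dvd_iff_le (p := 2) (Nat.factorial_ne_zero _)).1 hd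
        have h3 : h (n - 3) = padicValNat 2 (n - 3)! := rfl
        omega)
    exact ⟨w, hw⟩

/-- The alternating bound in the form of the statements. -/
theorem alt_card_bound {n : ℕ} (N : Subgroup (alternatingGroup (Fin n))) (hN : Group.IsNilpotent N)
    (h2 : 2 ≤ n) (h3 : n ≠ 3) (h5 : n ≠ 5) (h6 : n ≠ 6) (h9 : n ≠ 9) :
    2 * Nat.card N ≤ B n := by
  have := alt_bound (X := Fin n) (N.map (alternatingGroup (Fin n)).subtype) (map_le_alt N)
    (nilp_map N hN) (by rwa [Fintype.card_fin]) (by rwa [Fintype.card_fin]) (by rwa [Fintype.card_fin])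
    (by rwa [Fintype.card_fin]) (by rwa [Fintype.card_fin])
  rwa [card_map_alt, Fintype.card_fin] at this

/-- The alternating group statement for `n ≡ 3`. -/
theorem alt_main (n : ℕ) (hn : n % 4 = 3) (h7 : 7 ≤ n) (P : Sylow 2 (alternatingGroup (Fin (n - 3)))) :
    (∀ N : Subgroup (alternatingGroup (Fin n)), Group.IsNilpotent N → Nat.card N ≤ 3 * Nat.card P) ∧
    (∃ M : Subgroup (alternatingGroup (Fin n)), Group.IsNilpotent M ∧ Nat.card M = 3 * Nat.card P ∧
      Nonempty (M ≃* (↥(P : Subgroup (alternatingGroup (Fin (n - 3)))) × Multiplicative (ZMod 3)))) ∧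
    (∀ N₁ N₂ : Subgroup (alternatingGroup (Fin n)), Group.IsNilpotent N₁ → Group.IsNilpotent N₂ →
      Nat.card N₁ = 3 * Nat.card P → Nat.card N₂ = 3 * Nat.card P →
      ∃ g : alternatingGroup (Fin n), N₂ = N₁.map (MulAut.conj g).toMonoidHom) := by
  classical
  haveI : Fact (Nat.Prime 2) := ⟨Nat.prime_two⟩
  have hP := card_sylow_alt (n - 3) (by omega) P
  have hP' := card_sylow_alt' (n - 3) (by omega) P
  have hcardX : Fintype.card (Fin n) = n := Fintype.card_fin n
  refine ⟨fun N hN => ?_, ?_, fun N₁ N₂ h₁ h₂ hc₁ hc₂ => ?_⟩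
  · have h1 := alt_card_bound N hN (by omega) (by omega) (by omega) (by omega) (by omega)
    rw [B_eq hn, ← hP] at h1
    omega
  · obtain ⟨ph, hph, hsign⟩ := exists_emb (n := n)
      ((alternatingGroup (Fin (n - 3))).subtype.comp (P : Subgroup (alternatingGroup (Fin (n - 3)))).subtype)
      ((Subgroup.subtype_injective _).comp (Subgroup.subtype_injective _))
      (by rw [Fintype.card_fin]; omega)
    have hmem : ∀ x, ph x ∈ alternatingGroup (Fin n) := by
      intro x
      rw [mem_alternatingGroup, hsign]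
      exact x.1.1.2
    let ph' := ph.codRestrict (alternatingGroup (Fin n)) hmem
    have hph' : Function.Injective ph' := by
      intro a b hab
      apply hph
      exact congrArg Subtype.val hab
    haveI : Group.IsNilpotent ↥(P : Subgroup (alternatingGroup (Fin (n - 3)))) := P.isPGroup'.isNilpotent
    haveI : Group.IsNilpotent ph'.range :=
      Group.nilpotent_of_surjective ph'.rangeRestrict ph'.rangeRestrict_surjective
    refine ⟨ph'.range, inferInstance, ?_, ⟨(MonoidHom.ofInjective hph').symm⟩⟩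
    rw [Nat.card_congr (MonoidHom.ofInjective hph').toEquiv.symm, Nat.card_prod]
    have : Nat.card (Multiplicative (ZMod 3)) = 3 := by
      simp [Nat.card_eq_fintype_card, ZMod.card]
    rw [this, mul_comm]
  · rw [hP'] at hc₁ hc₂
    have hh := h_large (m := n - 3) (by omega)
    obtain ⟨w, hwA, hw⟩ := conj_main (X := Fin n) (alternatingGroup (Fin n))
      (N₁.map (alternatingGroup (Fin n)).subtype) (N₂.map (alternatingGroup (Fin n)).subtype)
      (a := h (n - 3) - 1)
      (by rw [hcardX]; exact hn) (nilp_map N₁ h₁) (nilp_map N₂ h₂) (map_le_alt N₁) (map_le_alt N₂)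
      (by rw [card_map_alt]; exact hc₁) (by rw [card_map_alt]; exact hc₂) (by rw [hcardX]; omega)
      (fun z₁ z₂ ha₁ ha₂ h1 h2 => hconj_alt (by omega) z₁ z₂ ha₁ ha₂ h1 h2)
      (by
        intro s hs hd
        have hs2 : s.card = n - 3 := by rw [hcardX] at hs; omega
        have h4 := card_Rng_alt s (by omega)
        rw [hs2] at h4
        have h5 : 2 * 2 ^ (h (n - 3) - 1 + 1) ∣ (n - 3)! := by
          rw [← h4]
          exact Nat.mul_dvd_mul_left _ hd
        have h6 : 2 ^ (h (n - 3) + 1) ∣ (n - 3)! := by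
          convert h5 using 1
          rw [← pow_succ']
          congr 1
          omega
        have := (padicValNat_dvd_iff_le (p := 2) (Nat.factorial_ne_zero _)).1 h6
        have h3 : h (n - 3) = padicValNat 2 (n - 3)! := rfl
        omega)
    refine ⟨⟨w, hwA⟩, ?_⟩
    apply Subgroup.map_injective (alternatingGroup (Fin n)).subtype_injective
    rw [hw, Subgroup.map_map, Subgroup.map_map]
    congr 1

/-- The alternating group statement for `n ≢ 3`. -/
theorem alt_main' (n : ℕ) (hn : n % 4 ≠ 3) (h5 : n ≠ 5) (h6 : n ≠ 6) (h9 : n ≠ 9)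
    (N : Subgroup (alternatingGroup (Fin n))) (hN : Group.IsNilpotent N)
    (P : Sylow 2 (alternatingGroup (Fin n))) : Nat.card N ≤ Nat.card P := by
  by_cases h2 : 2 ≤ n
  · have h1 := alt_card_bound N hN h2 (by omega) h5 h6 h9
    rw [B_ne hn, ← card_sylow_alt n h2 P] at h1
    omega
  · have hsub : Subsingleton (Perm (Fin n)) := by
      have : Subsingleton (Fin n) := by
        rw [← Fintype.card_le_one_iff_subsingleton, Fintype.card_fin]
        omega
      infer_instance
    have : Nat.card N = 1 := by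
      rw [Nat.card_eq_one_iff_unique]
      refine ⟨⟨fun a b => ?_⟩, ⟨1⟩⟩
      apply Subtype.ext
      apply Subtype.ext
      exact Subsingleton.elim _ _
    rw [this]
    exact Nat.card_pos

end Final

end Cfsg.Agent.Lib.Classical.Herm.NilpSym
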