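import Mathlib
import Cfsg.Agent.Lib.Classical.Herm.SU3Witness
import Cfsg.Agent.Lib.Classical.Symp.OrdModels

/-!
# Element orders in unitary groups: models

The adjoint, transfer from abstract isometries to matrices preserving the standard form, block sums, tori and
unipotent blocks, and the twist by an element of prime order.
-/

set_option autoImplicit false
set_option linter.unusedSectionVars false

namespace Cfsg.Agent.Lib.Classical.Herm.OrdModels

universe u

open Cfsg Cfsg.Agent.Lib.Classical.Herm.Basic Cfsg.Agent.Lib.Classical.Herm.GU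
open Cfsg.Agent.Lib.Classical.Herm.SU
open Cfsg.Agent.Lib.Classical.Herm.HermOnb Cfsg.Agent.Lib.Classical.Herm.SU3Witness
open Module Matrix

variable {F : Type*} [Field F] [Fintype F] {q : ℕ}

section Adj

variable {n : ℕ}

/-- The adjoint for the standard Hermitian form. -/
noncomputable def adj (hF : Fintype.card F = q ^ 2) (M : Matrix (Fin n) (Fin n) F) :
    Matrix (Fin n) (Fin n) F := (M.map (sigma hF))ᵀ

theorem adj_apply (hF : Fintype.card F = q ^ 2) (M : Matrix (Fin n) (Fin n) F) (i j : Fin n) :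
    adj hF M i j = M j i ^ q := rfl

theorem adj_one (hF : Fintype.card F = q ^ 2) : adj hF (1 : Matrix (Fin n) (Fin n) F) = 1 := by
  unfold adj
  rw [Matrix.map_one _ (map_zero _) (map_one _), transpose_one]

theorem adj_mul (hF : Fintype.card F = q ^ 2) (M N : Matrix (Fin n) (Fin n) F) :
    adj hF (M * N) = adj hF N * adj hF M := by
  unfold adj
  rw [Matrix.map_mul, transpose_mul]

theorem adj_add (hF : Fintype.card F = q ^ 2) (M N : Matrix (Fin n) (Fin n) F) :
    adj hF (M + N) = adj hF M + adj hF N := by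
  unfold adj
  rw [Matrix.map_add _ (map_add _), transpose_add]

theorem adj_sub (hF : Fintype.card F = q ^ 2) (M N : Matrix (Fin n) (Fin n) F) :
    adj hF (M - N) = adj hF M - adj hF N := by
  unfold adj
  rw [Matrix.map_sub _ (map_sub _), transpose_sub]

theorem adj_zero (hF : Fintype.card F = q ^ 2) : adj hF (0 : Matrix (Fin n) (Fin n) F) = 0 := by
  unfold adj
  rw [Matrix.map_zero _ (map_zero _), transpose_zero]

theorem adj_smul (hF : Fintype.card F = q ^ 2) (c : F) (M : Matrix (Fin n) (Fin n) F) :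
    adj hF (c • M) = c ^ q • adj hF M := by
  ext i j
  simp [adj_apply, mul_pow]

theorem adj_adj (hF : Fintype.card F = q ^ 2) (M : Matrix (Fin n) (Fin n) F) :
    adj hF (adj hF M) = M := by
  ext i j
  rw [adj_apply, adj_apply, pow_q_pow_q hF]

theorem adj_pow (hF : Fintype.card F = q ^ 2) (M : Matrix (Fin n) (Fin n) F) (k : ℕ) :
    adj hF (M ^ k) = (adj hF M) ^ k := by
  induction k with
  | zero => simp [adj_one]
  | succ k ih => rw [pow_succ, adj_mul, ih, pow_succ']

theorem adj_aeval (hF : Fintype.card F = q ^ 2) (M : Matrix (Fin n) (Fin n) F) (f : Polynomial F) :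
    adj hF (Polynomial.aeval M f) = Polynomial.aeval (adj hF M) (f.map (sigma hF)) := by
  induction f using Polynomial.induction_on' with
  | add f g hf hg => rw [map_add, adj_add, hf, hg, Polynomial.map_add, map_add]
  | monomial k c =>
    rw [Polynomial.aeval_monomial, Polynomial.map_monomial, Polynomial.aeval_monomial,
      ← Algebra.smul_def, ← Algebra.smul_def, adj_smul, adj_pow]
    rfl

theorem det_adj (hF : Fintype.card F = q ^ 2) (M : Matrix (Fin n) (Fin n) F) :
    (adj hF M).det = M.det ^ q := by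
  unfold adj
  rw [det_transpose]
  exact ((sigma hF).map_det M).symm

theorem hermForm_mulVec (hF : Fintype.card F = q ^ 2) (M : Matrix (Fin n) (Fin n) F)
    (u v : Fin n → F) : hermForm n F q (M *ᵥ u) v = hermForm n F q u (adj hF M *ᵥ v) := by
  simp only [hermForm, mulVec, dotProduct, adj_apply]
  simp_rw [pow_q_sum hF, mul_pow, pow_q_pow_q hF, Finset.sum_mul, Finset.mul_sum]
  rw [Finset.sum_comm]
  refine Finset.sum_congr rfl fun i _ => Finset.sum_congr rfl fun j _ => ?_
  ring

theorem preserves_iff_adj (hF : Fintype.card F = q ^ 2) (M : Matrix (Fin n) (Fin n) F) :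
    Preserves q M ↔ adj hF M * M = 1 := by
  constructor
  · intro h
    have h1 := transpose_mul_map hF M h
    have h2 := congrArg (fun W => W.map (sigma hF)) h1
    simp only [Matrix.map_mul] at h2
    rw [Matrix.map_one _ (map_zero _) (map_one _)] at h2
    have h3 : (M.map (sigma hF)).map (sigma hF) = M := by
      ext i j
      simp
      exact pow_q_pow_q hF _
    rw [h3] at h2
    exact h2
  · intro h u v
    rw [hermForm_mulVec hF, mulVec_mulVec, h, one_mulVec]

theorem mul_adj_of_preserves (hF : Fintype.card F = q ^ 2) {M : Matrix (Fin n) (Fin n) F}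
    (h : Preserves q M) : M * adj hF M = 1 :=
  mul_eq_one_comm.1 ((preserves_iff_adj hF M).1 h)

theorem preserves_pow {M : Matrix (Fin n) (Fin n) F} (h : Preserves q M) (t : ℕ) :
    Preserves q (M ^ t) := by
  induction t with
  | zero =>
    intro u v
    simp
  | succ t ih =>
    rw [pow_succ]
    exact preserves_mul ih h

/-- A scalar isometry has norm one. -/
theorem norm_of_scalar (hF : Fintype.card F = q ^ 2) (hn : 1 ≤ n) {c : F}
    (h : Preserves q (c • (1 : Matrix (Fin n) (Fin n) F))) : c ^ (q + 1) = 1 := by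
  have h1 := (preserves_iff_adj hF _).1 h
  rw [adj_smul, adj_one] at h1
  have h2 := congrFun (congrFun h1 ⟨0, hn⟩) ⟨0, hn⟩
  have h3 : (c ^ q • (1 : Matrix (Fin n) (Fin n) F)) * (c • (1 : Matrix (Fin n) (Fin n) F)) =
      (c ^ q * c) • (1 : Matrix (Fin n) (Fin n) F) := by
    rw [smul_mul_smul_comm, one_mul]
  rw [h3] at h2
  simp only [Matrix.smul_apply, one_apply_eq, smul_eq_mul, mul_one] at h2
  rw [pow_succ]
  exact h2

end Adj

section Transfer

/-- Transfer of an abstract isometry to a matrix preserving the standard form. -/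
theorem transfer (hF : Fintype.card F = q ^ 2) {n : ℕ} {V : Type u} [AddCommGroup V] [Module F V]
    [FiniteDimensional F V] (hV : finrank F V = n) {h : V → V → F} (hh : IsHerm q h) (g : V →ₗ[F] V)
    (hg : ∀ x y, h (g x) (g y) = h x y) :
    ∃ M : Matrix (Fin n) (Fin n) F, Preserves q M ∧ M.det = LinearMap.det g ∧
      (∀ (t : ℕ) (c : F), M ^ t = c • (1 : Matrix (Fin n) (Fin n) F) ↔
        g ^ t = c • (1 : Module.End F V)) ∧
      ((∃ v, v ≠ 0 ∧ g v = v) → ∃ v, v ≠ 0 ∧ M *ᵥ v = v) := by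
  classical
  obtain ⟨Φ, hΦ⟩ := exists_isometry hF n V h hh hV
  let Ψ : Module.End F V ≃ₐ[F] Matrix (Fin n) (Fin n) F :=
    (Φ.symm.conjAlgEquiv F).trans LinearMap.toMatrixAlgEquiv'
  have hΨ : ∀ (S : Module.End F V) (u : Fin n → F), Ψ S *ᵥ u = Φ.symm (S (Φ u)) := by
    intro S u
    change LinearMap.toMatrix' (Φ.symm.conjAlgEquiv F S) *ᵥ u = _
    rw [LinearMap.toMatrix'_mulVec, LinearEquiv.conjAlgEquiv_apply]
    rfl
  refine ⟨Ψ g, ?_, ?_, ?_, ?_⟩
  · intro u v
    rw [hΨ, hΨ, ← hΦ, ← hΦ, LinearEquiv.apply_symm_apply, LinearEquiv.apply_symm_apply, hg]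
  · change (LinearMap.toMatrix' (Φ.symm.conjAlgEquiv F g)).det = _
    rw [LinearMap.det_toMatrix', LinearEquiv.conjAlgEquiv_apply]
    exact LinearMap.det_conj g Φ.symm
  · intro t c
    have h1 : (Ψ g) ^ t = Ψ (g ^ t) := (map_pow Ψ g t).symm
    have h2 : c • (1 : Matrix (Fin n) (Fin n) F) = Ψ (c • 1) := by
      rw [map_smul, map_one]
    rw [h1, h2]
    exact Ψ.injective.eq_iff
  · rintro ⟨v, hv0, hv⟩
    refine ⟨Φ.symm v, ?_, ?_⟩
    · simpa using hv0
    · rw [hΨ, LinearEquiv.apply_symm_apply, hv]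

/-- `o` is the order of a matrix in `SU_k`. -/
def IsU (F : Type*) [Field F] [Fintype F] (q k o : ℕ) : Prop :=
  ∃ M : Matrix (Fin k) (Fin k) F, Preserves q M ∧ M.det = 1 ∧ ∀ t : ℕ, M ^ t = 1 ↔ o ∣ t

/-- `o` is the order of a matrix in `SU_l` with a non-zero fixed vector. -/
def IsUF (F : Type*) [Field F] [Fintype F] (q l o : ℕ) : Prop :=
  ∃ M : Matrix (Fin l) (Fin l) F, Preserves q M ∧ M.det = 1 ∧ (∀ t : ℕ, M ^ t = 1 ↔ o ∣ t) ∧
    ∃ v, v ≠ 0 ∧ M *ᵥ v = v

theorem IsUF.isU {l o : ℕ} (h : IsUF F q l o) : IsU F q l o := by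
  obtain ⟨M, h1, h2, h3, -⟩ := h
  exact ⟨M, h1, h2, h3⟩

section Prod

variable {k l : ℕ}

/-- The common part of block constructions on the product of two coordinate spaces. -/
theorem exists_prod (hF : Fintype.card F = q ^ 2) (B₁ : Matrix (Fin k) (Fin k) F)
    (B₂ : Matrix (Fin l) (Fin l) F) {H : (Fin k → F) × (Fin l → F) → (Fin k → F) × (Fin l → F) → F}
    (hH : IsHerm q H)
    (hiso : ∀ x y : (Fin k → F) × (Fin l → F),
      H (B₁ *ᵥ x.1, B₂ *ᵥ x.2) (B₁ *ᵥ y.1, B₂ *ᵥ y.2) = H x y) :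
    ∃ M : Matrix (Fin (k + l)) (Fin (k + l)) F, Preserves q M ∧ M.det = B₁.det * B₂.det ∧
      (∀ (t : ℕ) (c : F), M ^ t = c • (1 : Matrix _ _ F) ↔
        (B₁ ^ t = c • (1 : Matrix _ _ F) ∧ B₂ ^ t = c • (1 : Matrix _ _ F))) ∧
      ((∃ v, v ≠ 0 ∧ B₁ *ᵥ v = v) → ∃ v, v ≠ 0 ∧ M *ᵥ v = v) := by
  classical
  let V := (Fin k → F) × (Fin l → F)
  let T : Module.End F V := LinearMap.prodMap (Matrix.toLin' B₁) (Matrix.toLin' B₂)
  have hTapp : ∀ u : V, T u = (B₁ *ᵥ u.1, B₂ *ᵥ u.2) := fun u => rfl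
  have hdim : finrank F V = k + l := by
    change finrank F ((Fin k → F) × (Fin l → F)) = _
    rw [Module.finrank_prod, Module.finrank_fin_fun, Module.finrank_fin_fun]
  obtain ⟨M, hM1, hM2, hM3, hM4⟩ := transfer hF hdim hH T (fun x y => by
    rw [hTapp, hTapp]
    exact hiso x y)
  refine ⟨M, hM1, ?_, ?_, ?_⟩
  · rw [hM2]
    change LinearMap.det (LinearMap.prodMap (Matrix.toLin' B₁) (Matrix.toLin' B₂)) = _
    rw [LinearMap.det_prodMap, LinearMap.det_toLin', LinearMap.det_toLin']
  · intro t c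
    rw [hM3]
    have hpow : ∀ (t : ℕ) (u : V), (T ^ t) u = ((B₁ ^ t) *ᵥ u.1, (B₂ ^ t) *ᵥ u.2) := by
      intro t
      induction t with
      | zero => intro u; simp
      | succ t ih =>
        intro u
        rw [pow_succ, Module.End.mul_apply, ih, hTapp]
        refine Prod.ext ?_ ?_
        · change (B₁ ^ t) *ᵥ (B₁ *ᵥ u.1) = (B₁ ^ (t + 1)) *ᵥ u.1
          rw [mulVec_mulVec, pow_succ]
        · change (B₂ ^ t) *ᵥ (B₂ *ᵥ u.2) = (B₂ ^ (t + 1)) *ᵥ u.2
          rw [mulVec_mulVec, pow_succ]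
    have hmat : ∀ (n : ℕ) (M : Matrix (Fin n) (Fin n) F) (c : F),
        M = c • 1 ↔ ∀ w, M *ᵥ w = c • w := by
      intro n M c
      constructor
      · rintro rfl w
        simp [smul_mulVec]
      · intro h
        apply Matrix.toLin'.injective
        refine LinearMap.ext fun x => ?_
        simp [h]
    rw [hmat, hmat]
    constructor
    · intro h
      refine ⟨fun w => ?_, fun w => ?_⟩
      · have := congrArg Prod.fst (congrFun (congrArg DFunLike.coe h) (w, (0 : Fin l → F)))
        rw [hpow] at this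
        exact this
      · have := congrArg Prod.snd (congrFun (congrArg DFunLike.coe h) ((0 : Fin k → F), w))
        rw [hpow] at this
        exact this
    · rintro ⟨h1, h2⟩
      refine LinearMap.ext fun u => ?_
      rw [hpow, h1, h2]
      rfl
  · rintro ⟨v, hv0, hv⟩
    apply hM4
    refine ⟨(v, 0), ?_, ?_⟩
    · intro h
      exact hv0 (congrArg Prod.fst h)
    · rw [hTapp]
      simp [hv]

/-- The orthogonal sum of two coordinate spaces. -/
theorem isHerm_sum (hF : Fintype.card F = q ^ 2) (k l : ℕ) :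
    IsHerm q (fun x y : (Fin k → F) × (Fin l → F) =>
      hermForm k F q x.1 y.1 + hermForm l F q x.2 y.2) where
  add_left := fun x y z => by
    simp only [Prod.fst_add, Prod.snd_add, hermForm_add_left]
    ring
  smul_left := fun c x y => by
    simp only [Prod.smul_fst, Prod.smul_snd, hermForm_smul_left]
    ring
  herm := fun x y => by
    rw [pow_q_add hF, hermForm_pow_q hF, hermForm_pow_q hF]
  nondeg := fun x hx => by
    refine Prod.ext ?_ ?_
    · apply hermForm_nondegenerate_left hF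
      intro w
      have := hx (w, 0)
      simpa [hermForm_zero_right hF] using this
    · apply hermForm_nondegenerate_left hF
      intro w
      have := hx (0, w)
      simpa [hermForm_zero_right hF] using this

/-- The hyperbolic sum of two copies of a coordinate space. -/
theorem isHerm_hyp (hF : Fintype.card F = q ^ 2) (k : ℕ) :
    IsHerm q (fun x y : (Fin k → F) × (Fin k → F) =>
      hermForm k F q x.1 y.2 + hermForm k F q x.2 y.1) where
  add_left := fun x y z => by
    simp only [Prod.fst_add, Prod.snd_add, hermForm_add_left]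
    ring
  smul_left := fun c x y => by
    simp only [Prod.smul_fst, Prod.smul_snd, hermForm_smul_left]
    ring
  herm := fun x y => by
    rw [pow_q_add hF, hermForm_pow_q hF, hermForm_pow_q hF, add_comm]
  nondeg := fun x hx => by
    refine Prod.ext ?_ ?_
    · apply hermForm_nondegenerate_left hF
      intro w
      have := hx (0, w)
      simpa [hermForm_zero_right hF] using this
    · apply hermForm_nondegenerate_left hF
      intro w
      have := hx (w, 0)
      simpa [hermForm_zero_right hF] using this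

/-- Block sums with scalars. -/
theorem exists_block (hF : Fintype.card F = q ^ 2) (A₁ : Matrix (Fin k) (Fin k) F)
    (A₂ : Matrix (Fin l) (Fin l) F) (h₁ : Preserves q A₁) (h₂ : Preserves q A₂) (a b : F)
    (ha : a ^ (q + 1) = 1) (hb : b ^ (q + 1) = 1) :
    ∃ M : Matrix (Fin (k + l)) (Fin (k + l)) F, Preserves q M ∧
      M.det = a ^ k * A₁.det * (b ^ l * A₂.det) ∧
      (∀ (t : ℕ) (c : F), M ^ t = c • (1 : Matrix _ _ F) ↔
        ((a ^ t • A₁ ^ t = c • (1 : Matrix _ _ F)) ∧ (b ^ t • A₂ ^ t = c • (1 : Matrix _ _ F)))) ∧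
      ((∃ v, v ≠ 0 ∧ (a • A₁) *ᵥ v = v) → ∃ v, v ≠ 0 ∧ M *ᵥ v = v) := by
  have hscal : ∀ (m : ℕ) (c : F) (A : Matrix (Fin m) (Fin m) F) (u v : Fin m → F),
      c ^ (q + 1) = 1 → Preserves q A →
      hermForm m F q ((c • A) *ᵥ u) ((c • A) *ᵥ v) = hermForm m F q u v := by
    intro m c A u v hc hA
    rw [smul_mulVec, smul_mulVec, hermForm_smul_left, hermForm_smul_right, hA]
    rw [pow_succ] at hc
    rw [← mul_assoc, mul_comm c, hc, one_mul]
  obtain ⟨M, hM1, hM2, hM3, hM4⟩ := exists_prod hF (a • A₁) (b • A₂) (isHerm_sum hF k l)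
    (fun x y => by
      simp only
      rw [hscal k a A₁ _ _ ha h₁, hscal l b A₂ _ _ hb h₂])
  refine ⟨M, hM1, ?_, ?_, hM4⟩
  · rw [hM2, det_smul, det_smul, Fintype.card_fin, Fintype.card_fin]
  · intro t c
    rw [hM3, smul_pow, smul_pow]

/-- Extending by the identity. -/
theorem IsUF.extend {l o : ℕ} (hF : Fintype.card F = q ^ 2) (h : IsUF F q l o) (j : ℕ) :
    IsUF F q (l + j) o := by
  obtain ⟨A, h1, h2, h3, v, hv0, hv⟩ := h
  obtain ⟨M, hM1, hM2, hM3, hM4⟩ := exists_block hF A (1 : Matrix (Fin j) (Fin j) F) h1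
    (fun u v => by simp) (1 : F) (1 : F) (by simp) (by simp)
  refine ⟨M, hM1, ?_, fun t => ?_, hM4 ⟨v, hv0, by rw [one_smul, hv]⟩⟩
  · rw [hM2]
    simp [h2]
  · have := hM3 t 1
    simp only [one_pow, one_smul] at this
    rw [this, h3]
    simp

end Prod

/-- The twist: a block sum multiplied by an element of prime order `r ∣ q + 1`, `r ∤ n`. -/
theorem exists_twist (hF : Fintype.card F = q ^ 2) {k l o₁ o₂ : ℕ} (hk : 1 ≤ k)
    (h₁ : IsU F q k o₁) (h₂ : IsUF F q l o₂) {r : ℕ} (hr : r.Prime) (hrq : r ∣ q + 1)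
    (hrn : ¬ r ∣ k + l) (ho₁ : ¬ r ∣ o₁) (ho₂ : ¬ r ∣ o₂) :
    ∃ z : PSU (k + l) F q, orderOf z = r * Nat.lcm o₁ o₂ := by
  classical
  obtain ⟨A₁, hP₁, hd₁, hA₁⟩ := h₁
  obtain ⟨A₂, hP₂, hd₂, hA₂, v, hv0, hv⟩ := h₂
  have hq := two_le_q hF
  have hdv : r ∣ Fintype.card F - 1 := by
    rw [hF]
    refine hrq.trans ⟨q - 1, ?_⟩
    obtain ⟨s, rfl⟩ : ∃ s, q = s + 1 := ⟨q - 1, by omega⟩
    simp only [Nat.add_sub_cancel]
    have : (s + 1) ^ 2 = (s + 1 + 1) * s + 1 := by ring
    omega
  obtain ⟨ξ, hξ0, hξ⟩ := exists_root_of_unity hdv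
  have hξr : ξ ^ r = 1 := (hξ r).2 dvd_rfl
  have hξq : ξ ^ (q + 1) = 1 := (hξ _).2 hrq
  set a : F := ξ ^ l with ha
  set b : F := (ξ⁻¹) ^ k with hb
  have ha1 : a ^ (q + 1) = 1 := by
    rw [ha, ← pow_mul, mul_comm, pow_mul, hξq, one_pow]
  have hb1 : b ^ (q + 1) = 1 := by
    rw [hb, ← pow_mul, mul_comm, pow_mul, inv_pow, hξq, inv_one, one_pow]
  have har : a ^ r = 1 := by
    rw [ha, ← pow_mul, mul_comm, pow_mul, hξr, one_pow]
  have hbr : b ^ r = 1 := by
    rw [hb, ← pow_mul, mul_comm, pow_mul, inv_pow, hξr, inv_one, one_pow]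
  have ha0 : a ≠ 0 := pow_ne_zero _ hξ0
  have hb0 : b ≠ 0 := pow_ne_zero _ (inv_ne_zero hξ0)
  obtain ⟨M, hM1, hM2, hM3, -⟩ := exists_block hF A₁ A₂ hP₁ hP₂ a b ha1 hb1
  have hdet : M.det = 1 := by
    rw [hM2, hd₁, hd₂, mul_one, mul_one, ha, hb, ← pow_mul, ← pow_mul, inv_pow, mul_comm l k]
    exact mul_inv_cancel₀ (pow_ne_zero _ hξ0)
  have hcop : Nat.Coprime r (Nat.lcm o₁ o₂) := by
    rw [hr.coprime_iff_not_dvd, hr.dvd_lcm]
    rintro (h | h)
    · exact ho₁ h
    · exact ho₂ h
  refine exists_order_matrix hF (isHerm_hermForm hF (k + l)) M hM1 hdet _ fun t => ?_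
  constructor
  · rintro ⟨c, hc⟩
    obtain ⟨h3, h4⟩ := (hM3 t c).1 hc
    have hv' : ∀ t : ℕ, (A₂ ^ t) *ᵥ v = v := by
      intro t
      induction t with
      | zero => simp
      | succ t ih => rw [pow_succ, ← mulVec_mulVec, hv, ih]
    have hv2 := congrArg (fun W => W *ᵥ v) h4
    simp only [smul_mulVec, hv', one_mulVec] at hv2
    have hcb : b ^ t = c := by
      have h5 : (b ^ t - c) • v = 0 := by
        rw [sub_smul, hv2, sub_self]
      rcases smul_eq_zero.1 h5 with h6 | h6
      · exact sub_eq_zero.1 h6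
      · exact absurd h6 hv0
    have hbt : b ^ t ≠ 0 := pow_ne_zero _ hb0
    have hat : a ^ t ≠ 0 := pow_ne_zero _ ha0
    have hA2 : A₂ ^ t = 1 := by
      rw [← hcb] at h4
      exact smul_right_injective _ hbt h4
    have ho₂t : o₂ ∣ t := (hA₂ t).1 hA2
    -- the first block
    have h5 : A₁ ^ t = ((a ^ t)⁻¹ * b ^ t) • (1 : Matrix (Fin k) (Fin k) F) := by
      rw [mul_smul, hcb, ← h3, smul_smul, inv_mul_cancel₀ hat, one_smul]
    have e1 : (a ^ t) ^ r = 1 := by rw [← pow_mul, mul_comm, pow_mul, har, one_pow]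
    have e2 : (b ^ t) ^ r = 1 := by rw [← pow_mul, mul_comm, pow_mul, hbr, one_pow]
    have h6 : (A₁ ^ t) ^ r = 1 := by
      rw [h5, smul_pow, one_pow, mul_pow, inv_pow, e1, e2]
      simp
    have ho₁t : o₁ ∣ t := by
      have h7 : o₁ ∣ t * r := by
        rw [← hA₁, pow_mul]
        exact h6
      exact (Nat.Coprime.dvd_mul_right ((hr.coprime_iff_not_dvd.2 ho₁).symm)).1 h7
    have hA1 : A₁ ^ t = 1 := (hA₁ t).2 ho₁t
    have hab : a ^ t = b ^ t := by
      rw [hA1] at h3
      rw [hcb]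
      have h7 := congrFun (congrFun h3 ⟨0, hk⟩) ⟨0, hk⟩
      simpa using h7
    have hrt : r ∣ t := by
      have h7 : ξ ^ ((k + l) * t) = 1 := by
        have e3 : ξ ^ (k * t) * ((ξ⁻¹) ^ k) ^ t = 1 := by
          rw [← pow_mul, inv_pow]
          exact mul_inv_cancel₀ (pow_ne_zero _ hξ0)
        rw [add_mul, pow_add, pow_mul ξ l t, ← ha, hab, hb]
        exact e3
      have h8 : r ∣ (k + l) * t := (hξ _).1 h7
      exact (hr.dvd_mul.1 h8).resolve_left hrn
    exact hcop.mul_dvd_of_dvd_of_dvd hrt (Nat.lcm_dvd ho₁t ho₂t)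
  · intro h
    have hrt : r ∣ t := (dvd_mul_right _ _).trans h
    have hlt : Nat.lcm o₁ o₂ ∣ t := (dvd_mul_left _ _).trans h
    have h1 : o₁ ∣ t := (Nat.dvd_lcm_left _ _).trans hlt
    have h2 : o₂ ∣ t := (Nat.dvd_lcm_right _ _).trans hlt
    refine ⟨1, (hM3 t 1).2 ⟨?_, ?_⟩⟩
    · obtain ⟨s, rfl⟩ := hrt
      rw [(hA₁ _).2 h1, pow_mul, har, one_pow]
    · obtain ⟨s, rfl⟩ := hrt
      rw [(hA₂ _).2 h2, pow_mul, hbr, one_pow]

end Transfer

section Unip

open Cfsg.Agent.Lib.Classical.Symp.OrdModels (shift shift_zero shift_succ shift_pow_top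
  shift_pow_ne_zero)

variable {m : ℕ}

/-- The antidiagonal Hermitian form, for which the shift is self-adjoint. -/
def revForm (F : Type*) [Field F] (q m : ℕ) (u v : Fin (m + 1) → F) : F :=
  ∑ i : Fin (m + 1), u i * v (Fin.rev i) ^ q

theorem revForm_apply (u v : Fin (m + 1) → F) :
    revForm F q m u v = ∑ i : Fin (m + 1), u i * v (Fin.rev i) ^ q := rfl

theorem isHerm_revForm (hF : Fintype.card F = q ^ 2) : IsHerm q (revForm F q m) where
  add_left := fun x y z => by
    simp only [revForm, Pi.add_apply, add_mul, Finset.sum_add_distrib]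
  smul_left := fun c x y => by
    simp only [revForm, Pi.smul_apply, smul_eq_mul, Finset.mul_sum, mul_assoc]
  herm := fun x y => by
    rw [revForm_apply, revForm_apply, pow_q_sum hF, ← Equiv.sum_comp Fin.revPerm]
    refine Finset.sum_congr rfl fun i _ => ?_
    simp only [Fin.revPerm_apply, Fin.rev_rev]
    rw [mul_pow, pow_q_pow_q hF, mul_comm]
  nondeg := fun x hx => by
    classical
    funext i
    have h1 := hx (Pi.single (Fin.rev i) 1)
    rw [revForm_apply, Finset.sum_eq_single i] at h1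
    · simpa using h1
    · intro j _ hj
      have : Fin.rev j ≠ Fin.rev i := fun h4 => hj (Fin.rev_injective h4)
      simp [this, zero_pow_q hF]
    · simp

theorem revForm_shift (hF : Fintype.card F = q ^ 2) (u v : Fin (m + 1) → F) :
    revForm F q m (shift F m u) v = revForm F q m u (shift F m v) := by
  rw [revForm_apply, revForm_apply, Fin.sum_univ_succ, Fin.sum_univ_castSucc
    (f := fun i => u i * shift F m v (Fin.rev i) ^ q)]
  simp only [shift_zero, zero_mul, zero_add, shift_succ, Fin.rev_last, Fin.rev_castSucc,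
    Fin.rev_succ, zero_pow_q hF, mul_zero, add_zero]

/-- The Cayley transform with parameter `ξ`. -/
noncomputable def cay (F : Type*) [Field F] [Fintype F] (q m : ℕ) (ξ : F) :
    Module.End F (Fin (m + 1) → F) :=
  (1 + ξ • shift F m) * ∑ j ∈ Finset.range (m + 1), (-(ξ ^ q) • shift F m) ^ j

section CayLemmas

variable (ξ : F)

/-- The inverse of `1 + ξ^q N`. -/
theorem cay_aux_inv : (1 + ξ ^ q • shift F m) *
    ∑ j ∈ Finset.range (m + 1), (-(ξ ^ q) • shift F m) ^ j = 1 := by
  have h1 : (1 - (-(ξ ^ q) • shift F m)) * ∑ j ∈ Finset.range (m + 1), (-(ξ ^ q) • shift F m) ^ j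
      = 1 - (-(ξ ^ q) • shift F m) ^ (m + 1) := mul_neg_geom_sum _ _
  have h2 : (-(ξ ^ q) • shift F m) ^ (m + 1) = 0 := by
    rw [smul_pow, shift_pow_top, smul_zero]
  have e : (1 : Module.End F (Fin (m + 1) → F)) - (-(ξ ^ q) • shift F m) = 1 + ξ ^ q • shift F m := by
    module
  rw [h2, sub_zero, e] at h1
  exact h1

theorem cay_isometry (hF : Fintype.card F = q ^ 2) (u v : Fin (m + 1) → F) :
    revForm F q m (cay F q m ξ u) (cay F q m ξ v) = revForm F q m u v := by
  set N : Module.End F (Fin (m + 1) → F) := shift F m with hN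
  set S : Module.End F (Fin (m + 1) → F) := ∑ j ∈ Finset.range (m + 1), (-(ξ ^ q) • N) ^ j with hS
  have hW'S : (1 + ξ ^ q • N) * S = 1 := cay_aux_inv ξ
  have hh := isHerm_revForm (F := F) (q := q) (m := m) hF
  have hadj1 : ∀ a b, revForm F q m ((1 + ξ • N) a) b = revForm F q m a ((1 + ξ ^ q • N) b) := by
    intro a b
    simp only [LinearMap.add_apply, Module.End.one_apply, LinearMap.smul_apply]
    rw [hh.add_left, hh.smul_left, hh.add_right hF, hh.smul_right, pow_q_pow_q hF, hN,
      revForm_shift hF]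
  have hadj2 : ∀ a b, revForm F q m a ((1 + ξ • N) b) = revForm F q m ((1 + ξ ^ q • N) a) b := by
    intro a b
    simp only [LinearMap.add_apply, Module.End.one_apply, LinearMap.smul_apply]
    rw [hh.add_left, hh.smul_left, hh.add_right hF, hh.smul_right, hN, revForm_shift hF]
  have hcomm : (1 + ξ ^ q • N) * (1 + ξ • N) = (1 + ξ • N) * (1 + ξ ^ q • N) := by
    simp only [mul_add, add_mul, one_mul, mul_one, smul_mul_smul_comm, mul_comm (ξ ^ q) ξ]
    abel
  change revForm F q m (((1 + ξ • N) * S) u) (((1 + ξ • N) * S) v) = _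
  have e1 : (1 + ξ ^ q • N) * ((1 + ξ • N) * S) = 1 + ξ • N := by
    rw [← mul_assoc, hcomm, mul_assoc, hW'S, mul_one]
  have e2 : (1 + ξ ^ q • N) ((1 + ξ • N) (S v)) = (1 + ξ • N) v :=
    congrArg (fun W : Module.End F (Fin (m + 1) → F) => W v) e1
  have e3 : (1 + ξ ^ q • N) (S u) = u := by
    rw [← Module.End.mul_apply, hW'S]
    rfl
  rw [Module.End.mul_apply, Module.End.mul_apply, hadj1, e2, hadj2, e3]

theorem cay_sub_one : cay F q m ξ - 1 = (ξ - ξ ^ q) • (shift F m *
    ∑ j ∈ Finset.range (m + 1), (-(ξ ^ q) • shift F m) ^ j) := by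
  have h := cay_aux_inv (F := F) (q := q) (m := m) ξ
  unfold cay
  nth_rewrite 2 [← h]
  have e : (1 : Module.End F (Fin (m + 1) → F)) + ξ • shift F m - (1 + ξ ^ q • shift F m) =
      (ξ - ξ ^ q) • shift F m := by
    module
  rw [← sub_mul, e, smul_mul_assoc]

theorem cay_sub_one_pow (hξ : ξ ^ q ≠ ξ) (j : ℕ) :
    (cay F q m ξ - 1) ^ j = 0 ↔ (shift F m) ^ j = 0 := by
  set N : Module.End F (Fin (m + 1) → F) := shift F m with hN
  set S : Module.End F (Fin (m + 1) → F) := ∑ j ∈ Finset.range (m + 1), (-(ξ ^ q) • N) ^ j with hS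
  have hW'S : (1 + ξ ^ q • N) * S = 1 := cay_aux_inv ξ
  have hcommNS : Commute N S := by
    rw [hS]
    refine Commute.sum_right _ _ _ fun i _ => ?_
    refine Commute.pow_right ?_ i
    exact (Commute.refl N).smul_right _
  have hSW' : S * (1 + ξ ^ q • N) = 1 := by
    have : Commute S (1 + ξ ^ q • N) :=
      (Commute.one_right S).add_right (hcommNS.symm.smul_right _)
    rw [this.eq, hW'S]
  rw [cay_sub_one ξ, smul_pow, hcommNS.mul_pow]
  have hc : (ξ - ξ ^ q) ^ j ≠ 0 := pow_ne_zero _ (sub_ne_zero.2 hξ.symm)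
  constructor
  · intro h
    have h3 : N ^ j * S ^ j = 0 := by
      rcases smul_eq_zero.1 h with h4 | h4
      · exact absurd h4 hc
      · exact h4
    have h4 : S ^ j * (1 + ξ ^ q • N) ^ j = 1 := by
      have : Commute S (1 + ξ ^ q • N) :=
        (Commute.one_right S).add_right (hcommNS.symm.smul_right _)
      rw [← this.mul_pow, hSW', one_pow]
    calc N ^ j = N ^ j * (S ^ j * (1 + ξ ^ q • N) ^ j) := by rw [h4, mul_one]
      _ = (N ^ j * S ^ j) * (1 + ξ ^ q • N) ^ j := by rw [mul_assoc]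
      _ = 0 := by rw [h3, zero_mul]
  · intro h
    rw [h, zero_mul, smul_zero]

theorem cay_fixed (v : Fin (m + 1) → F) (hv : shift F m v = 0) : cay F q m ξ v = v := by
  have h1 := cay_sub_one (F := F) (q := q) (m := m) ξ
  set S : Module.End F (Fin (m + 1) → F) :=
    ∑ j ∈ Finset.range (m + 1), (-(ξ ^ q) • shift F m) ^ j with hS
  have hcommNS : Commute (shift F m) S := by
    rw [hS]
    refine Commute.sum_right _ _ _ fun i _ => ?_
    refine Commute.pow_right ?_ i
    exact (Commute.refl _).smul_right _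
  have h2 := congrArg (fun W : Module.End F (Fin (m + 1) → F) => W v) h1
  simp only [LinearMap.sub_apply, Module.End.one_apply, LinearMap.smul_apply] at h2
  rw [hcommNS.eq, Module.End.mul_apply, hv, map_zero, smul_zero, sub_eq_zero] at h2
  exact h2

end CayLemmas

/-- The unipotent model: a single Jordan block. -/
theorem isUF_jordan (hF : Fintype.card F = q ^ 2) (p : ℕ) [hp : Fact p.Prime] [CharP F p] {e : ℕ}
    (he : 1 ≤ e) : IsUF F q e (p ^ Nat.clog p e) := by
  classical
  obtain ⟨m, rfl⟩ : ∃ m, e = m + 1 := ⟨e - 1, by omega⟩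
  have hp1 : 1 < p := hp.out.one_lt
  obtain ⟨ξ, hξ⟩ : ∃ ξ : F, ξ ^ q ≠ ξ := by
    by_contra hc
    push Not at hc
    apply sigma_ne_id hF
    ext x
    exact hc x
  have hdim : finrank F (Fin (m + 1) → F) = m + 1 := Module.finrank_fin_fun F
  obtain ⟨M, hM1, -, hM3, hM4⟩ := transfer hF hdim (isHerm_revForm hF) (cay F q m ξ)
    (cay_isometry ξ hF)
  have : CharP (Module.End F (Fin (m + 1) → F)) p :=
    charP_of_injective_algebraMap (algebraMap F (Module.End F (Fin (m + 1) → F))).injective p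
  have hkey : ∀ j : ℕ, M ^ (p ^ j) = 1 ↔ m + 1 ≤ p ^ j := by
    intro j
    have h4 := hM3 (p ^ j) 1
    rw [one_smul, one_smul] at h4
    have h5 : cay F q m ξ ^ p ^ j - 1 = (cay F q m ξ - 1) ^ p ^ j := by
      rw [sub_pow_char_pow_of_commute p j (Commute.one_right _), one_pow]
    rw [h4, ← sub_eq_zero, h5, cay_sub_one_pow ξ hξ]
    constructor
    · intro h
      by_contra hlt
      exact shift_pow_ne_zero (by omega) h
    · intro h
      obtain ⟨c, hc⟩ := Nat.exists_eq_add_of_le h
      rw [hc, pow_add, shift_pow_top, zero_mul]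
  set c := Nat.clog p (m + 1) with hc
  have hM0 : M ^ (p ^ c) = 1 := (hkey c).2 (Nat.le_pow_clog hp1 _)
  have hord : orderOf M = p ^ c := by
    obtain ⟨c', hc', hc''⟩ := (Nat.dvd_prime_pow hp.out).1 (orderOf_dvd_of_pow_eq_one hM0)
    rw [hc'']
    have h1 : M ^ (p ^ c') = 1 := by
      rw [← hc'']
      exact pow_orderOf_eq_one M
    have h2 := (hkey c').1 h1
    have h3 : c ≤ c' := (Nat.clog_le_iff_le_pow hp1).2 h2
    rw [le_antisymm hc' h3]
  refine ⟨M, hM1, ?_, fun t => ?_, ?_⟩
  · have h1 : M.det ^ (p ^ c) = 1 := by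
      rw [← Matrix.det_pow, hM0, Matrix.det_one]
    have h2 : (M.det - 1) ^ (p ^ c) = 0 := by
      rw [sub_pow_char_pow, h1, one_pow, sub_self]
    exact sub_eq_zero.1 (pow_eq_zero_iff (pow_ne_zero c hp.out.ne_zero) |>.1 h2)
  · rw [← hord, orderOf_dvd_iff_pow_eq_one]
  · apply hM4
    refine ⟨Pi.single (Fin.last m) 1, ?_, ?_⟩
    · intro h
      have := congrFun h (Fin.last m)
      simp at this
    · apply cay_fixed
      funext i
      refine Fin.cases ?_ (fun j => ?_) i
      · simp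
      · rw [shift_succ]
        simp [Pi.single_apply, (Fin.castSucc_lt_last j).ne]

end Unip

section Tori

/-- Additivity of the `q`-th power on an extension field. -/
theorem pow_q_add_ext {K : Type*} [Field K] [Algebra F K] (hF : Fintype.card F = q ^ 2) (x y : K) :
    (x + y) ^ q = x ^ q + y ^ q := by
  obtain ⟨p', k, hp', hc, hqk⟩ := exists_char_pow hF
  haveI : Fact p'.Prime := ⟨hp'⟩
  haveI : CharP K p' := charP_of_injective_algebraMap (algebraMap F K).injective p'
  rw [hqk]
  exact add_pow_char_pow x y p' k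

/-- The `q`-th power map on an extension field as a ring homomorphism. -/
noncomputable def phi {K : Type*} [Field K] [Algebra F K] (hF : Fintype.card F = q ^ 2) : K →+* K where
  toFun x := x ^ q
  map_one' := one_pow q
  map_mul' x y := mul_pow x y q
  map_zero' := by
    have := two_le_q hF
    exact zero_pow (by omega)
  map_add' := pow_q_add_ext hF

@[simp] theorem phi_apply {K : Type*} [Field K] [Algebra F K] (hF : Fintype.card F = q ^ 2) (x : K) :
    phi hF x = x ^ q := rfl

variable {K : Type*} [Field K] [Algebra F K] [FiniteDimensional F K]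

/-- The trace and the `q`-th power. -/
theorem trace_pow_q (hF : Fintype.card F = q ^ 2) (z : K) :
    Algebra.trace F K (z ^ q) = (Algebra.trace F K z) ^ q := by
  haveI : Finite K := Module.finite_of_finite F
  apply (algebraMap F K).injective
  rw [(algebraMap F K).map_pow, FiniteField.algebraMap_trace_eq_sum_pow,
    FiniteField.algebraMap_trace_eq_sum_pow]
  change _ = phi hF _
  rw [map_sum]
  refine Finset.sum_congr rfl fun i _ => ?_
  rw [phi_apply, ← pow_mul, ← pow_mul, mul_comm]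

/-- The local torus: multiplication on a field of odd degree. -/
theorem exists_local_torus (hF : Fintype.card F = q ^ 2) {d : ℕ} (hd : finrank F K = d)
    (hodd : Odd d) (γ : K) (hγ : γ ^ (q ^ d + 1) = 1) (hN : Algebra.norm F γ = 1) :
    ∃ M : Matrix (Fin d) (Fin d) F, Preserves q M ∧ M.det = 1 ∧
      ∀ (t : ℕ) (c : F), M ^ t = c • (1 : Matrix (Fin d) (Fin d) F) ↔ γ ^ t = algebraMap F K c := by
  classical
  haveI : Finite K := Module.finite_of_finite F
  haveI := Fintype.ofFinite K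
  set Q := q ^ d with hQ
  have hcardK : Fintype.card K = Q * Q := by
    rw [Module.card_eq_pow_finrank (K := F) (V := K), hd, hF, hQ]
    ring
  have hfix : ∀ a : K, (a ^ Q) ^ Q = a := by
    intro a
    rw [← pow_mul, ← hcardK, FiniteField.pow_card]
  obtain ⟨s, hs⟩ := hodd
  have hQe : Q = (q ^ 2) ^ s * q := by rw [hQ, hs, pow_succ, pow_mul]
  -- the `Q`-th power and the trace
  have htrQ : ∀ z : K, Algebra.trace F K (z ^ Q) = (Algebra.trace F K z) ^ q := by
    intro z
    have h1 : z ^ Q = ((FiniteField.frobeniusAlgEquivOfAlgebraic F K) ^ s) (z ^ q) := by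
      rw [Cfsg.Agent.Lib.Classical.Symp.OrdModels.frob_pow_apply, hF, ← pow_mul, hQe, mul_comm]
    rw [h1, Algebra.trace_eq_of_algEquiv, trace_pow_q hF]
  let T : K →ₗ[F] F := Algebra.trace F K
  let h : K → K → F := fun x y => T (x * y ^ Q)
  have hh : IsHerm q h := by
    refine ⟨?_, ?_, ?_, ?_⟩
    · intro x y z
      simp only [h, add_mul, map_add]
    · intro c x y
      simp only [h]
      rw [smul_mul_assoc, map_smul, smul_eq_mul]
    · intro x y
      simp only [h]
      have h1 : y * x ^ Q = (x * y ^ Q) ^ Q := by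
        rw [mul_pow, hfix, mul_comm]
      rw [h1]
      exact htrQ _
    · intro x hx
      by_contra hx0
      obtain ⟨w, hw⟩ := Algebra.trace_surjective F K 1
      have h1 := hx ((x⁻¹ * w) ^ Q)
      simp only [h] at h1
      rw [hfix, mul_inv_cancel_left₀ hx0] at h1
      have h3 : T w = 1 := hw
      rw [h1] at h3
      exact zero_ne_one h3
  let g : K →ₗ[F] K := LinearMap.mulLeft F γ
  have hgapp : ∀ u, g u = γ * u := fun u => rfl
  have hg : ∀ x y, h (g x) (g y) = h x y := by
    intro x y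
    simp only [h, hgapp]
    have h1 : γ * x * (γ * y) ^ Q = γ ^ (Q + 1) * (x * y ^ Q) := by
      rw [mul_pow]
      ring
    rw [h1, hγ, one_mul]
  obtain ⟨M, hM1, hM2, hM3, -⟩ := transfer hF hd hh g hg
  refine ⟨M, hM1, ?_, fun t c => ?_⟩
  · rw [hM2, ← hN, Algebra.norm_apply]
    rfl
  · rw [hM3]
    have hpow : ∀ (t : ℕ) (u : K), (g ^ t) u = γ ^ t * u := by
      intro t
      induction t with
      | zero => intro u; simp
      | succ t ih =>
        intro u
        rw [pow_succ, Module.End.mul_apply, ih, hgapp, pow_succ, mul_assoc]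
    constructor
    · intro h1
      have h2 := congrArg (fun S : Module.End F K => S 1) h1
      simp only [hpow, mul_one] at h2
      have h3 : γ ^ t = c • (1 : K) := h2
      rw [h3, Algebra.smul_def, mul_one]
    · intro h1
      refine LinearMap.ext fun u => ?_
      rw [hpow, h1]
      change algebraMap F K c * u = c • u
      rw [Algebra.smul_def]

/-- The hyperbolic block of a matrix. -/
theorem exists_hyperbolic (hF : Fintype.card F = q ^ 2) {d : ℕ} (A A' : Matrix (Fin d) (Fin d) F)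
    (hAA' : A' * A = 1) :
    ∃ M : Matrix (Fin (d + d)) (Fin (d + d)) F, Preserves q M ∧ M.det = A.det * A'.det ^ q ∧
      ∀ (t : ℕ) (c : F), M ^ t = c • (1 : Matrix _ _ F) ↔
        (A ^ t = c • (1 : Matrix _ _ F) ∧ (adj hF A') ^ t = c • (1 : Matrix _ _ F)) := by
  obtain ⟨M, hM1, hM2, hM3, -⟩ := exists_prod hF A (adj hF A') (isHerm_hyp hF d) (fun x y => by
    change hermForm d F q (A *ᵥ x.1) (adj hF A' *ᵥ y.2) + hermForm d F q (adj hF A' *ᵥ x.2) (A *ᵥ y.1) =
      hermForm d F q x.1 y.2 + hermForm d F q x.2 y.1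
    rw [← hermForm_mulVec hF, hermForm_mulVec hF (adj hF A'), adj_adj, mulVec_mulVec, mulVec_mulVec,
      hAA', one_mulVec, one_mulVec])
  refine ⟨M, hM1, ?_, hM3⟩
  rw [hM2, det_adj]

/-- The split torus: `γ` acts on `K ⊕ K` by `(γ, (γ⁻¹)^q)`. -/
theorem exists_split_torus (hF : Fintype.card F = q ^ 2) {d : ℕ} (hd : finrank F K = d) (γ : K)
    (hγ : γ ≠ 0) (hN : (Algebra.norm F γ) ^ q = Algebra.norm F γ) :
    ∃ M : Matrix (Fin (d + d)) (Fin (d + d)) F, Preserves q M ∧ M.det = 1 ∧
      ∀ (t : ℕ) (c : F), M ^ t = c • (1 : Matrix _ _ F) ↔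
        (γ ^ t = algebraMap F K c ∧ c ^ (q + 1) = 1) := by
  classical
  let b := Module.finBasisOfFinrankEq F K hd
  let L : K →ₐ[F] Matrix (Fin d) (Fin d) F := Algebra.leftMulMatrix b
  have hLinj : Function.Injective L := Algebra.leftMulMatrix_injective b
  have hLc : ∀ c : F, L (algebraMap F K c) = c • (1 : Matrix _ _ F) := by
    intro c
    rw [AlgHom.commutes, Algebra.algebraMap_eq_smul_one]
  obtain ⟨M, hM1, hM2, hM3⟩ := exists_hyperbolic hF (L γ) (L γ⁻¹)
    (by rw [← map_mul, inv_mul_cancel₀ hγ, map_one])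
  have hN0 : Algebra.norm F γ ≠ 0 := Algebra.norm_ne_zero_iff.2 hγ
  refine ⟨M, hM1, ?_, fun t c => ?_⟩
  · have hinv : Algebra.norm F γ⁻¹ = (Algebra.norm F γ)⁻¹ := by
      apply eq_inv_of_mul_eq_one_right
      rw [← map_mul, mul_inv_cancel₀ hγ, map_one]
    rw [hM2, ← Algebra.norm_eq_matrix_det, ← Algebra.norm_eq_matrix_det, hinv, inv_pow, hN]
    exact mul_inv_cancel₀ hN0
  · have e2 : (adj hF (L γ⁻¹)) ^ t = c • (1 : Matrix _ _ F) ↔ (γ⁻¹) ^ t = algebraMap F K (c ^ q) := by
      rw [← adj_pow, ← map_pow]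
      constructor
      · intro h
        have h1 := congrArg (adj hF) h
        rw [adj_adj, adj_smul, adj_one, ← hLc] at h1
        exact hLinj h1
      · intro h
        rw [h, hLc, adj_smul, adj_one, pow_q_pow_q hF]
    rw [hM3, e2, ← map_pow, ← hLc, hLinj.eq_iff]
    constructor
    · rintro ⟨h1, h2⟩
      refine ⟨h1, ?_⟩
      apply (algebraMap F K).injective
      rw [inv_pow, h1, ← map_inv₀] at h2
      have h3 := (algebraMap F K).injective h2
      have hc0 : c ≠ 0 := by
        rintro rfl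
        rw [map_zero] at h1
        exact pow_ne_zero _ hγ h1
      rw [map_one, map_pow, ← map_pow, pow_succ, ← h3, inv_mul_cancel₀ hc0, map_one]
    · rintro ⟨h1, h2⟩
      refine ⟨h1, ?_⟩
      have hc0 : c ≠ 0 := by
        rintro rfl
        rw [map_zero] at h1
        exact pow_ne_zero _ hγ h1
      rw [inv_pow, h1, ← map_inv₀]
      congr 1
      rw [pow_succ] at h2
      exact inv_eq_of_mul_eq_one_left h2

end Tori

end Cfsg.Agent.Lib.Classical.Herm.OrdModels
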