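import Mathlib
import Cfsg.Agent.Lib.Classical.Herm.OrdModels
import Cfsg.Agent.S2510
import Cfsg.Agent.Lib.Classical.Symp.OrdClass

/-!
# Element orders in unitary groups: the classification of elements of order prime to `r`
-/

set_option autoImplicit false
set_option linter.unusedSectionVars false

namespace Cfsg.Agent.Lib.Classical.Herm.OrdClass

open Cfsg Cfsg.Agent.Lib.Classical.Herm.Basic Cfsg.Agent.Lib.Classical.Herm.GU
open Cfsg.Agent.Lib.Classical.Herm.SU
open Cfsg.Agent.Lib.Classical.Herm.HermOnb Cfsg.Agent.Lib.Classical.Herm.SU3Witness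
open Cfsg.Agent.Lib.Classical.Herm.OrdModels
open Matrix Polynomial

variable {F : Type*} [Field F] [Fintype F] {q n : ℕ}

section Adj

/-- Polynomials in a unitary matrix of finite order are stable under the adjoint. -/
theorem adj_aeval_of_pow (hF : Fintype.card F = q ^ 2) {M : Matrix (Fin n) (Fin n) F}
    (hM : adj hF M * M = 1) {o : ℕ} (ho : 0 < o) (hMo : M ^ o = 1) (f : F[X]) :
    adj hF (aeval M f) = aeval M ((f.map (sigma hF)).comp (X ^ (o - 1))) := by
  have h1 : M * M ^ (o - 1) = 1 := by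
    rw [← pow_succ', Nat.sub_add_cancel ho, hMo]
  have h2 : adj hF M = M ^ (o - 1) := by
    calc adj hF M = adj hF M * (M * M ^ (o - 1)) := by rw [h1, mul_one]
      _ = M ^ (o - 1) := by rw [← mul_assoc, hM, one_mul]
  rw [adj_aeval, h2, aeval_comp, map_pow, aeval_X]

theorem aeval_comm (M : Matrix (Fin n) (Fin n) F) (f h : F[X]) :
    aeval M f * aeval M h = aeval M h * aeval M f := by
  rw [← map_mul, ← map_mul, mul_comm]

/-- Applying the involution does not lower the rank. -/
theorem rank_le_map_sigma (hF : Fintype.card F = q ^ 2) (M : Matrix (Fin n) (Fin n) F) :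
    M.rank ≤ (M.map (sigma hF)).rank := by
  classical
  have hσinj : Function.Injective (sigma hF) := (sigma hF).injective
  let f : LinearMap.range M.mulVecLin → LinearMap.range (M.map (sigma hF)).mulVecLin := fun v =>
    ⟨fun i => sigma hF (v.1 i), by
      obtain ⟨u, hu⟩ := v.2
      refine ⟨fun i => sigma hF (u i), ?_⟩
      funext i
      rw [← hu]
      exact ((sigma hF).map_mulVec M u i).symm⟩
  have hf : Function.Injective f := by
    intro v w h
    apply Subtype.ext
    funext i
    apply hσinj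
    exact congrFun (congrArg Subtype.val h) i
  have h1 := Nat.card_le_card_of_injective f hf
  rw [Module.natCard_eq_pow_finrank (K := F) (V := LinearMap.range M.mulVecLin),
    Module.natCard_eq_pow_finrank (K := F) (V := LinearMap.range (M.map (sigma hF)).mulVecLin)] at h1
  have hq1 : 1 < Nat.card F := by
    rw [Nat.card_eq_fintype_card]
    exact Fintype.one_lt_card
  exact (Nat.pow_le_pow_iff_right hq1).1 h1

theorem rank_adj (hF : Fintype.card F = q ^ 2) (M : Matrix (Fin n) (Fin n) F) :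
    (adj hF M).rank = M.rank := by
  unfold adj
  rw [rank_transpose]
  apply le_antisymm _ (rank_le_map_sigma hF M)
  have h := rank_le_map_sigma hF (M.map (sigma hF))
  have h3 : (M.map (sigma hF)).map (sigma hF) = M := by
    ext i j
    simp
    exact pow_q_pow_q hF _
  rwa [h3] at h

/-- The rank of an idempotent with `adj P = 1 - P` is half the dimension. -/
theorem rank_of_adj_eq (hF : Fintype.card F = q ^ 2) (P : Matrix (Fin n) (Fin n) F) (hPP : P * P = P)
    (hs : adj hF P = 1 - P) : 2 * P.rank = n := by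
  classical
  have h1 : (P - 1).rank = P.rank := by
    rw [← rank_adj hF P, hs]
    have h2 : 1 - P = (-1 : Matrix (Fin n) (Fin n) F) * (P - 1) := by
      rw [neg_one_mul, neg_sub]
    rw [h2]
    have hu : IsUnit (-1 : Matrix (Fin n) (Fin n) F).det := by
      rw [Matrix.det_neg]
      simp
    rw [Matrix.rank_mul_eq_right_of_isUnit_det _ _ hu]
  have h2 : P.rank + (P - 1).rank = n := by
    have h3 := LinearMap.finrank_range_add_finrank_ker P.mulVecLin
    have h4 : LinearMap.ker P.mulVecLin = LinearMap.range (P - 1).mulVecLin := by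
      apply le_antisymm
      · intro v hv
        have hv' : P *ᵥ v = 0 := hv
        refine ⟨-v, ?_⟩
        simp [hv', Matrix.mulVec_neg, Matrix.sub_mulVec]
      · rintro _ ⟨w, rfl⟩
        change P *ᵥ ((P - 1) *ᵥ w) = 0
        rw [Matrix.mulVec_mulVec, mul_sub, hPP, mul_one, sub_self, Matrix.zero_mulVec]
    rw [h4, Module.finrank_fintype_fun_eq_card] at h3
    have h5 : Matrix.rank P = Module.finrank F (LinearMap.range P.mulVecLin) := rfl
    have h6 : Matrix.rank (P - 1) = Module.finrank F (LinearMap.range (P - 1).mulVecLin) := rfl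
    rw [h5, h6, h3]
    simp
  omega

end Adj

section Structure

open Cfsg.Agent.Lib.Classical.Symp.OrdClass (aeval_restrict_coe)

/-- The determinant of a map acting as `T` on the image of an idempotent and trivially on its kernel. -/
theorem det_of_idempotent {V : Type*} [AddCommGroup V] [Module F V] [FiniteDimensional F V]
    (P T : V →ₗ[F] V) (hPP : ∀ v, P (P v) = P v)
    (hTW : ∀ w ∈ LinearMap.range P, T w ∈ LinearMap.range P) :
    LinearMap.det (T ∘ₗ P + (LinearMap.id - P)) = LinearMap.det (T.restrict hTW) := by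
  classical
  have hproj : LinearMap.IsProj (LinearMap.range P) P := ⟨fun x => ⟨x, rfl⟩, by
    rintro _ ⟨y, rfl⟩
    exact hPP y⟩
  have hc := hproj.isCompl
  let e := Submodule.prodEquivOfIsCompl _ _ hc
  let S : (LinearMap.range P × LinearMap.ker P) →ₗ[F] (LinearMap.range P × LinearMap.ker P) :=
    LinearMap.prodMap (T.restrict hTW) (LinearMap.id : LinearMap.ker P →ₗ[F] LinearMap.ker P)
  have h1 : (T ∘ₗ P + (LinearMap.id - P)) = e.toLinearMap ∘ₗ S ∘ₗ e.symm.toLinearMap := by
    refine LinearMap.ext fun v => ?_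
    obtain ⟨x, rfl⟩ := e.surjective v
    simp only [LinearMap.comp_apply, LinearEquiv.coe_coe, LinearEquiv.symm_apply_apply]
    obtain ⟨⟨w, u, rfl⟩, ⟨w', hw'⟩⟩ := x
    have hw2 : P w' = 0 := hw'
    have e1 : e (⟨P u, u, rfl⟩, ⟨w', hw'⟩) = P u + w' := rfl
    have e2 : e (S (⟨P u, u, rfl⟩, ⟨w', hw'⟩)) = T (P u) + w' := rfl
    rw [e1, e2]
    simp [hPP, hw2]
  rw [h1, LinearMap.det_conj, LinearMap.det_prodMap, LinearMap.det_id, mul_one]

/-- The structure of the algebra generated by a unitary matrix. -/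
theorem structure_su (hF : Fintype.card F = q ^ 2) (hn : 1 ≤ n) (M : Matrix (Fin n) (Fin n) F)
    (hMP : Preserves q M) (hdet : M.det = 1) :
    (∃ P : Matrix (Fin n) (Fin n) F, P * P = P ∧ P ≠ 0 ∧ P ≠ 1 ∧ adj hF P = P ∧ P * M = M * P) ∨
    (∃ (g : F[X]) (e : ℕ), g.Monic ∧ Irreducible g ∧ 1 ≤ e ∧
      (∀ (t : ℕ) (c : F), M ^ t = c • (1 : Matrix _ _ F) ↔ (g ^ e ∣ X ^ t - C c ∧ c ^ (q + 1) = 1)) ∧
      ((g.natDegree * e ≤ n ∧ (∀ f : F[X], aeval M f = 0 ↔ g ^ e ∣ f) ∧
          (g.natDegree = n → (-1) ^ n * g.coeff 0 = 1)) ∨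
        (2 * (g.natDegree * e) ≤ n ∧ (2 * g.natDegree = n →
          ((-1) ^ g.natDegree * g.coeff 0) ^ q = (-1) ^ g.natDegree * g.coeff 0)))) := by
  classical
  by_cases hno : ∃ P : Matrix (Fin n) (Fin n) F,
      P * P = P ∧ P ≠ 0 ∧ P ≠ 1 ∧ adj hF P = P ∧ P * M = M * P
  · exact Or.inl hno
  right
  have hidem : ∀ Q : Matrix (Fin n) (Fin n) F, Q * Q = Q → adj hF Q = Q →
      Q * M = M * Q → Q = 0 ∨ Q = 1 := by
    intro Q h1 h3 h4
    by_contra hcon
    push Not at hcon
    exact hno ⟨Q, h1, hcon.1, hcon.2, h3, h4⟩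
  haveI : Nonempty (Fin n) := ⟨⟨0, hn⟩⟩
  have hM : adj hF M * M = 1 := (preserves_iff_adj hF M).1 hMP
  have hMunit : IsUnit M := isUnit_of_preserves hF M hMP
  obtain ⟨o, ho, hMo⟩ : ∃ o : ℕ, 0 < o ∧ M ^ o = 1 := by
    have := isOfFinOrder_iff_pow_eq_one.1 (isOfFinOrder_of_finite hMunit.unit)
    obtain ⟨o, ho, h1⟩ := this
    refine ⟨o, ho, ?_⟩
    have h2 := congrArg Units.val h1
    simpa using h2
  have hint : IsIntegral F M := Algebra.IsIntegral.isIntegral M
  set m := minpoly F M with hmdef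
  have hmon : m.Monic := minpoly.monic hint
  have hmdvd : ∀ f : F[X], aeval M f = 0 ↔ m ∣ f := fun f => (minpoly.dvd_iff).symm
  have hmu : ¬ IsUnit m := minpoly.not_isUnit F M
  obtain ⟨g, hgm, hgi, hgd⟩ := exists_monic_irreducible_factor m hmu
  obtain ⟨e, m', hnd, hfac⟩ := WfDvdMonoid.max_power_factor hmon.ne_zero hgi
  have he : 1 ≤ e := by
    rcases Nat.eq_zero_or_pos e with rfl | h
    · exfalso
      rw [pow_zero, one_mul] at hfac
      exact hnd (hfac ▸ hgd)
    · exact h
  have hgeMon : (g ^ e).Monic := hgm.pow e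
  have hm'mon : m'.Monic := by
    apply Polynomial.Monic.of_mul_monic_left hgeMon
    rw [← hfac]
    exact hmon
  have hm'0 : m' ≠ 0 := hm'mon.ne_zero
  have hge0 : g ^ e ≠ 0 := hgeMon.ne_zero
  have hnorm : ∀ (t : ℕ) (c : F), M ^ t = c • (1 : Matrix _ _ F) → c ^ (q + 1) = 1 := by
    intro t c h
    apply norm_of_scalar hF hn
    rw [← h]
    exact preserves_pow hMP t
  have hpowt : ∀ (t : ℕ) (c : F), M ^ t = c • (1 : Matrix _ _ F) ↔ aeval M (X ^ t - C c : F[X]) = 0 := by
    intro t c
    rw [map_sub, map_pow, aeval_X, aeval_C, sub_eq_zero, Algebra.algebraMap_eq_smul_one]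
  by_cases hu : IsUnit m'
  · -- the local case
    have hm'1 : m' = 1 := hm'mon.eq_one_of_isUnit hu
    have hmg : m = g ^ e := by rw [hfac, hm'1, mul_one]
    have hall : ∀ f : F[X], aeval M f = 0 ↔ g ^ e ∣ f := by
      intro f
      rw [hmdvd, hmg]
    refine ⟨g, e, hgm, hgi, he, fun t c => ?_, Or.inl ⟨?_, hall, ?_⟩⟩
    · constructor
      · intro h
        exact ⟨(hall _).1 ((hpowt t c).1 h), hnorm t c h⟩
      · rintro ⟨h, -⟩
        exact (hpowt t c).2 ((hall _).2 h)
    · have h1 : g ^ e ∣ M.charpoly := by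
        rw [← hmg]
        exact Matrix.minpoly_dvd_charpoly M
      have h2 := Polynomial.natDegree_le_of_dvd h1 (Matrix.charpoly_monic M).ne_zero
      rw [hgm.natDegree_pow, Matrix.charpoly_natDegree_eq_dim] at h2
      simp only [Fintype.card_fin] at h2
      rw [mul_comm]
      exact h2
    · intro hd
      have h1 : g ^ e ∣ M.charpoly := by
        rw [← hmg]
        exact Matrix.minpoly_dvd_charpoly M
      have h2 : g ∣ M.charpoly := (dvd_pow_self g (by omega)).trans h1
      have h3 : M.charpoly = g := (eq_of_monic_of_dvd_of_natDegree_le hgm (Matrix.charpoly_monic M) h2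
        (by rw [Matrix.charpoly_natDegree_eq_dim, hd]; simp))
      have h4 := Matrix.det_eq_sign_charpoly_coeff M
      rw [hdet, h3] at h4
      simp only [Fintype.card_fin] at h4
      exact h4.symm
  -- the split case
  obtain ⟨u, v, huv⟩ : IsCoprime (g ^ e) m' := (hgi.coprime_iff_not_dvd.2 hnd).pow_left
  set E : F[X] := v * m' with hE
  set P := aeval M E with hPdef
  have hPP : P * P = P := by
    rw [hPdef, ← map_mul, ← sub_eq_zero, ← map_sub, hmdvd]
    refine ⟨-(u * v), ?_⟩
    rw [hfac, hE]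
    linear_combination (v * m') * huv
  have hone : ¬ IsUnit (g ^ e) := by
    rw [isUnit_pow_iff (by omega)]
    exact hgi.not_isUnit
  have hP0 : P ≠ 0 := by
    intro h0
    have h1 : m ∣ E := (hmdvd E).1 h0
    rw [hfac, hE] at h1
    have h2 : g ^ e ∣ v := (mul_dvd_mul_iff_right hm'0).1 h1
    apply hone
    apply isUnit_of_dvd_one
    rw [← huv]
    exact dvd_add (dvd_mul_left _ _) (h2.mul_right _)
  have hP1 : P ≠ 1 := by
    intro h0
    have h1 : m ∣ (E - 1) := by
      rw [← hmdvd, map_sub, map_one, ← hPdef, h0, sub_self]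
    have h2 : E - 1 = (-u) * g ^ e := by
      rw [hE]
      linear_combination huv
    rw [hfac, h2, mul_comm (g ^ e)] at h1
    have h3 : m' ∣ -u := (mul_dvd_mul_iff_right hge0).1 h1
    apply hu
    apply isUnit_of_dvd_one
    rw [← huv]
    refine dvd_add ?_ (dvd_mul_left _ _)
    exact (dvd_neg.1 h3).mul_right _
  have hRdef : adj hF P = aeval M ((E.map (sigma hF)).comp (X ^ (o - 1))) :=
    adj_aeval_of_pow hF hM ho hMo E
  set R := adj hF P with hR
  have hPM : P * M = M * P := by
    have := aeval_comm M E X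
    rwa [aeval_X] at this
  have hRM : R * M = M * R := by
    have := aeval_comm M ((E.map (sigma hF)).comp (X ^ (o - 1))) X
    rwa [aeval_X, ← hRdef] at this
  have hPR : P * R = R * P := by
    rw [hRdef]
    exact aeval_comm M _ _
  have hRR : R * R = R := by
    rw [hR, ← adj_mul, hPP]
  have hsR : adj hF R = P := adj_adj hF P
  have hQ0 : P * R = 0 := by
    rcases hidem (P * R) (by
        rw [mul_assoc, ← mul_assoc R, ← hPR, mul_assoc, hRR, ← mul_assoc, hPP])
        (by rw [adj_mul, hsR, ← hR, hPR])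
        (by rw [mul_assoc, hRM, ← mul_assoc, hPM, mul_assoc]) with h | h
    · exact h
    · exfalso
      apply hP1
      calc P = P * (P * R) := by rw [h, mul_one]
        _ = P * R := by rw [← mul_assoc, hPP]
        _ = 1 := h
  have hRP0 : R * P = 0 := by rw [← hPR, hQ0]
  have hRP1 : R = 1 - P := by
    rcases hidem (P + R) (by
        rw [add_mul, mul_add, mul_add, hPP, hRR, ← hPR, hQ0]
        simp)
        (by rw [adj_add, hsR, ← hR, add_comm])
        (by rw [add_mul, mul_add, hPM, hRM]) with h | h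
    · exfalso
      apply hP0
      calc P = P * P + P * R := by rw [hPP, hQ0, add_zero]
        _ = P * (P + R) := by rw [mul_add]
        _ = 0 := by rw [h, mul_zero]
    · rw [← h]
      abel
  have hPR1 : P + R = 1 := by rw [hRP1]; abel
  have hrank : 2 * P.rank = n := rank_of_adj_eq hF P hPP hRP1
  -- the characteristic polynomial on the image of `P`
  let T : (Fin n → F) →ₗ[F] (Fin n → F) := M.mulVecLin
  let W : Submodule F (Fin n → F) := LinearMap.range P.mulVecLin
  have hW : ∀ w ∈ W, T w ∈ W := by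
    rintro _ ⟨y, rfl⟩
    refine ⟨M *ᵥ y, ?_⟩
    change P *ᵥ (M *ᵥ y) = M *ᵥ (P *ᵥ y)
    rw [Matrix.mulVec_mulVec, Matrix.mulVec_mulVec, hPM]
  let T' : Module.End F W := T.restrict hW
  let c' : F[X] := LinearMap.charpoly T'
  have hcdeg : c'.natDegree = P.rank := by
    rw [LinearMap.charpoly_natDegree]
    rfl
  have hcmon : c'.Monic := LinearMap.charpoly_monic T'
  have hc0 : aeval T' c' = 0 := LinearMap.aeval_self_charpoly T'
  have hTaeval : ∀ f : F[X], aeval (T : Module.End F (Fin n → F)) f = (aeval M f).mulVecLin := by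
    intro f
    have h1 := Polynomial.aeval_algHom_apply
      ((Matrix.toLinAlgEquiv' : Matrix (Fin n) (Fin n) F ≃ₐ[F] _).toAlgHom) M f
    exact h1
  have h3 : aeval M (c' * E) = 0 := by
    rw [map_mul, ← hPdef]
    rw [Matrix.ext_iff_mulVec]
    intro v'
    rw [Matrix.zero_mulVec, ← Matrix.mulVec_mulVec]
    let w : W := ⟨P *ᵥ v', ⟨v', rfl⟩⟩
    have h4 := Cfsg.Agent.Lib.Classical.Symp.OrdClass.aeval_restrict_coe T W hW c' w
    have h5 : aeval (T.restrict hW : Module.End F W) c' = 0 := hc0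
    rw [h5, hTaeval] at h4
    exact h4.symm
  have h4 : m ∣ c' * E := (hmdvd _).1 h3
  rw [hfac, hE, ← mul_assoc] at h4
  have h5 : g ^ e ∣ c' * v := (mul_dvd_mul_iff_right hm'0).1 h4
  have hcop : IsCoprime (g ^ e) v := ⟨u, m', by rw [hE] at huv; linear_combination huv⟩
  have h6 : g ^ e ∣ c' := hcop.dvd_of_dvd_mul_right h5
  have h7 := Polynomial.natDegree_le_of_dvd h6 hcmon.ne_zero
  rw [hgm.natDegree_pow, hcdeg, mul_comm] at h7
  refine ⟨g, e, hgm, hgi, he, fun t c => ?_, Or.inr ⟨by omega, fun hdn => ?_⟩⟩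
  · constructor
    · intro h
      refine ⟨?_, hnorm t c h⟩
      have h8 := (hmdvd _).1 ((hpowt t c).1 h)
      exact (Dvd.intro _ hfac.symm).trans h8
    · rintro ⟨⟨k, hk⟩, hcq⟩
      -- `M ^ t * P = c • P`
      have h1 : M ^ t * P = c • P := by
        rw [← sub_eq_zero]
        have h8 : aeval M ((X ^ t - C c : F[X]) * E) = 0 := by
          rw [hmdvd, hk, hfac, hE]
          exact ⟨k * v, by ring⟩
        rw [map_mul, map_sub, map_pow, aeval_X, aeval_C, ← hPdef, sub_mul,
          ← Algebra.smul_def] at h8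
        exact h8
      have h8 : R * (adj hF M) ^ t = c ^ q • R := by
        have := congrArg (adj hF) h1
        rw [adj_mul, adj_pow, adj_smul] at this
        exact this
      have hcomm : Commute (adj hF M) M := by
        have h9 : M * adj hF M = 1 := mul_eq_one_comm.1 hM
        change adj hF M * M = M * adj hF M
        rw [hM, h9]
      have h9 : (adj hF M) ^ t * M ^ t = 1 := by
        rw [← hcomm.mul_pow, hM, one_pow]
      have h10 : R * M ^ t = c • R := by
        have h11 : R = c ^ q • (R * M ^ t) := by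
          calc R = R * ((adj hF M) ^ t * M ^ t) := by rw [h9, mul_one]
            _ = (R * (adj hF M) ^ t) * M ^ t := by rw [mul_assoc]
            _ = c ^ q • (R * M ^ t) := by rw [h8, smul_mul_assoc]
        have hcq' : c * c ^ q = 1 := by
          rw [← hcq, pow_succ]
          ring
        calc R * M ^ t = (c * c ^ q) • (R * M ^ t) := by rw [hcq', one_smul]
          _ = c • R := by rw [mul_smul, ← h11]
      have hRMt : M ^ t * R = R * M ^ t :=
        ((Commute.pow_left (show Commute M R from hRM.symm) t)).eq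
      calc M ^ t = M ^ t * (P + R) := by rw [hPR1, mul_one]
        _ = M ^ t * P + M ^ t * R := by rw [mul_add]
        _ = c • (P + R) := by rw [h1, hRMt, h10, smul_add]
        _ = c • 1 := by rw [hPR1]
  · -- the determinant in the case of a half-dimensional block
    have hd0 : 1 ≤ g.natDegree := hgi.natDegree_pos
    have hrk : P.rank = g.natDegree := by omega
    have he1 : e = 1 := by
      rw [hrk] at h7
      have h8 : g.natDegree * e ≤ g.natDegree * 1 := by omega
      have := Nat.le_of_mul_le_mul_left h8 (by omega)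
      omega
    rw [he1, pow_one] at h6
    have hc'g : c' = g := eq_of_monic_of_dvd_of_natDegree_le hgm hcmon h6 (by omega)
    have hdetT' : LinearMap.det T' = (-1) ^ g.natDegree * g.coeff 0 := by
      rw [LinearMap.det_eq_sign_charpoly_coeff]
      have h8 : Module.finrank F W = g.natDegree := hrk
      rw [h8]
      change _ * c'.coeff 0 = _
      rw [hc'g]
    set A₁ : Matrix (Fin n) (Fin n) F := M * P + R with hA₁
    set A₂ : Matrix (Fin n) (Fin n) F := P + M * R with hA₂
    have hA₁det : A₁.det = LinearMap.det T' := by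
      rw [← LinearMap.det_toLin' A₁]
      have hlin : Matrix.toLin' A₁ = T ∘ₗ P.mulVecLin + (LinearMap.id - P.mulVecLin) := by
        refine LinearMap.ext fun w => ?_
        rw [Matrix.toLin'_apply, hA₁, hRP1]
        simp [T, Matrix.add_mulVec, Matrix.sub_mulVec, Matrix.mulVec_mulVec]
      rw [hlin]
      exact det_of_idempotent P.mulVecLin T (fun w => by
        change P *ᵥ (P *ᵥ w) = P *ᵥ w
        rw [Matrix.mulVec_mulVec, hPP]) hW
    have hmul1 : A₁ * A₂ = M := by
      have e1 : M * P * (M * R) = 0 := by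
        calc M * P * (M * R) = M * (P * M) * R := by simp only [mul_assoc]
          _ = M * M * (P * R) := by rw [hPM]; simp only [mul_assoc]
          _ = 0 := by rw [hQ0, mul_zero]
      have e2 : R * (M * R) = M * R := by
        calc R * (M * R) = (R * M) * R := by rw [mul_assoc]
          _ = M * (R * R) := by rw [hRM, mul_assoc]
          _ = M * R := by rw [hRR]
      calc A₁ * A₂ = M * P * P + M * P * (M * R) + R * P + R * (M * R) := by
            rw [hA₁, hA₂]
            noncomm_ring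
        _ = M * (P + R) := by rw [e1, e2, hRP0, mul_assoc, hPP]; noncomm_ring
        _ = M := by rw [hPR1, mul_one]
    have hadjA₁ : adj hF A₁ = R * adj hF M + P := by
      rw [hA₁, adj_add, adj_mul, hsR]
    have hmul2 : adj hF A₁ * A₂ = 1 := by
      have hRM' : R * adj hF M = adj hF M * R := by
        have := congrArg (adj hF) hPM
        rw [adj_mul, adj_mul] at this
        exact this.symm
      have e1 : R * adj hF M * P = 0 := by
        rw [hRM', mul_assoc, hRP0, mul_zero]
      have e2 : R * adj hF M * (M * R) = R := by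
        calc R * adj hF M * (M * R) = R * (adj hF M * M) * R := by simp only [mul_assoc]
          _ = R := by rw [hM, mul_one, hRR]
      have e3 : P * (M * R) = 0 := by
        rw [← mul_assoc, hPM, mul_assoc, hQ0, mul_zero]
      calc adj hF A₁ * A₂ = R * adj hF M * P + R * adj hF M * (M * R) + P * P + P * (M * R) := by
            rw [hadjA₁, hA₂]
            noncomm_ring
        _ = R + P := by rw [e1, e2, e3, hPP]; abel
        _ = 1 := by rw [add_comm, hPR1]
    have h8 : A₁.det * A₂.det = 1 := by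
      rw [← det_mul, hmul1, hdet]
    have h9 : A₁.det ^ q * A₂.det = 1 := by
      have := congrArg Matrix.det hmul2
      rw [det_mul, det_adj, det_one] at this
      exact this
    have h10 : A₂.det ≠ 0 := right_ne_zero_of_mul_eq_one h8
    have h11 : A₁.det ^ q = A₁.det := mul_right_cancel₀ h10 (h9.trans h8.symm)
    rw [← hdetT', ← hA₁det]
    exact h11

end Structure

section Local

/-- The local case: `g` has odd degree `d` and its root satisfies `θ ^ (q ^ d + 1) = 1`. -/
theorem local_su (hF : Fintype.card F = q ^ 2) (M : Matrix (Fin n) (Fin n) F) (hMP : Preserves q M)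
    (g : F[X]) (hgi : Irreducible g) (hgm : g.Monic) (e : ℕ) (he : 1 ≤ e)
    (hall : ∀ f : F[X], aeval M f = 0 ↔ g ^ e ∣ f) :
    Odd g.natDegree ∧ g ∣ X ^ (q ^ g.natDegree + 1) - 1 := by
  classical
  haveI : Fact (Irreducible g) := ⟨hgi⟩
  have hM : adj hF M * M = 1 := (preserves_iff_adj hF M).1 hMP
  have hMunit : IsUnit M := isUnit_of_preserves hF M hMP
  obtain ⟨o, ho, hMo⟩ : ∃ o : ℕ, 0 < o ∧ M ^ o = 1 := by
    have := isOfFinOrder_iff_pow_eq_one.1 (isOfFinOrder_of_finite hMunit.unit)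
    obtain ⟨o, ho, h1⟩ := this
    refine ⟨o, ho, ?_⟩
    have h2 := congrArg Units.val h1
    simpa using h2
  have hgge : g ∣ g ^ e := dvd_pow_self g (by omega)
  let K := AdjoinRoot g
  let θ : K := AdjoinRoot.root g
  have hmk : ∀ f : F[X], aeval θ f = 0 ↔ g ∣ f := by
    intro f
    rw [AdjoinRoot.aeval_eq, AdjoinRoot.mk_eq_zero]
  have hθo : θ ^ o = 1 := by
    have h1 : aeval M (X ^ o - 1 : F[X]) = 0 := by
      rw [map_sub, map_pow, aeval_X, map_one, hMo, sub_self]
    have h2 := hgge.trans ((hall _).1 h1)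
    have h3 := (hmk _).2 h2
    rw [map_sub, map_pow, aeval_X, map_one, sub_eq_zero] at h3
    exact h3
  -- the inverse
  obtain ⟨ν, hνdef⟩ : ∃ ν : K, ν = θ ^ (o - 1) := ⟨_, rfl⟩
  have hθν : θ * ν = 1 := by
    rw [hνdef, ← pow_succ', Nat.sub_add_cancel ho, hθo]
  have hν0 : ν ≠ 0 := right_ne_zero_of_mul_eq_one hθν
  have hν : aeval ν (g.map (sigma hF)) = 0 := by
    have h1 := adj_aeval_of_pow hF hM ho hMo (g ^ e)
    rw [(hall _).2 dvd_rfl, adj_zero] at h1
    have h2 : g ^ e ∣ ((g ^ e).map (sigma hF)).comp (X ^ (o - 1)) := (hall _).1 h1.symm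
    rw [Polynomial.map_pow, Polynomial.pow_comp] at h2
    have h3 : g ∣ (g.map (sigma hF)).comp (X ^ (o - 1)) := hgi.prime.dvd_of_dvd_pow (hgge.trans h2)
    have h4 := (hmk _).2 h3
    rw [aeval_comp, map_pow, aeval_X, ← hνdef] at h4
    exact h4
  have hβ : aeval (ν ^ q) g = 0 := by
    have h1 : phi hF (aeval ν (g.map (sigma hF))) = aeval (ν ^ q) g := by
      rw [aeval_def, eval₂_map, hom_eval₂, aeval_def]
      have h2 : (phi hF).comp ((algebraMap F K).comp (sigma hF)) = algebraMap F K := by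
        ext c
        simp only [RingHom.comp_apply, phi_apply, sigma_apply]
        rw [← map_pow, pow_q_pow_q hF]
      rw [h2, phi_apply]
    rw [← h1, hν, map_zero]
  let ψ : K →ₐ[F] K := AdjoinRoot.liftAlgHom g (Algebra.ofId F K) (ν ^ q) (by
    rw [aeval_def] at hβ
    exact hβ)
  have hψθ : ψ θ = ν ^ q := AdjoinRoot.liftAlgHom_root _ _ _ _
  have hδ : Module.finrank F K = g.natDegree := by
    rw [(AdjoinRoot.powerBasis hgi.ne_zero).finrank, AdjoinRoot.powerBasis_dim]
  haveI : FiniteDimensional F K := (AdjoinRoot.powerBasis hgi.ne_zero).finite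
  haveI : Finite K := Module.finite_of_finite F
  haveI := Fintype.ofFinite K
  set d := g.natDegree with hd
  have hd1 : 1 ≤ d := hgi.natDegree_pos
  have hcardK : Fintype.card K = q ^ (2 * d) := by
    rw [Module.card_eq_pow_finrank (K := F) (V := K), hδ, hF, pow_mul]
  have hpowK : ∀ y : K, y ^ (q ^ (2 * d)) = y := fun y => by
    rw [← hcardK, FiniteField.pow_card]
  obtain ⟨i, hi⟩ := (FiniteField.bijective_frobeniusAlgHom_pow F K).2 ψ
  have hfrob : ∀ (j : ℕ) (y : K), (FiniteField.frobeniusAlgHom F K ^ j) y = y ^ (q ^ (2 * j)) := by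
    intro j y
    simp only [AlgHom.coe_pow, FiniteField.coe_frobeniusAlgHom, pow_iterate]
    rw [hF, ← pow_mul]
  have hi' : FiniteField.frobeniusAlgHom F K ^ (i : ℕ) = ψ := hi
  have hβi : ν ^ q = θ ^ (q ^ (2 * (i : ℕ))) := by
    rw [← hψθ, ← hi', hfrob]
  -- an odd exponent
  set u := 2 * (i : ℕ) + (2 * d - 1) with hu
  have huodd : Odd u := by
    rw [hu]
    refine Even.add_odd (even_two_mul _) ?_
    exact ⟨d - 1, by omega⟩
  have hθu : θ ^ (q ^ u) = ν := by
    have h1 : (ν ^ q) ^ (q ^ (2 * d - 1)) = ν := by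
      rw [← pow_mul, ← pow_succ', show 2 * d - 1 + 1 = 2 * d by omega, hpowK]
    rw [hβi, ← pow_mul, ← pow_add] at h1
    exact h1
  have hθ2u : θ ^ (q ^ (2 * u)) = θ := by
    have h1 : θ ^ (q ^ u) * ν ^ (q ^ u) = 1 := by
      rw [← mul_pow, hθν, one_pow]
    rw [hθu] at h1
    have h2 : ν * θ = 1 := by rw [mul_comm]; exact hθν
    have h3 : ν ^ (q ^ u) = θ := mul_left_cancel₀ hν0 (h1.trans h2.symm)
    rw [two_mul, pow_add, pow_mul, hθu, h3]
  have hfrobu : FiniteField.frobeniusAlgHom F K ^ u = 1 := by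
    apply AdjoinRoot.algHom_ext
    change (FiniteField.frobeniusAlgHom F K ^ u) θ = θ
    rw [hfrob, hθ2u]
  have hdu : d ∣ u := by
    have h := orderOf_dvd_of_pow_eq_one hfrobu
    rwa [FiniteField.orderOf_frobeniusAlgHom, hδ] at h
  obtain ⟨w, hw⟩ := hdu
  rw [hw] at huodd
  obtain ⟨hdodd, hwodd⟩ := Nat.odd_mul.1 huodd
  refine ⟨hdodd, ?_⟩
  obtain ⟨w', hw'⟩ := hwodd
  have hθd : θ ^ (q ^ d) = ν := by
    have h1 : q ^ u = (q ^ (2 * d)) ^ w' * q ^ d := by
      rw [hw, hw', ← pow_mul, ← pow_add]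
      congr 1
      ring
    rw [h1, pow_mul] at hθu
    have h2 : ∀ j : ℕ, θ ^ ((q ^ (2 * d)) ^ j) = θ := by
      intro j
      induction j with
      | zero => simp
      | succ j ih => rw [pow_succ, pow_mul, ih, hpowK]
    rwa [h2] at hθu
  rw [← hmk, map_sub, map_pow, aeval_X, map_one, sub_eq_zero, pow_succ, hθd, mul_comm]
  exact hθν

end Local

section Order

variable (p : ℕ) [hp : Fact p.Prime] [CharP F p]

/-- The criterion for the scalar powers. -/
theorem scalar_iff (hF : Fintype.card F = q ^ 2) (g : F[X]) [hg : Fact (Irreducible g)] (e t : ℕ)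
    (he : 1 ≤ e) (hX : ¬ g ∣ X) (ht : t ≠ 0) :
    (∃ c : F, g ^ e ∣ X ^ t - C c ∧ c ^ (q + 1) = 1) ↔
      ((AdjoinRoot.root g) ^ (q + 1)) ^ t = 1 ∧ e ≤ p ^ (t.factorization p) := by
  set θ : AdjoinRoot g := AdjoinRoot.root g with hθ
  have hmk : ∀ c : F, g ∣ X ^ t - C c ↔ θ ^ t = algebraMap F (AdjoinRoot g) c := by
    intro c
    rw [← AdjoinRoot.mk_eq_zero, map_sub, map_pow, AdjoinRoot.mk_X, sub_eq_zero]
    rfl
  have key := Cfsg.Agent.S2510.dvd_iff_aux p g hg.out hX e t he ht
  have hge : g ∣ g ^ e := dvd_pow_self g (by omega)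
  constructor
  · rintro ⟨c, h1, h2⟩
    refine ⟨?_, (key.1 ⟨c, h1⟩).2⟩
    have h3 := (hmk c).1 (hge.trans h1)
    rw [← pow_mul, mul_comm, pow_mul, h3, ← map_pow, h2, map_one]
  · rintro ⟨h1, h2⟩
    have h3 : θ ^ t ^ 1 = θ ^ t := by rw [pow_one]
    have h4 : (θ ^ t) ^ (q + 1) = 1 := by
      rw [← pow_mul, mul_comm, pow_mul]
      exact h1
    have hq := two_le_q hF
    have h5 : (θ ^ t) ^ Fintype.card F = θ ^ t := by
      rw [hF]
      have h6 : q ^ 2 = (q + 1) * (q - 1) + 1 := by
        obtain ⟨s, rfl⟩ : ∃ s, q = s + 1 := ⟨q - 1, by omega⟩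
        simp only [Nat.add_sub_cancel]
        ring
      rw [h6, pow_succ, pow_mul, h4, one_pow, one_mul]
    obtain ⟨c, hc⟩ := Cfsg.Agent.S2510.mem_range_of_pow_card (F := F) (θ ^ t) h5
    have hc2 : c ^ (q + 1) = 1 := by
      apply (algebraMap F (AdjoinRoot g)).injective
      rw [map_pow, hc, h4, map_one]
    obtain ⟨c', hc'⟩ := key.2 ⟨⟨c, (hmk c).2 hc.symm⟩, h2⟩
    have h7 := (hmk c').1 (hge.trans hc')
    have h8 : c' = c := by
      apply (algebraMap F (AdjoinRoot g)).injective
      rw [← h7, hc]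
    exact ⟨c, by rwa [h8] at hc', hc2⟩

/-- The order formula. -/
theorem order_formula (hF : Fintype.card F = q ^ 2) (A : SU n F q) (g : F[X])
    [hg : Fact (Irreducible g)] (e : ℕ) (he : 1 ≤ e)
    (hpow : ∀ (t : ℕ) (c : F), ((A : Matrix.SpecialLinearGroup (Fin n) F) : Matrix (Fin n) (Fin n) F) ^ t =
      c • (1 : Matrix _ _ F) ↔ (g ^ e ∣ X ^ t - C c ∧ c ^ (q + 1) = 1))
    (hX : ¬ g ∣ X) :
    orderOf (QuotientGroup.mk A : PSU n F q) =
      Nat.lcm (orderOf ((AdjoinRoot.root g) ^ (q + 1))) (p ^ Nat.clog p e) := by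
  have key : ∀ t : ℕ, orderOf (QuotientGroup.mk A : PSU n F q) ∣ t ↔
      Nat.lcm (orderOf ((AdjoinRoot.root g) ^ (q + 1))) (p ^ Nat.clog p e) ∣ t := by
    intro t
    rcases Nat.eq_zero_or_pos t with rfl | ht
    · simp
    rw [orderOf_dvd_iff_pow_eq_one, mk_pow_eq_one_iff hF, Nat.lcm_dvd_iff,
      orderOf_dvd_iff_pow_eq_one, hp.out.pow_dvd_iff_le_factorization ht.ne',
      Nat.clog_le_iff_le_pow hp.out.one_lt, ← scalar_iff p hF g e t he hX ht.ne']
    exact exists_congr fun c => hpow t c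
  exact Nat.dvd_antisymm ((key _).2 dvd_rfl) ((key _).1 dvd_rfl)

end Order

section Absorb

open Cfsg.Agent.S2510 (Dd Dd_mul Dd_pow Dd_one exists_Dd)

/-- A scalar two-eigenvalue element has equal eigenvalues. -/
theorem Dd_scalar (P : Matrix (Fin n) (Fin n) F) (hP : P * P = P) (hP0 : P ≠ 0) (hP1 : P ≠ 1)
    {a b c : F} (h : Dd P a b = c • (1 : Matrix _ _ F)) : a = b := by
  have h1 : Dd P a b * P = a • P := by
    unfold Dd
    simp only [Matrix.add_mul, Matrix.smul_mul, Matrix.sub_mul, Matrix.one_mul, hP, sub_self,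
      smul_zero, add_zero]
  have h2 : Dd P a b * (1 - P) = b • (1 - P) := by
    unfold Dd
    simp only [Matrix.add_mul, Matrix.smul_mul, Matrix.mul_sub, Matrix.mul_one, hP, sub_self,
      smul_zero, zero_add, Matrix.sub_mul, Matrix.one_mul]
    simp
  rw [h, Matrix.smul_mul, Matrix.one_mul] at h1 h2
  have h3 : c = a := by
    have : (c - a) • P = 0 := by rw [sub_smul, h1, sub_self]
    rcases smul_eq_zero.1 this with h4 | h4
    · exact sub_eq_zero.1 h4
    · exact absurd h4 hP0
  have h5 : c = b := by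
    have : (c - b) • (1 - P) = 0 := by rw [sub_smul, h2, sub_self]
    rcases smul_eq_zero.1 this with h4 | h4
    · exact sub_eq_zero.1 h4
    · exact absurd (sub_eq_zero.1 h4).symm hP1
  exact h3.symm.trans h5

/-- A self-adjoint commuting idempotent multiplies the order by `r`. -/
theorem absorb (hF : Fintype.card F = q ^ 2) (A : SU n F q) {r : ℕ} (hr : r.Prime)
    (hrq : r ∣ q + 1) (hrn : ¬ r ∣ n) (hrA : ¬ r ∣ orderOf (QuotientGroup.mk A : PSU n F q))
    (P : Matrix (Fin n) (Fin n) F) (hPP : P * P = P) (hP0 : P ≠ 0) (hP1 : P ≠ 1)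
    (hs : adj hF P = P)
    (hc : P * ((A : Matrix.SpecialLinearGroup (Fin n) F) : Matrix (Fin n) (Fin n) F) =
      ((A : Matrix.SpecialLinearGroup (Fin n) F) : Matrix (Fin n) (Fin n) F) * P) :
    ∃ z : PSU n F q, orderOf z = r * orderOf (QuotientGroup.mk A : PSU n F q) := by
  classical
  set M : Matrix (Fin n) (Fin n) F := ((A : Matrix.SpecialLinearGroup (Fin n) F) : Matrix (Fin n) (Fin n) F)
    with hMdef
  have hMP : Preserves q M := preserves_su A
  have hdetM : M.det = 1 := (A : Matrix.SpecialLinearGroup (Fin n) F).2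
  set N := orderOf (QuotientGroup.mk A : PSU n F q) with hN
  have hNt : ∀ t : ℕ, N ∣ t ↔ ∃ c : F, M ^ t = c • (1 : Matrix _ _ F) := by
    intro t
    rw [hN, orderOf_dvd_iff_pow_eq_one, mk_pow_eq_one_iff hF]
  have hq := two_le_q hF
  have hdv : r ∣ Fintype.card F - 1 := by
    rw [hF]
    refine hrq.trans ⟨q - 1, ?_⟩
    obtain ⟨s, rfl⟩ : ∃ s, q = s + 1 := ⟨q - 1, by omega⟩
    simp only [Nat.add_sub_cancel]
    have : (s + 1) ^ 2 = (s + 1 + 1) * s + 1 := by ring
    omega
  obtain ⟨a, b, hab, har, hbr, hdetD⟩ := exists_Dd r hr hdv hrn P hPP hP0 hP1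
  have haq : a ^ q * a = 1 := by
    rw [← pow_succ]
    obtain ⟨s, hs'⟩ := hrq
    rw [hs', pow_mul, har, one_pow]
  have hbq : b ^ q * b = 1 := by
    rw [← pow_succ]
    obtain ⟨s, hs'⟩ := hrq
    rw [hs', pow_mul, hbr, one_pow]
  set D := Dd P a b with hD
  have hadjD : adj hF D = Dd P (a ^ q) (b ^ q) := by
    rw [hD]
    unfold Dd
    rw [adj_add, adj_smul, adj_smul, adj_sub, adj_one, hs]
  have hDP : Preserves q D := by
    rw [preserves_iff_adj hF, hadjD, hD, Dd_mul P hPP, haq, hbq, Dd_one]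
  have hcomm : Commute M D := by
    change M * D = D * M
    rw [hD]
    unfold Dd
    simp only [Matrix.mul_add, Matrix.add_mul, Matrix.mul_smul, Matrix.smul_mul, Matrix.mul_sub,
      Matrix.sub_mul, Matrix.mul_one, Matrix.one_mul, hc]
  have hMD : Preserves q (M * D) := preserves_mul hMP hDP
  have hdetMD : (M * D).det = 1 := by
    rw [det_mul, hdetM, hD, hdetD, one_mul]
  have hDpow : ∀ t : ℕ, D ^ t = Dd P (a ^ t) (b ^ t) := fun t => Dd_pow P hPP a b t
  have hDr : ∀ t : ℕ, r ∣ t → D ^ t = 1 := by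
    rintro t ⟨s, rfl⟩
    rw [hDpow, pow_mul, pow_mul, har, hbr, one_pow, Dd_one]
  obtain ⟨c₀, hc₀⟩ := (hNt N).1 dvd_rfl
  have hc₀n : c₀ ^ n = 1 := by
    have h1 := congrArg Matrix.det hc₀
    rw [det_pow, hdetM, one_pow, det_smul, det_one, mul_one, Fintype.card_fin] at h1
    exact h1.symm
  have hMNn : M ^ (N * n) = 1 := by
    rw [pow_mul, hc₀, _root_.smul_pow, one_pow, hc₀n, one_smul]
  refine exists_order_matrix hF (isHerm_hermForm hF n) (M * D) hMD hdetMD (r * N) fun t => ?_
  constructor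
  · rintro ⟨c, hc'⟩
    rw [hcomm.mul_pow] at hc'
    have h2 : D ^ (t * (N * n)) = (c ^ (N * n)) • (1 : Matrix _ _ F) := by
      have h3 : (M ^ t * D ^ t) ^ (N * n) = (c ^ (N * n)) • (1 : Matrix _ _ F) := by
        rw [hc', _root_.smul_pow, one_pow]
      rw [((hcomm.pow_pow t t).mul_pow), ← pow_mul, ← pow_mul, mul_comm t, pow_mul M, hMNn, one_pow,
        one_mul] at h3
      rw [mul_comm t]
      exact h3
    rw [hDpow] at h2
    have h3 := Dd_scalar P hPP hP0 hP1 h2
    have hrt : r ∣ t := by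
      by_contra hnt
      have hcop2 : Nat.Coprime (t * (N * n)) r :=
        Nat.Coprime.symm (Nat.Coprime.mul_right (hr.coprime_iff_not_dvd.2 hnt)
          (Nat.Coprime.mul_right (hr.coprime_iff_not_dvd.2 hrA) (hr.coprime_iff_not_dvd.2 hrn)))
      obtain ⟨u, hu⟩ := Nat.exists_mul_mod_eq_one_of_coprime hcop2 hr.one_lt
      have h4 : ∀ y : F, y ^ r = 1 → (y ^ (t * (N * n))) ^ u = y := by
        intro y hy
        rw [← pow_mul, ← Nat.mod_add_div (t * (N * n) * u) r, hu.2, pow_add, pow_mul, hy, one_pow,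
          pow_one, mul_one]
      apply hab
      rw [← h4 a har, ← h4 b hbr, h3]
    have h4 : N ∣ t := by
      rw [hNt]
      refine ⟨c, ?_⟩
      rw [hDr t hrt, mul_one] at hc'
      exact hc'
    exact Nat.Coprime.mul_dvd_of_dvd_of_dvd (hr.coprime_iff_not_dvd.2 hrA) hrt h4
  · intro h
    have hrt : r ∣ t := (dvd_mul_right _ _).trans h
    have hNt' : N ∣ t := (dvd_mul_left _ _).trans h
    obtain ⟨c, hc'⟩ := (hNt t).1 hNt'
    refine ⟨c, ?_⟩
    rw [hcomm.mul_pow, hDr t hrt, mul_one, hc']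

end Absorb

section Arith

/-- The order of the relevant cyclic torus of `GU_n`, modulo scalars of norm one. -/
def Om (q n : ℕ) : ℕ := if Even n then (q ^ n - 1) / (q + 1) else (q ^ n + 1) / (q + 1)

/-- The order of the image of the relevant cyclic torus in `PSU_n`. -/
def Nb (q n : ℕ) : ℕ := Om q n / Nat.gcd (Om q n) (q + 1)

theorem om_odd (hn : Odd n) : (q + 1) * Om q n = q ^ n + 1 := by
  have h1 : ¬ Even n := Nat.not_even_iff_odd.2 hn
  unfold Om
  rw [if_neg h1]
  apply Nat.mul_div_cancel'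
  have := Odd.nat_add_dvd_pow_add_pow q 1 hn
  simpa using this

theorem om_even (hq : 1 ≤ q) (hn : Even n) : (q + 1) * Om q n = q ^ n - 1 := by
  unfold Om
  rw [if_pos hn]
  apply Nat.mul_div_cancel'
  obtain ⟨d, rfl⟩ := hn
  have h1 : q ^ 2 - 1 ^ 2 ∣ (q ^ 2) ^ d - (1 ^ 2) ^ d := Nat.sub_dvd_pow_sub_pow _ _ d
  simp only [one_pow] at h1
  have h2 : q ^ (d + d) = (q ^ 2) ^ d := by rw [← pow_mul, two_mul]
  rw [h2]
  refine Dvd.dvd.trans ?_ h1
  obtain ⟨s, rfl⟩ : ∃ s, q = s + 1 := ⟨q - 1, by omega⟩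
  refine ⟨s, ?_⟩
  have : (s + 1) ^ 2 = (s + 1 + 1) * s + 1 := by ring
  omega

theorem geom_aux (s n : ℕ) :
    (s + 1) * ∑ i ∈ Finset.range n, (s + 2) ^ i + 1 = (s + 2) ^ n := by
  induction n with
  | zero => simp
  | succ n ih =>
    rw [Finset.sum_range_succ, mul_add, pow_succ]
    have : (s + 2) ^ n * (s + 2) = (s + 2) ^ n + (s + 1) * (s + 2) ^ n := by ring
    rw [this, ← ih]
    ring

theorem geom_odd (q s : ℕ) :
    ∃ w, ∑ i ∈ Finset.range (2 * s + 1), q ^ i = 1 + (q + 1) * w := by
  induction s with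
  | zero => exact ⟨0, by simp⟩
  | succ s ih =>
    obtain ⟨w, hw⟩ := ih
    refine ⟨w + q ^ (2 * s + 1), ?_⟩
    rw [show 2 * (s + 1) + 1 = 2 * s + 1 + 1 + 1 by ring, Finset.sum_range_succ,
      Finset.sum_range_succ, hw]
    rw [show 2 * s + 1 + 1 = (2 * s + 1) + 1 by ring, pow_succ q (2 * s + 1)]
    ring

/-- The exponent of the norm in the odd case. -/
theorem exp_odd (hq : 2 ≤ q) (hn : Odd n) :
    ∃ w, ((q ^ 2) ^ n - 1) / (q ^ 2 - 1) = Om q n * (1 + (q + 1) * w) := by
  obtain ⟨s, rfl⟩ : ∃ s, q = s + 2 := ⟨q - 2, by omega⟩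
  obtain ⟨k, hk⟩ := hn
  obtain ⟨w, hw⟩ := geom_odd (s + 2) k
  refine ⟨w, ?_⟩
  rw [← hw, ← hk]
  have h1 := om_odd (q := s + 2) (n := n) ⟨k, hk⟩
  have h2 := geom_aux s n
  set G := ∑ i ∈ Finset.range n, (s + 2) ^ i with hG
  set Ω := Om (s + 2) n with hΩ
  set Q := (s + 2) ^ n with hQ
  have h3 : ((s + 2) ^ 2) ^ n = Q * Q := by
    rw [hQ, ← pow_mul, two_mul, pow_add]
  have h4 : (s + 2) ^ 2 - 1 = (s + 3) * (s + 1) := by
    have : (s + 2) ^ 2 = (s + 3) * (s + 1) + 1 := by ring
    omega
  apply Nat.div_eq_of_eq_mul_right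
  · rw [h4]
    positivity
  · rw [h3, h4]
    have h5 : Q * Q - 1 = (Q + 1) * (Q - 1) := by
      have : 1 ≤ Q := Nat.one_le_pow _ _ (by omega)
      obtain ⟨u, hu⟩ : ∃ u, Q = u + 1 := ⟨Q - 1, by omega⟩
      rw [hu]
      simp only [Nat.add_sub_cancel]
      have : (u + 1) * (u + 1) = (u + 1 + 1) * u + 1 := by ring
      omega
    have h6 : Q - 1 = (s + 1) * G := by omega
    rw [h5, ← h1, h6]
    ring

/-- The exponent of the norm in the even case. -/
theorem exp_even (hq : 2 ≤ q) (d : ℕ) :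
    ((q ^ 2) ^ d - 1) / (q ^ 2 - 1) * (q - 1) = Om q (d + d) := by
  have h0 := om_even (q := q) (n := d + d) (by omega) ⟨d, rfl⟩
  have h1 : q ^ 2 - 1 ^ 2 ∣ (q ^ 2) ^ d - (1 ^ 2) ^ d := Nat.sub_dvd_pow_sub_pow _ _ d
  simp only [one_pow] at h1
  obtain ⟨E, hE⟩ := h1
  have h2 : q ^ (d + d) = (q ^ 2) ^ d := by rw [← pow_mul, two_mul]
  obtain ⟨s, rfl⟩ : ∃ s, q = s + 2 := ⟨q - 2, by omega⟩
  have h4 : (s + 2) ^ 2 - 1 = (s + 3) * (s + 1) := by
    have : (s + 2) ^ 2 = (s + 3) * (s + 1) + 1 := by ring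
    omega
  have h5 : 0 < (s + 2) ^ 2 - 1 := by
    rw [h4]
    positivity
  rw [hE, Nat.mul_div_cancel_left _ h5]
  rw [h2, hE, h4] at h0
  have h6 : (s + 3) * Om (s + 2) (d + d) = (s + 3) * (E * (s + 1)) := by
    rw [show s + 3 = s + 2 + 1 by ring, h0]
    ring
  simp only [Nat.add_sub_cancel, show s + 2 - 1 = s + 1 by omega]
  exact (Nat.eq_of_mul_eq_mul_left (by omega) h6).symm

theorem nb_pow {G : Type*} [Monoid G] (θ : G) (h : θ ^ Om q n = 1) : (θ ^ (q + 1)) ^ Nb q n = 1 := by
  unfold Nb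
  set g := Nat.gcd (Om q n) (q + 1) with hg
  obtain ⟨a, ha⟩ : g ∣ Om q n := Nat.gcd_dvd_left _ _
  obtain ⟨b, hb⟩ : g ∣ q + 1 := Nat.gcd_dvd_right _ _
  have hg0 : 0 < g := Nat.gcd_pos_of_pos_right _ (by omega)
  have h1 : Om q n / g = a := by
    conv_lhs => rw [ha]
    exact Nat.mul_div_cancel_left _ hg0
  rw [h1, ← pow_mul]
  have h2 : (q + 1) * a = Om q n * b := by
    conv_lhs => rw [hb]
    conv_rhs => rw [ha]
    ring
  rw [h2, pow_mul, h, one_pow]

end Arith

section Tori

/-- Models on which the scalar powers are controlled by a field element give elements of `PSU`. -/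
theorem exists_of_torus (hF : Fintype.card F = q ^ 2) {K : Type*} [Field K] [Algebra F K] {k : ℕ}
    (M : Matrix (Fin k) (Fin k) F) (hM : Preserves q M) (hdet : M.det = 1) (γ : K)
    (h : ∀ (t : ℕ) (c : F), M ^ t = c • (1 : Matrix _ _ F) ↔
      (γ ^ t = algebraMap F K c ∧ c ^ (q + 1) = 1)) :
    ∃ z : PSU k F q, orderOf z = orderOf (γ ^ (q + 1)) := by
  refine exists_order_matrix hF (isHerm_hermForm hF k) M hM hdet _ fun t => ?_
  rw [orderOf_dvd_iff_pow_eq_one]
  constructor
  · rintro ⟨c, hc⟩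
    obtain ⟨h1, h2⟩ := (h t c).1 hc
    rw [← pow_mul, mul_comm, pow_mul, h1, ← map_pow, h2, map_one]
  · intro h1
    have h4 : (γ ^ t) ^ (q + 1) = 1 := by
      rw [← pow_mul, mul_comm, pow_mul]
      exact h1
    have hq := two_le_q hF
    have h5 : (γ ^ t) ^ Fintype.card F = γ ^ t := by
      rw [hF]
      have h6 : q ^ 2 = (q + 1) * (q - 1) + 1 := by
        obtain ⟨s, rfl⟩ : ∃ s, q = s + 1 := ⟨q - 1, by omega⟩
        simp only [Nat.add_sub_cancel]
        ring
      rw [h6, pow_succ, pow_mul, h4, one_pow, one_mul]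
    obtain ⟨c, hc⟩ := Cfsg.Agent.S2510.mem_range_of_pow_card (F := F) (γ ^ t) h5
    have hc2 : c ^ (q + 1) = 1 := by
      apply (algebraMap F K).injective
      rw [map_pow, hc, h4, map_one]
    exact ⟨c, (h t c).2 ⟨hc.symm, hc2⟩⟩

/-- Upgrading the local model. -/
theorem local_upgrade (hF : Fintype.card F = q ^ 2) {K : Type*} [Field K] [Algebra F K] {k : ℕ}
    (hk : 1 ≤ k) (M : Matrix (Fin k) (Fin k) F) (hM : Preserves q M) (γ : K)
    (h : ∀ (t : ℕ) (c : F), M ^ t = c • (1 : Matrix _ _ F) ↔ γ ^ t = algebraMap F K c) :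
    ∀ (t : ℕ) (c : F), M ^ t = c • (1 : Matrix _ _ F) ↔
      (γ ^ t = algebraMap F K c ∧ c ^ (q + 1) = 1) := by
  intro t c
  constructor
  · intro h1
    refine ⟨(h t c).1 h1, norm_of_scalar hF hk ?_⟩
    rw [← h1]
    exact preserves_pow hM t
  · rintro ⟨h1, -⟩
    exact (h t c).2 h1

/-- All the orders of the image of the torus occur. -/
theorem exists_order_nb (hF : Fintype.card F = q ^ 2) (p : ℕ) [hp : Fact p.Prime] [CharP F p]
    (hn : 1 ≤ n) {D : ℕ} (hD : D ∣ Nb q n) : ∃ z : PSU n F q, orderOf z = D := by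
  classical
  have hq := two_le_q hF
  have hcardF : Nat.card F = q ^ 2 := by rw [Nat.card_eq_fintype_card, hF]
  have hOm : 0 < Om q n := by
    rcases Nat.even_or_odd n with h | h
    · have h1 := om_even (q := q) (by omega) h
      have h2 : 1 < q ^ n := Nat.one_lt_pow (by omega) (by omega)
      by_contra h3
      have h4 : Om q n = 0 := by omega
      rw [h4, mul_zero] at h1
      omega
    · have h1 := om_odd (q := q) h
      by_contra h3
      have h4 : Om q n = 0 := by omega
      rw [h4, mul_zero] at h1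
      omega
  -- an element whose image has order `Nb`
  have hgen : ∃ z : PSU n F q, orderOf z = Nb q n := by
    rcases Nat.even_or_odd n with h | h
    · -- the split torus
      obtain ⟨d, rfl⟩ := h
      have hd1 : 1 ≤ d := by omega
      haveI : NeZero d := ⟨by omega⟩
      let K := FiniteField.Extension F p d
      haveI : Fintype K := Fintype.ofFinite K
      have hfin : Module.finrank F K = d := FiniteField.finrank_extension F p d
      have hcard : Nat.card K = (q ^ 2) ^ d := by
        rw [FiniteField.natCard_extension, hcardF]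
      have hdv : Om q (d + d) ∣ Fintype.card K - 1 := by
        rw [← Nat.card_eq_fintype_card, hcard, ← pow_mul, two_mul, ← om_even (by omega) ⟨d, rfl⟩]
        exact dvd_mul_left _ _
      obtain ⟨ζ, hζ0, hζ⟩ := exists_root_of_unity (E := K) hdv
      have hnorm : (Algebra.norm F ζ) ^ q = Algebra.norm F ζ := by
        have h1 := FiniteField.algebraMap_norm_eq_pow (K := F) (K' := K) (x := ζ)
        rw [hcard, hcardF] at h1
        have h2 : (algebraMap F K (Algebra.norm F ζ)) ^ (q - 1) = 1 := by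
          rw [h1, ← pow_mul, exp_even hq d]
          exact (hζ _).2 dvd_rfl
        have h3 : algebraMap F K ((Algebra.norm F ζ) ^ q) = algebraMap F K (Algebra.norm F ζ) := by
          rw [map_pow, show q = (q - 1) + 1 by omega, pow_succ, h2, one_mul]
        exact (algebraMap F K).injective h3
      obtain ⟨M, hM1, hM2, hM3⟩ := exists_split_torus hF hfin ζ hζ0 hnorm
      obtain ⟨z, hz⟩ := exists_of_torus hF M hM1 hM2 ζ hM3
      refine ⟨z, ?_⟩
      rw [hz, orderOf_pow' _ (by omega)]
      have h4 : orderOf ζ = Om q (d + d) :=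
        Nat.dvd_antisymm (orderOf_dvd_of_pow_eq_one ((hζ _).2 dvd_rfl))
          ((hζ _).1 (pow_orderOf_eq_one ζ))
      rw [h4]
      rfl
    · -- the norm one torus
      haveI : NeZero n := ⟨by omega⟩
      let K := FiniteField.Extension F p n
      haveI : Fintype K := Fintype.ofFinite K
      have hfin : Module.finrank F K = n := FiniteField.finrank_extension F p n
      have hcard : Nat.card K = (q ^ 2) ^ n := by
        rw [FiniteField.natCard_extension, hcardF]
      have hdv : Om q n ∣ Fintype.card K - 1 := by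
        rw [← Nat.card_eq_fintype_card, hcard, ← pow_mul, mul_comm, pow_mul]
        have h1 : (q ^ n) ^ 2 - 1 = (q ^ n + 1) * (q ^ n - 1) := by
          have : 1 ≤ q ^ n := Nat.one_le_pow _ _ (by omega)
          obtain ⟨u, hu⟩ : ∃ u, q ^ n = u + 1 := ⟨q ^ n - 1, by omega⟩
          rw [hu]
          simp only [Nat.add_sub_cancel]
          have : (u + 1) ^ 2 = (u + 1 + 1) * u + 1 := by ring
          omega
        rw [h1, ← om_odd h]
        exact ((dvd_mul_left _ _).mul_right _)
      obtain ⟨ζ, hζ0, hζ⟩ := exists_root_of_unity (E := K) hdv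
      have hζ1 : ζ ^ (q ^ n + 1) = 1 := (hζ _).2 ⟨q + 1, by rw [← om_odd h]; ring⟩
      have hnorm : Algebra.norm F ζ = 1 := by
        have h1 := FiniteField.algebraMap_norm_eq_pow (K := F) (K' := K) (x := ζ)
        rw [hcard, hcardF] at h1
        obtain ⟨w, hw⟩ := exp_odd (q := q) hq h
        apply (algebraMap F K).injective
        rw [h1, hw, map_one]
        exact (hζ _).2 (dvd_mul_right _ _)
      obtain ⟨M, hM1, hM2, hM3⟩ := exists_local_torus hF hfin h ζ hζ1 hnorm
      obtain ⟨z, hz⟩ := exists_of_torus hF M hM1 hM2 ζ (local_upgrade hF hn M hM1 ζ hM3)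
      refine ⟨z, ?_⟩
      rw [hz, orderOf_pow' _ (by omega)]
      have h4 : orderOf ζ = Om q n :=
        Nat.dvd_antisymm (orderOf_dvd_of_pow_eq_one ((hζ _).2 dvd_rfl))
          ((hζ _).1 (pow_orderOf_eq_one ζ))
      rw [h4]
      rfl
  obtain ⟨z, hz⟩ := hgen
  obtain ⟨k, hk⟩ := hD
  have hNb : 0 < Nb q n := by
    rw [← hz]
    exact orderOf_pos z
  have hk0 : k ≠ 0 := by
    rintro rfl
    omega
  refine ⟨z ^ k, ?_⟩
  rw [orderOf_pow_of_dvd hk0 (by rw [hz, hk]; exact dvd_mul_left _ _), hz, hk]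
  exact Nat.mul_div_cancel _ (Nat.pos_of_ne_zero hk0)

end Tori

section Classify

variable (p : ℕ) [hp : Fact p.Prime] [CharP F p]

/-- Twisted blocks. -/
theorem finish (hF : Fintype.card F = q ^ 2) {k e o₁ : ℕ} (hk : 1 ≤ k) (hkn : k < n)
    (hle : e ≤ n - k) (he : 1 ≤ e) (hI : IsU F q k o₁) {r : ℕ} (hr : r.Prime) (hrq : r ∣ q + 1)
    (hrn : ¬ r ∣ n) (ho₁ : ¬ r ∣ o₁) (ho₂ : ¬ r ∣ p ^ Nat.clog p e) :
    ∃ z : PSU n F q, orderOf z = r * Nat.lcm o₁ (p ^ Nat.clog p e) := by
  obtain ⟨l, rfl⟩ : ∃ l, n = k + l := ⟨n - k, by omega⟩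
  obtain ⟨j, hj⟩ : ∃ j, l = e + j := ⟨l - e, by omega⟩
  have hJ : IsUF F q l (p ^ Nat.clog p e) := by
    rw [hj]
    exact (isUF_jordan hF p he).extend hF j
  exact exists_twist hF hk hI hJ hr hrq hrn ho₁ ho₂

theorem isU_one (k : ℕ) : IsU F q k 1 :=
  ⟨1, fun u v => by simp, det_one, fun t => by simp⟩

/-- An element of order `r`. -/
theorem exists_order_r (p : ℕ) [Fact p.Prime] [CharP F p] (hF : Fintype.card F = q ^ 2) (hn : 2 ≤ n)
    {r : ℕ} (hr : r.Prime) (hrq : r ∣ q + 1) (hrn : ¬ r ∣ n) : ∃ w : PSU n F q, orderOf w = r := by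
  have h1 : ¬ r ∣ 1 := fun h => hr.one_lt.not_ge (Nat.le_of_dvd one_pos h)
  have hp1 : p ^ Nat.clog p 1 = 1 := by
    rw [Nat.clog_one_right, pow_zero]
  obtain ⟨z, hz⟩ := finish p hF (n := n) (k := 1) (e := 1) (o₁ := 1) le_rfl (by omega) (by omega) le_rfl
    (isU_one 1) hr hrq hrn h1 (by rwa [hp1])
  refine ⟨z, ?_⟩
  rw [hz, hp1, Nat.lcm_one_right, mul_one]

/-- Classification of the elements of order prime to `r`. -/
theorem classify (hF : Fintype.card F = q ^ 2) (hn : 2 ≤ n) {r : ℕ} (hr : r.Prime) (hrq : r ∣ q + 1)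
    (hrn : ¬ r ∣ n) (x : PSU n F q) (hx : ¬ r ∣ orderOf x) :
    (∃ z : PSU n F q, orderOf z = r * orderOf x) ∨ orderOf x ∣ Nb q n ∨
      ∃ j, n - 1 = p ^ j ∧ orderOf x = p ^ (j + 1) := by
  classical
  obtain ⟨A, rfl⟩ := QuotientGroup.mk_surjective x
  have hMP : Preserves q ((A : Matrix.SpecialLinearGroup (Fin n) F) : Matrix (Fin n) (Fin n) F) :=
    preserves_su A
  have hdet : ((A : Matrix.SpecialLinearGroup (Fin n) F) : Matrix (Fin n) (Fin n) F).det = 1 :=
    (A : Matrix.SpecialLinearGroup (Fin n) F).2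
  have hq := two_le_q hF
  have hp1 : 1 < p := hp.out.one_lt
  rcases structure_su hF (by omega) _ hMP hdet with ⟨P, h1, h2, h3, h4, h5⟩ |
    ⟨g, e, hgm, hgi, he, hpow, hcase⟩
  · left
    exact absorb hF A hr hrq hrn hx P h1 h2 h3 h4 h5
  haveI : Fact (Irreducible g) := ⟨hgi⟩
  let K := AdjoinRoot g
  let θ : K := AdjoinRoot.root g
  have hmk : ∀ f : F[X], aeval θ f = 0 ↔ g ∣ f := by
    intro f
    rw [AdjoinRoot.aeval_eq, AdjoinRoot.mk_eq_zero]
  have hθ0 : θ ≠ 0 := by
    have hMunit := isUnit_of_preserves hF _ hMP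
    obtain ⟨o, ho, h1⟩ := isOfFinOrder_iff_pow_eq_one.1 (isOfFinOrder_of_finite hMunit.unit)
    have h2 : ((A : Matrix.SpecialLinearGroup (Fin n) F) : Matrix (Fin n) (Fin n) F) ^ o =
        (1 : F) • (1 : Matrix _ _ F) := by
      have h3 := congrArg Units.val h1
      simpa using h3
    have h3 := ((hpow o 1).1 h2).1
    have h4 : g ∣ X ^ o - C 1 := (dvd_pow_self g (by omega)).trans h3
    have h5 := (hmk _).2 h4
    rw [map_sub, map_pow, aeval_X, aeval_C, map_one, sub_eq_zero] at h5
    intro h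
    rw [h, zero_pow (by omega)] at h5
    exact zero_ne_one h5
  have hX : ¬ g ∣ X := by
    intro h
    have h1 := (hmk _).2 h
    rw [aeval_X] at h1
    exact hθ0 h1
  have hf := order_formula p hF A g e he hpow hX
  obtain ⟨γ, hγdef⟩ : ∃ γ : K, γ = θ ^ (q + 1) := ⟨_, rfl⟩
  have hf' : orderOf (QuotientGroup.mk A : PSU n F q) = Nat.lcm (orderOf γ) (p ^ Nat.clog p e) := by
    rw [hf, hγdef]
  rw [hf'] at hx ⊢
  have hro₁ : ¬ r ∣ orderOf γ := fun h => hx (h.trans (Nat.dvd_lcm_left _ _))
  have hrp : ¬ r ∣ p ^ Nat.clog p e := fun h => hx (h.trans (Nat.dvd_lcm_right _ _))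
  have hδ : Module.finrank F K = g.natDegree := by
    rw [(AdjoinRoot.powerBasis hgi.ne_zero).finrank, AdjoinRoot.powerBasis_dim]
  haveI : FiniteDimensional F K := (AdjoinRoot.powerBasis hgi.ne_zero).finite
  haveI : Finite K := Module.finite_of_finite F
  have hγ0 : γ ≠ 0 := by
    rw [hγdef]
    exact pow_ne_zero _ hθ0
  have hcardK : Nat.card K = (q ^ 2) ^ g.natDegree := by
    rw [Module.natCard_eq_pow_finrank (K := F) (V := K), hδ, Nat.card_eq_fintype_card, hF]
  have hcardF : Nat.card F = q ^ 2 := by rw [Nat.card_eq_fintype_card, hF]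
  have hNform : Algebra.norm F θ = (-1) ^ g.natDegree * g.coeff 0 := by
    have h1 := Algebra.PowerBasis.norm_gen_eq_coeff_zero_minpoly (AdjoinRoot.powerBasis hgi.ne_zero)
    rw [AdjoinRoot.minpoly_powerBasis_gen_of_monic hgm, AdjoinRoot.powerBasis_dim,
      AdjoinRoot.powerBasis_gen] at h1
    exact h1
  have hNpow : algebraMap F K (Algebra.norm F θ) =
      θ ^ (((q ^ 2) ^ g.natDegree - 1) / (q ^ 2 - 1)) := by
    have h1 := FiniteField.algebraMap_norm_eq_pow (K := F) (K' := K) (x := θ)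
    rwa [hcardK, hcardF] at h1
  have hd1 : 1 ≤ g.natDegree := hgi.natDegree_pos
  have hNγ : Algebra.norm F γ = (Algebra.norm F θ) ^ (q + 1) := by
    rw [hγdef, map_pow]
  rcases hcase with ⟨hde, hall, hdetg⟩ | ⟨hde, hdetg⟩
  · -- the local case
    obtain ⟨hodd, hdvd⟩ := local_su hF _ hMP g hgi hgm e he hall
    have hθd : θ ^ (q ^ g.natDegree + 1) = 1 := by
      have h1 := (hmk _).2 hdvd
      rwa [map_sub, map_pow, aeval_X, map_one, sub_eq_zero] at h1
    have hcc : ∀ c : F, c ^ (q ^ g.natDegree) = c ^ q := by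
      intro c
      obtain ⟨s, hs⟩ := hodd
      have h1 : ∀ j : ℕ, c ^ ((q ^ 2) ^ j) = c := by
        intro j
        induction j with
        | zero => simp
        | succ j ih =>
          rw [pow_succ, pow_mul, ih, ← hF, FiniteField.pow_card]
      rw [hs, pow_succ, pow_mul, pow_mul, h1]
    have hNθ : (Algebra.norm F θ) ^ (q + 1) = 1 := by
      have h1 : (Algebra.norm F θ) ^ (q ^ g.natDegree + 1) = 1 := by
        rw [← map_pow, hθd, map_one]
      rwa [pow_succ, hcc, ← pow_succ] at h1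
    have hNγ1 : Algebra.norm F γ = 1 := by rw [hNγ, hNθ]
    have hγd : γ ^ (q ^ g.natDegree + 1) = 1 := by
      rw [hγdef, ← pow_mul, mul_comm, pow_mul, hθd, one_pow]
    obtain ⟨B, hB1, hB2, hB3⟩ := exists_local_torus hF hδ hodd γ hγd hNγ1
    have hI : IsU F q g.natDegree (orderOf γ) := by
      refine ⟨B, hB1, hB2, fun t => ?_⟩
      have h1 := hB3 t 1
      rw [one_smul, map_one] at h1
      rw [h1, orderOf_dvd_iff_pow_eq_one]
    by_cases hdn : g.natDegree = n
    · right
      left
      have he1 : e = 1 := by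
        rw [hdn] at hde
        have h3 : n * e ≤ n * 1 := by omega
        have := Nat.le_of_mul_le_mul_left h3 (by omega)
        omega
      rw [he1, Nat.clog_one_right, pow_zero, Nat.lcm_one_right]
      apply orderOf_dvd_of_pow_eq_one
      rw [hγdef]
      apply nb_pow
      have hN1 := hdetg hdn
      rw [hdn] at hNform hNpow hθd hodd
      rw [← hNform] at hN1
      rw [hN1, map_one] at hNpow
      obtain ⟨w, hw⟩ := exp_odd (q := q) hq hodd
      rw [hw] at hNpow
      have h1 : θ ^ ((q + 1) * Om q n) = 1 := by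
        rw [om_odd hodd]
        exact hθd
      have h2 : Om q n * (1 + (q + 1) * w) = Om q n + ((q + 1) * Om q n) * w := by ring
      rw [h2, pow_add, pow_mul θ ((q + 1) * Om q n), h1, one_pow, mul_one] at hNpow
      exact hNpow.symm
    · have hlt : g.natDegree < n := by
        have : g.natDegree * 1 ≤ g.natDegree * e := Nat.mul_le_mul_left _ he
        omega
      by_cases hel : e ≤ n - g.natDegree
      · left
        exact finish p hF hd1 hlt hel he hI hr hrq hrn hro₁ hrp
      · -- the unipotent case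
        have h1 : g.natDegree = 1 ∨ e = 1 := by
          by_contra hcon
          push Not at hcon
          have h2 : 2 ≤ g.natDegree := by omega
          have h3 : 2 ≤ e := by omega
          have h4 : g.natDegree + e ≤ g.natDegree * e := by nlinarith
          omega
        have hd1' : g.natDegree = 1 := by
          rcases h1 with h1 | h1
          · exact h1
          · exfalso
            apply hel
            omega
        have hen : e = n := by
          rw [hd1', one_mul] at hde
          omega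
        have hγ1 : γ = 1 := by
          rw [hd1', pow_one] at hθd
          rw [hγdef]
          exact hθd
        rw [hγ1, orderOf_one, Nat.lcm_one_left, hen]
        by_cases hj : ∃ j, n - 1 = p ^ j
        · right
          right
          obtain ⟨j, hj⟩ := hj
          refine ⟨j, hj, ?_⟩
          congr 1
          have h5 : 0 < p ^ j := pow_pos hp.out.pos j
          have h2 : Nat.clog p n ≤ j + 1 := by
            rw [Nat.clog_le_iff_le_pow hp1, pow_succ]
            have h6 : p ^ j * 2 ≤ p ^ j * p := Nat.mul_le_mul_left _ hp1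
            omega
          have h3 : j < Nat.clog p n := by
            rw [Nat.lt_clog_iff_pow_lt hp1]
            omega
          omega
        · left
          have hn1 : 1 < n := by omega
          have hne : Nat.clog p (n - 1) = Nat.clog p n := by
            apply le_antisymm (Nat.clog_mono_right p (by omega))
            by_contra hlt'
            push Not at hlt'
            have h2 := Nat.pow_pred_clog_lt_self hp1 hn1
            have h3 : n - 1 ≤ p ^ Nat.clog p (n - 1) := Nat.le_pow_clog hp1 _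
            have h4 : p ^ Nat.clog p (n - 1) ≤ p ^ (Nat.clog p n).pred :=
              Nat.pow_le_pow_right hp.out.pos (by simp only [Nat.pred_eq_sub_one]; omega)
            apply hj
            refine ⟨(Nat.clog p n).pred, ?_⟩
            omega
          have hrp' : ¬ r ∣ p ^ Nat.clog p (n - 1) := by
            rw [hne, ← hen]
            exact hrp
          obtain ⟨z, hz⟩ := finish p hF (n := n) (k := 1) (e := n - 1) (o₁ := 1) le_rfl (by omega)
            le_rfl (by omega) (isU_one 1) hr hrq hrn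
            (fun h => hr.one_lt.not_ge (Nat.le_of_dvd one_pos h)) hrp'
          refine ⟨z, ?_⟩
          rw [hz, Nat.lcm_one_left, hne]
  · -- the split case
    have hNγq : (Algebra.norm F γ) ^ q = Algebra.norm F γ := by
      rw [hNγ, pow_succ, mul_pow, pow_q_pow_q hF, mul_comm]
    obtain ⟨B, hB1, hB2, hB3⟩ := exists_split_torus hF hδ γ hγ0 hNγq
    have hI : IsU F q (g.natDegree + g.natDegree) (orderOf γ) := by
      refine ⟨B, hB1, hB2, fun t => ?_⟩
      have h1 := hB3 t 1
      rw [one_smul, map_one] at h1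
      rw [h1, orderOf_dvd_iff_pow_eq_one]
      simp
    by_cases h2dn : 2 * g.natDegree = n
    · right
      left
      have he1 : e = 1 := by
        have h3 : (2 * g.natDegree) * e ≤ (2 * g.natDegree) * 1 := by
          have h4 : 2 * g.natDegree * e = 2 * (g.natDegree * e) := by ring
          omega
        have := Nat.le_of_mul_le_mul_left h3 (by omega)
        omega
      rw [he1, Nat.clog_one_right, pow_zero, Nat.lcm_one_right]
      apply orderOf_dvd_of_pow_eq_one
      rw [hγdef]
      apply nb_pow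
      have hN1 := hdetg h2dn
      rw [← hNform] at hN1
      have hn2 : n = g.natDegree + g.natDegree := by omega
      rw [hn2, ← exp_even hq g.natDegree, pow_mul]
      rw [← hNpow]
      have h0 : algebraMap F K (Algebra.norm F θ) ≠ 0 := by
        rw [hNpow]
        exact pow_ne_zero _ hθ0
      have h2 : (algebraMap F K (Algebra.norm F θ)) ^ q = algebraMap F K (Algebra.norm F θ) := by
        rw [← map_pow, hN1]
      have h3 : (algebraMap F K (Algebra.norm F θ)) ^ (q - 1) * algebraMap F K (Algebra.norm F θ) =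
          algebraMap F K (Algebra.norm F θ) := by
        rw [← pow_succ, Nat.sub_add_cancel (by omega), h2]
      exact mul_right_cancel₀ h0 (h3.trans (one_mul _).symm)
    · left
      have hlt : 2 * g.natDegree < n := by
        have : 2 * (g.natDegree * 1) ≤ 2 * (g.natDegree * e) := by
          exact Nat.mul_le_mul_left _ (Nat.mul_le_mul_left _ he)
        omega
      have hel : e ≤ n - (g.natDegree + g.natDegree) := by
        rcases Nat.lt_or_ge 1 e with h1 | h1
        · have h2 : g.natDegree * e ≥ g.natDegree * 2 := Nat.mul_le_mul_left _ h1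
          have h3 : e + 2 * g.natDegree ≤ 2 * (g.natDegree * e) := by nlinarith
          omega
        · omega
      exact finish p hF (by omega) (by omega) hel he hI hr hrq hrn hro₁ hrp

end Classify

end Cfsg.Agent.Lib.Classical.Herm.OrdClass
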