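import Mathlib
import Cfsg.Agent.Lib.Classical.Herm.RegUWitt
import Cfsg.Agent.Lib.Classical.Herm.Block

/-!
# Subgroups of `SU_n(q)` containing many full transvection subgroups

`H` is a subgroup of `SU n F q`. A nonzero isotropic vector is *full* if all the transvections with
that vector lie in `H`. If full vectors not orthogonal to a fixed full vector `e` span, and a
nondegenerate subspace of dimension at least three containing `e` has all of its isotropic vectors
full, then `H` is everything.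
-/

set_option autoImplicit false
set_option linter.unusedSectionVars false
set_option linter.unusedSimpArgs false

open scoped Matrix
open Cfsg
open Cfsg.Agent.Lib.Classical.Herm.Basic Cfsg.Agent.Lib.Classical.Herm.Form
open Cfsg.Agent.Lib.Classical.Herm.GU Cfsg.Agent.Lib.Classical.Herm.SU
open Cfsg.Agent.Lib.Classical.Herm.Subfield Cfsg.Agent.Lib.Classical.Herm.Isotropic
open Cfsg.Agent.Lib.Classical.Herm.Tv Cfsg.Agent.Lib.Classical.Herm.Gen
open Cfsg.Agent.Lib.Classical.Herm.Block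

namespace Cfsg.Agent.Lib.Classical.Herm.RegU

variable {F : Type*} [Field F] [Fintype F] {q n : ℕ}

local notation "⟪" x ", " y "⟫" => hermForm _ _ q x y

/-- `x` is a nonzero isotropic vector all of whose transvections lie in `H`. -/
def Full (H : Subgroup (SU n F q)) (x : Fin n → F) : Prop :=
  x ≠ 0 ∧ ⟪x, x⟫ = 0 ∧ ∀ c : F, c + c ^ q = 0 → ∃ g ∈ H, ∀ y, act g y = y + (c * ⟪y, x⟫) • x

variable {H : Subgroup (SU n F q)}

theorem form_act_inv (g : SU n F q) (x y : Fin n → F) : ⟪act g⁻¹ x, y⟫ = ⟪x, act g y⟫ := by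
  have := h_act g (act g⁻¹ x) y
  rwa [act_act_inv, eq_comm] at this

theorem Full.conj {x : Fin n → F} (hx : Full H x) {g : SU n F q} (hg : g ∈ H) : Full H (act g x) := by
  obtain ⟨h0, h1, h2⟩ := hx
  refine ⟨act_ne_zero g h0, by rw [h_act]; exact h1, fun c hc => ?_⟩
  obtain ⟨t, ht, hta⟩ := h2 c hc
  refine ⟨g * t * g⁻¹, mul_mem (mul_mem hg ht) (inv_mem hg), fun y => ?_⟩
  rw [act_mul, act_mul, hta, act_add, act_act_inv, act_smul, form_act_inv]

theorem Full.smul (hF : Fintype.card F = q ^ 2) {x : Fin n → F} (hx : Full H x) {a : F} (ha : a ≠ 0) :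
    Full H (a • x) := by
  obtain ⟨h0, h1, h2⟩ := hx
  refine ⟨smul_ne_zero ha h0, by rw [hermForm_smul_left, hermForm_smul_right, h1]; ring, fun c hc => ?_⟩
  obtain ⟨t, ht, hta⟩ := h2 (c * (a * a ^ q)) (by
    rw [mul_pow, mul_pow, pow_q_pow_q hF]
    linear_combination (a * a ^ q) * hc)
  refine ⟨t, ht, fun y => ?_⟩
  rw [hta, hermForm_smul_right, smul_smul]
  congr 2
  ring

/-- Line closure: the image of `x` under a transvection with vector `y`. -/
theorem Full.line {x y : Fin n → F} (hx : Full H x) (hy : Full H y)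
    {c : F} (hc : c + c ^ q = 0) : Full H (x + (c * ⟪x, y⟫) • y) := by
  obtain ⟨t, ht, hta⟩ := hy.2.2 c hc
  rw [← hta]
  exact hx.conj ht

/-- All isotropic vectors of a hyperbolic line spanned by full vectors are full. -/
theorem Full.plane (hF : Fintype.card F = q ^ 2) {x y : Fin n → F} (hx : Full H x) (hy : Full H y)
    (hxy : ⟪x, y⟫ ≠ 0) {α β : F} (h0 : α • x + β • y ≠ 0) (hiso : ⟪α • x + β • y, α • x + β • y⟫ = 0) :
    Full H (α • x + β • y) := by
  by_cases hα : α = 0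
  · subst hα
    have hβ : β ≠ 0 := by
      rintro rfl
      simp at h0
    rw [zero_smul, zero_add]
    exact hy.smul hF hβ
  by_cases hβ : β = 0
  · subst hβ
    rw [zero_smul, add_zero]
    exact hx.smul hF hα
  have hyx : ⟪y, x⟫ = ⟪x, y⟫ ^ q := (hermForm_pow_q hF n x y).symm
  have hxyq : ⟪x, y⟫ ^ q ≠ 0 := pow_ne_zero _ hxy
  have hc : (β / α / ⟪x, y⟫) + (β / α / ⟪x, y⟫) ^ q = 0 := by
    have h1 : α * β ^ q * ⟪x, y⟫ + β * α ^ q * ⟪x, y⟫ ^ q = 0 := by
      have := hiso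
      simp only [hermForm_add_left, hermForm_add_right hF, hermForm_smul_left, hermForm_smul_right,
        hx.2.1, hy.2.1, hyx] at this
      linear_combination this
    have hαq : α ^ q ≠ 0 := pow_ne_zero _ hα
    rw [div_pow, div_pow]
    field_simp
    linear_combination h1
  have h1 := hx.line hy hc
  have e : x + (β / α / ⟪x, y⟫ * ⟪x, y⟫) • y = α⁻¹ • (α • x + β • y) := by
    rw [div_mul_cancel₀ _ hxy, smul_add, smul_smul, smul_smul, inv_mul_cancel₀ hα, one_smul, div_eq_inv_mul]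
  rw [e] at h1
  have h2 := h1.smul hF hα
  rwa [smul_smul, mul_inv_cancel₀ hα, one_smul] at h2

/-- The scalar of a transvection in `SU` has trace zero. -/
theorem trace_of_mem (hF : Fintype.card F = q ^ 2) {k : ℕ} {g : SU k F q} {v : Fin k → F} {c : F}
    (hv0 : v ≠ 0) (hv : hermForm k F q v v = 0) (hm : mat g = unitaryTransvection k q v c) :
    c + c ^ q = 0 := by
  obtain ⟨y, hy⟩ : ∃ y, hermForm k F q y v ≠ 0 := by
    by_contra hcon
    push Not at hcon
    exact hv0 (hermForm_nondegenerate_right hF k v hcon)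
  have h1 : act g y = y + (c * hermForm k F q y v) • v := by
    change mat g *ᵥ y = _
    rw [hm, unitaryTransvection_mulVec]
  have h2 := h_act g y y
  rw [h1] at h2
  have hvy : hermForm k F q v y = hermForm k F q y v ^ q := (hermForm_pow_q hF k y v).symm
  simp only [hermForm_add_left, hermForm_add_right hF, hermForm_smul_left, hermForm_smul_right, hv,
    hvy, mul_pow] at h2
  have h3 : (c + c ^ q) * (hermForm k F q y v * hermForm k F q y v ^ q) = 0 := by
    linear_combination h2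
  rcases mul_eq_zero.1 h3 with h4 | h4
  · exact h4
  · exact absurd h4 (mul_ne_zero hy (pow_ne_zero _ hy))

/-- If all isotropic vectors are full then `H` is everything. -/
theorem eq_top_of_full (hF : Fintype.card F = q ^ 2) (hn : 3 ≤ n) (h32 : ¬ (n = 3 ∧ q = 2))
    (hall : ∀ x : Fin n → F, x ≠ 0 → ⟪x, x⟫ = 0 → Full H x) : H = ⊤ := by
  rw [eq_top_iff, ← T_eq_top hF hn h32, T, Subgroup.closure_le]
  rintro g ⟨v, c, hv, hm⟩
  by_cases hv0 : v = 0
  · subst hv0
    have : g = 1 := by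
      apply ext_act
      intro x
      change mat g *ᵥ x = _
      rw [hm, unitaryTransvection_mulVec]
      simp
    rw [this]
    exact one_mem _
  · obtain ⟨t, ht, hta⟩ := (hall v hv0 hv).2.2 c (trace_of_mem hF hv0 hv hm)
    have : g = t := by
      apply ext_act
      intro x
      rw [hta]
      change mat g *ᵥ x = _
      rw [hm, unitaryTransvection_mulVec]
    rw [this]
    exact ht

/-! ### Coordinates on a subspace -/

section Coord

variable {k : ℕ} {f : Fin k → Fin n → F}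

/-- The linear combination of a frame with given coefficients. -/
def iot (f : Fin k → Fin n → F) (a : Fin k → F) : Fin n → F := ∑ i, a i • f i

theorem form_iot_right (hf : IsFrame q f) (a : Fin k → F) (j : Fin k) : ⟪iot f a, f j⟫ = a j := by
  classical
  simp only [iot]
  rw [hermForm_sum_left]
  simp [hf _ _]

theorem form_iot (hF : Fintype.card F = q ^ 2) (hf : IsFrame q f) (a b : Fin k → F) :
    ⟪iot f a, iot f b⟫ = hermForm k F q a b := by
  conv_lhs => rw [iot.eq_def f b]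
  rw [hermForm_sum_right hF]
  simp_rw [form_iot_right hf]
  simp only [hermForm]
  exact Finset.sum_congr rfl fun i _ => mul_comm _ _

theorem form_perp_iot (hF : Fintype.card F = q ^ 2) {z : Fin n → F} (hz : ∀ i, ⟪z, f i⟫ = 0)
    (a : Fin k → F) : ⟪z, iot f a⟫ = 0 := by
  simp only [iot]
  rw [hermForm_sum_right hF]
  simp [hz]

theorem iot_add (a b : Fin k → F) : iot f (a + b) = iot f a + iot f b := by
  simp only [iot, Pi.add_apply, add_smul, Finset.sum_add_distrib]

theorem iot_smul (c : F) (a : Fin k → F) : iot f (c • a) = c • iot f a := by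
  simp only [iot, Pi.smul_apply, smul_eq_mul, Finset.smul_sum, smul_smul]

theorem iot_eq_zero (hf : IsFrame q f) {a : Fin k → F} (h : iot f a = 0) : a = 0 := by
  funext j
  rw [Pi.zero_apply, ← form_iot_right hf a j, h, hermForm_zero_left]

/-- Lifting the transvection group of a frame to `H`. -/
theorem lift_T (hF : Fintype.card F = q ^ 2) (hf : IsFrame q f)
    (hS : ∀ a : Fin k → F, a ≠ 0 → hermForm k F q a a = 0 → Full H (iot f a))
    {g : SU k F q} (hg : g ∈ T k F q) :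
    ∃ g' ∈ H, (∀ a, act g' (iot f a) = iot f (act g a)) ∧ ∀ z, (∀ i, ⟪z, f i⟫ = 0) → act g' z = z := by
  induction hg using Subgroup.closure_induction with
  | mem g hg =>
    obtain ⟨v, c, hv, hm⟩ := hg
    have hact : ∀ a, act g a = a + (c * hermForm k F q a v) • v := by
      intro a
      change mat g *ᵥ a = _
      rw [hm, unitaryTransvection_mulVec]
    by_cases hv0 : v = 0
    · subst hv0
      refine ⟨1, one_mem _, fun a => ?_, fun z _ => act_one z⟩
      rw [hact, act_one]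
      simp
    · obtain ⟨t, ht, hta⟩ := (hS v hv0 hv).2.2 c (trace_of_mem hF hv0 hv hm)
      refine ⟨t, ht, fun a => ?_, fun z hz => ?_⟩
      · rw [hta, hact, iot_add, iot_smul, form_iot hF hf]
      · rw [hta, form_perp_iot hF hz]
        simp
  | one => exact ⟨1, one_mem _, fun a => by simp, fun z _ => act_one z⟩
  | mul g₁ g₂ _ _ h₁ h₂ =>
    obtain ⟨a₁, ha₁, ha₁', ha₁''⟩ := h₁
    obtain ⟨a₂, ha₂, ha₂', ha₂''⟩ := h₂
    refine ⟨a₁ * a₂, mul_mem ha₁ ha₂, fun a => ?_, fun z hz => ?_⟩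
    · rw [act_mul, act_mul, ha₂', ha₁']
    · rw [act_mul, ha₂'' z hz, ha₁'' z hz]
  | inv g₁ _ h₁ =>
    obtain ⟨a₁, ha₁, ha₁', ha₁''⟩ := h₁
    refine ⟨a₁⁻¹, inv_mem ha₁, fun a => ?_, fun z hz => ?_⟩
    · have : act a₁ (iot f (act g₁⁻¹ a)) = iot f a := by
        rw [ha₁', act_act_inv]
      rw [← this, act_inv_act]
    · conv_lhs => rw [← ha₁'' z hz]
      exact act_inv_act a₁ z

theorem full_translate (hF : Fintype.card F = q ^ 2) (hf : IsFrame q f)
    (hS : ∀ a : Fin k → F, a ≠ 0 → hermForm k F q a a = 0 → Full H (iot f a))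
    {g : SU k F q} (hg : g ∈ T k F q) {a : Fin k → F} {z : Fin n → F} (hz : ∀ i, ⟪z, f i⟫ = 0)
    (h : Full H (iot f a + z)) : Full H (iot f (act g a) + z) := by
  obtain ⟨g', hg', h1, h2⟩ := lift_T hF hf hS hg
  have := h.conj hg'
  rwa [act_add, h1, h2 z hz] at this

end Coord

/-- Vectors of the same nonzero norm in dimension at least two are conjugate under `SU`. -/
theorem exists_su_norm (hF : Fintype.card F = q ^ 2) {k : ℕ} (hk : 2 ≤ k) {a a' : Fin k → F}
    (h : hermForm k F q a a = hermForm k F q a' a') (h0 : hermForm k F q a a ≠ 0) :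
    ∃ g : SU k F q, act g a = a' := by
  obtain ⟨c, hc⟩ := exists_norm_eq hF (hermForm k F q a a)⁻¹ (inv_ne_zero h0)
    (by rw [inv_pow, hermForm_self_pow_q hF])
  have hc0 : c ≠ 0 := by
    rintro rfl
    rw [zero_pow (by omega)] at hc
    exact inv_ne_zero h0 hc.symm
  have hcc : c * c ^ q = (hermForm k F q a a)⁻¹ := by rw [← hc, pow_succ]; ring
  have hf : ∀ {b : Fin k → F}, hermForm k F q b b = hermForm k F q a a →
      IsFrame q (![c • b] : Fin 1 → Fin k → F) := by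
    intro b hb i j
    have hi : i = 0 := Subsingleton.elim _ _
    have hj : j = 0 := Subsingleton.elim _ _
    subst hi hj
    simp only [Matrix.cons_val_zero, hermForm_smul_left, hermForm_smul_right, hb, if_true]
    rw [← mul_assoc, mul_comm (c ^ q) c, hcc, inv_mul_cancel₀ h0]
  obtain ⟨g, hg⟩ := exists_su_frame hF (k := 1) (by omega) _ _ (hf rfl) (hf h.symm)
  refine ⟨g, ?_⟩
  have h1 := hg 0
  simp only [Matrix.cons_val_zero, act_smul] at h1
  exact smul_right_injective _ hc0 h1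

/-! ### Subspaces -/

/-- A nondegenerate subspace. -/
def Nd (S : Submodule F (Fin n → F)) : Prop := ∀ u ∈ S, (∀ v ∈ S, hermForm n F q u v = 0) → u = 0

/-- A subspace all of whose nonzero isotropic vectors are full. -/
def FullSub (H : Subgroup (SU n F q)) (S : Submodule F (Fin n → F)) : Prop :=
  ∀ x ∈ S, x ≠ 0 → ⟪x, x⟫ = 0 → Full H x

section Sub

variable {S : Submodule F (Fin n → F)}

/-- A frame of a nondegenerate subspace, in the form needed here. -/
theorem exists_frame (hF : Fintype.card F = q ^ 2) (hS : Nd (q := q) S) :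
    ∃ f : Fin (Module.finrank F S) → Fin n → F, IsFrame q f ∧ (∀ a, iot f a ∈ S) ∧
      ∀ u ∈ S, ∃ a, u = iot f a := by
  obtain ⟨f, hf, h1, h2⟩ := exists_frame_of_nondeg hF S rfl hS
  exact ⟨f, hf, fun a => Submodule.sum_mem _ fun i _ => Submodule.smul_mem _ _ (h1 i), fun u hu => by
    obtain ⟨c, hc⟩ := h2 u hu
    exact ⟨c, hc⟩⟩

/-- Splitting a vector with respect to a nondegenerate subspace. -/
theorem exists_split (hF : Fintype.card F = q ^ 2) (hS : Nd (q := q) S) (x : Fin n → F) :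
    ∃ s ∈ S, ∃ z : Fin n → F, x = s + z ∧ ∀ w ∈ S, ⟪z, w⟫ = 0 := by
  obtain ⟨f, hf, h1, h2⟩ := exists_frame hF hS
  refine ⟨iot f (fun i => ⟪x, f i⟫), h1 _, x - iot f (fun i => ⟪x, f i⟫), by abel, fun w hw => ?_⟩
  obtain ⟨b, rfl⟩ := h2 w hw
  apply form_perp_iot hF
  intro i
  rw [hermForm_sub_left, form_iot_right hf, sub_self]

theorem perp_symm (hF : Fintype.card F = q ^ 2) {z : Fin n → F} (hz : ∀ w ∈ S, ⟪z, w⟫ = 0) :
    ∀ w ∈ S, ⟪w, z⟫ = 0 := fun w hw => hermForm_symm_zero hF (hz w hw)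

theorem fullSub_coords (hF : Fintype.card F = q ^ 2) (hFS : FullSub H S) {k : ℕ}
    {f : Fin k → Fin n → F} (hf : IsFrame q f) (h1 : ∀ a, iot f a ∈ S) :
    ∀ a : Fin k → F, a ≠ 0 → hermForm k F q a a = 0 → Full H (iot f a) := by
  intro a ha hiso
  refine hFS _ (h1 a) (fun h => ha (iot_eq_zero hf h)) ?_
  rw [form_iot hF hf, hiso]

/-- Adding a non-isotropic vector `z` orthogonal to `S`, when some `s + z` is full. -/
theorem caseA (hF : Fintype.card F = q ^ 2) (hk : 2 ≤ Module.finrank F S)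
    (hT : ∀ g : SU (Module.finrank F S) F q, g ∈ T (Module.finrank F S) F q) (hS : Nd (q := q) S)
    (hFS : FullSub H S) {s z : Fin n → F} (hs : s ∈ S) (hz : ∀ w ∈ S, ⟪z, w⟫ = 0) (hzz : ⟪z, z⟫ ≠ 0)
    (hp : Full H (s + z)) :
    S < S ⊔ Submodule.span F {z} ∧ Nd (q := q) (S ⊔ Submodule.span F {z}) ∧
      FullSub H (S ⊔ Submodule.span F {z}) := by
  have hz' := perp_symm hF hz
  have hmem : ∀ x, x ∈ S ⊔ Submodule.span F {z} ↔ ∃ s' ∈ S, ∃ μ : F, x = s' + μ • z := by
    intro x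
    rw [Submodule.mem_sup]
    constructor
    · rintro ⟨a, ha, b, hb, rfl⟩
      obtain ⟨μ, rfl⟩ := Submodule.mem_span_singleton.mp hb
      exact ⟨a, ha, μ, rfl⟩
    · rintro ⟨a, ha, μ, rfl⟩
      exact ⟨a, ha, _, Submodule.mem_span_singleton.mpr ⟨μ, rfl⟩, rfl⟩
  have hzm : z ∈ S ⊔ Submodule.span F {z} :=
    Submodule.mem_sup_right (Submodule.mem_span_singleton_self z)
  refine ⟨lt_of_le_of_ne le_sup_left ?_, ?_, ?_⟩
  · intro h
    have : z ∈ S := h ▸ hzm
    exact hzz (hz z this)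
  · intro x hx hx0
    obtain ⟨s', hs', μ, rfl⟩ := (hmem x).1 hx
    have h1 := hx0 z hzm
    rw [hermForm_add_left, hermForm_smul_left, hz' s' hs', zero_add] at h1
    have hμ : μ = 0 := (mul_eq_zero.1 h1).resolve_right hzz
    subst hμ
    rw [zero_smul, add_zero]
    apply hS s' hs'
    intro v hv
    have := hx0 v (Submodule.mem_sup_left hv)
    simpa using this
  · intro x hx hx0 hiso
    obtain ⟨s', hs', μ, rfl⟩ := (hmem x).1 hx
    by_cases hμ : μ = 0
    · subst hμ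
      rw [zero_smul, add_zero] at hx0 hiso ⊢
      exact hFS s' hs' hx0 hiso
    obtain ⟨f, hf, h1, h2⟩ := exists_frame hF hS
    have hnorm : ⟪s', s'⟫ + (μ * μ ^ q) * ⟪z, z⟫ = 0 := by
      have := hiso
      simp only [hermForm_add_left, hermForm_add_right hF, hermForm_smul_left, hermForm_smul_right,
        hz' s' hs', hz s' hs'] at this
      linear_combination this
    have hss : ⟪s, s⟫ + ⟪z, z⟫ = 0 := by
      have := hp.2.1
      simp only [hermForm_add_left, hermForm_add_right hF, hz' s hs, hz s hs] at this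
      linear_combination this
    have hμq : μ ^ q ≠ 0 := pow_ne_zero _ hμ
    have hss' : ⟪μ⁻¹ • s', μ⁻¹ • s'⟫ = ⟪s, s⟫ := by
      rw [hermForm_smul_left, hermForm_smul_right, inv_pow]
      field_simp
      linear_combination hnorm - (μ * μ ^ q) * hss
    have hm : μ⁻¹ • s' ∈ S := S.smul_mem _ hs'
    obtain ⟨a, ha⟩ := h2 s hs
    obtain ⟨a', ha'⟩ := h2 _ hm
    have hnz : ⟪s, s⟫ ≠ 0 := by
      intro h
      rw [h, zero_add] at hss
      exact hzz hss
    obtain ⟨g, hg⟩ := exists_su_norm hF hk (a := a) (a' := a')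
      (by rw [← form_iot hF hf, ← form_iot hF hf, ← ha, ← ha', hss'])
      (by rw [← form_iot hF hf, ← ha]; exact hnz)
    have h3 := full_translate hF hf (fullSub_coords hF hFS hf h1) (hT g)
      (a := a) (z := z) (fun i => hz _ (by
        have := h1 (Pi.single i 1)
        have e : iot f (Pi.single i (1 : F)) = f i := by
          classical
          simp only [iot]
          rw [Finset.sum_eq_single i]
          · simp
          · intro j _ hj
            simp [hj]
          · simp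
        rwa [e] at this)) (by rw [← ha]; exact hp)
    rw [hg, ← ha'] at h3
    have h4 := h3.smul hF hμ
    have e : μ • (μ⁻¹ • s' + z) = s' + μ • z := by
      rw [smul_add, smul_smul, mul_inv_cancel₀ hμ, one_smul]
    rwa [e] at h4

theorem perp_frame {k : ℕ} {f : Fin k → Fin n → F} (h1 : ∀ a, iot f a ∈ S) {z : Fin n → F}
    (hz : ∀ w ∈ S, ⟪z, w⟫ = 0) (i : Fin k) : ⟪z, f i⟫ = 0 := by
  apply hz
  have := h1 (Pi.single i 1)
  have e : iot f (Pi.single i (1 : F)) = f i := by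
    classical
    simp only [iot]
    rw [Finset.sum_eq_single i]
    · simp
    · intro j _ hj
      simp [hj]
    · simp
  rwa [e] at this

/-- An isotropic vector of a nondegenerate subspace has an isotropic partner in the subspace. -/
theorem exists_partner_in (hF : Fintype.card F = q ^ 2) (hS : Nd (q := q) S) {e : Fin n → F}
    (heS : e ∈ S) (he0 : e ≠ 0) (hee : ⟪e, e⟫ = 0) :
    ∃ f ∈ S, ⟪f, f⟫ = 0 ∧ ⟪e, f⟫ = 1 := by
  obtain ⟨y, hy, hne⟩ : ∃ y ∈ S, ⟪e, y⟫ ≠ 0 := by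
    by_contra hcon
    push Not at hcon
    exact he0 (hS e heS hcon)
  have hye : ⟪y, e⟫ = ⟪e, y⟫ ^ q := (hermForm_pow_q hF n e y).symm
  have hye0 : ⟪y, e⟫ ≠ 0 := by rw [hye]; exact pow_ne_zero _ hne
  have h1 : ⟪(⟪y, e⟫)⁻¹ • y, e⟫ = 1 := by
    rw [hermForm_smul_left, inv_mul_cancel₀ hye0]
  have h2 : (⟪y, e⟫)⁻¹ • y ∈ S := S.smul_mem _ hy
  generalize (⟪y, e⟫)⁻¹ • y = w at h1 h2
  have h3 : ⟪e, w⟫ = 1 := hermForm_symm_one hF h1
  obtain ⟨α, hα⟩ := exists_trace_eq hF (c := -⟪w, w⟫) (by rw [pow_q_neg hF, hermForm_self_pow_q hF])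
  refine ⟨w + α • e, S.add_mem h2 (S.smul_mem _ heS), ?_, ?_⟩
  · simp only [hermForm_add_left, hermForm_add_right hF, hermForm_smul_left, hermForm_smul_right,
      hee, h1, h3]
    linear_combination hα
  · simp only [hermForm_add_right hF, hermForm_smul_right, hee, h3]
    ring

/-- Two anchors with isotropic parts orthogonal to `S` produce a non-isotropic part. -/
theorem caseB (hF : Fintype.card F = q ^ 2) (hk : 3 ≤ Module.finrank F S) (hS : Nd (q := q) S)
    (hFS : FullSub H S) {e : Fin n → F} (heS : e ∈ S) (he0 : e ≠ 0) (hee : ⟪e, e⟫ = 0)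
    {s₁ s₂ z z₂ : Fin n → F} (hs₁ : s₁ ∈ S) (hs₁0 : s₁ ≠ 0) (hs₁i : ⟪s₁, s₁⟫ = 0) (hs₂ : s₂ ∈ S)
    (hs₂0 : s₂ ≠ 0) (hs₂i : ⟪s₂, s₂⟫ = 0) (hz : ∀ w ∈ S, ⟪z, w⟫ = 0) (hz₂ : ∀ w ∈ S, ⟪z₂, w⟫ = 0)
    (hzz : ⟪z, z⟫ = 0) (hz₂z₂ : ⟪z₂, z₂⟫ = 0) (hne : ⟪z, z₂⟫ ≠ 0)
    (h₁ : Full H (s₁ + z)) (h₂ : Full H (s₂ + z₂)) :
    ∃ s ∈ S, ∃ z' : Fin n → F, (∀ w ∈ S, ⟪z', w⟫ = 0) ∧ ⟪z', z'⟫ ≠ 0 ∧ Full H (s + z') := by
  obtain ⟨f', hf'S, hf'i, hef'⟩ := exists_partner_in hF hS heS he0 hee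
  obtain ⟨f, hf, hfS, hfsp⟩ := exists_frame hF hS
  have hco := fullSub_coords hF hFS hf hfS
  -- transport to coordinates
  have hanchor : ∀ {a b z : Fin n → F}, a ∈ S → b ∈ S → a ≠ 0 → b ≠ 0 → ⟪a, a⟫ = 0 → ⟪b, b⟫ = 0 →
      (∀ w ∈ S, ⟪z, w⟫ = 0) → Full H (a + z) → Full H (b + z) := by
    intro a b z ha hb ha0 hb0 hai hbi hz hp
    obtain ⟨x, rfl⟩ := hfsp a ha
    obtain ⟨y, rfl⟩ := hfsp b hb
    have hx0 : x ≠ 0 := by
      rintro rfl
      apply ha0
      simp [iot]
    have hy0 : y ≠ 0 := by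
      rintro rfl
      apply hb0
      simp [iot]
    rw [form_iot hF hf] at hai hbi
    obtain ⟨t, ht, hta⟩ := reach_iso hF hk hai hbi hx0 hy0
    have := full_translate hF hf hco ht (a := x) (z := z) (perp_frame hfS hz) hp
    rwa [hta] at this
  obtain ⟨ξ, hξ⟩ : ∃ ξ : F, ξ ^ q ≠ ξ := by
    by_contra hcon
    push Not at hcon
    exact sigma_ne_id hF (RingHom.ext hcon)
  have hq0 : q ≠ 0 := by
    have := two_le_q hF
    omega
  have hξ0 : ξ ≠ 0 := by
    rintro rfl
    exact hξ (zero_pow hq0)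
  have hξ1 : ξ + 1 ≠ 0 := by
    intro h
    have e1 : ξ = -1 := by linear_combination h
    apply hξ
    rw [e1, pow_q_neg hF, one_pow]
  obtain ⟨η₀, hη₀⟩ : ∃ η₀, η₀ = ⟪z, z₂⟫ := ⟨_, rfl⟩
  rw [← hη₀] at hne
  have hη₀q : ⟪z₂, z⟫ = η₀ ^ q := by rw [hη₀, hermForm_pow_q hF]
  have hζ0 : η₀ * ξ ≠ 0 := mul_ne_zero hne hξ0
  have hsp : (η₀ * ξ) ^ q • f' ∈ S := S.smul_mem _ hf'S
  have hspi : ⟪(η₀ * ξ) ^ q • f', (η₀ * ξ) ^ q • f'⟫ = 0 := by
    rw [hermForm_smul_left, hermForm_smul_right, hf'i]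
    ring
  have hf'0 : f' ≠ 0 := by
    rintro rfl
    rw [hermForm_zero_right hF] at hef'
    exact zero_ne_one hef'
  have hsp0 : (η₀ * ξ) ^ q • f' ≠ 0 := smul_ne_zero (pow_ne_zero _ hζ0) hf'0
  have hA₁ := hanchor hs₁ heS hs₁0 he0 hs₁i hee hz h₁
  have hA₂ := hanchor hs₂ hsp hs₂0 hsp0 hs₂i hspi hz₂ h₂
  have hez₂ : ⟪e, z₂⟫ = 0 := hermForm_symm_zero hF (hz₂ e heS)
  have hzs : ⟪z, (η₀ * ξ) ^ q • f'⟫ = 0 := hz _ hsp
  have hxy : ⟪e + z, (η₀ * ξ) ^ q • f' + z₂⟫ = η₀ * (ξ + 1) := by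
    simp only [hermForm_add_left, hermForm_add_right hF]
    rw [hez₂, hzs, ← hη₀, hermForm_smul_right, hef', pow_q_pow_q hF]
    ring
  obtain ⟨c, hc0, hc⟩ := exists_trace_zero hF
  have hc' : c + c ^ q = 0 := by rw [hc]; ring
  have hL := hA₁.line hA₂ hc'
  rw [hxy] at hL
  obtain ⟨η, hη⟩ : ∃ η, η = η₀ * (ξ + 1) := ⟨_, rfl⟩
  rw [← hη] at hL
  refine ⟨e + (c * η) • ((η₀ * ξ) ^ q • f'), S.add_mem heS (S.smul_mem _ hsp), z + (c * η) • z₂,
    fun w hw => ?_, ?_, ?_⟩
  · rw [hermForm_add_left, hermForm_smul_left, hz w hw, hz₂ w hw]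
    ring
  · simp only [hermForm_add_left, hermForm_add_right hF, hermForm_smul_left, hermForm_smul_right,
      hzz, hz₂z₂, ← hη₀, hη₀q]
    have e1 : (c * η) ^ q = -(c * η ^ q) := by rw [mul_pow, hc]; ring
    have e2 : η ^ q = η₀ ^ q * (ξ ^ q + 1) := by
      rw [hη, mul_pow, pow_q_add hF, one_pow]
    rw [e1, e2, hη]
    have e3 : 0 + c * (η₀ * (ξ + 1)) * η₀ ^ q +
        -(c * (η₀ ^ q * (ξ ^ q + 1))) * (η₀ + c * (η₀ * (ξ + 1)) * 0) =
        c * η₀ * η₀ ^ q * (ξ - ξ ^ q) := by ring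
    rw [e3]
    exact mul_ne_zero (mul_ne_zero (mul_ne_zero hc0 hne) (pow_ne_zero _ hne))
      (sub_ne_zero.2 (Ne.symm hξ))
  · have e : e + z + (c * η) • ((η₀ * ξ) ^ q • f' + z₂) =
        e + (c * η) • ((η₀ * ξ) ^ q • f') + (z + (c * η) • z₂) := by
      rw [smul_add]
      abel
    rwa [e] at hL

/-- The growth step. -/
theorem step (hF : Fintype.card F = q ^ 2) {e : Fin n → F} (he : Full H e)
    (hspan : Submodule.span F {v : Fin n → F | Full H v ∧ ⟪v, e⟫ ≠ 0} = ⊤)
    (hk : 3 ≤ Module.finrank F S)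
    (hT : ∀ g : SU (Module.finrank F S) F q, g ∈ T (Module.finrank F S) F q) (hS : Nd (q := q) S)
    (hFS : FullSub H S) (heS : e ∈ S) (hne : S ≠ ⊤) :
    ∃ S' : Submodule F (Fin n → F), S < S' ∧ Nd (q := q) S' ∧ FullSub H S' := by
  have hA : ∀ {s z : Fin n → F}, s ∈ S → (∀ w ∈ S, ⟪z, w⟫ = 0) → ⟪z, z⟫ ≠ 0 → Full H (s + z) →
      ∃ S' : Submodule F (Fin n → F), S < S' ∧ Nd (q := q) S' ∧ FullSub H S' := by
    intro s z hs hz hzz hp
    exact ⟨_, caseA hF (by omega) hT hS hFS hs hz hzz hp⟩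
  -- a full vector outside `S`
  obtain ⟨v, ⟨hv, hve⟩, hvS⟩ : ∃ v, (Full H v ∧ ⟪v, e⟫ ≠ 0) ∧ v ∉ S := by
    by_contra hcon
    push Not at hcon
    apply hne
    rw [eq_top_iff, ← hspan, Submodule.span_le]
    rintro x ⟨h1, h2⟩
    exact hcon x ⟨h1, h2⟩
  obtain ⟨s, hs, z, rfl, hz⟩ := exists_split hF hS v
  have hz' := perp_symm hF hz
  have hs0 : s ≠ 0 := by
    rintro rfl
    apply hve
    rw [zero_add]
    exact hz e heS
  have hz0 : z ≠ 0 := by
    rintro rfl
    apply hvS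
    rwa [add_zero]
  by_cases hzz : ⟪z, z⟫ = 0
  swap
  · exact hA hs hz hzz hv
  have hsi : ⟪s, s⟫ = 0 := by
    have := hv.2.1
    simp only [hermForm_add_left, hermForm_add_right hF, hz' s hs, hz s hs, hzz] at this
    linear_combination this
  -- a second full vector
  obtain ⟨y, ⟨hy, hye⟩, hyz⟩ : ∃ y, (Full H y ∧ ⟪y, e⟫ ≠ 0) ∧ ⟪y, z⟫ ≠ 0 := by
    by_contra hcon
    push Not at hcon
    apply hz0
    apply hermForm_nondegenerate_right hF n z
    intro w
    have hw : w ∈ Submodule.span F {v : Fin n → F | Full H v ∧ ⟪v, e⟫ ≠ 0} := by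
      rw [hspan]
      trivial
    induction hw using Submodule.span_induction with
    | mem y hy => exact hcon y hy
    | zero => exact hermForm_zero_left _ _
    | add a b _ _ ha hb => rw [hermForm_add_left, ha, hb, add_zero]
    | smul c a _ ha => rw [hermForm_smul_left, ha, mul_zero]
  obtain ⟨s₂, hs₂, z₂, rfl, hz₂⟩ := exists_split hF hS y
  have hz₂' := perp_symm hF hz₂
  have hs₂0 : s₂ ≠ 0 := by
    rintro rfl
    apply hye
    rw [zero_add]
    exact hz₂ e heS
  by_cases hz₂z₂ : ⟪z₂, z₂⟫ = 0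
  swap
  · exact hA hs₂ hz₂ hz₂z₂ hy
  have hs₂i : ⟪s₂, s₂⟫ = 0 := by
    have := hy.2.1
    simp only [hermForm_add_left, hermForm_add_right hF, hz₂' s₂ hs₂, hz₂ s₂ hs₂, hz₂z₂] at this
    linear_combination this
  have hzz₂ : ⟪z, z₂⟫ ≠ 0 := by
    have h1 : ⟪z₂, z⟫ ≠ 0 := by
      rw [hermForm_add_left, hz' s₂ hs₂, zero_add] at hyz
      exact hyz
    rw [← hermForm_pow_q hF]
    exact pow_ne_zero _ h1
  obtain ⟨s', hs', z', hz'', hz'z', hp⟩ := caseB hF hk hS hFS heS he.1 he.2.1 hs hs0 hsi hs₂ hs₂0 hs₂i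
    hz hz₂ hzz hz₂z₂ hzz₂ hv hy
  exact hA hs' hz'' hz'z' hp

/-- The growth induction. -/
theorem all_full_of_start (hF : Fintype.card F = q ^ 2) {e : Fin n → F} (he : Full H e)
    (hspan : Submodule.span F {v : Fin n → F | Full H v ∧ ⟪v, e⟫ ≠ 0} = ⊤)
    (hk : 3 ≤ Module.finrank F S) (hk32 : ¬ (Module.finrank F S = 3 ∧ q = 2)) (hS : Nd (q := q) S)
    (hFS : FullSub H S) (heS : e ∈ S) : ∀ x : Fin n → F, x ≠ 0 → ⟪x, x⟫ = 0 → Full H x := by
  have key : ∀ d : ℕ, ∀ S : Submodule F (Fin n → F), Module.finrank F (Fin n → F) -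
      Module.finrank F S = d → 3 ≤ Module.finrank F S → ¬ (Module.finrank F S = 3 ∧ q = 2) →
      Nd (q := q) S → FullSub H S → e ∈ S → ∀ x : Fin n → F, x ≠ 0 → ⟪x, x⟫ = 0 → Full H x := by
    intro d
    induction d using Nat.strong_induction_on with
    | _ d ih =>
      intro S hd hk hk32 hS hFS heS
      by_cases hne : S = ⊤
      · subst hne
        exact fun x hx hi => hFS x trivial hx hi
      · have hT : ∀ g : SU (Module.finrank F S) F q, g ∈ T (Module.finrank F S) F q := by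
          intro g
          rw [T_eq_top hF hk hk32]
          trivial
        obtain ⟨S', hlt, hS', hF'⟩ := step hF he hspan hk hT hS hFS heS hne
        have h1 := Submodule.finrank_lt_finrank_of_lt hlt
        have h2 := Submodule.finrank_le S'
        exact ih (Module.finrank F (Fin n → F) - Module.finrank F S') (by omega) S' rfl (by omega)
          (by omega) hS' hF' (hlt.le heS)
  exact key _ S rfl hk hk32 hS hFS heS

end Sub

end Cfsg.Agent.Lib.Classical.Herm.RegU
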