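import Mathlib
import Cfsg.Agent.Lib.Classical.Herm.RegUGrow
import Cfsg.Agent.Lib.Classical.Witt.Parity

/-!
# Starting the growth of full subspaces

In odd dimension a spanning set of isotropic vectors with `h(x, y) ∈ δ F_q` is impossible, so full
vectors not orthogonal to a full vector `e` give a full nondegenerate subspace of dimension three
containing `e`. Over the field with four elements, a totally isotropic full line gives a full
nondegenerate subspace of dimension four.
-/

set_option autoImplicit false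
set_option linter.unusedSectionVars false
set_option linter.unusedSimpArgs false

open scoped Matrix
open Cfsg
open Cfsg.Agent.Lib.Classical.Herm.Basic Cfsg.Agent.Lib.Classical.Herm.Form
open Cfsg.Agent.Lib.Classical.Herm.GU Cfsg.Agent.Lib.Classical.Herm.SU
open Cfsg.Agent.Lib.Classical.Herm.Subfield Cfsg.Agent.Lib.Classical.Herm.Isotropic
open Cfsg.Agent.Lib.Classical.Herm.Tv Cfsg.Agent.Lib.Classical.Herm.Gen

namespace Cfsg.Agent.Lib.Classical.Herm.RegU

variable {F : Type*} [Field F] [Fintype F] {q n : ℕ}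

local notation "⟪" x ", " y "⟫" => hermForm _ _ q x y

variable {H : Subgroup (SU n F q)}

/-- An alternating matrix defines an alternating form. -/
theorem toBilin_isAlt {d : ℕ} (A : Matrix (Fin d) (Fin d) F) (h0 : ∀ i, A i i = 0)
    (hs : ∀ i j, A j i = -A i j) : (Matrix.toBilin' A).IsAlt := by
  intro x
  rw [Matrix.toBilin'_apply']
  simp only [dotProduct, Matrix.mulVec, Finset.mul_sum]
  rw [← Finset.sum_product']
  refine Finset.sum_involution (fun p _ => (p.2, p.1)) ?_ ?_ (fun _ _ => by simp) (fun _ _ => rfl)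
  · rintro ⟨i, j⟩ _
    simp only
    rw [hs i j]
    ring
  · rintro ⟨i, j⟩ _ hne heq
    simp only [Prod.mk.injEq] at heq
    obtain ⟨rfl, -⟩ := heq
    apply hne
    simp [h0]

/-- In odd dimension there is no spanning set of isotropic vectors with `h(x, y) ∈ δ F_q`. -/
theorem exit_odd (hF : Fintype.card F = q ^ 2) (hodd : Odd n) {Y : Set (Fin n → F)}
    (hspan : Submodule.span F Y = ⊤) {δ : F} (hδ0 : δ ≠ 0) (hδ : δ ^ q = -δ)
    (hiso : ∀ y ∈ Y, ⟪y, y⟫ = 0) (hA : ∀ a ∈ Y, ∀ b ∈ Y, (⟪a, b⟫ / δ) ^ q = ⟪a, b⟫ / δ) : False := by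
  obtain ⟨b, hbY, hbs, hbi⟩ := Submodule.exists_fun_fin_finrank_span_eq F Y
  have hdn : Module.finrank F (Submodule.span F Y) = n := by
    rw [hspan]
    simp
  let A : Matrix (Fin (Module.finrank F (Submodule.span F Y))) (Fin (Module.finrank F (Submodule.span F Y))) F :=
    fun i j => ⟪b i, b j⟫ / δ
  have hA0 : ∀ i, A i i = 0 := fun i => by
    simp only [A]
    rw [hiso _ (hbY i), zero_div]
  have hAs : ∀ i j, A j i = -A i j := fun i j => by
    simp only [A]
    have h1 := hA _ (hbY i) _ (hbY j)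
    rw [div_pow, hδ, hermForm_pow_q hF] at h1
    rw [← h1]
    field_simp
  have hE := Cfsg.Agent.Lib.Classical.Witt.Parity.even_finrank_of_alt (Matrix.toBilin' A)
    (toBilin_isAlt A hA0 hAs) (by
      intro x hx
      have h1 : ∀ j, ⟪∑ i, x i • b i, b j⟫ = 0 := by
        intro j
        have h2 := hx (Pi.single j 1)
        rw [Matrix.toBilin'_apply'] at h2
        simp only [Matrix.mulVec_single_one, dotProduct] at h2
        rw [hermForm_sum_left]
        have h3 : (∑ i, x i * ⟪b i, b j⟫) / δ = 0 := by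
          rw [Finset.sum_div, ← h2]
          refine Finset.sum_congr rfl fun i _ => ?_
          change x i * ⟪b i, b j⟫ / δ = x i * (⟪b i, b j⟫ / δ)
          ring
        exact (div_eq_zero_iff.1 h3).resolve_right hδ0
      have h4 : ∑ i, x i • b i = 0 := by
        apply hermForm_nondegenerate_left hF n
        intro w
        have hw : w ∈ Submodule.span F (Set.range b) := by
          rw [hbs, hspan]
          trivial
        induction hw using Submodule.span_induction with
        | mem y hy =>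
          obtain ⟨j, rfl⟩ := hy
          exact h1 j
        | zero => exact hermForm_zero_right hF _ _
        | add a b _ _ ha hb => rw [hermForm_add_right hF, ha, hb, add_zero]
        | smul c a _ ha => rw [hermForm_smul_right, ha, mul_zero]
      funext i
      exact Fintype.linearIndependent_iff.1 hbi x h4 i)
  rw [Module.finrank_fin_fun, hdn] at hE
  exact (Nat.not_even_iff_odd.2 hodd) hE

/-- Normalised full vectors span. -/
theorem span_normalised {e : Fin n → F} {δ : F} (hδ0 : δ ≠ 0) (hF : Fintype.card F = q ^ 2)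
    (hspan : Submodule.span F {v : Fin n → F | Full H v ∧ ⟪v, e⟫ ≠ 0} = ⊤) :
    Submodule.span F {v : Fin n → F | Full H v ∧ ⟪v, e⟫ = δ} = ⊤ := by
  rw [eq_top_iff, ← hspan, Submodule.span_le]
  rintro v ⟨hv, hve⟩
  have h1 : (δ / ⟪v, e⟫) • v ∈ {v : Fin n → F | Full H v ∧ ⟪v, e⟫ = δ} :=
    ⟨hv.smul hF (div_ne_zero hδ0 hve), by rw [hermForm_smul_left]; field_simp⟩
  have h2 := Submodule.smul_mem _ (⟪v, e⟫ / δ) (Submodule.subset_span h1)
  rw [smul_smul] at h2
  have h3 : ⟪v, e⟫ / δ * (δ / ⟪v, e⟫) = 1 := by field_simp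
  rwa [h3, one_smul] at h2

/-- The start in odd dimension: a full nondegenerate subspace of dimension at least three. -/
theorem start_odd (hF : Fintype.card F = q ^ 2) (hodd : Odd n) {e : Fin n → F} (he : Full H e)
    (hspan : Submodule.span F {v : Fin n → F | Full H v ∧ ⟪v, e⟫ ≠ 0} = ⊤) :
    ∃ S : Submodule F (Fin n → F), Nd (q := q) S ∧ FullSub H S ∧ e ∈ S ∧ 3 ≤ Module.finrank F S := by
  obtain ⟨δ, hδ0, hδ⟩ := exists_trace_zero hF
  have hY := span_normalised hδ0 hF hspan
  by_cases hall : ∀ a ∈ {v : Fin n → F | Full H v ∧ ⟪v, e⟫ = δ},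
      ∀ b ∈ {v : Fin n → F | Full H v ∧ ⟪v, e⟫ = δ}, (⟪a, b⟫ / δ) ^ q = ⟪a, b⟫ / δ
  · exact (exit_odd hF hodd hY hδ0 hδ (fun y hy => hy.1.2.1) hall).elim
  push Not at hall
  obtain ⟨a, ⟨ha, hae⟩, b, ⟨hb, hbe⟩, hne⟩ := hall
  have hee := he.2.1
  have haa := ha.2.1
  have hea : ⟪e, a⟫ = -δ := by
    rw [← hδ, ← hae, hermForm_pow_q hF]
  have hmem : ∀ x, x ∈ Submodule.span F {e, a} ↔ ∃ α β : F, α • e + β • a = x :=
    fun x => Submodule.mem_span_pair
  have heL : e ∈ Submodule.span F {e, a} := Submodule.subset_span (by simp)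
  have haL : a ∈ Submodule.span F {e, a} := Submodule.subset_span (by simp)
  have hL : Nd (q := q) (Submodule.span F {e, a}) := by
    intro u hu hu0
    obtain ⟨α, β, rfl⟩ := (hmem u).1 hu
    have h1 := hu0 e heL
    have h2 := hu0 a haL
    simp only [hermForm_add_left, hermForm_smul_left, hee, hae, hea, haa] at h1 h2
    have hβ : β = 0 := by
      have : β * δ = 0 := by linear_combination h1
      exact (mul_eq_zero.1 this).resolve_right hδ0
    have hα : α = 0 := by
      have : α * δ = 0 := by linear_combination -h2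
      exact (mul_eq_zero.1 this).resolve_right hδ0
    simp [hα, hβ]
  have hLF : FullSub H (Submodule.span F {e, a}) := by
    intro x hx hx0 hi
    obtain ⟨α, β, rfl⟩ := (hmem x).1 hx
    exact he.plane hF ha (by rw [hea]; exact neg_ne_zero.2 hδ0) hx0 hi
  have hfin : Module.finrank F (Submodule.span F {e, a}) = 2 := by
    have hli : LinearIndependent F ![e, a] := by
      rw [LinearIndependent.pair_iff]
      intro α β h
      have h1 := congrArg (fun w => ⟪w, e⟫) h
      have h2 := congrArg (fun w => ⟪w, a⟫) h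
      simp only [hermForm_add_left, hermForm_smul_left, hee, hae, hea, haa, hermForm_zero_left] at h1 h2
      constructor
      · have : α * δ = 0 := by linear_combination -h2
        exact (mul_eq_zero.1 this).resolve_right hδ0
      · have : β * δ = 0 := by linear_combination h1
        exact (mul_eq_zero.1 this).resolve_right hδ0
    have := finrank_span_eq_card hli
    have hr : Set.range ![e, a] = {e, a} := by
      ext x
      simp only [Set.mem_range, Fin.exists_fin_two, Matrix.cons_val_zero, Matrix.cons_val_one,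
        Set.mem_insert_iff, Set.mem_singleton_iff, eq_comm]
    rw [hr] at this
    simpa using this
  have hT : ∀ g : SU (Module.finrank F (Submodule.span F {e, a})) F q,
      g ∈ T (Module.finrank F (Submodule.span F {e, a})) F q := by
    rw [hfin]
    exact mem_T_two hF
  obtain ⟨s, hs, z, rfl, hz⟩ := exists_split hF hL b
  have hz' := perp_symm hF hz
  have hze : ⟪z, e⟫ = 0 := hz e heL
  obtain ⟨α, β, rfl⟩ := (hmem s).1 hs
  have hβ : β = 1 := by
    simp only [hermForm_add_left, hermForm_smul_left, hee, hae, hze] at hbe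
    have : (β - 1) * δ = 0 := by linear_combination hbe
    have h1 := (mul_eq_zero.1 this).resolve_right hδ0
    linear_combination h1
  subst hβ
  have hazz : ⟪a, z⟫ = 0 := hz' a haL
  have hab : ⟪a, α • e + (1 : F) • a + z⟫ = α ^ q * δ := by
    simp only [hermForm_add_right hF, hermForm_smul_right, hae, haa, hazz, one_pow]
    ring
  rw [hab, mul_div_cancel_right₀ _ hδ0, pow_q_pow_q hF] at hne
  have hss : ⟪α • e + (1 : F) • a, α • e + (1 : F) • a⟫ = δ * (α ^ q - α) := by
    simp only [hermForm_add_left, hermForm_add_right hF, hermForm_smul_left, hermForm_smul_right,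
      hee, hae, hea, haa, one_pow]
    ring
  have hzz : ⟪z, z⟫ ≠ 0 := by
    intro h0
    have h1 := hb.2.1
    simp only [hermForm_add_left (u := α • e + (1 : F) • a), hermForm_add_right hF (v' := z)] at h1
    rw [hz' _ hs, hz _ hs, h0, hss] at h1
    have h2 : δ * (α ^ q - α) = 0 := by linear_combination h1
    rcases mul_eq_zero.1 h2 with h3 | h3
    · exact hδ0 h3
    · exact hne (by linear_combination -h3)
  obtain ⟨h1, h2, h3⟩ := caseA hF (by omega) hT hL hLF hs hz hzz hb
  refine ⟨_, h2, h3, h1.le heL, ?_⟩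
  have := Submodule.finrank_lt_finrank_of_lt h1
  omega

/-! ### The field with four elements -/

theorem tri_zero {α β : F} (h2 : (1 : F) + 1 = 0) (hN : ∀ x : F, x ≠ 0 → x * x ^ q = 1)
    (h : α * β ^ q + β * α ^ q = 0) : α = 0 ∨ β = 0 ∨ α = β := by
  by_cases hα : α = 0
  · exact Or.inl hα
  by_cases hβ : β = 0
  · exact Or.inr (Or.inl hβ)
  right; right
  have h3 := hN α hα
  have h4 := hN β hβ
  have h5 : (α + β) ^ 2 = 0 := by
    have e1 : α * β ^ q + β * α ^ q = (α * α + β * β) * (α ^ q * β ^ q) := by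
      linear_combination (-(α * β ^ q)) * h3 + (-(β * α ^ q)) * h4
    rw [e1] at h
    have h6 : α * α + β * β = 0 := by
      have h7 : α ^ q * β ^ q ≠ 0 := mul_ne_zero
        (fun h0 => by rw [h0, mul_zero] at h3; exact zero_ne_one h3)
        (fun h0 => by rw [h0, mul_zero] at h4; exact zero_ne_one h4)
      exact (mul_eq_zero.1 h).resolve_right h7
    linear_combination h6 + (α * β) * h2
  have h6 : α + β = 0 := by simpa using h5
  linear_combination h6 - β * h2

/-- The start over the field with four elements: a totally isotropic full line, with enough full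
vectors around it, gives a full nondegenerate subspace of dimension four. -/
theorem start_four (hF : Fintype.card F = q ^ 2) (h2 : (1 : F) + 1 = 0)
    (hN : ∀ x : F, x ≠ 0 → x * x ^ q = 1) {a b x y : Fin n → F}
    (hl : ∀ μ ν : F, (μ ≠ 0 ∨ ν ≠ 0) → Full H (μ • a + ν • b))
    (hab : ⟪a, b⟫ = 0) (hx : Full H x) (hxb : ⟪x, b⟫ = 1) (hxa : ⟪x, a⟫ = 0) (hy : Full H y)
    (hya : ⟪y, a⟫ ≠ 0) :
    ∃ S : Submodule F (Fin n → F), Nd (q := q) S ∧ FullSub H S ∧ a ∈ S ∧ b ∈ S ∧
      4 ≤ Module.finrank F S := by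
  have ha : Full H a := by simpa using hl 1 0 (Or.inl one_ne_zero)
  have hb : Full H b := by simpa using hl 0 1 (Or.inr one_ne_zero)
  have hai := ha.2.1
  have hbi := hb.2.1
  have hxi := hx.2.1
  have hba : ⟪b, a⟫ = 0 := hermForm_symm_zero hF hab
  have hax : ⟪a, x⟫ = 0 := hermForm_symm_zero hF hxa
  have hbx : ⟪b, x⟫ = 1 := hermForm_symm_one hF hxb
  have hc1 : (1 : F) + 1 ^ q = 0 := by rw [one_pow]; exact h2
  have hvv : ∀ v : Fin n → F, v + v = 0 := by
    intro v
    have : v + v = ((1 : F) + 1) • v := by rw [add_smul, one_smul]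
    rw [this, h2, zero_smul]
  -- the anchors
  have hA₁ : ∀ μ : F, Full H (x + b + μ • a) := by
    intro μ
    by_cases hμ : μ = 0
    · subst hμ
      have := hx.line hb hc1
      rw [hxb, one_mul, one_smul] at this
      simpa using this
    · have h1 := hN μ hμ
      have h3 := hl 1 (μ ^ q) (Or.inl one_ne_zero)
      have h4 := hx.line h3 hc1
      have e1 : ⟪x, (1 : F) • a + μ ^ q • b⟫ = μ := by
        rw [hermForm_add_right hF, hermForm_smul_right, hermForm_smul_right, hxa, hxb,
          pow_q_pow_q hF]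
        ring
      rw [e1, one_mul] at h4
      have e2 : x + μ • ((1 : F) • a + μ ^ q • b) = x + b + μ • a := by
        rw [one_smul, smul_add, smul_smul, h1, one_smul]
        abel
      rwa [e2] at h4
  have hA₂ : ∀ μ : F, Full H (x + μ • a) := by
    intro μ
    have h1 := (hA₁ μ).line hb hc1
    have e1 : ⟪x + b + μ • a, b⟫ = 1 := by
      simp only [hermForm_add_left, hermForm_smul_left, hxb, hbi, hab]
      ring
    rw [e1, one_mul, one_smul] at h1
    have e2 : x + b + μ • a + b = x + μ • a + (b + b) := by abel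
    rwa [e2, hvv, add_zero] at h1
  have hA₃ : ∀ μ : F, Full H (b + μ • a) := by
    intro μ
    have := hl μ 1 (Or.inr one_ne_zero)
    rwa [one_smul, add_comm] at this
  -- split `y`
  obtain ⟨y₀, hy₀⟩ : ∃ y₀, y₀ = y - ⟪y, x⟫ • b - ⟪y, b⟫ • x := ⟨_, rfl⟩
  have hy₀b : ⟪y₀, b⟫ = 0 := by
    rw [hy₀]
    simp only [hermForm_sub_left, hermForm_smul_left, hbi, hxb]
    ring
  have hy₀x : ⟪y₀, x⟫ = 0 := by
    rw [hy₀]
    simp only [hermForm_sub_left, hermForm_smul_left, hbx, hxi]
    ring
  have hy₀a : ⟪y₀, a⟫ = ⟪y, a⟫ := by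
    rw [hy₀]
    simp only [hermForm_sub_left, hermForm_smul_left, hba, hxa]
    ring
  have hbβ : ⟪b, y₀⟫ = 0 := hermForm_symm_zero hF hy₀b
  have hxβ : ⟪x, y₀⟫ = 0 := hermForm_symm_zero hF hy₀x
  obtain ⟨ε, hε⟩ : ∃ ε, ε = ⟪y₀, a⟫ := ⟨_, rfl⟩
  have hε0 : ε ≠ 0 := by rw [hε, hy₀a]; exact hya
  have haβ : ⟪a, y₀⟫ = ε ^ q := by rw [hε, hermForm_pow_q hF]
  have hform : ∀ (α β μ : F) , ⟪α • b + β • x + y₀ + μ • a, a⟫ = ε ∧
      ⟪α • b + β • x + y₀ + μ • a, b⟫ = β ∧ ⟪α • b + β • x + y₀ + μ • a, x⟫ = α := by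
    intro α β μ
    refine ⟨?_, ?_, ?_⟩
    · simp only [hermForm_add_left, hermForm_smul_left, hba, hxa, hai, ← hε]
      ring
    · simp only [hermForm_add_left, hermForm_smul_left, hbi, hxb, hy₀b, hab]
      ring
    · simp only [hermForm_add_left, hermForm_smul_left, hbx, hxi, hy₀x, hax]
      ring
  -- moves
  have hmoveb : ∀ {α β μ τ : F}, τ ≠ 0 → Full H (α • b + β • x + y₀ + μ • a) →
      ∃ μ' : F, Full H ((α + τ) • b + β • x + y₀ + μ' • a) := by
    intro α β μ τ hτ hv
    obtain ⟨h1, h3, h4⟩ := hform α β μ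
    let μ₁ := ((τ - β) / ε) ^ q
    have h5 := hv.line (hA₃ μ₁) hc1
    have e1 : ⟪α • b + β • x + y₀ + μ • a, b + μ₁ • a⟫ = τ := by
      rw [hermForm_add_right hF, hermForm_smul_right, h1, h3]
      simp only [μ₁]
      rw [pow_q_pow_q hF]
      field_simp
      ring
    rw [e1, one_mul] at h5
    refine ⟨μ + τ * μ₁, ?_⟩
    have e2 : α • b + β • x + y₀ + μ • a + τ • (b + μ₁ • a) =
        (α + τ) • b + β • x + y₀ + (μ + τ * μ₁) • a := by
      funext l
      simp only [Pi.add_apply, Pi.smul_apply, smul_eq_mul]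
      ring
    rwa [e2] at h5
  have hmovex : ∀ {α β μ τ : F}, τ ≠ 0 → Full H (α • b + β • x + y₀ + μ • a) →
      ∃ μ' : F, Full H (α • b + (β + τ) • x + y₀ + μ' • a) := by
    intro α β μ τ hτ hv
    obtain ⟨h1, h3, h4⟩ := hform α β μ
    let μ₁ := ((τ - α) / ε) ^ q
    have h5 := hv.line (hA₂ μ₁) hc1
    have e1 : ⟪α • b + β • x + y₀ + μ • a, x + μ₁ • a⟫ = τ := by
      rw [hermForm_add_right hF, hermForm_smul_right, h1, h4]
      simp only [μ₁]
      rw [pow_q_pow_q hF]
      field_simp
      ring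
    rw [e1, one_mul] at h5
    refine ⟨μ + τ * μ₁, ?_⟩
    have e2 : α • b + β • x + y₀ + μ • a + τ • (x + μ₁ • a) =
        α • b + (β + τ) • x + y₀ + (μ + τ * μ₁) • a := by
      funext l
      simp only [Pi.add_apply, Pi.smul_apply, smul_eq_mul]
      ring
    rwa [e2] at h5
  have hstart : Full H (⟪y, x⟫ • b + ⟪y, b⟫ • x + y₀ + (0 : F) • a) := by
    have e : ⟪y, x⟫ • b + ⟪y, b⟫ • x + y₀ + (0 : F) • a = y := by
      rw [hy₀, zero_smul, add_zero]
      abel
    rwa [e]
  have hall : ∀ α β : F, ∃ μ : F, Full H (α • b + β • x + y₀ + μ • a) := by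
    intro α β
    obtain ⟨μ₁, h1⟩ : ∃ μ : F, Full H (α • b + ⟪y, b⟫ • x + y₀ + μ • a) := by
      by_cases hτ : α - ⟪y, x⟫ = 0
      · refine ⟨0, ?_⟩
        have : α = ⟪y, x⟫ := by linear_combination hτ
        rw [this]
        exact hstart
      · obtain ⟨μ', h⟩ := hmoveb hτ hstart
        refine ⟨μ', ?_⟩
        rwa [add_sub_cancel] at h
    by_cases hτ : β - ⟪y, b⟫ = 0
    · refine ⟨μ₁, ?_⟩
      have : β = ⟪y, b⟫ := by linear_combination hτ
      rw [this]
      exact h1
    · obtain ⟨μ', h⟩ := hmovex hτ h1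
      refine ⟨μ', ?_⟩
      rwa [add_sub_cancel] at h
  have hanyμ : ∀ α β μ : F, ⟪α • b + β • x + y₀ + μ • a, α • b + β • x + y₀ + μ • a⟫ = 0 →
      Full H (α • b + β • x + y₀ + μ • a) := by
    intro α β μ' hiso
    obtain ⟨μ, hμ⟩ := hall α β
    obtain ⟨h1, -, -⟩ := hform α β μ
    have h3 : ⟪a, α • b + β • x + y₀ + μ • a⟫ = ε ^ q := by
      rw [← hermForm_pow_q hF, h1]
    have e : α • b + β • x + y₀ + μ' • a = α • b + β • x + y₀ + μ • a + (μ' - μ) • a := by
      funext l
      simp only [Pi.add_apply, Pi.smul_apply, smul_eq_mul]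
      ring
    rw [e] at hiso ⊢
    generalize α • b + β • x + y₀ + μ • a = V at hiso hμ h1 h3 ⊢
    have h4 : (μ' - μ) * (ε ^ q) + ε * (μ' - μ) ^ q = 0 := by
      simp only [hermForm_add_left, hermForm_add_right hF, hermForm_smul_left,
        hermForm_smul_right] at hiso
      rw [hμ.2.1, h1, h3, hai] at hiso
      linear_combination hiso
    rcases tri_zero h2 hN h4 with h5 | h5 | h5
    · rw [h5, zero_smul, add_zero]
      exact hμ
    · exact absurd h5 hε0
    · rw [h5]
      have := hμ.line ha hc1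
      rwa [h1, one_mul] at this
  -- the new isotropic vector
  obtain ⟨μ₀, hμ₀⟩ := hall 0 0
  obtain ⟨y₁, hy₁⟩ : ∃ y₁, y₁ = y₀ + μ₀ • a := ⟨_, rfl⟩
  have hy₁F : Full H y₁ := by
    rw [hy₁]
    simpa using hμ₀
  have hy₁i := hy₁F.2.1
  have hy₁a : ⟪y₁, a⟫ = ε := by
    rw [hy₁, hermForm_add_left, hermForm_smul_left, hai, ← hε]
    ring
  have hy₁b : ⟪y₁, b⟫ = 0 := by
    rw [hy₁, hermForm_add_left, hermForm_smul_left, hab, hy₀b]
    ring
  have hy₁x : ⟪y₁, x⟫ = 0 := by
    rw [hy₁, hermForm_add_left, hermForm_smul_left, hax, hy₀x]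
    ring
  have hay₁ : ⟪a, y₁⟫ = ε ^ q := by rw [← hy₁a, hermForm_pow_q hF]
  have hby₁ : ⟪b, y₁⟫ = 0 := hermForm_symm_zero hF hy₁b
  have hxy₁ : ⟪x, y₁⟫ = 0 := hermForm_symm_zero hF hy₁x
  have hεq : ε ^ q ≠ 0 := pow_ne_zero _ hε0
  -- coordinates
  have hcoord : ∀ α β γ δ : F, ⟪α • b + β • x + γ • a + δ • y₁, x⟫ = α ∧
      ⟪α • b + β • x + γ • a + δ • y₁, b⟫ = β ∧ ⟪α • b + β • x + γ • a + δ • y₁, a⟫ = δ * ε ∧
      ⟪α • b + β • x + γ • a + δ • y₁, y₁⟫ = γ * ε ^ q := by
    intro α β γ δ
    refine ⟨?_, ?_, ?_, ?_⟩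
    · simp only [hermForm_add_left, hermForm_smul_left, hbx, hxi, hax, hy₁x]
      ring
    · simp only [hermForm_add_left, hermForm_smul_left, hbi, hxb, hab, hy₁b]
      ring
    · simp only [hermForm_add_left, hermForm_smul_left, hba, hxa, hai, hy₁a]
      ring
    · simp only [hermForm_add_left, hermForm_smul_left, hby₁, hxy₁, hay₁, hy₁i]
      ring
  have hli : LinearIndependent F ![b, x, a, y₁] := by
    rw [Fintype.linearIndependent_iff]
    intro g hg
    rw [Fin.sum_univ_four] at hg
    simp only [Matrix.cons_val] at hg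
    have h1 := hcoord (g 0) (g 1) (g 2) (g 3)
    rw [hg] at h1
    simp only [hermForm_zero_left] at h1
    obtain ⟨h3, h4, h5, h6⟩ := h1
    have h7 : g 3 = 0 := (mul_eq_zero.1 h5.symm).resolve_right hε0
    have h8 : g 2 = 0 := (mul_eq_zero.1 h6.symm).resolve_right hεq
    intro i
    fin_cases i
    · exact h3.symm
    · exact h4.symm
    · exact h8
    · exact h7
  have hfin := finrank_span_eq_card hli
  have hmem : ∀ w, w ∈ Submodule.span F (Set.range ![b, x, a, y₁]) ↔
      ∃ α β γ δ : F, w = α • b + β • x + γ • a + δ • y₁ := by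
    intro w
    rw [Submodule.mem_span_range_iff_exists_fun]
    constructor
    · rintro ⟨c, rfl⟩
      rw [Fin.sum_univ_four]
      exact ⟨c 0, c 1, c 2, c 3, rfl⟩
    · rintro ⟨α, β, γ, δ, rfl⟩
      refine ⟨![α, β, γ, δ], ?_⟩
      rw [Fin.sum_univ_four]
      rfl
  refine ⟨Submodule.span F (Set.range ![b, x, a, y₁]), ?_, ?_, Submodule.subset_span ⟨2, rfl⟩,
    Submodule.subset_span ⟨0, rfl⟩, ?_⟩
  · intro u hu hu0
    obtain ⟨α, β, γ, δ, rfl⟩ := (hmem u).1 hu
    obtain ⟨h3, h4, h5, h6⟩ := hcoord α β γ δ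
    have m0 : b ∈ Submodule.span F (Set.range ![b, x, a, y₁]) := Submodule.subset_span ⟨0, rfl⟩
    have m1 : x ∈ Submodule.span F (Set.range ![b, x, a, y₁]) := Submodule.subset_span ⟨1, rfl⟩
    have m2 : a ∈ Submodule.span F (Set.range ![b, x, a, y₁]) := Submodule.subset_span ⟨2, rfl⟩
    have m3 : y₁ ∈ Submodule.span F (Set.range ![b, x, a, y₁]) := Submodule.subset_span ⟨3, rfl⟩
    rw [hu0 x m1] at h3
    rw [hu0 b m0] at h4
    rw [hu0 a m2] at h5
    rw [hu0 y₁ m3] at h6
    have h7 : δ = 0 := (mul_eq_zero.1 h5.symm).resolve_right hε0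
    have h8 : γ = 0 := (mul_eq_zero.1 h6.symm).resolve_right hεq
    rw [← h3, ← h4, h7, h8]
    simp
  · intro w hw hw0 hwi
    obtain ⟨α, β, γ, δ, rfl⟩ := (hmem w).1 hw
    by_cases hδ : δ = 0
    · subst hδ
      rw [zero_smul, add_zero] at hw0 hwi ⊢
      have h1 : α * β ^ q + β * α ^ q = 0 := by
        simp only [hermForm_add_left, hermForm_add_right hF, hermForm_smul_left,
          hermForm_smul_right, hbi, hxi, hai, hbx, hxb, hab, hba, hax, hxa] at hwi
        linear_combination hwi
      rcases tri_zero h2 hN h1 with h3 | h3 | h3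
      · subst h3
        by_cases hβ : β = 0
        · subst hβ
          have hγ : γ ≠ 0 := by
            rintro rfl
            simp at hw0
          have := hl γ 0 (Or.inl hγ)
          simpa using this
        · have := (hA₂ (γ / β)).smul hF hβ
          have e : β • (x + (γ / β) • a) = (0 : F) • b + β • x + γ • a := by
            rw [smul_add, smul_smul, mul_div_cancel₀ _ hβ]
            simp
          rwa [e] at this
      · subst h3
        by_cases hα : α = 0
        · subst hα
          have hγ : γ ≠ 0 := by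
            rintro rfl
            simp at hw0
          have := hl γ 0 (Or.inl hγ)
          simpa using this
        · have := (hA₃ (γ / α)).smul hF hα
          have e : α • (b + (γ / α) • a) = α • b + (0 : F) • x + γ • a := by
            rw [smul_add, smul_smul, mul_div_cancel₀ _ hα]
            simp
          rwa [e] at this
      · subst h3
        by_cases hα : α = 0
        · subst hα
          have hγ : γ ≠ 0 := by
            rintro rfl
            simp at hw0
          have := hl γ 0 (Or.inl hγ)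
          simpa using this
        · have := (hA₁ (γ / α)).smul hF hα
          have e : α • (x + b + (γ / α) • a) = α • b + α • x + γ • a := by
            rw [smul_add, smul_add, smul_smul, mul_div_cancel₀ _ hα]
            abel
          rwa [e] at this
    · have e : α • b + β • x + γ • a + δ • y₁ =
          δ • ((α / δ) • b + (β / δ) • x + y₀ + (μ₀ + γ / δ) • a) := by
        rw [hy₁]
        funext l
        simp only [Pi.add_apply, Pi.smul_apply, smul_eq_mul]
        field_simp
        ring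
      rw [e] at hwi ⊢
      refine (hanyμ _ _ _ ?_).smul hF hδ
      rw [hermForm_smul_left, hermForm_smul_right] at hwi
      have hδq : δ ^ q ≠ 0 := pow_ne_zero _ hδ
      exact (mul_eq_zero.1 ((mul_eq_zero.1 hwi).resolve_left hδ)).resolve_left hδq
  · rw [hfin]
    simp

end Cfsg.Agent.Lib.Classical.Herm.RegU
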