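import Mathlib
import Cfsg.Agent.Lib.Classical.Herm.RegUStart
import Cfsg.Agent.Lib.Classical.Herm.Comm
import Cfsg.Agent.Lib.Classical.Symp.RegModel5
import Cfsg.Agent.Lib.Linalg.RootScale

/-!
# Seeds for the generation of `SU_n(q)` by conjugates of a regular unipotent element

A Siegel element conjugating `u` produces a transvection in the group generated by `u` and its
conjugate; a word in `u` and a second conjugate scales the isotropic vector `e`.
-/

set_option autoImplicit false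
set_option linter.unusedSectionVars false
set_option linter.unusedSimpArgs false

open scoped Matrix
open Cfsg
open Cfsg.Agent.Lib.Classical.Herm.Basic Cfsg.Agent.Lib.Classical.Herm.Form
open Cfsg.Agent.Lib.Classical.Herm.GU Cfsg.Agent.Lib.Classical.Herm.SU
open Cfsg.Agent.Lib.Classical.Herm.Subfield Cfsg.Agent.Lib.Classical.Herm.Isotropic
open Cfsg.Agent.Lib.Classical.Herm.Tv Cfsg.Agent.Lib.Classical.Herm.Gen
open Cfsg.Agent.Lib.Classical.Herm.Comm

namespace Cfsg.Agent.Lib.Classical.Herm.RegU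

variable {F : Type*} [Field F] [Fintype F] {q n : ℕ}

local notation "⟪" x ", " y "⟫" => hermForm _ _ q x y

variable {H : Subgroup (SU n F q)}

/-- The commutator of a Siegel element with an element fixing its centre. -/
theorem seed_r (hF : Fintype.card F = q ^ 2) {e w : Fin n → F} {u : SU n F q} {β : F}
    (he : ⟪e, e⟫ = 0) (hu : act u e = e) (hwe : ⟪w, e⟫ = 0) (hβ : β + β ^ q + ⟪w, w⟫ = 0) (x : Fin n → F) :
    act (siegel hF he hwe hβ * u * (siegel hF he hwe hβ)⁻¹ * u⁻¹) x =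
      x + (⟪x, e⟫ • (w - act u w) - ⟪x, w - act u w⟫ • e +
        ((⟪act u w, w⟫ - ⟪w, w⟫) * ⟪x, e⟫) • e) := by
  obtain ⟨g, hg⟩ : ∃ g, g = siegel hF he hwe hβ := ⟨_, rfl⟩
  rw [← hg]
  have hact : ∀ z, act g z = z + (⟪z, e⟫ • w - ⟪z, w⟫ • e + (β * ⟪z, e⟫) • e) := by
    intro z
    rw [hg, act_siegel]
  obtain ⟨z, rfl⟩ : ∃ z, x = act u (act g z) :=
    ⟨act g⁻¹ (act u⁻¹ x), by rw [act_act_inv, act_act_inv]⟩
  have h1 : act (g * u * g⁻¹ * u⁻¹) (act u (act g z)) = act g (act u z) := by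
    simp only [act_mul, act_inv_act]
  rw [h1, hact]
  have hew : ⟪e, w⟫ = 0 := hermForm_symm_zero hF hwe
  have hWe : ⟪act u w, e⟫ = 0 := by
    conv_lhs => rw [← hu]
    rw [h_act, hwe]
  have hZe : ⟪act u z, e⟫ = ⟪z, e⟫ := by
    conv_lhs => rw [← hu]
    rw [h_act]
  have hZW : ⟪act u z, act u w⟫ = ⟪z, w⟫ := h_act u z w
  have hWW : ⟪act u w, act u w⟫ = ⟪w, w⟫ := h_act u w w
  have heW : ⟪e, act u w⟫ = 0 := hermForm_symm_zero hF hWe
  have hx : act u (act g z) = act u z + (⟪z, e⟫ • act u w - ⟪z, w⟫ • e + (β * ⟪z, e⟫) • e) := by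
    rw [hact, act_add, act_add, act_sub, act_smul, act_smul, act_smul, hu]
  rw [hx]
  generalize act u z = Z at *
  generalize act u w = W at *
  have hxe : ⟪Z + (⟪z, e⟫ • W - ⟪z, w⟫ • e + (β * ⟪z, e⟫) • e), e⟫ = ⟪z, e⟫ := by
    simp only [hermForm_add_left, hermForm_sub_left, hermForm_smul_left, hZe, hWe, he]
    ring
  have hxw : ⟪Z + (⟪z, e⟫ • W - ⟪z, w⟫ • e + (β * ⟪z, e⟫) • e), w - W⟫ =
      ⟪Z, w⟫ + ⟪z, e⟫ * ⟪W, w⟫ - ⟪z, w⟫ - ⟪z, e⟫ * ⟪w, w⟫ := by
    simp only [hermForm_add_left, hermForm_sub_left, hermForm_smul_left, hermForm_sub_right hF,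
      hZW, hWW, hew, heW]
    ring
  rw [hxe, hxw, hZe]
  funext l
  simp only [Pi.add_apply, Pi.sub_apply, Pi.smul_apply, smul_eq_mul]
  ring

/-- The commutator of the previous element with `u` is a transvection. -/
theorem seed_tv (hF : Fintype.card F = q ^ 2) {e d : Fin n → F} {u r : SU n F q} {β' l : F}
    (he : ⟪e, e⟫ = 0) (hu : act u e = e) (hde : ⟪d, e⟫ = 0)
    (hr : ∀ x, act r x = x + (⟪x, e⟫ • d - ⟪x, d⟫ • e + (β' * ⟪x, e⟫) • e))
    (hud : act u d = d - l • e) (y : Fin n → F) :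
    act (u * r * u⁻¹ * r⁻¹) y = y + ((l ^ q - l) * ⟪y, e⟫) • e := by
  obtain ⟨x, rfl⟩ : ∃ x, y = act r (act u x) := ⟨act u⁻¹ (act r⁻¹ y), by rw [act_act_inv, act_act_inv]⟩
  have h1 : act (u * r * u⁻¹ * r⁻¹) (act r (act u x)) = act u (act r x) := by
    simp only [act_mul, act_inv_act]
  have hXe : ⟪act u x, e⟫ = ⟪x, e⟫ := by
    conv_lhs => rw [← hu]
    rw [h_act]
  have hXd : ⟪act u x, d⟫ = ⟪x, d⟫ + l ^ q * ⟪x, e⟫ := by
    have h2 := h_act u x d
    rw [hud, hermForm_sub_right hF, hermForm_smul_right, hXe] at h2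
    linear_combination h2
  rw [h1, hr, hr, act_add, act_add, act_sub, act_smul, act_smul, act_smul, hud, hu, hXe, hXd]
  have h3 : ⟪act u x + (⟪x, e⟫ • d - (⟪x, d⟫ + l ^ q * ⟪x, e⟫) • e + (β' * ⟪x, e⟫) • e), e⟫ = ⟪x, e⟫ := by
    simp only [hermForm_add_left, hermForm_sub_left, hermForm_smul_left, hXe, hde, he]
    ring
  rw [h3]
  funext k
  simp only [Pi.add_apply, Pi.sub_apply, Pi.smul_apply, smul_eq_mul]
  ring

/-- The scaling lemma. -/
theorem full_of_scale {e : Fin n → F} (he0 : e ≠ 0) (hee : ⟪e, e⟫ = 0)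
    {c₀ : F} (hc₀0 : c₀ ≠ 0) (hc₀ : c₀ + c₀ ^ q = 0)
    (ht : ∃ t ∈ H, ∀ y, act t y = y + (c₀ * ⟪y, e⟫) • e)
    {W : SU n F q} (hW : W ∈ H) {p : F} (hWe : act W e = p • e)
    (E : Subfield F) (hE : ∀ x : F, x ∈ E ↔ x ^ q = x) {ρ : E} (hρ0 : (ρ : F) = p * p ^ q)
    (hρ : Subring.closure ({ρ} : Set E) = ⊤) : Full H e := by
  refine ⟨he0, hee, fun c hc => ?_⟩
  have hc₀q : c₀ ^ q = -c₀ := by linear_combination hc₀
  have hcq : c ^ q = -c := by linear_combination hc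
  have hfix : c / c₀ ∈ E := by
    rw [hE, div_pow, hcq, hc₀q, neg_div_neg_eq]
  have key := Cfsg.Agent.Lib.Linalg.RootScale.all_of_subring
    (P := fun x : E => ∃ t ∈ H, ∀ y, act t y = y + (((x : F) * c₀) * ⟪y, e⟫) • e) hρ
    (s := 1) one_ne_zero ?_ ?_ ?_ ?_ ?_ ⟨c / c₀, hfix⟩
  · obtain ⟨t, ht, hta⟩ := key
    refine ⟨t, ht, fun y => ?_⟩
    rw [hta]
    congr 2
    simp only
    field_simp
  · exact ⟨1, one_mem _, fun y => by simp⟩
  · obtain ⟨t, ht, hta⟩ := ht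
    exact ⟨t, ht, fun y => by rw [hta]; simp⟩
  · rintro a b ⟨t₁, h₁, h₁'⟩ ⟨t₂, h₂, h₂'⟩
    refine ⟨t₁ * t₂, mul_mem h₁ h₂, fun y => ?_⟩
    have h3 : ⟪act t₂ y, e⟫ = ⟪y, e⟫ := by
      rw [h₂', hermForm_add_left, hermForm_smul_left, hee]
      ring
    rw [act_mul, h₁', h3, h₂', add_assoc, ← add_smul]
    congr 2
    simp only [Subfield.coe_add]
    ring
  · rintro a ⟨t, h, h'⟩
    refine ⟨t⁻¹, inv_mem h, fun y => ?_⟩
    have h3 : ⟪act t⁻¹ y, e⟫ = ⟪y, e⟫ := by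
      have h4 := h' (act t⁻¹ y)
      rw [act_act_inv] at h4
      have h5 := congrArg (fun v => ⟪v, e⟫) h4
      simp only [hermForm_add_left, hermForm_smul_left, hee, mul_zero, add_zero] at h5
      exact h5.symm
    have h4 := h' (act t⁻¹ y)
    rw [act_act_inv, h3] at h4
    have h5 : act t⁻¹ y = y - (((a : F) * c₀) * ⟪y, e⟫) • e := by
      rw [eq_sub_iff_add_eq]
      exact h4.symm
    rw [h5]
    simp only [Subfield.coe_neg]
    funext k
    simp only [Pi.add_apply, Pi.sub_apply, Pi.smul_apply, smul_eq_mul]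
    ring
  · rintro a ⟨t, h, h'⟩
    refine ⟨W * t * W⁻¹, mul_mem (mul_mem hW h) (inv_mem hW), fun y => ?_⟩
    rw [act_mul, act_mul, h', act_add, act_act_inv, act_smul, form_act_inv, hWe, hermForm_smul_right,
      Subfield.coe_mul, hρ0, smul_smul]
    congr 2
    ring

/-- A generator of the fixed subfield with a square generating it as a ring. -/
theorem exists_param_E (E : Subfield F) :
    ∃ ν : E, ν ≠ 0 ∧ Subring.closure ({ν ^ 2} : Set E) = ⊤ := by
  classical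
  let _ : Fintype E := Fintype.ofFinite E
  by_cases hprime : ∃ m d : ℕ, m ^ d = Fintype.card E ∧ 2 ≤ d ∧ 2 ≤ m
  · obtain ⟨m, d, hq, hd, hm⟩ := hprime
    obtain ⟨p, hp0, -, -, hρ⟩ := Cfsg.Agent.Lib.Classical.Symp.RegModel.exists_param_three hq hd hm
    exact ⟨p, hp0, hρ⟩
  · push Not at hprime
    refine ⟨1, one_ne_zero, Cfsg.Agent.Lib.Classical.Symp.RegModel.closure_eq_top_of ?_⟩
    intro m d hq hd hm
    exact absurd hm (not_le.2 (hprime m d hq hd))

end Cfsg.Agent.Lib.Classical.Herm.RegU
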