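import Mathlib
import Cfsg.Agent.Lib.Classical.Herm.RegUSeed

/-!
# Generation of `SU_n(q)`, `n ≥ 5` odd, by three conjugates of a regular unipotent element

The data of the regular unipotent element is collected in `RegData`; everything else is obtained
from the growth of full subspaces.
-/

set_option autoImplicit false
set_option linter.unusedSectionVars false
set_option linter.unusedSimpArgs false

open scoped Matrix
open Cfsg
open Cfsg.Agent.Lib.Classical.Herm.Basic Cfsg.Agent.Lib.Classical.Herm.Form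
open Cfsg.Agent.Lib.Classical.Herm.GU Cfsg.Agent.Lib.Classical.Herm.SU
open Cfsg.Agent.Lib.Classical.Herm.Subfield Cfsg.Agent.Lib.Classical.Herm.Isotropic
open Cfsg.Agent.Lib.Classical.Herm.Tv Cfsg.Agent.Lib.Classical.Herm.Gen
open Cfsg.Agent.Lib.Classical.Herm.Comm

namespace Cfsg.Agent.Lib.Classical.Herm.RegU

variable {F : Type*} [Field F] [Fintype F] {q n : ℕ}

local notation "⟪" x ", " y "⟫" => hermForm _ _ q x y

/-- The data of a regular unipotent element in coordinates. -/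
structure RegData (c : ℕ) (u : SU n F q) (b : ℕ → Fin n → F) : Prop where
  hc : 2 ≤ c
  hn : n = 2 * c + 1
  gram : ∀ i j, i ≤ 2 * c → j ≤ 2 * c →
    ⟪b i, b j⟫ = if i + j = 2 * c then (if i % 2 = 0 then 1 else -1) else 0
  u0 : act u (b 0) = b 0
  u1 : act u (b 1) = b 1 + b 0
  f2 : ∃ f, ⟪f, b 0⟫ = 0 ∧ act u f = f + b 1
  uE : act u (b (c + 2)) = b (c + 2) + b (c + 1)
  eta : ⟪act u (b (c + 1)), b (c + 1)⟫ ≠ 0
  stable : ∀ T : Submodule F (Fin n → F), (∀ x ∈ T, act u x ∈ T) → ∀ t ∈ T, ⟪t, b 0⟫ ≠ 0 → T = ⊤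

theorem conj_act (k u : SU n F q) (x : Fin n → F) : act (k * u * k⁻¹) (act k x) = act k (act u x) := by
  simp only [act_mul, act_inv_act]

variable {H : Subgroup (SU n F q)} {c : ℕ} {u : SU n F q} {b : ℕ → Fin n → F}

theorem form_fixed {e x : Fin n → F} (hu : act u e = e) : ⟪act u x, e⟫ = ⟪x, e⟫ := by
  conv_lhs => rw [← hu]
  exact h_act u x e

/-- Full vectors not orthogonal to `e` span. -/
theorem span_of_x0 {e x₀ : Fin n → F} (hu : u ∈ H) (hue : act u e = e)
    (hstable : ∀ T : Submodule F (Fin n → F), (∀ x ∈ T, act u x ∈ T) → ∀ t ∈ T, ⟪t, e⟫ ≠ 0 → T = ⊤)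
    (hx₀ : Full H x₀) (hx₀e : ⟪x₀, e⟫ ≠ 0) :
    Submodule.span F {v : Fin n → F | Full H v ∧ ⟪v, e⟫ ≠ 0} = ⊤ := by
  refine hstable _ ?_ x₀ (Submodule.subset_span ⟨hx₀, hx₀e⟩) hx₀e
  intro x hx
  induction hx using Submodule.span_induction with
  | mem y hy =>
    refine Submodule.subset_span ⟨hy.1.conj hu, ?_⟩
    rw [form_fixed hue]
    exact hy.2
  | zero => rw [act_zero]; exact Submodule.zero_mem _
  | add a b _ _ ha hb => rw [act_add]; exact Submodule.add_mem _ ha hb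
  | smul t a _ ha => rw [act_smul]; exact Submodule.smul_mem _ _ ha

/-- The end of the proof when `q ≥ 3`. -/
theorem eq_top_of_odd (hF : Fintype.card F = q ^ 2) (hodd : Odd n) (hn : 3 ≤ n) (hq : 3 ≤ q)
    {e : Fin n → F} (he : Full H e)
    (hspan : Submodule.span F {v : Fin n → F | Full H v ∧ ⟪v, e⟫ ≠ 0} = ⊤) : H = ⊤ := by
  obtain ⟨S, hS, hFS, heS, hk⟩ := start_odd hF hodd he hspan
  refine eq_top_of_full hF hn (by omega) (all_full_of_start hF he hspan hk (by omega) hS hFS heS)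

/-- The seed: a Siegel element conjugating `u`. -/
theorem exists_seed (hF : Fintype.card F = q ^ 2) {e f₁ f₂ : Fin n → F} (he : ⟪e, e⟫ = 0)
    (hu0 : act u e = e) (hu2 : act u f₂ = f₂ + f₁) (hf₂e : ⟪f₂, e⟫ = 0) (l : F) :
    ∃ g : SU n F q, ∃ β' : F, β' + β' ^ q + ⟪(-l) • f₁, (-l) • f₁⟫ = 0 ∧
      (∀ x, act (g * u * g⁻¹ * u⁻¹) x =
        x + (⟪x, e⟫ • ((-l) • f₁) - ⟪x, (-l) • f₁⟫ • e + (β' * ⟪x, e⟫) • e)) := by
  have hwe : ⟪l • f₂, e⟫ = 0 := by rw [hermForm_smul_left, hf₂e, mul_zero]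
  obtain ⟨β, hβ⟩ := exists_trace_eq hF (c := -⟪l • f₂, l • f₂⟫)
    (by rw [pow_q_neg hF, hermForm_self_pow_q hF])
  have hβ' : β + β ^ q + ⟪l • f₂, l • f₂⟫ = 0 := by rw [hβ]; ring
  have hd : l • f₂ - act u (l • f₂) = (-l) • f₁ := by
    rw [act_smul, hu2, smul_add, neg_smul]
    abel
  refine ⟨siegel hF he hwe hβ', ⟪act u (l • f₂), l • f₂⟫ - ⟪l • f₂, l • f₂⟫, ?_, fun x => ?_⟩
  · rw [← hd]
    rw [pow_q_sub hF, hermForm_self_pow_q hF, hermForm_pow_q hF]
    simp only [hermForm_sub_left, hermForm_sub_right hF, h_act]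
    ring
  · have := seed_r hF he hu0 hwe hβ' x
    rwa [hd] at this

/-- The transvection obtained from the seed. -/
theorem seed_in (hF : Fintype.card F = q ^ 2) {e f₁ : Fin n → F} (he : ⟪e, e⟫ = 0)
    (hu0 : act u e = e) (hu1 : act u f₁ = f₁ + e) (hf₁e : ⟪f₁, e⟫ = 0) {l β' : F} {r : SU n F q}
    (hr : ∀ x, act r x = x + (⟪x, e⟫ • ((-l) • f₁) - ⟪x, (-l) • f₁⟫ • e + (β' * ⟪x, e⟫) • e))
    (huH : u ∈ H) (hrH : r ∈ H) : ∃ t ∈ H, ∀ y, act t y = y + ((l ^ q - l) * ⟪y, e⟫) • e := by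
  refine ⟨u * r * u⁻¹ * r⁻¹, mul_mem (mul_mem (mul_mem huH hrH) (inv_mem huH)) (inv_mem hrH),
    seed_tv hF he hu0 (by rw [hermForm_smul_left, hf₁e, mul_zero]) hr ?_⟩
  rw [act_smul, hu1, smul_add, neg_smul l e, sub_eq_add_neg]

/-- The case `q ≥ 3`. -/
theorem main_odd (hF : Fintype.card F = q ^ 2) (hodd : Odd n) (hq : 3 ≤ q) (hd : RegData c u b) :
    ∃ g k : SU n F q, Subgroup.closure ({u, g * u * g⁻¹, k * u * k⁻¹} : Set (SU n F q)) = ⊤ := by
  obtain ⟨hc, hn, gram, u0, u1, ⟨f₂, hf₂e, hf₂⟩, uE, eta, stable⟩ := hd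
  have hq0 : q ≠ 0 := by omega
  have hee : ⟪b 0, b 0⟫ = 0 := by
    rw [gram 0 0 (by omega) (by omega), if_neg (by omega)]
  have hb0 : b 0 ≠ 0 := by
    intro h
    have h1 := gram 0 (2 * c) (by omega) (by omega)
    rw [h, hermForm_zero_left, if_pos (by omega), if_pos (by omega)] at h1
    exact zero_ne_one h1
  have hb1e : ⟪b 1, b 0⟫ = 0 := by
    rw [gram 1 0 (by omega) (by omega), if_neg (by omega)]
  have hEE : ⟪b (c + 2), b (c + 2)⟫ = 0 := by
    rw [gram _ _ (by omega) (by omega), if_neg (by omega)]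
  have hEz : ⟪b (c + 2), b (c + 1)⟫ = 0 := by
    rw [gram _ _ (by omega) (by omega), if_neg (by omega)]
  have hzz : ⟪b (c + 1), b (c + 1)⟫ = 0 := by
    rw [gram _ _ (by omega) (by omega), if_neg (by omega)]
  have hzE : ⟪b (c + 1), b (c + 2)⟫ = 0 := by
    rw [gram _ _ (by omega) (by omega), if_neg (by omega)]
  have hez : ⟪b 0, b (c + 1)⟫ = 0 := by
    rw [gram _ _ (by omega) (by omega), if_neg (by omega)]
  have hze : ⟪b (c + 1), b 0⟫ = 0 := by
    rw [gram _ _ (by omega) (by omega), if_neg (by omega)]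
  have hE0 : b (c + 2) ≠ 0 := by
    intro h
    have h1 := gram (c + 2) (c - 2) (by omega) (by omega)
    rw [h, hermForm_zero_left, if_pos (by omega)] at h1
    split_ifs at h1 with h2
    · exact zero_ne_one h1
    · have : (1 : F) = 0 := by linear_combination h1
      exact one_ne_zero this
  generalize b (c + 2) = E at *
  generalize b (c + 1) = z at *
  obtain ⟨η, hη⟩ : ∃ η, η = ⟪act u z, z⟫ := ⟨_, rfl⟩
  rw [← hη] at eta
  have hηq : η ^ q ≠ 0 := pow_ne_zero _ eta
  have hzuz : ⟪z, act u z⟫ = η ^ q := by rw [hη, hermForm_pow_q hF]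
  have hEuz : ⟪E, act u z⟫ = -η ^ q := by
    have h1 := h_act u E z
    rw [uE, hermForm_add_left, hEz, hzuz] at h1
    linear_combination h1
  have huuE : act u (act u E) = E + z + act u z := by
    rw [uE, act_add, uE]
  have hψ : ⟪E, act u (act u E)⟫ = -η ^ q := by
    rw [huuE, hermForm_add_right hF, hermForm_add_right hF, hEE, hEz, hEuz]
    ring
  have hψ' : ⟪act u (act u E), E⟫ = -η := by
    rw [← hermForm_pow_q hF, hψ, pow_q_neg hF, pow_q_pow_q hF]
  -- the parameter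
  obtain ⟨l, hl⟩ : ∃ l : F, l ^ q ≠ l := by
    by_contra hcon
    push Not at hcon
    exact sigma_ne_id hF (RingHom.ext hcon)
  obtain ⟨g, β', -, hr⟩ := exists_seed (u := u) hF hee u0 hf₂ hf₂e l
  let E₀ : Subfield F := RingHom.eqLocusField (sigma hF) (RingHom.id F)
  have hE₀ : ∀ x : F, x ∈ E₀ ↔ x ^ q = x := fun x => Iff.rfl
  obtain ⟨ν, hν0, hνρ⟩ := exists_param_E E₀
  have hν0' : (ν : F) ≠ 0 := by
    intro h
    exact hν0 (Subtype.ext h)
  have hνq : (ν : F) ^ q = ν := (hE₀ _).1 ν.2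
  obtain ⟨μ, hμ⟩ := exists_norm_eq hF (ν : F) hν0' hνq
  have hμμ : μ * μ ^ q = ν := by rw [← hμ, pow_succ]; ring
  obtain ⟨p, hp⟩ : ∃ p : F, p = -((ν : F) * η) / η ^ q := ⟨_, rfl⟩
  have hp0 : p ≠ 0 := by
    rw [hp]
    exact div_ne_zero (neg_ne_zero.2 (mul_ne_zero hν0' eta)) hηq
  have hpN : p * p ^ q = ((ν ^ 2 : E₀) : F) := by
    rw [hp, div_pow, pow_q_neg hF, mul_pow, hνq, pow_q_pow_q hF]
    simp only [SubmonoidClass.coe_pow]
    field_simp
  -- the conjugator
  have hT₃ : ⟪μ • z, μ • z⟫ = 0 := by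
    rw [hermForm_smul_left, hermForm_smul_right, hzz]
    ring
  have hT₁ : ⟪p⁻¹ • act u (μ • z), p⁻¹ • act u (μ • z)⟫ = 0 := by
    rw [hermForm_smul_left, hermForm_smul_right, h_act, hT₃]
    ring
  have hT₁T₃ : ⟪p⁻¹ • act u (μ • z), μ • z⟫ = -η ^ q := by
    rw [hermForm_smul_left, act_smul, hermForm_smul_left, hermForm_smul_right, ← hη, ← mul_assoc μ,
      hμμ, hp]
    field_simp
  have hn5 : 5 ≤ n := by omega
  obtain ⟨k, hk₁, hk₂, hk₃⟩ := exists_conj_three (n := n) (q := q) hF hn5 (a₁ := act u⁻¹ E) (a₂ := E)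
    (a₃ := act u E) (b₁ := p⁻¹ • act u (μ • z)) (b₂ := b 0) (b₃ := μ • z)
    (by rw [h_act]; exact hEE) hEE (by rw [h_act]; exact hEE) hE0
    (by rw [← hermForm_pow_q hF, form_act_inv, uE, hermForm_add_right hF, hEE, hEz, add_zero,
      zero_pow_q hF])
    (by rw [uE, hermForm_add_right hF, hEE, hEz, add_zero])
    hT₁ hee hT₃ hb0
    (by
      rw [hermForm_smul_right, act_smul, hermForm_smul_right]
      have h1 : ⟪b 0, act u z⟫ = 0 := by
        conv_lhs => rw [← u0]
        rw [h_act, hez]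
      rw [h1]
      ring)
    (by rw [hermForm_smul_right, hez, mul_zero])
    (by rw [form_act_inv, hψ, hT₁T₃])
    (by rw [form_act_inv, hψ]; exact neg_ne_zero.2 hηq)
  -- the group
  refine ⟨g, k, ?_⟩
  obtain ⟨H, hH⟩ : ∃ H, H = Subgroup.closure ({u, g * u * g⁻¹, k * u * k⁻¹} : Set (SU n F q)) :=
    ⟨_, rfl⟩
  rw [← hH]
  have huH : u ∈ H := by
    rw [hH]
    exact Subgroup.subset_closure (by simp)
  have hgH : g * u * g⁻¹ ∈ H := by
    rw [hH]
    exact Subgroup.subset_closure (by simp)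
  have hwH : k * u * k⁻¹ ∈ H := by
    rw [hH]
    exact Subgroup.subset_closure (by simp)
  clear_value E₀
  obtain ⟨w, hw⟩ : ∃ w, w = k * u * k⁻¹ := ⟨_, rfl⟩
  rw [← hw] at hwH
  have hwact : ∀ x, act w (act k x) = act k (act u x) := fun x => by rw [hw]; exact conj_act k u x
  have hc₀ : (l ^ q - l) + (l ^ q - l) ^ q = 0 := by
    rw [pow_q_sub hF, pow_q_pow_q hF]
    ring
  have hc₀0 : l ^ q - l ≠ 0 := sub_ne_zero.2 hl
  have ht := seed_in hF hee u0 u1 hb1e hr huH (mul_mem hgH (inv_mem huH))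
  have he₁ : act w (b 0) = μ • z := by
    rw [← hk₂, hwact, hk₃]
  have he₂ : act u (μ • z) = p • (p⁻¹ • act u (μ • z)) := by
    rw [smul_smul, mul_inv_cancel₀ hp0, one_smul]
  have he₃ : act w (p⁻¹ • act u (μ • z)) = b 0 := by
    rw [← hk₁, hwact, act_act_inv, hk₂]
  have hWe : act (w * u * w) (b 0) = p • b 0 := by
    rw [act_mul, act_mul, he₁, he₂, act_smul, he₃]
  have hfull : Full H (b 0) := full_of_scale hb0 hee hc₀0 hc₀ ht
    (mul_mem (mul_mem hwH huH) hwH) hWe E₀ hE₀ hpN.symm hνρ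
  have hx₀ : Full H (act w (act w (b 0))) := (hfull.conj hwH).conj hwH
  have hx₀e : ⟪act w (act w (b 0)), b 0⟫ ≠ 0 := by
    have h1 : act w (act w (b 0)) = act k (act u (act u E)) := by
      rw [he₁, ← hk₃, hwact]
    rw [h1, ← hk₂, h_act, hψ']
    exact neg_ne_zero.2 eta
  exact eq_top_of_odd hF hodd (by omega) hq hfull (span_of_x0 huH u0 stable hx₀ hx₀e)

theorem exists_full_not_perp (hF : Fintype.card F = q ^ 2) {H : Subgroup (SU n F q)} {e a : Fin n → F}
    (hspan : Submodule.span F {v : Fin n → F | Full H v ∧ ⟪v, e⟫ ≠ 0} = ⊤) (ha : a ≠ 0) :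
    ∃ y, Full H y ∧ ⟪y, a⟫ ≠ 0 := by
  by_contra hcon
  push Not at hcon
  apply ha
  apply hermForm_nondegenerate_right hF n a
  intro w
  have hw : w ∈ Submodule.span F {v : Fin n → F | Full H v ∧ ⟪v, e⟫ ≠ 0} := by
    rw [hspan]
    trivial
  induction hw using Submodule.span_induction with
  | mem y hy => exact hcon y hy.1
  | zero => exact hermForm_zero_left _ _
  | add a b _ _ ha hb => rw [hermForm_add_left, ha, hb, add_zero]
  | smul c a _ ha => rw [hermForm_smul_left, ha, mul_zero]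

/-- The end of the proof over the field with four elements. -/
theorem eq_top_of_line (hF : Fintype.card F = q ^ 2) (h2 : (1 : F) + 1 = 0)
    (hN : ∀ x : F, x ≠ 0 → x * x ^ q = 1) (hn : 3 ≤ n) (h32 : ¬ (n = 3 ∧ q = 2)) {H : Subgroup (SU n F q)}
    {e f : Fin n → F} (hl : ∀ μ ν : F, (μ ≠ 0 ∨ ν ≠ 0) → Full H (μ • e + ν • f)) (hef : ⟪e, f⟫ = 0)
    {x₀ : Fin n → F} (hx₀ : Full H x₀) (hx₀e : ⟪x₀, e⟫ ≠ 0)
    (hspan : Submodule.span F {v : Fin n → F | Full H v ∧ ⟪v, e⟫ ≠ 0} = ⊤) : H = ⊤ := by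
  have hfe : ⟪f, e⟫ = 0 := hermForm_symm_zero hF hef
  have he : Full H e := by simpa using hl 1 0 (Or.inl one_ne_zero)
  have hf : Full H f := by simpa using hl 0 1 (Or.inr one_ne_zero)
  have hX : Full H ((⟪x₀, e⟫)⁻¹ • x₀) := hx₀.smul hF (inv_ne_zero hx₀e)
  have hXe : ⟪(⟪x₀, e⟫)⁻¹ • x₀, e⟫ = 1 := by
    rw [hermForm_smul_left, inv_mul_cancel₀ hx₀e]
  generalize (⟪x₀, e⟫)⁻¹ • x₀ = X at hX hXe
  obtain ⟨a, hl', hae, hXa⟩ : ∃ a : Fin n → F,
      (∀ μ ν : F, (μ ≠ 0 ∨ ν ≠ 0) → Full H (μ • a + ν • e)) ∧ ⟪a, e⟫ = 0 ∧ ⟪X, a⟫ = 0 := by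
    by_cases hB : ⟪X, f⟫ = 0
    · refine ⟨f, fun μ ν h => ?_, hfe, hB⟩
      rw [add_comm]
      exact hl ν μ h.symm
    · have hβ0 : (-(⟪X, f⟫)⁻¹) ^ q ≠ 0 := pow_ne_zero _ (neg_ne_zero.2 (inv_ne_zero hB))
      refine ⟨e + (-(⟪X, f⟫)⁻¹) ^ q • f, fun μ ν h => ?_, ?_, ?_⟩
      · have e1 : μ • (e + (-(⟪X, f⟫)⁻¹) ^ q • f) + ν • e =
            (μ + ν) • e + (μ * (-(⟪X, f⟫)⁻¹) ^ q) • f := by
          funext l
          simp only [Pi.add_apply, Pi.smul_apply, smul_eq_mul]
          ring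
        rw [e1]
        apply hl
        by_cases hμ : μ = 0
        · left
          rw [hμ, zero_add]
          exact h.resolve_left (not_not.2 hμ)
        · right
          exact mul_ne_zero hμ hβ0
      · rw [hermForm_add_left, hermForm_smul_left, he.2.1, hfe]
        ring
      · rw [hermForm_add_right hF, hermForm_smul_right, hXe, pow_q_pow_q hF]
        field_simp
        ring
  have ha0 : a ≠ 0 := (by simpa using hl' 1 0 (Or.inl one_ne_zero) : Full H a).1
  obtain ⟨y, hy, hya⟩ := exists_full_not_perp hF hspan ha0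
  obtain ⟨S, hS, hFS, -, heS, hk⟩ := start_four hF h2 hN hl' hae hX hXe hXa hy hya
  exact eq_top_of_full hF hn h32 (all_full_of_start hF he hspan (by omega) (by omega) hS hFS heS)

/-- The case `q = 2`. -/
theorem main_two (hF : Fintype.card F = q ^ 2) (hq : q = 2) (hd : RegData c u b) :
    ∃ g k : SU n F q, Subgroup.closure ({u, g * u * g⁻¹, k * u * k⁻¹} : Set (SU n F q)) = ⊤ := by
  obtain ⟨hc, hn, gram, u0, u1, ⟨f₂, hf₂e, hf₂⟩, uE, eta, stable⟩ := hd
  have h2 : (1 : F) + 1 = 0 := by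
    have := pow_q_add hF (1 : F) 1
    rw [one_pow, hq] at this
    linear_combination this
  have hneg : (-1 : F) = 1 := by linear_combination -h2
  have hN : ∀ x : F, x ≠ 0 → x * x ^ q = 1 := by
    intro x hx
    have h3 := FiniteField.pow_card_sub_one_eq_one x hx
    rw [hF] at h3
    rw [hq] at h3 ⊢
    norm_num at h3
    linear_combination h3
  have gram' : ∀ i j, i ≤ 2 * c → j ≤ 2 * c → ⟪b i, b j⟫ = if i + j = 2 * c then 1 else 0 := by
    intro i j hi hj
    rw [gram i j hi hj]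
    split_ifs
    · rfl
    · exact hneg
    · rfl
  have hee : ⟪b 0, b 0⟫ = 0 := by
    rw [gram' 0 0 (by omega) (by omega), if_neg (by omega)]
  have hb0 : b 0 ≠ 0 := by
    intro h
    have h1 := gram' 0 (2 * c) (by omega) (by omega)
    rw [h, hermForm_zero_left, if_pos (by omega)] at h1
    exact zero_ne_one h1
  have hb1e : ⟪b 1, b 0⟫ = 0 := by
    rw [gram' 1 0 (by omega) (by omega), if_neg (by omega)]
  have heb1 : ⟪b 0, b 1⟫ = 0 := hermForm_symm_zero hF hb1e
  have hb1b1 : ⟪b 1, b 1⟫ = 0 := by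
    rw [gram' 1 1 (by omega) (by omega), if_neg (by omega)]
  have hEE : ⟪b (c + 2), b (c + 2)⟫ = 0 := by
    rw [gram' _ _ (by omega) (by omega), if_neg (by omega)]
  have hEz : ⟪b (c + 2), b (c + 1)⟫ = 0 := by
    rw [gram' _ _ (by omega) (by omega), if_neg (by omega)]
  have hzz : ⟪b (c + 1), b (c + 1)⟫ = 0 := by
    rw [gram' _ _ (by omega) (by omega), if_neg (by omega)]
  have hzE : ⟪b (c + 1), b (c + 2)⟫ = 0 := by
    rw [gram' _ _ (by omega) (by omega), if_neg (by omega)]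
  -- the pairs
  have hEE' : ⟪b (c + 2), b (c - 2) + b (c - 1)⟫ = 1 := by
    rw [hermForm_add_right hF, gram' _ _ (by omega) (by omega), gram' _ _ (by omega) (by omega),
      if_pos (by omega), if_neg (by omega), add_zero]
  have hzE' : ⟪b (c + 1), b (c - 2) + b (c - 1)⟫ = 1 := by
    rw [hermForm_add_right hF, gram' _ _ (by omega) (by omega), gram' _ _ (by omega) (by omega),
      if_neg (by omega), if_pos (by omega), zero_add]
  have hEF' : ⟪b (c + 2), b (c - 1)⟫ = 0 := by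
    rw [gram' _ _ (by omega) (by omega), if_neg (by omega)]
  have hzF' : ⟪b (c + 1), b (c - 1)⟫ = 1 := by
    rw [gram' _ _ (by omega) (by omega), if_pos (by omega)]
  have hF'F' : ⟪b (c - 1), b (c - 1)⟫ = 0 := by
    rw [gram' _ _ (by omega) (by omega), if_neg (by omega)]
  have hE'E' : ⟪b (c - 2), b (c - 2)⟫ = 0 := by
    rw [gram' _ _ (by omega) (by omega), if_neg (by omega)]
  have hE'F' : ⟪b (c - 2), b (c - 1)⟫ = 0 := by
    rw [gram' _ _ (by omega) (by omega), if_neg (by omega)]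
  have hF'E' : ⟪b (c - 1), b (c - 2)⟫ = 0 := by
    rw [gram' _ _ (by omega) (by omega), if_neg (by omega)]
  have hn5 : 5 ≤ n := by omega
  obtain ⟨k, hk₁, -, hk₂, -⟩ := witt_pairs (n := n) (q := q) hF hn5 (x₁ := b (c + 2))
    (y₁ := b (c - 2) + b (c - 1)) (x₂ := b (c + 2) + b (c + 1)) (y₂ := b (c - 1)) (x₁' := b 0)
    (y₁' := b (2 * c)) (x₂' := b 1) (y₂' := b (2 * c - 1))
    hEE
    (by simp only [hermForm_add_left, hermForm_add_right hF, hE'E', hE'F', hF'E', hF'F', add_zero])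
    hEE'
    (by simp only [hermForm_add_left, hermForm_add_right hF, hEE, hEz, hzE, hzz, add_zero])
    hF'F'
    (by rw [hermForm_add_left, hEF', hzF', zero_add])
    (by rw [hermForm_add_right hF, hEE, hEz, add_zero])
    hEF'
    (by
      rw [hermForm_add_left (u := b (c - 2)) (u' := b (c - 1)), hermForm_add_right hF,
        hermForm_add_right hF]
      have e1 := hermForm_symm_one hF hEE'
      have e2 := hermForm_symm_one hF hzE'
      rw [hermForm_add_left] at e1 e2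
      linear_combination e1 + e2 + h2)
    (by rw [hermForm_add_left, hE'F', hF'F', add_zero])
    hee
    (by rw [gram' _ _ (by omega) (by omega), if_neg (by omega)])
    (by rw [gram' _ _ (by omega) (by omega), if_pos (by omega)])
    hb1b1
    (by rw [gram' _ _ (by omega) (by omega), if_neg (by omega)])
    (by rw [gram' _ _ (by omega) (by omega), if_pos (by omega)])
    heb1
    (by rw [gram' _ _ (by omega) (by omega), if_neg (by omega)])
    (by rw [gram' _ _ (by omega) (by omega), if_neg (by omega)])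
    (by rw [gram' _ _ (by omega) (by omega), if_neg (by omega)])
  generalize b (c + 2) = E at *
  generalize b (c + 1) = z at *
  obtain ⟨η, hη⟩ : ∃ η, η = ⟪act u z, z⟫ := ⟨_, rfl⟩
  rw [← hη] at eta
  have hzuz : ⟪z, act u z⟫ = η ^ q := by rw [hη, hermForm_pow_q hF]
  have hEuz : ⟪E, act u z⟫ = -η ^ q := by
    have h1 := h_act u E z
    rw [uE, hermForm_add_left, hEz, hzuz] at h1
    linear_combination h1
  have huuE : act u (act u E) = E + z + act u z := by
    rw [uE, act_add, uE]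
  have hψ : ⟪E, act u (act u E)⟫ = -η ^ q := by
    rw [huuE, hermForm_add_right hF, hermForm_add_right hF, hEE, hEz, hEuz]
    ring
  have hψ' : ⟪act u (act u E), E⟫ = -η := by
    rw [← hermForm_pow_q hF, hψ, pow_q_neg hF, pow_q_pow_q hF]
  -- the parameter
  obtain ⟨l, hl⟩ : ∃ l : F, l ^ q ≠ l := by
    by_contra hcon
    push Not at hcon
    exact sigma_ne_id hF (RingHom.ext hcon)
  have hl0 : l ≠ 0 := by
    rintro rfl
    exact hl (by rw [zero_pow (by omega)])
  have hl1 : l ≠ 1 := by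
    rintro rfl
    exact hl (one_pow _)
  have hll : l * l ^ q = 1 := hN l hl0
  have hl3 : l * l + l + 1 = 0 := by
    have h3 : (l - 1) * (l * l + l + 1) = 0 := by
      rw [hq] at hll
      linear_combination hll
    exact (mul_eq_zero.1 h3).resolve_left (sub_ne_zero.2 hl1)
  obtain ⟨g, β', hβ', hr⟩ := exists_seed (u := u) hF hee u0 hf₂ hf₂e l
  have hβ'' : β' + β' ^ q = 0 := by
    rw [hermForm_smul_left, hermForm_smul_right, hb1b1] at hβ'
    linear_combination hβ'
  refine ⟨g, k, ?_⟩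
  obtain ⟨H, hH⟩ : ∃ H, H = Subgroup.closure ({u, g * u * g⁻¹, k * u * k⁻¹} : Set (SU n F q)) :=
    ⟨_, rfl⟩
  rw [← hH]
  have huH : u ∈ H := by
    rw [hH]
    exact Subgroup.subset_closure (by simp)
  have hgH : g * u * g⁻¹ ∈ H := by
    rw [hH]
    exact Subgroup.subset_closure (by simp)
  have hwH : k * u * k⁻¹ ∈ H := by
    rw [hH]
    exact Subgroup.subset_closure (by simp)
  obtain ⟨w, hw⟩ : ∃ w, w = k * u * k⁻¹ := ⟨_, rfl⟩
  rw [← hw] at hwH
  have hwact : ∀ x, act w (act k x) = act k (act u x) := fun x => by rw [hw]; exact conj_act k u x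
  have hrH : g * u * g⁻¹ * u⁻¹ ∈ H := mul_mem hgH (inv_mem huH)
  obtain ⟨r, hrdef⟩ : ∃ r, r = g * u * g⁻¹ * u⁻¹ := ⟨_, rfl⟩
  rw [← hrdef] at hr hrH
  -- trace zero elements
  have htr : ∀ c : F, c + c ^ q = 0 → c = 0 ∨ c = 1 := by
    intro c hc
    by_cases hc0 : c = 0
    · exact Or.inl hc0
    right
    have h3 := hN c hc0
    have h4 : (c + 1) ^ 2 = 0 := by
      have h5 : c ^ q = -c := by linear_combination hc
      rw [h5] at h3
      linear_combination (-1 : F) * h3 + c * h2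
    have h6 : c + 1 = 0 := by simpa using h4
    linear_combination h6 - h2
  have ht := seed_in hF hee u0 u1 hb1e hr huH hrH
  have hc₀ : l ^ q - l = 1 := by
    rcases htr (l ^ q - l) (by rw [pow_q_sub hF, pow_q_pow_q hF]; ring) with h3 | h3
    · exact absurd (sub_eq_zero.1 h3) hl
    · exact h3
  rw [hc₀] at ht
  obtain ⟨t, htH, hta⟩ := ht
  have hfull : Full H (b 0) := by
    refine ⟨hb0, hee, fun c hc => ?_⟩
    rcases htr c hc with rfl | rfl
    · exact ⟨1, one_mem _, fun y => by simp⟩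
    · exact ⟨t, htH, hta⟩
  have he₁ : act w (b 0) = b 1 := by
    rw [← hk₁, hwact, uE, hk₂]
  have hfull₁ : Full H (b 1) := by
    rw [← he₁]
    exact hfull.conj hwH
  have hc1 : (1 : F) + 1 ^ q = 0 := by rw [one_pow]; exact h2
  have hfull₂ : Full H (b 0 + (1 : F) • b 1) := by
    have := hfull₁.conj huH
    rw [u1] at this
    rw [one_smul, add_comm]
    exact this
  have hb0m : ⟪b 0, b (2 * c)⟫ = 1 := by
    rw [gram' _ _ (by omega) (by omega), if_pos (by omega)]
  have hb1m : ⟪b 1, b (2 * c)⟫ = 0 := by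
    rw [gram' _ _ (by omega) (by omega), if_neg (by omega)]
  have hfull₃ : Full H (b 0 + l • b 1) := by
    refine ⟨?_, ?_, fun c hc => ?_⟩
    · intro h
      have h3 := congrArg (fun v => ⟪v, b (2 * c)⟫) h
      simp only [hermForm_add_left, hermForm_smul_left, hb0m, hb1m, hermForm_zero_left] at h3
      exact one_ne_zero (by linear_combination h3 : (1 : F) = 0)
    · simp only [hermForm_add_left, hermForm_add_right hF, hermForm_smul_left, hermForm_smul_right,
        hee, heb1, hb1e, hb1b1]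
      ring
    · rcases htr c hc with rfl | rfl
      · exact ⟨1, one_mem _, fun y => by simp⟩
      · obtain ⟨t₁, ht₁, ht₁a⟩ := hfull₁.2.2 1 hc1
        obtain ⟨t₀, ht₀, ht₀a⟩ := hfull.2.2 (1 + β') (by
          rw [pow_q_add hF, one_pow]
          linear_combination h2 + hβ'')
        refine ⟨t₀ * r * t₁, mul_mem (mul_mem ht₀ hrH) ht₁, fun y => ?_⟩
        rw [act_mul, act_mul, ht₁a]
        have h3 : ⟪y + (1 * ⟪y, b 1⟫) • b 1, b 0⟫ = ⟪y, b 0⟫ := by
          rw [hermForm_add_left, hermForm_smul_left, hb1e]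
          ring
        have h4 : ⟪y + (1 * ⟪y, b 1⟫) • b 1, (-l) • b 1⟫ = (-l) ^ q * ⟪y, b 1⟫ := by
          rw [hermForm_smul_right, hermForm_add_left, hermForm_smul_left, hb1b1]
          ring
        rw [hr, h3, h4, ht₀a]
        have h5 : ⟪y + (1 * ⟪y, b 1⟫) • b 1 + (⟪y, b 0⟫ • (-l) • b 1 - ((-l) ^ q * ⟪y, b 1⟫) • b 0 +
            (β' * ⟪y, b 0⟫) • b 0), b 0⟫ = ⟪y, b 0⟫ := by
          simp only [hermForm_add_left, hermForm_sub_left, hermForm_smul_left, hb1e, hee]
          ring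
        rw [h5, hermForm_add_right hF, hermForm_smul_right, pow_q_neg hF]
        funext k
        simp only [Pi.add_apply, Pi.sub_apply, Pi.smul_apply, smul_eq_mul]
        generalize ⟪y, b 0⟫ = A
        generalize ⟪y, b 1⟫ = B
        generalize b 0 k = a
        generalize b 1 k = c
        linear_combination (-l * A * c + β' * A * a) * h2 - B * c * hll
  -- the remaining point of the line
  have hfull₄ : Full H (b 0 + (l + 1) • b 1) := by
    have h3 := hfull₃.conj huH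
    have hl1' : l + 1 ≠ 0 := by
      intro h
      apply hl1
      linear_combination h - h2
    have e1 : act u (b 0 + l • b 1) = (l + 1) • (b 0 + (l + 1) • b 1) := by
      rw [act_add, act_smul, u0, u1]
      funext k
      simp only [Pi.add_apply, Pi.smul_apply, smul_eq_mul]
      linear_combination (-(b 1 k)) * hl3
    rw [e1] at h3
    have h4 := h3.smul hF (inv_ne_zero hl1')
    rwa [smul_smul, inv_mul_cancel₀ hl1', one_smul] at h4
  have hline : ∀ μ ν : F, (μ ≠ 0 ∨ ν ≠ 0) → Full H (μ • b 0 + ν • b 1) := by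
    intro μ ν hμν
    by_cases hν : ν = 0
    · subst hν
      have hμ : μ ≠ 0 := hμν.resolve_right (not_not.2 rfl)
      rw [zero_smul, add_zero]
      exact hfull.smul hF hμ
    by_cases hμ : μ = 0
    · subst hμ
      rw [zero_smul, zero_add]
      exact hfull₁.smul hF hν
    have e1 : μ • b 0 + ν • b 1 = μ • (b 0 + (ν / μ) • b 1) := by
      rw [smul_add, smul_smul, mul_div_cancel₀ _ hμ]
    rw [e1]
    refine Full.smul hF ?_ hμ
    have hγ0 : ν / μ ≠ 0 := div_ne_zero hν hμ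
    generalize ν / μ = γ at hγ0
    by_cases hγ1 : γ = 1
    · rw [hγ1]
      exact hfull₂
    by_cases hγl : γ = l
    · rw [hγl]
      exact hfull₃
    have hγ3 : γ * γ + γ + 1 = 0 := by
      have h3 := hN γ hγ0
      have h4 : (γ - 1) * (γ * γ + γ + 1) = 0 := by
        rw [hq] at h3
        linear_combination h3
      exact (mul_eq_zero.1 h4).resolve_left (sub_ne_zero.2 hγ1)
    have h5 : (γ - l) * (γ + l + 1) = 0 := by
      linear_combination hγ3 - hl3
    have h6 : γ = l + 1 := by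
      have h7 := (mul_eq_zero.1 h5).resolve_left (sub_ne_zero.2 hγl)
      linear_combination h7 - (l + 1) * h2
    rw [h6]
    exact hfull₄
  have hx₀ : Full H (act w (b 1)) := hfull₁.conj hwH
  have hx₀e : ⟪act w (b 1), b 0⟫ ≠ 0 := by
    have h1 : act w (b 1) = act k (act u (act u E)) := by
      rw [← hk₂, hwact, uE]
    rw [h1, ← hk₁, h_act, hψ']
    exact neg_ne_zero.2 eta
  exact eq_top_of_line hF h2 hN (by omega) (by omega) hline heb1 hx₀ hx₀e
    (span_of_x0 huH u0 stable hx₀ hx₀e)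

/-- The generation theorem from the coordinate data. -/
theorem reg_main (hF : Fintype.card F = q ^ 2) (hodd : Odd n) (hd : RegData c u b) :
    ∃ g k : SU n F q, Subgroup.closure ({u, g * u * g⁻¹, k * u * k⁻¹} : Set (SU n F q)) = ⊤ := by
  have hq := two_le_q hF
  by_cases h2 : q = 2
  · exact main_two hF h2 hd
  · exact main_odd hF hodd (by omega) hd

end Cfsg.Agent.Lib.Classical.Herm.RegU
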