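import Mathlib
import Cfsg.Agent.Lib.Classical.Herm.HermOnb
import Cfsg.Agent.Lib.Classical.Herm.Tv

/-!
# A coordinate model of the odd-dimensional unitary space with a regular unipotent element

`V = F^{2c+1}` with basis `e₀, ..., e_{2c}` and the form `h(x,y) = ∑ (-1)^k x_k (y_{2c-k})^q`.
The isometries `D π` add `x_{k+1}` to `x_k` for `k` in a set `I π`, with a correction in the middle
of the chain for `π = 0`, and `u = D 1 ∘ D 0` is regular unipotent.
-/

set_option autoImplicit false
set_option linter.unusedSectionVars false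
set_option linter.unusedSimpArgs false

open Cfsg Cfsg.Agent.Lib.Classical.Herm.Basic

namespace Cfsg.Agent.Lib.Classical.Herm.RegUModel

variable {F : Type*} [Field F] {c : ℕ}

/-- The sign `(-1)^i`. -/
def sg (F : Type*) [Field F] (i : ℕ) : F := if i % 2 = 0 then 1 else -1

theorem sg_ne_zero (i : ℕ) : sg F i ≠ 0 := by
  unfold sg
  split_ifs <;> simp

theorem sg_pred {i : ℕ} (h : 1 ≤ i) : sg F (i - 1) = - sg F i := by
  unfold sg
  split_ifs <;> first | omega | simp

theorem sg_sq (i : ℕ) : sg F i * sg F i = 1 := by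
  unfold sg
  split_ifs <;> simp

/-- The coordinate with a natural number index (zero when out of range). -/
def gt (x : Fin (2 * c + 1) → F) (i : ℕ) : F := if h : i < 2 * c + 1 then x ⟨i, h⟩ else 0

/-- The basis vector with a natural number index (zero when out of range). -/
def ev (c : ℕ) (F : Type*) [Field F] (j : ℕ) : Fin (2 * c + 1) → F := fun k => if (k : ℕ) = j then 1 else 0

theorem gt_val (x : Fin (2 * c + 1) → F) (k : Fin (2 * c + 1)) : gt x k = x k := by
  unfold gt
  rw [dif_pos k.2]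

theorem gt_of_ge (x : Fin (2 * c + 1) → F) {i : ℕ} (h : 2 * c + 1 ≤ i) : gt x i = 0 := by
  simp [gt, not_lt.2 h]

theorem ext_gt {x y : Fin (2 * c + 1) → F} (h : ∀ i, gt x i = gt y i) : x = y := by
  funext k
  have := h k
  rwa [gt_val, gt_val] at this

theorem gt_add (x y : Fin (2 * c + 1) → F) (i : ℕ) : gt (x + y) i = gt x i + gt y i := by
  unfold gt
  split_ifs <;> simp

theorem gt_sub (x y : Fin (2 * c + 1) → F) (i : ℕ) : gt (x - y) i = gt x i - gt y i := by
  unfold gt
  split_ifs <;> simp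

theorem gt_smul (a : F) (x : Fin (2 * c + 1) → F) (i : ℕ) : gt (a • x) i = a * gt x i := by
  unfold gt
  split_ifs <;> simp

theorem gt_zero (i : ℕ) : gt (0 : Fin (2 * c + 1) → F) i = 0 := by
  unfold gt
  split_ifs <;> simp

theorem gt_ev (j i : ℕ) : gt (ev c F j) i = if i < 2 * c + 1 ∧ i = j then 1 else 0 := by
  unfold gt ev
  by_cases h : i < 2 * c + 1
  · simp [h]
  · simp [h]

theorem ev_eq_single (k : Fin (2 * c + 1)) : ev c F k = Pi.single k 1 := by
  funext l
  simp [ev, Pi.single_apply, Fin.ext_iff]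

section Form

variable {q : ℕ}

/-- The Hermitian form of the model. -/
def hm (q : ℕ) (x y : Fin (2 * c + 1) → F) : F :=
  ∑ k : Fin (2 * c + 1), sg F k * x k * y (Fin.rev k) ^ q

theorem rev_val (k : Fin (2 * c + 1)) : ((Fin.rev k : Fin (2 * c + 1)) : ℕ) = 2 * c - k := by
  rw [Fin.val_rev]
  omega

theorem sg_rev (k : Fin (2 * c + 1)) : sg F (Fin.rev k : Fin (2 * c + 1)) = sg F k := by
  rw [rev_val]
  have := k.2
  unfold sg
  split_ifs <;> first | omega | rfl

variable [Fintype F]

theorem sg_pow (hF : Fintype.card F = q ^ 2) (i : ℕ) : sg F i ^ q = sg F i := by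
  unfold sg
  split_ifs
  · simp
  · rw [pow_q_neg hF, one_pow]

theorem hm_add_left (x x' y : Fin (2 * c + 1) → F) : hm q (x + x') y = hm q x y + hm q x' y := by
  simp only [hm, Pi.add_apply, ← Finset.sum_add_distrib]
  exact Finset.sum_congr rfl fun i _ => by ring

theorem hm_smul_left (a : F) (x y : Fin (2 * c + 1) → F) : hm q (a • x) y = a * hm q x y := by
  simp only [hm, Pi.smul_apply, smul_eq_mul, Finset.mul_sum]
  exact Finset.sum_congr rfl fun i _ => by ring

theorem hm_add_right (hF : Fintype.card F = q ^ 2) (x y y' : Fin (2 * c + 1) → F) :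
    hm q x (y + y') = hm q x y + hm q x y' := by
  simp only [hm, Pi.add_apply, pow_q_add hF, ← Finset.sum_add_distrib]
  exact Finset.sum_congr rfl fun i _ => by ring

theorem hm_smul_right (a : F) (x y : Fin (2 * c + 1) → F) : hm q x (a • y) = a ^ q * hm q x y := by
  simp only [hm, Pi.smul_apply, smul_eq_mul, mul_pow, Finset.mul_sum]
  exact Finset.sum_congr rfl fun i _ => by ring

theorem hm_herm (hF : Fintype.card F = q ^ 2) (x y : Fin (2 * c + 1) → F) :
    hm q y x = hm q x y ^ q := by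
  simp only [hm]
  rw [pow_q_sum hF]
  refine Finset.sum_bij' (fun k _ => Fin.rev k) (fun k _ => Fin.rev k) (fun _ _ => Finset.mem_univ _)
    (fun _ _ => Finset.mem_univ _) (fun k _ => Fin.rev_rev k) (fun k _ => Fin.rev_rev k) ?_
  intro k _
  rw [mul_pow, mul_pow, sg_pow hF, pow_q_pow_q hF, Fin.rev_rev, sg_rev]
  ring

theorem hm_ev_right (x : Fin (2 * c + 1) → F) {j : ℕ} (hj : j ≤ 2 * c) (hq : q ≠ 0) :
    hm q x (ev c F j) = sg F (2 * c - j) * gt x (2 * c - j) := by
  rw [hm]
  have h1 : 2 * c - j < 2 * c + 1 := by omega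
  rw [Finset.sum_eq_single (⟨2 * c - j, h1⟩ : Fin (2 * c + 1))]
  · simp only [gt, h1, dif_pos]
    have : (ev c F j) (Fin.rev (⟨2 * c - j, h1⟩ : Fin (2 * c + 1))) = 1 := by
      simp only [ev]
      rw [rev_val]
      simp only
      rw [if_pos (by omega)]
    rw [this, one_pow, mul_one]
  · intro k _ hk
    have : (ev c F j) (Fin.rev k) = 0 := by
      simp only [ev]
      rw [rev_val, if_neg]
      intro h
      apply hk
      apply Fin.ext
      simp only
      have := k.2
      omega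
    rw [this, zero_pow hq, mul_zero]
  · simp

theorem hm_ev_ev (hq : q ≠ 0) (i j : ℕ) (hj : j ≤ 2 * c) :
    hm q (ev c F i) (ev c F j) = if i + j = 2 * c then sg F i else 0 := by
  rw [hm_ev_right _ hj hq, gt_ev]
  by_cases h : i + j = 2 * c
  · rw [if_pos h, if_pos (by omega), mul_one]
    congr 1
    omega
  · rw [if_neg h, if_neg (by omega), mul_zero]

theorem hm_nondeg (hq : q ≠ 0) (x : Fin (2 * c + 1) → F) (hx : ∀ y, hm q x y = 0) : x = 0 := by
  apply ext_gt
  intro i
  rw [gt_zero]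
  by_cases hi : i ≤ 2 * c
  · have h1 := hx (ev c F (2 * c - i))
    rw [hm_ev_right _ (by omega) hq, show 2 * c - (2 * c - i) = i by omega] at h1
    exact (mul_eq_zero.1 h1).resolve_left (sg_ne_zero i)
  · exact gt_of_ge _ (by omega)

theorem hm_isHerm (hF : Fintype.card F = q ^ 2) :
    HermOnb.IsHerm q (hm q : (Fin (2 * c + 1) → F) → (Fin (2 * c + 1) → F) → F) := by
  have hq : q ≠ 0 := by
    have := two_le_q hF
    omega
  exact ⟨hm_add_left, hm_smul_left, hm_herm hF, hm_nondeg hq⟩

theorem hm_sum_left {ι : Type*} (s : Finset ι) (a : ι → F) (f : ι → Fin (2 * c + 1) → F)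
    (y : Fin (2 * c + 1) → F) : hm q (∑ i ∈ s, a i • f i) y = ∑ i ∈ s, a i * hm q (f i) y := by
  classical
  induction s using Finset.induction_on with
  | empty => simp [hm]
  | insert i s hi ih =>
    rw [Finset.sum_insert hi, Finset.sum_insert hi, hm_add_left, hm_smul_left, ih]

theorem hm_sum_right (hF : Fintype.card F = q ^ 2) {ι : Type*} (s : Finset ι) (a : ι → F)
    (f : ι → Fin (2 * c + 1) → F) (x : Fin (2 * c + 1) → F) :
    hm q x (∑ i ∈ s, a i • f i) = ∑ i ∈ s, a i ^ q * hm q x (f i) := by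
  classical
  have hq : q ≠ 0 := by
    have := two_le_q hF
    omega
  induction s using Finset.induction_on with
  | empty =>
    simp [hm, hq]
  | insert i s hi ih =>
    rw [Finset.sum_insert hi, Finset.sum_insert hi, hm_add_right hF, hm_smul_right, ih]

theorem eq_sum_ev (x : Fin (2 * c + 1) → F) : x = ∑ i : Fin (2 * c + 1), x i • ev c F i := by
  funext k
  simp only [Finset.sum_apply, Pi.smul_apply, smul_eq_mul, ev]
  rw [Finset.sum_eq_single k]
  · simp
  · intro b _ hb
    rw [if_neg (fun h => hb (Fin.ext h.symm)), mul_zero]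
  · simp

/-- An isometry can be checked on the basis. -/
theorem isom_of_basis (hF : Fintype.card F = q ^ 2)
    (g : (Fin (2 * c + 1) → F) →ₗ[F] (Fin (2 * c + 1) → F))
    (h : ∀ i j : ℕ, i ≤ 2 * c → j ≤ 2 * c →
      hm q (g (ev c F i)) (g (ev c F j)) = hm q (ev c F i) (ev c F j))
    (x y : Fin (2 * c + 1) → F) : hm q (g x) (g y) = hm q x y := by
  conv_lhs => rw [eq_sum_ev x, eq_sum_ev y, map_sum, map_sum]
  conv_rhs => rw [eq_sum_ev x, eq_sum_ev y]
  simp only [map_smul]
  rw [hm_sum_left, hm_sum_left]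
  refine Finset.sum_congr rfl fun i _ => ?_
  congr 1
  rw [hm_sum_right hF, hm_sum_right hF]
  refine Finset.sum_congr rfl fun j _ => ?_
  rw [h i j (by have := i.2; omega) (by have := j.2; omega)]

end Form

/-! ### The isometries -/

/-- The index sets: a partition of `{0, ..., 2c - 1}`, symmetric under `k ↦ 2c - 1 - k`. -/
def inI (c π k : ℕ) : Prop := (k < c ∧ (c - 1 - k) % 2 = π) ∨ (c ≤ k ∧ k < 2 * c ∧ (k - c) % 2 = π)

instance (c π k : ℕ) : Decidable (inI c π k) := by
  unfold inI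
  infer_instance

/-- The linear map `D π`. -/
def DL (κ : F) (π : ℕ) : (Fin (2 * c + 1) → F) →ₗ[F] (Fin (2 * c + 1) → F) where
  toFun x := fun k => x k + (if inI c π k then gt x (k + 1) else 0) +
    (if π = 0 ∧ (k : ℕ) + 1 = c then κ * gt x (k + 2) else 0)
  map_add' x y := by
    funext k
    simp only [Pi.add_apply, gt_add]
    split_ifs <;> ring
  map_smul' r x := by
    funext k
    simp only [Pi.smul_apply, smul_eq_mul, gt_smul, RingHom.id_apply]
    split_ifs <;> ring

theorem gt_DL (κ : F) (π : ℕ) (x : Fin (2 * c + 1) → F) (i : ℕ) :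
    gt (DL κ π x) i = gt x i + (if inI c π i then gt x (i + 1) else 0) +
      (if π = 0 ∧ i + 1 = c then κ * gt x (i + 2) else 0) := by
  by_cases hi : i < 2 * c + 1
  · simp [gt, hi, DL]
  · rw [gt_of_ge _ (by omega), gt_of_ge _ (by omega), if_neg, if_neg]
    · simp
    · omega
    · unfold inI
      omega

/-- The coefficient of `e_{j-1}` in `D π e_j`. -/
def aa (F : Type*) [Field F] (c π j : ℕ) : F := if 1 ≤ j ∧ inI c π (j - 1) then 1 else 0

/-- The coefficient of `e_{c-1}` in `D π e_j`. -/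
def bb (κ : F) (c π j : ℕ) : F := if π = 0 ∧ j = c + 1 then κ else 0

theorem DL_ev (hc : 2 ≤ c) (κ : F) (π : ℕ) {j : ℕ} (hj : j ≤ 2 * c) :
    DL κ π (ev c F j) = ev c F j + aa F c π j • ev c F (j - 1) + bb κ c π j • ev c F (c - 1) := by
  apply ext_gt
  intro i
  rw [gt_DL, gt_add, gt_add, gt_smul, gt_smul]
  simp only [gt_ev, aa, bb]
  by_cases h0 : i = j
  · subst h0
    rw [if_pos (by omega : i < 2 * c + 1 ∧ i = i),
      if_neg (by omega : ¬ (i + 1 < 2 * c + 1 ∧ i + 1 = i)),
      if_neg (by omega : ¬ (i + 2 < 2 * c + 1 ∧ i + 2 = i))]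
    by_cases h1 : 1 ≤ i
    · rw [if_neg (by omega : ¬ (i < 2 * c + 1 ∧ i = i - 1))]
      by_cases h3 : π = 0 ∧ i = c + 1
      · rw [if_pos h3, if_neg (by omega : ¬ (i < 2 * c + 1 ∧ i = c - 1))]
        simp
      · rw [if_neg h3]
        simp
    · rw [if_neg (by omega : ¬ (1 ≤ i ∧ inI c π (i - 1))), if_neg (by omega : ¬ (π = 0 ∧ i = c + 1))]
      simp
  by_cases h1 : i + 1 = j
  · subst h1
    rw [if_neg (by omega : ¬ (i < 2 * c + 1 ∧ i = i + 1)),
      if_pos (by omega : i + 1 < 2 * c + 1 ∧ i + 1 = i + 1),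
      if_neg (by omega : ¬ (i + 2 < 2 * c + 1 ∧ i + 2 = i + 1)),
      if_pos (by omega : i < 2 * c + 1 ∧ i = i + 1 - 1)]
    simp only [Nat.add_sub_cancel]
    by_cases h3 : π = 0 ∧ i + 1 = c + 1
    · rw [if_pos h3, if_neg (by omega : ¬ (i < 2 * c + 1 ∧ i = c - 1)),
        if_neg (by omega : ¬ (π = 0 ∧ i + 1 = c))]
      by_cases h4 : inI c π i
      · simp [h4]
      · simp [h4]
    · rw [if_neg h3]
      by_cases h4 : inI c π i
      · simp [h4]
      · simp [h4]
  rw [if_neg (by omega : ¬ (i < 2 * c + 1 ∧ i = j)), if_neg (by omega : ¬ (i + 1 < 2 * c + 1 ∧ i + 1 = j)),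
    if_neg (by omega : ¬ (i < 2 * c + 1 ∧ i = j - 1)), ite_self]
  by_cases h3 : π = 0 ∧ i + 1 = c
  · rw [if_pos h3]
    by_cases h4 : j = c + 1
    · rw [if_pos (by omega : i + 2 < 2 * c + 1 ∧ i + 2 = j), if_pos (by omega : π = 0 ∧ j = c + 1),
        if_pos (by omega : i < 2 * c + 1 ∧ i = c - 1)]
      simp
    · rw [if_neg (by omega : ¬ (i + 2 < 2 * c + 1 ∧ i + 2 = j)),
        if_neg (by omega : ¬ (π = 0 ∧ j = c + 1))]
      simp
  · rw [if_neg h3]
    by_cases h4 : π = 0 ∧ j = c + 1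
    · rw [if_pos h4, if_neg (by omega : ¬ (i < 2 * c + 1 ∧ i = c - 1))]
      simp
    · rw [if_neg h4]
      simp

theorem inI_symm {π k k' : ℕ} (h : k + k' + 1 = 2 * c) : inI c π k ↔ inI c π k' := by
  unfold inI
  omega

theorem inI_cases {k : ℕ} (h : k < 2 * c) : inI c 0 k ∨ inI c 1 k := by
  unfold inI
  omega

theorem inI_not_both {k : ℕ} (h : inI c 0 k) : ¬ inI c 1 k := by
  unfold inI at *
  omega

theorem inI_lt {π k : ℕ} (h : inI c π k) : k < 2 * c := by
  unfold inI at *
  omega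

theorem inI_anti {π k k' : ℕ} (h : k + k' = 2 * c) (h0 : ¬ (π = 0 ∧ k = c)) :
    ¬ (inI c π k ∧ inI c π k') := by
  unfold inI
  omega

theorem aa_zero_of {π j : ℕ} (h : j = 0) : aa F c π j = 0 := by
  unfold aa
  rw [if_neg (by omega)]

section Isom

variable {q : ℕ} [Fintype F]

theorem aa_pow (hF : Fintype.card F = q ^ 2) (π j : ℕ) : aa F c π j ^ q = aa F c π j := by
  have hq : q ≠ 0 := by
    have := two_le_q hF
    omega
  unfold aa
  split_ifs
  · exact one_pow _
  · exact zero_pow hq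

/-- The matrix coefficient of the form on the basis. -/
def GG (F : Type*) [Field F] (c p r : ℕ) : F := if p + r = 2 * c then sg F p else 0

theorem GG_pos {p r : ℕ} (h : p + r = 2 * c) : GG F c p r = sg F p := by
  unfold GG
  rw [if_pos h]

theorem GG_neg {p r : ℕ} (h : p + r ≠ 2 * c) : GG F c p r = 0 := by
  unfold GG
  rw [if_neg h]

theorem DL_form (hF : Fintype.card F = q ^ 2) (hc : 2 ≤ c) (κ : F) (π : ℕ) {i j : ℕ} (hi : i ≤ 2 * c)
    (hj : j ≤ 2 * c) :
    hm q (DL κ π (ev c F i)) (DL κ π (ev c F j)) =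
      GG F c i j + aa F c π j * GG F c i (j - 1) + bb κ c π j ^ q * GG F c i (c - 1) +
      aa F c π i * (GG F c (i - 1) j + aa F c π j * GG F c (i - 1) (j - 1) +
        bb κ c π j ^ q * GG F c (i - 1) (c - 1)) +
      bb κ c π i * (GG F c (c - 1) j + aa F c π j * GG F c (c - 1) (j - 1) +
        bb κ c π j ^ q * GG F c (c - 1) (c - 1)) := by
  have hq : q ≠ 0 := by
    have := two_le_q hF
    omega
  rw [DL_ev hc κ π hi, DL_ev hc κ π hj]
  simp only [hm_add_left, hm_add_right hF, hm_smul_left, hm_smul_right, aa_pow hF]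
  rw [hm_ev_ev hq _ _ hj, hm_ev_ev hq _ (j - 1) (by omega), hm_ev_ev hq _ (c - 1) (by omega),
    hm_ev_ev hq (i - 1) _ hj, hm_ev_ev hq (i - 1) (j - 1) (by omega),
    hm_ev_ev hq (i - 1) (c - 1) (by omega), hm_ev_ev hq (c - 1) _ hj,
    hm_ev_ev hq (c - 1) (j - 1) (by omega), hm_ev_ev hq (c - 1) (c - 1) (by omega)]
  simp only [GG]
  ring

/-- The basis check when the middle correction is not involved. -/
theorem DL_check_A (hF : Fintype.card F = q ^ 2) (hc : 2 ≤ c) (κ : F) {π : ℕ}
    {i j : ℕ} (hi : i ≤ 2 * c) (hj : j ≤ 2 * c) (h1 : ¬ (π = 0 ∧ i = c + 1))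
    (h2 : ¬ (π = 0 ∧ j = c + 1)) :
    hm q (DL κ π (ev c F i)) (DL κ π (ev c F j)) = GG F c i j := by
  have hq : q ≠ 0 := by
    have := two_le_q hF
    omega
  rw [DL_form hF hc κ π hi hj]
  have hb1 : bb κ c π i = 0 := by
    unfold bb
    rw [if_neg h1]
  have hb2 : bb κ c π j = 0 := by
    unfold bb
    rw [if_neg h2]
  rw [hb1, hb2, zero_pow hq]
  by_cases h3 : i + j = 2 * c + 1
  · rw [GG_neg (by omega), GG_pos (by omega : i + (j - 1) = 2 * c), GG_pos (by omega : i - 1 + j = 2 * c),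
      GG_neg (by omega : i - 1 + (j - 1) ≠ 2 * c), sg_pred (by omega)]
    have h4 : aa F c π i = aa F c π j := by
      unfold aa
      have h5 : inI c π (i - 1) ↔ inI c π (j - 1) := inI_symm (by omega)
      have hi1 : 1 ≤ i := by omega
      have hj1 : 1 ≤ j := by omega
      simp only [h5, hi1, hj1, true_and]
    rw [h4]
    ring
  by_cases h4 : i + j = 2 * c + 2
  · rw [GG_neg (by omega), GG_neg (by omega : i + (j - 1) ≠ 2 * c), GG_neg (by omega : i - 1 + j ≠ 2 * c)]
    have h5 : aa F c π i * aa F c π j = 0 := by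
      unfold aa
      have h6 := inI_anti (c := c) (π := π) (by omega : i - 1 + (j - 1) = 2 * c) (by omega)
      by_cases h7 : inI c π (i - 1)
      · have h8 : ¬ inI c π (j - 1) := fun h => h6 ⟨h7, h⟩
        simp [h8]
      · simp [h7]
    linear_combination (GG F c (i - 1) (j - 1)) * h5
  · have e1 : aa F c π j * GG F c i (j - 1) = 0 := by
      by_cases hj0 : j = 0
      · rw [aa_zero_of hj0, zero_mul]
      · rw [GG_neg (by omega), mul_zero]
    have e2 : aa F c π i * GG F c (i - 1) j = 0 := by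
      by_cases hi0 : i = 0
      · rw [aa_zero_of hi0, zero_mul]
      · rw [GG_neg (by omega), mul_zero]
    have e3 : aa F c π i * (aa F c π j * GG F c (i - 1) (j - 1)) = 0 := by
      by_cases hi0 : i = 0
      · rw [aa_zero_of hi0, zero_mul]
      by_cases hj0 : j = 0
      · rw [aa_zero_of hj0, zero_mul, mul_zero]
      · rw [GG_neg (by omega), mul_zero, mul_zero]
    linear_combination e1 + e2 + e3

theorem aa_centre (hc : 2 ≤ c) : aa F c 0 (c + 1) = 1 := by
  unfold aa inI
  rw [if_pos]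
  omega

theorem aa_centre' (hc : 2 ≤ c) : aa F c 0 c = 1 := by
  unfold aa inI
  rw [if_pos]
  omega

theorem aa_centre_pred (hc : 2 ≤ c) : aa F c 0 (c - 1) = 0 := by
  unfold aa inI
  rw [if_neg]
  omega

theorem aa_centre_succ (hc : 2 ≤ c) : aa F c 0 (c + 2) = 0 := by
  unfold aa inI
  rw [if_neg]
  omega

theorem bb_centre (κ : F) : bb κ c 0 (c + 1) = κ := by
  unfold bb
  rw [if_pos]
  omega

theorem bb_of_ne (κ : F) {π j : ℕ} (h : ¬ (π = 0 ∧ j = c + 1)) : bb κ c π j = 0 := by
  unfold bb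
  rw [if_neg h]

/-- The basis check for the vector in the middle. -/
theorem DL_check_B (hF : Fintype.card F = q ^ 2) (hc : 2 ≤ c) {κ : F} (hκ : κ + κ ^ q = 1) {j : ℕ}
    (hj : j ≤ 2 * c) :
    hm q (DL κ 0 (ev c F (c + 1))) (DL κ 0 (ev c F j)) = GG F c (c + 1) j := by
  have hq : q ≠ 0 := by
    have := two_le_q hF
    omega
  rw [DL_form hF hc κ 0 (by omega) hj, aa_centre hc, bb_centre]
  simp only [show c + 1 - 1 = c by omega]
  by_cases h1 : j = c + 1
  · subst h1
    rw [aa_centre hc, bb_centre]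
    simp only [show c + 1 - 1 = c by omega]
    rw [GG_neg (by omega), GG_neg (by omega), GG_pos (by omega : c + 1 + (c - 1) = 2 * c),
      GG_neg (by omega : c + (c + 1) ≠ 2 * c), GG_pos (by omega : c + c = 2 * c),
      GG_neg (by omega : c + (c - 1) ≠ 2 * c), GG_pos (by omega : c - 1 + (c + 1) = 2 * c),
      GG_neg (by omega : c - 1 + c ≠ 2 * c), GG_neg (by omega : c - 1 + (c - 1) ≠ 2 * c),
      sg_pred (by omega : 1 ≤ c)]
    have e : sg F (c + 1) = - sg F c := by
      have := sg_pred (F := F) (by omega : 1 ≤ c + 1)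
      rw [show c + 1 - 1 = c by omega] at this
      rw [this, neg_neg]
    rw [e]
    linear_combination (-sg F c) * hκ
  rw [bb_of_ne κ (by omega : ¬ ((0 : ℕ) = 0 ∧ j = c + 1)), zero_pow hq]
  by_cases h2 : j = c
  · rw [h2, aa_centre' hc, GG_neg (by omega : c + 1 + c ≠ 2 * c),
      GG_pos (by omega : c + 1 + (c - 1) = 2 * c), GG_pos (by omega : c + c = 2 * c),
      GG_neg (by omega : c + (c - 1) ≠ 2 * c), GG_neg (by omega : c - 1 + c ≠ 2 * c),
      GG_neg (by omega : c - 1 + (c - 1) ≠ 2 * c)]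
    have e : sg F (c + 1) = - sg F c := by
      have := sg_pred (F := F) (by omega : 1 ≤ c + 1)
      rw [show c + 1 - 1 = c by omega] at this
      rw [this, neg_neg]
    rw [e]
    ring
  by_cases h3 : j = c - 1
  · rw [h3, aa_centre_pred hc, GG_neg (by omega : c + (c - 1) ≠ 2 * c),
      GG_neg (by omega : c - 1 + (c - 1) ≠ 2 * c)]
    ring
  by_cases h4 : j = c + 2
  · rw [h4, aa_centre_succ hc, GG_neg (by omega : c + (c + 2) ≠ 2 * c),
      GG_neg (by omega : c - 1 + (c + 2) ≠ 2 * c)]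
    ring
  have e1 : aa F c 0 j * GG F c (c + 1) (j - 1) = 0 := by
    by_cases hj0 : j = 0
    · rw [aa_zero_of hj0, zero_mul]
    · rw [GG_neg (by omega), mul_zero]
  have e2 : aa F c 0 j * GG F c c (j - 1) = 0 := by
    by_cases hj0 : j = 0
    · rw [aa_zero_of hj0, zero_mul]
    · rw [GG_neg (by omega), mul_zero]
  have e3 : aa F c 0 j * GG F c (c - 1) (j - 1) = 0 := by
    by_cases hj0 : j = 0
    · rw [aa_zero_of hj0, zero_mul]
    · rw [GG_neg (by omega), mul_zero]
  rw [GG_neg (by omega : c + j ≠ 2 * c), GG_neg (by omega : c - 1 + j ≠ 2 * c)]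
  linear_combination e1 + e2 + κ * e3

theorem DL_check (hF : Fintype.card F = q ^ 2) (hc : 2 ≤ c) {κ : F} (hκ : κ + κ ^ q = 1) {π : ℕ}
    {i j : ℕ} (hi : i ≤ 2 * c) (hj : j ≤ 2 * c) :
    hm q (DL κ π (ev c F i)) (DL κ π (ev c F j)) = GG F c i j := by
  by_cases h1 : π = 0 ∧ i = c + 1
  · obtain ⟨rfl, rfl⟩ := h1
    exact DL_check_B hF hc hκ hj
  by_cases h2 : π = 0 ∧ j = c + 1
  · obtain ⟨rfl, rfl⟩ := h2
    rw [hm_herm hF, DL_check_B hF hc hκ hi]
    unfold GG
    split_ifs with h3 h4 h4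
    · rw [sg_pow hF]
      unfold sg
      split_ifs <;> first | omega | rfl
    · omega
    · omega
    · exact zero_pow (by have := two_le_q hF; omega)
  · exact DL_check_A hF hc κ hi hj h1 h2

theorem DL_isom (hF : Fintype.card F = q ^ 2) (hc : 2 ≤ c) {κ : F} (hκ : κ + κ ^ q = 1) {π : ℕ}
    (x y : Fin (2 * c + 1) → F) :
    hm q (DL κ π x) (DL κ π y) = hm q x y := by
  have hq : q ≠ 0 := by
    have := two_le_q hF
    omega
  refine isom_of_basis hF (DL κ π) (fun i j hi hj => ?_) x y
  rw [DL_check hF hc hκ hi hj, hm_ev_ev hq i j hj]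
  rfl

end Isom

/-! ### The regular unipotent element -/

/-- The regular unipotent element of the model, as a linear map. -/
def UL (κ : F) : (Fin (2 * c + 1) → F) →ₗ[F] (Fin (2 * c + 1) → F) := DL κ 1 ∘ₗ DL κ 0

/-- The nilpotent part. -/
def NL (κ : F) : Module.End F (Fin (2 * c + 1) → F) := UL κ - 1

/-- Second coefficient of the nilpotent part. -/
def αα (κ : F) (c i : ℕ) : F := (if i + 1 = c then κ else 0) +
  (if inI c 1 i ∧ inI c 0 (i + 1) then 1 else 0)

/-- Third coefficient of the nilpotent part. -/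
def ββ (κ : F) (c i : ℕ) : F := if inI c 1 i ∧ i + 2 = c then κ else 0

theorem NL_apply (κ : F) (x : Fin (2 * c + 1) → F) : NL κ x = UL κ x - x := rfl

theorem gt_NL (κ : F) (x : Fin (2 * c + 1) → F) (i : ℕ) :
    gt (NL κ x) i = gt x (i + 1) + αα κ c i * gt x (i + 2) + ββ κ c i * gt x (i + 3) := by
  have h0 : UL κ x = DL κ 1 (DL κ 0 x) := rfl
  rw [NL_apply, gt_sub, h0, gt_DL, gt_DL, gt_DL]
  simp only [αα, ββ]
  rw [if_neg (by omega : ¬ ((1 : ℕ) = 0 ∧ i + 1 = c))]
  simp only [true_and, show (0 : ℕ) = 0 from rfl, if_true]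
  by_cases h1 : i < 2 * c
  · rcases inI_cases h1 with h2 | h2
    · have h3 := inI_not_both h2
      simp only [h2, h3, if_true, if_false, false_and]
      split_ifs <;> ring
    · have h3 : ¬ inI c 0 i := fun h => inI_not_both h h2
      simp only [h2, h3, if_true, if_false, true_and]
      split_ifs <;> ring
  · have h2 : ∀ π, ¬ inI c π i := fun π h => h1 (inI_lt h)
    have h3 : ¬ i + 1 = c := by omega
    simp only [h2, h3, if_false, false_and]
    rw [gt_of_ge x (by omega : 2 * c + 1 ≤ i + 1)]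
    ring

section Nil

variable {κ : F}

theorem gt_NL_pow_zero (x : Fin (2 * c + 1) → F) (k : ℕ) :
    ∀ i, 2 * c + 1 ≤ i + k → gt ((NL κ ^ k) x) i = 0 := by
  induction k with
  | zero =>
    intro i hi
    exact gt_of_ge _ (by omega)
  | succ k ih =>
    intro i hi
    rw [pow_succ', Module.End.mul_apply, gt_NL, ih (i + 1) (by omega), ih (i + 2) (by omega),
      ih (i + 3) (by omega)]
    simp

theorem gt_NL_pow_top (x : Fin (2 * c + 1) → F) (k : ℕ) (hk : k ≤ 2 * c) :
    gt ((NL κ ^ k) x) (2 * c - k) = gt x (2 * c) := by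
  induction k with
  | zero => simp
  | succ k ih =>
    rw [pow_succ', Module.End.mul_apply, gt_NL,
      show 2 * c - (k + 1) + 1 = 2 * c - k by omega, ih (by omega),
      gt_NL_pow_zero x k _ (by omega), gt_NL_pow_zero x k _ (by omega)]
    simp

theorem NL_pow_eq_zero : NL κ ^ (2 * c + 1) = (0 : Module.End F (Fin (2 * c + 1) → F)) := by
  refine LinearMap.ext fun x => ?_
  apply ext_gt
  intro i
  rw [gt_NL_pow_zero x _ _ (by omega)]
  simp [gt_zero]

theorem NL_pow_ne_zero : NL κ ^ (2 * c) ≠ (0 : Module.End F (Fin (2 * c + 1) → F)) := by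
  intro h
  have h1 := gt_NL_pow_top (κ := κ) (ev c F (2 * c)) (2 * c) le_rfl
  have h2 : gt (ev c F (2 * c)) (2 * c) = 1 := by
    rw [gt_ev, if_pos ⟨by omega, rfl⟩]
  rw [h2, h] at h1
  simp only [LinearMap.zero_apply, gt_zero] at h1
  exact zero_ne_one h1

/-- The key fact about `u`: a `u`-stable subspace with a vector with nonzero last coordinate is
everything. -/
theorem UL_stable (T : Submodule F (Fin (2 * c + 1) → F)) (hT : ∀ x ∈ T, UL κ x ∈ T)
    {t : Fin (2 * c + 1) → F} (ht : t ∈ T) (hte : gt t (2 * c) ≠ 0) : T = ⊤ := by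
  have hN : ∀ k, (NL κ ^ k) t ∈ T := by
    intro k
    induction k with
    | zero => simpa using ht
    | succ k ih =>
      rw [pow_succ', Module.End.mul_apply, NL_apply]
      exact T.sub_mem (hT _ ih) ih
  have key : ∀ d : ℕ, ∀ v : Fin (2 * c + 1) → F, (∀ i, d ≤ i → gt v i = 0) → d ≤ 2 * c + 1 → v ∈ T := by
    intro d
    induction d with
    | zero =>
      intro v hv _
      have : v = 0 := ext_gt fun i => by rw [hv i (by omega), gt_zero]
      rw [this]
      exact T.zero_mem
    | succ d ih =>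
      intro v hv hd
      have h1 := gt_NL_pow_top (κ := κ) t (2 * c - d) (by omega)
      rw [show 2 * c - (2 * c - d) = d by omega] at h1
      have h2 := hN (2 * c - d)
      obtain ⟨y, hy⟩ : ∃ y, y = (NL κ ^ (2 * c - d)) t := ⟨_, rfl⟩
      rw [← hy] at h1 h2
      have h3 : ∀ i, d + 1 ≤ i → gt y i = 0 := by
        intro i hi
        rw [hy]
        exact gt_NL_pow_zero t _ _ (by omega)
      have h4 := ih (v - (gt v d / gt t (2 * c)) • y) (by
        intro i hi
        rw [gt_sub, gt_smul]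
        by_cases h5 : i = d
        · rw [h5, h1]
          field_simp
          ring
        · rw [hv i (by omega), h3 i (by omega)]
          ring) (by omega)
      have h5 := T.add_mem h4 (T.smul_mem (gt v d / gt t (2 * c)) h2)
      rwa [sub_add_cancel] at h5
  rw [eq_top_iff]
  intro v _
  exact key (2 * c + 1) v (fun i hi => gt_of_ge _ hi) le_rfl

end Nil

section Values

variable {κ : F}

theorem UL_apply (x : Fin (2 * c + 1) → F) : UL κ x = x + NL κ x := by
  rw [NL_apply]
  abel

theorem NL_ev_zero : NL κ (ev c F 0) = 0 := by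
  apply ext_gt
  intro i
  rw [gt_NL, gt_zero]
  simp only [gt_ev]
  rw [if_neg (by omega), if_neg (by omega), if_neg (by omega)]
  ring

theorem NL_ev_one (hc : 2 ≤ c) : NL κ (ev c F 1) = ev c F 0 := by
  apply ext_gt
  intro i
  rw [gt_NL]
  simp only [gt_ev]
  rw [if_neg (by omega : ¬ (i + 2 < 2 * c + 1 ∧ i + 2 = 1)),
    if_neg (by omega : ¬ (i + 3 < 2 * c + 1 ∧ i + 3 = 1))]
  by_cases h : i = 0
  · subst h
    rw [if_pos (by omega), if_pos (by omega)]
    ring
  · rw [if_neg (by omega), if_neg (by omega)]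
    ring

theorem NL_ev_two (hc : 2 ≤ c) : NL κ (ev c F 2) = ev c F 1 + αα κ c 0 • ev c F 0 := by
  apply ext_gt
  intro i
  rw [gt_NL, gt_add, gt_smul]
  simp only [gt_ev]
  rw [if_neg (by omega : ¬ (i + 3 < 2 * c + 1 ∧ i + 3 = 2))]
  by_cases h : i = 0
  · subst h
    rw [if_neg (by omega), if_pos (by omega), if_neg (by omega), if_pos (by omega)]
    ring
  · by_cases h1 : i = 1
    · subst h1
      rw [if_pos (by omega), if_neg (by omega), if_pos (by omega), if_neg (by omega)]
      ring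
    · rw [if_neg (by omega), if_neg (by omega), if_neg (by omega), if_neg (by omega)]
      ring

theorem NL_ev_E (hc : 2 ≤ c) : NL κ (ev c F (c + 2)) = ev c F (c + 1) := by
  apply ext_gt
  intro i
  rw [gt_NL]
  simp only [gt_ev]
  by_cases h : i = c + 1
  · subst h
    rw [if_pos (by omega), if_neg (by omega), if_neg (by omega), if_pos (by omega)]
    ring
  · rw [if_neg (by omega : ¬ (i < 2 * c + 1 ∧ i = c + 1))]
    by_cases h1 : i = c
    · subst h1
      rw [if_neg (by omega), if_pos (by omega), if_neg (by omega)]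
      have : αα κ i i = 0 := by
        unfold αα inI
        rw [if_neg (by omega), if_neg (by omega)]
        ring
      rw [this]
      ring
    · by_cases h2 : i + 1 = c
      · rw [if_neg (by omega), if_neg (by omega), if_pos (by omega)]
        have : ββ κ c i = 0 := by
          unfold ββ
          rw [if_neg (by omega)]
        rw [this]
        ring
      · rw [if_neg (by omega), if_neg (by omega), if_neg (by omega)]
        ring

/-- The coordinate `c - 1` of the image of `e_{c+1}`. -/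
theorem gt_NL_ev_z (hc : 2 ≤ c) : gt (NL κ (ev c F (c + 1))) (c - 1) = κ := by
  rw [gt_NL]
  simp only [gt_ev]
  rw [if_neg (by omega), if_pos (by omega), if_neg (by omega)]
  have : αα κ c (c - 1) = κ := by
    unfold αα inI
    rw [if_pos (by omega), if_neg (by omega)]
    ring
  rw [this]
  ring

end Values

section Transport

variable {q : ℕ} [Fintype F] {κ : F}

theorem UL_isom (hF : Fintype.card F = q ^ 2) (hc : 2 ≤ c) (hκ : κ + κ ^ q = 1)
    (x y : Fin (2 * c + 1) → F) : hm q (UL κ x) (UL κ y) = hm q x y := by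
  have h0 : ∀ x : Fin (2 * c + 1) → F, UL κ x = DL κ 1 (DL κ 0 x) := fun _ => rfl
  rw [h0, h0, DL_isom hF hc hκ, DL_isom hF hc hκ]

end Transport

end Cfsg.Agent.Lib.Classical.Herm.RegUModel
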