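import Mathlib
import Cfsg.Agent.Lib.Classical.Herm.RegUMain
import Cfsg.Agent.Lib.Classical.Herm.RegUModel

/-!
# The regular unipotent element of `SU_{2c+1}(q)` in standard coordinates
-/

set_option autoImplicit false
set_option linter.unusedSectionVars false
set_option linter.unusedSimpArgs false

open scoped Matrix
open Cfsg
open Cfsg.Agent.Lib.Classical.Herm.Basic Cfsg.Agent.Lib.Classical.Herm.Form
open Cfsg.Agent.Lib.Classical.Herm.GU Cfsg.Agent.Lib.Classical.Herm.SU
open Cfsg.Agent.Lib.Classical.Herm.Tv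
open Cfsg.Agent.Lib.Classical.Herm.RegUModel

namespace Cfsg.Agent.Lib.Classical.Herm.RegU

variable {F : Type*} [Field F] [Fintype F] {q c : ℕ}

local notation "⟪" x ", " y "⟫" => hermForm _ _ q x y

theorem exists_regData (hF : Fintype.card F = q ^ 2) (hc : 2 ≤ c) :
    ∃ (u : SU (2 * c + 1) F q) (b : ℕ → Fin (2 * c + 1) → F), RegData c u b ∧
      IsNilpotent (mat u - 1) ∧ (mat u - 1) ^ (2 * c) ≠ 0 := by
  have hq : q ≠ 0 := by
    have := two_le_q hF
    omega
  obtain ⟨κ, -, hκ, -⟩ := exists_pair_coeffs hF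
  obtain ⟨Φ, hΦ⟩ := HermOnb.exists_isometry hF (2 * c + 1) (Fin (2 * c + 1) → F) (hm q) (hm_isHerm hF)
    (by simp)
  let A : (Fin (2 * c + 1) → F) →ₗ[F] (Fin (2 * c + 1) → F) :=
    Φ.symm.toLinearMap ∘ₗ UL κ ∘ₗ Φ.toLinearMap
  let M : Matrix (Fin (2 * c + 1)) (Fin (2 * c + 1)) F := LinearMap.toMatrix' A
  have hM : ∀ x, M *ᵥ x = Φ.symm (UL κ (Φ x)) := fun x => by
    simp only [M, LinearMap.toMatrix'_mulVec]
    rfl
  have hP : Preserves q M := by
    intro x y
    rw [hM, hM, ← hΦ, ← hΦ x y, Φ.apply_symm_apply, Φ.apply_symm_apply, UL_isom hF hc hκ]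
  have hpow : ∀ (k : ℕ) (x : Fin (2 * c + 1) → F),
      (M - 1) ^ k *ᵥ x = Φ.symm ((NL κ ^ k) (Φ x)) := by
    intro k
    induction k with
    | zero => simp
    | succ k ih =>
      intro x
      rw [pow_succ', ← Matrix.mulVec_mulVec, ih, Matrix.sub_mulVec, hM, Matrix.one_mulVec,
        pow_succ', Module.End.mul_apply, NL_apply]
      simp [map_sub]
  have hnil : (M - 1) ^ (2 * c + 1) = 0 := by
    apply Matrix.mulVec_injective
    funext x
    rw [hpow, NL_pow_eq_zero]
    simp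
  have hdet : M.det = 1 := by
    have := Cfsg.Agent.Lib.Classical.Herm.Comm.det_one_add_of_nilpotent (M - 1) ⟨_, hnil⟩
    rwa [add_sub_cancel] at this
  have hact : ∀ x, act (mkSU M hdet hP) x = Φ.symm (UL κ (Φ x)) := hM
  have hform : ∀ x y, ⟪Φ.symm x, Φ.symm y⟫ = hm q x y := by
    intro x y
    rw [← hΦ, Φ.apply_symm_apply, Φ.apply_symm_apply]
  refine ⟨mkSU M hdet hP, fun i => Φ.symm (ev c F i), ?_, ⟨_, hnil⟩, ?_⟩
  · refine ⟨hc, rfl, fun i j hi hj => ?_, ?_, ?_, ?_, ?_, ?_, ?_⟩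
    · rw [hform, hm_ev_ev hq i j hj]
      rfl
    · rw [hact, Φ.apply_symm_apply, UL_apply, NL_ev_zero, add_zero]
    · rw [hact, Φ.apply_symm_apply, UL_apply, NL_ev_one hc, map_add]
    · refine ⟨Φ.symm (ev c F 2 - αα κ c 0 • ev c F 1), ?_, ?_⟩
      · rw [hform, sub_eq_add_neg, hm_add_left, ← neg_smul, hm_smul_left, hm_ev_ev hq _ _ (by omega),
          hm_ev_ev hq _ _ (by omega), if_neg (by omega), if_neg (by omega)]
        ring
      · rw [hact, Φ.apply_symm_apply, UL_apply, map_sub, map_smul, NL_ev_two hc, NL_ev_one hc, ← map_add]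
        congr 1
        abel
    · rw [hact, Φ.apply_symm_apply, UL_apply, NL_ev_E hc, map_add]
    · rw [hact, Φ.apply_symm_apply, hform, hm_ev_right _ (by omega) hq,
        show 2 * c - (c + 1) = c - 1 by omega, UL_apply, gt_add, gt_NL_ev_z hc, gt_ev,
        if_neg (by omega), zero_add]
      refine mul_ne_zero (sg_ne_zero _) ?_
      rintro rfl
      rw [zero_pow hq, add_zero] at hκ
      exact zero_ne_one hκ
    · intro T hT t ht hte
      have hT' : T.map (Φ : (Fin (2 * c + 1) → F) →ₗ[F] (Fin (2 * c + 1) → F)) = ⊤ := by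
        refine UL_stable (κ := κ) _ ?_ (t := Φ t) (Submodule.mem_map_of_mem ht) ?_
        · rintro _ ⟨y, hy, rfl⟩
          refine ⟨_, hT y hy, ?_⟩
          change Φ (act (mkSU M hdet hP) y) = _
          rw [hact, Φ.apply_symm_apply]
          rfl
        · intro h0
          apply hte
          rw [← hΦ, Φ.apply_symm_apply, hm_ev_right _ (by omega) hq, Nat.sub_zero, h0, mul_zero]
      rw [eq_top_iff]
      intro v _
      have hv : Φ v ∈ T.map (Φ : (Fin (2 * c + 1) → F) →ₗ[F] (Fin (2 * c + 1) → F)) := by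
        rw [hT']
        trivial
      obtain ⟨y, hy, hyv⟩ := hv
      have : y = v := Φ.injective hyv
      rwa [← this]
  · intro h0
    apply NL_pow_ne_zero (κ := κ) (c := c) (F := F)
    refine LinearMap.ext fun x => ?_
    have h1 := hpow (2 * c) (Φ.symm x)
    have h2 : (mat (mkSU M hdet hP) - 1) ^ (2 * c) = (M - 1) ^ (2 * c) := rfl
    rw [h2] at h0
    rw [h0, Matrix.zero_mulVec, Φ.apply_symm_apply] at h1
    have h3 : Φ ((NL κ ^ (2 * c)) x) = 0 := by
      have := congrArg Φ h1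
      simpa using this.symm
    simpa using h3

end Cfsg.Agent.Lib.Classical.Herm.RegU
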