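import Mathlib
import Cfsg.Agent.Lib.Classical.Herm.TwoForms
import Cfsg.Agent.Lib.Classical.Symp.Basic

/-!
# Semisimple elements of the symplectic group conjugate in `GL` are conjugate in `Sp`
-/

set_option autoImplicit false
set_option linter.unusedSectionVars false

namespace Cfsg.Agent.Lib.Classical.Herm.SpSemis

open Matrix Cfsg.Agent.Lib.Classical.Symp.Basic Cfsg.Agent.Lib.Classical.Herm.TwoForms

variable {F : Type*} [Field F] {m : ℕ}

/-- Powers of `spToLin`. -/
theorem spToLin_pow (A : symplecticGroup (Fin m) F) (k : ℕ) (x : Fin m ⊕ Fin m → F) :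
    ((spToLin A : Module.End F (Fin m ⊕ Fin m → F)) ^ k) x = ((A ^ k : symplecticGroup (Fin m) F) : Matrix _ _ F) *ᵥ x := by
  induction k generalizing x with
  | zero => simp
  | succ k ih =>
    rw [pow_succ, Module.End.mul_apply, ih, pow_succ]
    simp [mulVec_mulVec]

/-- An exponent as needed in the two form theorem. -/
theorem exists_exp {G : Type*} [Group G] [Finite G] {p : ℕ} [Fact p.Prime] [CharP F p] (A : G)
    (hA : (orderOf A).Coprime p) : ∃ k : ℕ, A ^ k = 1 ∧ (k : F) ≠ 0 ∧ (-1 : F) ^ k = 1 := by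
  have hp : p.Prime := Fact.out
  have hk0 : ((orderOf A : ℕ) : F) ≠ 0 := by
    rw [Ne, CharP.cast_eq_zero_iff F p]
    intro hd
    have := Nat.eq_one_of_dvd_coprimes hA hd (dvd_refl p)
    exact hp.one_lt.ne' this
  by_cases hp2 : p = 2
  · subst hp2
    refine ⟨orderOf A, pow_orderOf_eq_one A, hk0, ?_⟩
    rw [CharTwo.neg_eq, one_pow]
  · refine ⟨2 * orderOf A, by rw [mul_comm, pow_mul, pow_orderOf_eq_one, one_pow], ?_, ?_⟩
    · push_cast
      refine mul_ne_zero ?_ hk0
      intro h2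
      have h3 : ((2 : ℕ) : F) = 0 := by simpa using h2
      rw [CharP.cast_eq_zero_iff F p] at h3
      exact hp2 ((Nat.prime_dvd_prime_iff_eq hp Nat.prime_two).1 h3)
    · rw [pow_mul]
      simp

variable [Finite F]

/-- Elements of the symplectic group of order prime to the characteristic conjugate in the matrix
ring are conjugate in the symplectic group. -/
theorem isConj_of_isConj {p : ℕ} [Fact p.Prime] [CharP F p] (A B : symplecticGroup (Fin m) F)
    (hA : (orderOf A).Coprime p)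
    (h : IsConj (A : Matrix (Fin m ⊕ Fin m) (Fin m ⊕ Fin m) F) (B : Matrix (Fin m ⊕ Fin m) (Fin m ⊕ Fin m) F)) :
    IsConj A B := by
  classical
  haveI : Fintype F := Fintype.ofFinite F
  haveI : Finite (symplecticGroup (Fin m) F) := by
    haveI : Finite (Matrix (Fin m ⊕ Fin m) (Fin m ⊕ Fin m) F) := by
      unfold Matrix
      infer_instance
    exact Finite.of_injective (fun x : symplecticGroup (Fin m) F => (x : Matrix (Fin m ⊕ Fin m) (Fin m ⊕ Fin m) F))
      Subtype.val_injective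
  obtain ⟨k, hk, hk0, hε⟩ := exists_exp (F := F) A hA
  obtain ⟨x, hx⟩ := h
  have hxe : (x : Matrix (Fin m ⊕ Fin m) (Fin m ⊕ Fin m) F) * A = B * x := hx
  let X : (Fin m ⊕ Fin m → F) ≃ₗ[F] (Fin m ⊕ Fin m → F) :=
    LinearEquiv.ofLinear (Matrix.toLin' (x : Matrix _ _ F)) (Matrix.toLin' ((x⁻¹ : (Matrix (Fin m ⊕ Fin m) (Fin m ⊕ Fin m) F)ˣ) : Matrix _ _ F))
      (by rw [← Matrix.toLin'_mul, Units.mul_inv]; simp)
      (by rw [← Matrix.toLin'_mul, Units.inv_mul]; simp)
  have hX : ∀ v, X v = (x : Matrix _ _ F) *ᵥ v := fun v => rfl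
  obtain ⟨y, hy, hyc⟩ := exists_isom_conj (sympBilin_isAlt (m := m) (F := F))
    (fun v hv => (sympBilin_nondegenerate (m := m) (F := F)).1 v hv)
    (spToLin A) (spToLin B) X (spToLin_mem A) (spToLin_mem B)
    (by
      intro v
      simp only [hX, spToLin_apply, mulVec_mulVec, hxe])
    (m := k)
    (by
      apply LinearMap.ext
      intro v
      rw [spToLin_pow, hk]
      simp)
    hk0 hε
  let Y : symplecticGroup (Fin m) F := spEquivIsom.symm ⟨y, hy⟩
  have hY : ∀ v, (Y : Matrix _ _ F) *ᵥ v = y v := by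
    intro v
    have := spEquivIsom_apply Y v
    rw [← this]
    simp [Y]
  rw [isConj_iff]
  refine ⟨Y, ?_⟩
  have hfin : Y * A = B * Y := by
    apply Subtype.ext
    apply Matrix.ext_of_mulVec_single
    intro i
    change ((Y : Matrix (Fin m ⊕ Fin m) (Fin m ⊕ Fin m) F) * (A : Matrix (Fin m ⊕ Fin m) (Fin m ⊕ Fin m) F)) *ᵥ _
      = ((B : Matrix (Fin m ⊕ Fin m) (Fin m ⊕ Fin m) F) * (Y : Matrix (Fin m ⊕ Fin m) (Fin m ⊕ Fin m) F)) *ᵥ _
    rw [← mulVec_mulVec, ← mulVec_mulVec, hY, hY]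
    exact hyc _
  rw [hfin]
  simp

end Cfsg.Agent.Lib.Classical.Herm.SpSemis
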