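import Mathlib

/-!
# Carmichael's bound: a group generated by `x₁, …, x_m` with `x_i ^ 3 = 1` and `(x_i x_j) ^ 2 = 1`
has order at most `(m + 2)! / 2`.
-/

set_option autoImplicit false

namespace Cfsg.Agent.Lib.Classical.Herm.SpinCarm

variable {Γ : Type*} [Group Γ]

theorem inv_eq_sq {a : Γ} (ha : a ^ 3 = 1) : a⁻¹ = a * a := by
  have : a * (a * a) = 1 := by
    rw [← ha]; simp [pow_succ, mul_assoc]
  exact inv_eq_of_mul_eq_one_right this

theorem mul_eq_inv_inv {a b : Γ} (hab : (a * b) ^ 2 = 1) : a * b = b⁻¹ * a⁻¹ := by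
  have h1 : (a * b) * (a * b) = 1 := by rw [← hab, pow_two]
  have h2 : a * b = (a * b)⁻¹ := eq_inv_of_mul_eq_one_left h1
  rw [h2, mul_inv_rev]

/-- The set `H · R` is closed under multiplication by the generators. -/
theorem step_core {a b : Γ} (ha : a ^ 3 = 1) (hb : b ^ 3 = 1) (hab : (a * b) ^ 2 = 1)
    (hba : (b * a) ^ 2 = 1) :
    a * b = b⁻¹ * a⁻¹ ∧ a * a = a⁻¹ ∧ a⁻¹ * b * a = b⁻¹ * (a⁻¹ * b) ∧
      a⁻¹ * b * b = b * a := by
  have h1 := mul_eq_inv_inv hab
  have h2 := mul_eq_inv_inv hba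
  have ha' := inv_eq_sq ha
  have hb' := inv_eq_sq hb
  refine ⟨h1, ha'.symm, ?_, ?_⟩
  · -- both sides equal `a * b⁻¹`
    have e1 : a⁻¹ * b * a = a * b⁻¹ := by
      calc a⁻¹ * b * a = a⁻¹ * (b * a) := by rw [mul_assoc]
        _ = a⁻¹ * (a⁻¹ * b⁻¹) := by rw [h2]
        _ = (a⁻¹ * a⁻¹) * b⁻¹ := by rw [mul_assoc]
        _ = a * b⁻¹ := by
          have : a⁻¹ * a⁻¹ = a := by
            rw [ha']; 
            calc a * a * (a * a) = a ^ 3 * a := by simp [pow_succ, mul_assoc]
              _ = a := by rw [ha, one_mul]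
          rw [this]
    have e2 : b⁻¹ * (a⁻¹ * b) = a * b⁻¹ := by
      calc b⁻¹ * (a⁻¹ * b) = (b⁻¹ * a⁻¹) * b := by rw [mul_assoc]
        _ = (a * b) * b := by rw [h1]
        _ = a * (b * b) := by rw [mul_assoc]
        _ = a * b⁻¹ := by rw [hb']
    rw [e1, e2]
  · calc a⁻¹ * b * b = a⁻¹ * (b * b) := by rw [mul_assoc]
      _ = a⁻¹ * b⁻¹ := by rw [hb']
      _ = b * a := h2.symm

/-- The relation for three generators. -/
theorem step_core3 {a b c : Γ} (ha : a ^ 3 = 1) (hb : b ^ 3 = 1) (hab : (a * b) ^ 2 = 1)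
    (hba : (b * a) ^ 2 = 1) (hca : (c * a) ^ 2 = 1) (hbc : (b * c) ^ 2 = 1) :
    a⁻¹ * b * c = (c * b⁻¹) * (a⁻¹ * b) := by
  -- `a⁻¹ b c = a⁻¹ c⁻¹ b⁻¹ = c a b⁻¹ = c b⁻¹ a⁻¹ b`
  have h1 := mul_eq_inv_inv hbc
  have h2 := mul_eq_inv_inv hca
  obtain ⟨-, -, h3, -⟩ := step_core ha hb hab hba
  have ha' := inv_eq_sq ha
  have e : a * b⁻¹ = b⁻¹ * (a⁻¹ * b) := by
    rw [← h3]
    have h4 := mul_eq_inv_inv hba
    calc a * b⁻¹ = (a⁻¹ * a⁻¹) * b⁻¹ := by
          have : a⁻¹ * a⁻¹ = a := by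
            rw [ha']
            calc a * a * (a * a) = a ^ 3 * a := by simp [pow_succ, mul_assoc]
              _ = a := by rw [ha, one_mul]
          rw [this]
      _ = a⁻¹ * (a⁻¹ * b⁻¹) := by rw [mul_assoc]
      _ = a⁻¹ * (b * a) := by rw [h4]
      _ = a⁻¹ * b * a := by rw [mul_assoc]
  calc a⁻¹ * b * c = a⁻¹ * (b * c) := by rw [mul_assoc]
    _ = a⁻¹ * (c⁻¹ * b⁻¹) := by rw [h1]
    _ = (a⁻¹ * c⁻¹) * b⁻¹ := by rw [mul_assoc]
    _ = (c * a) * b⁻¹ := by rw [h2]
    _ = c * (a * b⁻¹) := by rw [mul_assoc]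
    _ = c * (b⁻¹ * (a⁻¹ * b)) := by rw [e]
    _ = (c * b⁻¹) * (a⁻¹ * b) := by rw [mul_assoc]

variable [Finite Γ]

theorem carmichael_bound : ∀ (m : ℕ) (x : ℕ → Γ), (∀ i < m, x i ^ 3 = 1) →
    (∀ i < m, ∀ j < m, i ≠ j → (x i * x j) ^ 2 = 1) →
    Nat.card (Subgroup.closure (x '' {i | i < m})) * 2 ≤ (m + 2).factorial := by
  classical
  intro m
  induction m with
  | zero =>
    intro x _ _
    have : x '' {i | i < 0} = ∅ := by
      ext y; simp
    rw [this, Subgroup.closure_empty]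
    simp
  | succ m ih =>
    intro x hx hxx
    set H : Subgroup Γ := Subgroup.closure (x '' {i | i < m}) with hH
    have hHm : ∀ j < m, x j ∈ H := fun j hj => Subgroup.subset_closure ⟨j, hj, rfl⟩
    set y : Γ := x m with hy
    have hy3 : y ^ 3 = 1 := hx m (Nat.lt_succ_self m)
    letI : Fintype Γ := Fintype.ofFinite Γ
    let R : Finset Γ := {1, y, y⁻¹} ∪ (Finset.range m).image (fun j => y⁻¹ * x j)
    have hRcard : R.card ≤ m + 3 := by
      refine (Finset.card_union_le _ _).trans ?_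
      have h1 : ({1, y, y⁻¹} : Finset Γ).card ≤ 3 := Finset.card_le_three
      have h2 : ((Finset.range m).image (fun j => y⁻¹ * x j)).card ≤ m := by
        simpa using Finset.card_image_le (s := Finset.range m) (f := fun j => y⁻¹ * x j)
      omega
    have mem1 : (1 : Γ) ∈ R := by simp [R]
    have memy : y ∈ R := by simp [R]
    have memy' : y⁻¹ ∈ R := by simp [R]
    have memj : ∀ j < m, y⁻¹ * x j ∈ R := fun j hj =>
      Finset.mem_union_right _ (Finset.mem_image.2 ⟨j, Finset.mem_range.2 hj, rfl⟩)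
    have hcases : ∀ r ∈ R, r = 1 ∨ r = y ∨ r = y⁻¹ ∨ ∃ j < m, r = y⁻¹ * x j := by
      intro r hr
      rcases Finset.mem_union.1 hr with h | h
      · simp only [Finset.mem_insert, Finset.mem_singleton] at h
        rcases h with h | h | h
        · exact Or.inl h
        · exact Or.inr (Or.inl h)
        · exact Or.inr (Or.inr (Or.inl h))
      · obtain ⟨j, hj, rfl⟩ := Finset.mem_image.1 h
        exact Or.inr (Or.inr (Or.inr ⟨j, Finset.mem_range.1 hj, rfl⟩))
    have hrel : ∀ j < m, x j ^ 3 = 1 ∧ (y * x j) ^ 2 = 1 ∧ (x j * y) ^ 2 = 1 := by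
      intro j hj
      refine ⟨hx j (Nat.lt_succ_of_lt hj), ?_, ?_⟩
      · exact hxx m (Nat.lt_succ_self m) j (Nat.lt_succ_of_lt hj) (by omega)
      · exact hxx j (Nat.lt_succ_of_lt hj) m (Nat.lt_succ_self m) (by omega)
    have hcore : ∀ r ∈ R, ∀ i < m + 1, ∃ h ∈ H, ∃ r' ∈ R, r * x i = h * r' := by
      intro r hr i hi
      rcases hcases r hr with rfl | rfl | rfl | ⟨j, hj, rfl⟩
      · by_cases him : i = m
        · subst him
          exact ⟨1, H.one_mem, y, memy, by simp [y]⟩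
        · have him' : i < m := by omega
          exact ⟨x i, hHm i him', 1, mem1, by simp⟩
      · by_cases him : i = m
        · subst him
          exact ⟨1, H.one_mem, y⁻¹, memy', by rw [one_mul]; exact (inv_eq_sq hy3).symm⟩
        · have him' : i < m := by omega
          obtain ⟨h3, h1, h2⟩ := hrel i him'
          have := mul_eq_inv_inv h1
          exact ⟨(x i)⁻¹, H.inv_mem (hHm i him'), y⁻¹, memy', this⟩
      · by_cases him : i = m
        · subst him
          exact ⟨1, H.one_mem, 1, mem1, by simp [y]⟩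
        · have him' : i < m := by omega
          exact ⟨1, H.one_mem, _, memj i him', by rw [one_mul]⟩
      · obtain ⟨h3, h1, h2⟩ := hrel j hj
        by_cases him : i = m
        · subst him
          obtain ⟨-, -, h4, -⟩ := step_core hy3 h3 h1 h2
          exact ⟨(x j)⁻¹, H.inv_mem (hHm j hj), _, memj j hj, h4⟩
        · have him' : i < m := by omega
          by_cases hij : i = j
          · subst hij
            obtain ⟨-, -, -, h4⟩ := step_core hy3 h3 h1 h2
            exact ⟨x i, hHm i him', y, memy, h4⟩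
          · obtain ⟨h5, h6, h7⟩ := hrel i him'
            have h8 := step_core3 (a := y) (b := x j) (c := x i) hy3 h3 h1 h2 h7
              (hxx j (Nat.lt_succ_of_lt hj) i (Nat.lt_succ_of_lt him') (Ne.symm hij))
            exact ⟨x i * (x j)⁻¹, H.mul_mem (hHm i him') (H.inv_mem (hHm j hj)), _, memj j hj, h8⟩
    -- every element of the closure is of the form `h r`
    have hcl : ∀ k ∈ Subgroup.closure (x '' {i | i < m + 1}), ∃ h ∈ H, ∃ r ∈ R, k = h * r := by
      intro k hk
      have hgen : ∀ (k : Γ) (i : ℕ), i < m + 1 → (∃ h ∈ H, ∃ r ∈ R, k = h * r) →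
          ∃ h ∈ H, ∃ r ∈ R, k * x i = h * r := by
        rintro k i hi ⟨h, hh, r, hr, rfl⟩
        obtain ⟨h', hh', r', hr', e⟩ := hcore r hr i hi
        exact ⟨h * h', H.mul_mem hh hh', r', hr', by rw [mul_assoc, e, mul_assoc]⟩
      induction hk using Subgroup.closure_induction_right with
      | one => exact ⟨1, H.one_mem, 1, mem1, by simp [y]⟩
      | mul_right u v _ hv ih =>
        obtain ⟨i, hi, rfl⟩ := hv
        exact hgen u i hi ih
      | mul_inv_cancel u v _ hv ih =>
        obtain ⟨i, hi, rfl⟩ := hv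
        have hi3 := inv_eq_sq (hx i hi)
        rw [hi3, ← mul_assoc]
        exact hgen _ i hi (hgen u i hi ih)
    -- counting
    have hcard : Nat.card (Subgroup.closure (x '' {i | i < m + 1})) ≤ Nat.card H * R.card := by
      let f : H × R → Γ := fun p => p.1.1 * p.2.1
      have hsub : ((Subgroup.closure (x '' {i | i < m + 1}) : Subgroup Γ) : Set Γ) ⊆ Set.range f := by
        intro k hk
        obtain ⟨h, hh, r, hr, rfl⟩ := hcl k hk
        exact ⟨(⟨h, hh⟩, ⟨r, hr⟩), rfl⟩
      have h1 : Nat.card (Subgroup.closure (x '' {i | i < m + 1})) ≤ Nat.card (Set.range f) :=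
        Nat.card_mono (Set.finite_range f) hsub
      have h2 : Nat.card (Set.range f) ≤ Nat.card (H × R) :=
        Nat.card_le_card_of_surjective (Set.rangeFactorization f)
          Set.rangeFactorization_surjective
      have h3 : Nat.card (H × R) = Nat.card H * R.card := by
        rw [Nat.card_prod]
        simp
      rw [h3] at h2
      exact h1.trans h2
    have hih := ih x (fun i hi => hx i (Nat.lt_succ_of_lt hi))
      (fun i hi j hj => hxx i (Nat.lt_succ_of_lt hi) j (Nat.lt_succ_of_lt hj))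
    have e : (m + 1 + 2).factorial = (m + 3) * (m + 2).factorial := by
      rw [show m + 1 + 2 = (m + 2) + 1 by ring, Nat.factorial_succ]
    rw [e]
    calc Nat.card (Subgroup.closure (x '' {i | i < m + 1})) * 2
        ≤ (Nat.card H * R.card) * 2 := Nat.mul_le_mul_right _ hcard
      _ = R.card * (Nat.card H * 2) := by ring
      _ ≤ (m + 3) * (m + 2).factorial := Nat.mul_le_mul hRcard hih

end Cfsg.Agent.Lib.Classical.Herm.SpinCarm
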