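import Mathlib

/-!
# Every even permutation is a product of two involutions with equally large supports.
-/

set_option autoImplicit false

namespace Cfsg.Agent.Lib.Classical.Herm.SpinRefl

open Equiv Equiv.Perm Finset

variable {α : Type*} [DecidableEq α] [Fintype α]

theorem swap_disj {f : Perm α} {a b : α} (ha : f a = a) (hb : f b = b) : Disjoint (swap a b) f := by
  intro x
  by_cases hxa : x = a
  · subst hxa; right; exact ha
  by_cases hxb : x = b
  · subst hxb; right; exact hb
  · left; exact swap_apply_of_ne_of_ne hxa hxb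

theorem swap_mul_inv_sq {f : Perm α} {a b : α} (ha : f a = a) (hb : f b = b) (hf : f * f = 1) :
    (swap a b * f) * (swap a b * f) = 1 := by
  have hc : Commute f (swap a b) := (swap_disj ha hb).commute.symm
  rw [hc.mul_mul_mul_comm, swap_mul_self, one_mul, hf]

theorem support_swap_mul_sub {f : Perm α} {a b : α} {S : Finset α} (ha : a ∈ S) (hb : b ∈ S)
    (hf : f.support ⊆ S) : (swap a b * f).support ⊆ S := by
  intro x hx
  by_contra hxS
  have hxa : x ≠ a := fun h => hxS (h ▸ ha)
  have hxb : x ≠ b := fun h => hxS (h ▸ hb)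
  have hfx : f x = x := by
    by_contra h
    exact hxS (hf (mem_support.2 h))
  rw [mem_support] at hx
  apply hx
  rw [mul_apply, hfx, swap_apply_of_ne_of_ne hxa hxb]

theorem refl_cycle : ∀ (k : ℕ) (c : Perm α), c.IsCycle → #c.support = k → ∀ p ∈ c.support,
    (Even k → ∃ i1 i2 : Perm α, i1 * i1 = 1 ∧ i2 * i2 = 1 ∧ i2 * i1 = c ∧ i1.support ⊆ c.support ∧
        i2.support ⊆ c.support ∧ i1 p = p ∧ #i1.support + 2 = k ∧ #i2.support = k) ∧
    (Odd k → ∃ i1 i2 : Perm α, i1 * i1 = 1 ∧ i2 * i2 = 1 ∧ i2 * i1 = c ∧ i1.support ⊆ c.support ∧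
        i2.support ⊆ c.support ∧ i2 p = p ∧ #i1.support + 1 = k ∧ #i2.support + 1 = k) := by
  intro k
  induction k using Nat.strong_induction_on with
  | _ k ih =>
  intro c hc hk p hp
  have hk2 : 2 ≤ k := hk ▸ hc.two_le_card_support
  have hpp : c p ≠ p := mem_support.1 hp
  by_cases hk3 : k = 2
  · subst hk3
    constructor
    · intro _
      obtain ⟨x, y, hxy, rfl⟩ := card_support_eq_two.1 hk
      refine ⟨1, swap x y, by simp, swap_mul_self x y, by simp, by simp, subset_refl _, by simp,
        by simp, hk⟩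
    · intro h
      exact absurd h (by decide)
  have hk4 : 3 ≤ k := by omega
  have hne : c (c p) ≠ p := by
    intro h
    have h1 : (c ^ 2) p = p := by rw [pow_two, mul_apply, h]
    have h2 : c ^ 2 = 1 := (hc.pow_eq_one_iff' hpp).2 h1
    have h3 : orderOf c ∣ 2 := orderOf_dvd_of_pow_eq_one h2
    rw [hc.orderOf, hk] at h3
    have := Nat.le_of_dvd (by norm_num) h3
    omega
  set c1 : Perm α := swap p (c p) * c with hc1
  have hc1cyc : c1.IsCycle := hc.swap_mul hpp hne
  have hc1sup : c1.support = c.support \ {p} := support_swap_mul_eq c p hne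
  have hc1card : #c1.support = k - 1 := by
    rw [hc1sup, Finset.card_sdiff_of_subset (by simpa using hp), hk]
    simp
  have hsub : c1.support ⊆ c.support := by
    rw [hc1sup]; exact Finset.sdiff_subset
  have hpn : p ∉ c1.support := by
    rw [hc1sup]; simp
  have hlt : k - 1 < k := by omega
  have hfix : ∀ f : Perm α, f.support ⊆ c1.support → f p = p := by
    intro f hf
    by_contra h
    exact hpn (hf (mem_support.2 h))
  constructor
  · intro hev
    have hodd : Odd (k - 1) := by
      obtain ⟨r, hr⟩ := hev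
      exact ⟨r - 1, by omega⟩
    have hp1 : c p ∈ c1.support := by
      rw [hc1sup, mem_sdiff]
      refine ⟨apply_mem_support.2 hp, by simpa using hpp⟩
    obtain ⟨j1, j2, hj1, hj2, hj, hs1, hs2, hjp, hc1', hc2'⟩ :=
      (ih (k - 1) hlt c1 hc1cyc hc1card (c p) hp1).2 hodd
    have hpfix := hfix j2 hs2
    refine ⟨j1, swap p (c p) * j2, hj1, swap_mul_inv_sq hpfix hjp hj2, ?_, hs1.trans hsub,
      support_swap_mul_sub hp (apply_mem_support.2 hp) (hs2.trans hsub), hfix j1 hs1, by omega, ?_⟩
    · rw [mul_assoc, hj, hc1, swap_mul_self_mul]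
    · rw [(swap_disj hpfix hjp).card_support_mul, card_support_swap (Ne.symm hpp)]
      omega
  · intro hod
    have hev : Even (k - 1) := by
      obtain ⟨r, hr⟩ := hod
      exact ⟨r, by omega⟩
    set q : α := c⁻¹ p with hq
    have hcq : c q = p := by simp [hq]
    have hqp : q ≠ p := by
      intro h
      rw [h] at hcq
      exact hpp hcq
    have hq1 : q ∈ c1.support := by
      rw [hc1sup, mem_sdiff]
      refine ⟨?_, by simpa using hqp⟩
      rw [mem_support]
      rw [hcq]
      exact Ne.symm hqp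
    have hc1' : c1 = c * swap q p := by
      have h := swap_apply_apply c q p
      rw [hcq] at h
      rw [hc1, h]
      simp [mul_assoc]
    obtain ⟨j1, j2, hj1, hj2, hj, hs1, hs2, hjq, h1c, h2c⟩ :=
      (ih (k - 1) hlt c1 hc1cyc hc1card q hq1).1 hev
    have hpfix := hfix j1 hs1
    have hqmem : q ∈ c.support := hsub hq1
    refine ⟨swap q p * j1, j2, swap_mul_inv_sq hjq hpfix hj1, hj2, ?_,
      support_swap_mul_sub hqmem hp (hs1.trans hsub), hs2.trans hsub, hfix j2 hs2, ?_, by omega⟩
    · have hcm : Commute (swap q p) j1 := (swap_disj hjq hpfix).commute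
      rw [hcm.eq, ← mul_assoc, hj, hc1', mul_assoc, swap_mul_self, mul_one]
    · rw [(swap_disj hjq hpfix).card_support_mul, card_support_swap hqp]
      omega

/-- A factorisation of `σ` as a product of two involutions. -/
structure Fac (σ i1 i2 : Perm α) : Prop where
  h1 : i1 * i1 = 1
  h2 : i2 * i2 = 1
  hm : i2 * i1 = σ
  s1 : i1.support ⊆ σ.support
  s2 : i2.support ⊆ σ.support
  hb : #i1.support + #i2.support ≤ 2 * #σ.support
  hb' : σ ≠ 1 → #i1.support + #i2.support + 2 ≤ 2 * #σ.support

/-- Factorisation with prescribed difference of support sizes. -/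
def DF (σ : Perm α) (d : ℤ) : Prop :=
  ∃ i1 i2 : Perm α, Fac σ i1 i2 ∧ (#i1.support : ℤ) - #i2.support = d

theorem disj_of_sub {a b σ τ : Perm α} (h : Disjoint σ τ) (ha : a.support ⊆ σ.support)
    (hb : b.support ⊆ τ.support) : Disjoint a b :=
  disjoint_iff_disjoint_support.2 (Finset.disjoint_of_subset_left ha
    (Finset.disjoint_of_subset_right hb (disjoint_iff_disjoint_support.1 h)))

theorem DF.mul {σ τ : Perm α} {d1 d2 : ℤ} (h : Disjoint σ τ) (h1 : DF σ d1) (h2 : DF τ d2) :
    DF (σ * τ) (d1 + d2) := by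
  obtain ⟨a1, a2, ha, hda⟩ := h1
  obtain ⟨b1, b2, hb, hdb⟩ := h2
  have d11 : Disjoint a1 b1 := disj_of_sub h ha.s1 hb.s1
  have d22 : Disjoint a2 b2 := disj_of_sub h ha.s2 hb.s2
  have d21 : Disjoint a1 b2 := disj_of_sub h ha.s1 hb.s2
  have hsup := h.support_mul
  have hcard := h.card_support_mul
  refine ⟨a1 * b1, a2 * b2, ⟨?_, ?_, ?_, ?_, ?_, ?_, ?_⟩, ?_⟩
  · rw [d11.commute.symm.mul_mul_mul_comm, ha.h1, hb.h1, one_mul]
  · rw [d22.commute.symm.mul_mul_mul_comm, ha.h2, hb.h2, one_mul]
  · rw [(d21.commute.symm).mul_mul_mul_comm, ha.hm, hb.hm]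
  · rw [hsup, d11.support_mul]
    exact Finset.union_subset_union ha.s1 hb.s1
  · rw [hsup, d22.support_mul]
    exact Finset.union_subset_union ha.s2 hb.s2
  · rw [hcard, d11.card_support_mul, d22.card_support_mul]
    have := ha.hb
    have := hb.hb
    omega
  · intro hne
    rw [hcard, d11.card_support_mul, d22.card_support_mul]
    have h1 := ha.hb
    have h2 := hb.hb
    by_cases hs : σ = 1
    · have ht : τ ≠ 1 := by
        rintro rfl
        exact hne (by rw [hs, one_mul])
      have := hb.hb' ht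
      omega
    · have := ha.hb' hs
      omega
  · rw [d11.card_support_mul, d22.card_support_mul, ← hda, ← hdb]
    push_cast
    ring

theorem DF_cycle_odd {c : Perm α} (hc : c.IsCycle) (hk : Odd #c.support) : DF c 0 := by
  obtain ⟨p, hp⟩ := hc.nonempty_support
  obtain ⟨i1, i2, h1, h2, hm, s1, s2, -, c1, c2⟩ := (refl_cycle _ c hc rfl p hp).2 hk
  refine ⟨i1, i2, ⟨h1, h2, hm, s1, s2, by omega, fun _ => ?_⟩, by omega⟩
  have := hc.two_le_card_support
  omega

theorem DF_cycle_even {c : Perm α} (hc : c.IsCycle) (hk : Even #c.support) :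
    DF c 2 ∧ DF c (-2) := by
  obtain ⟨p, hp⟩ := hc.nonempty_support
  constructor
  · have hc' : c⁻¹.IsCycle := hc.inv
    have hs : c⁻¹.support = c.support := support_inv c
    have hp' : p ∈ c⁻¹.support := by rwa [hs]
    have hk' : Even #c⁻¹.support := by rwa [hs]
    obtain ⟨i1, i2, h1, h2, hm, s1, s2, -, c1, c2⟩ := (refl_cycle _ _ hc' rfl p hp').1 hk'
    rw [hs] at s1 s2 c1 c2
    have hm' : i1 * i2 = c := by
      have h3 : c = (i2 * i1)⁻¹ := by rw [hm, inv_inv]
      rw [h3, mul_inv_rev, inv_eq_of_mul_eq_one_left h1, inv_eq_of_mul_eq_one_left h2]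
    refine ⟨i2, i1, ⟨h2, h1, hm', s2, s1, by omega, fun _ => ?_⟩, by omega⟩
    have := hc.two_le_card_support
    omega
  · obtain ⟨i1, i2, h1, h2, hm, s1, s2, -, c1, c2⟩ := (refl_cycle _ c hc rfl p hp).1 hk
    refine ⟨i1, i2, ⟨h1, h2, hm, s1, s2, by omega, fun _ => ?_⟩, by omega⟩
    have := hc.two_le_card_support
    omega

theorem exists_DF (σ : Perm α) :
    (sign σ = 1 → DF σ 0) ∧ (sign σ = -1 → DF σ 2 ∧ DF σ (-2)) := by
  induction σ using cycle_induction_on with
  | base_one =>
    refine ⟨fun _ => ⟨1, 1, ⟨by simp, by simp, by simp, by simp, by simp, by simp, by simp⟩,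
      by simp⟩, fun h => absurd h (by simp)⟩
  | base_cycles c hc =>
    rcases Nat.even_or_odd #c.support with h | h
    · refine ⟨fun h1 => ?_, fun _ => DF_cycle_even hc h⟩
      rw [hc.sign, h.neg_one_pow] at h1
      exact absurd h1 (by decide)
    · refine ⟨fun _ => DF_cycle_odd hc h, fun h1 => ?_⟩
      rw [hc.sign, h.neg_one_pow] at h1
      exact absurd h1 (by decide)
  | induction_disjoint c τ hd hc hPc hPτ =>
    rcases Int.units_eq_one_or (sign c) with hs | hs
    · constructor
      · intro h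
        rw [map_mul, hs, one_mul] at h
        simpa using DF.mul hd (hPc.1 hs) (hPτ.1 h)
      · intro h
        rw [map_mul, hs, one_mul] at h
        exact ⟨by simpa using DF.mul hd (hPc.1 hs) (hPτ.2 h).1,
          by simpa using DF.mul hd (hPc.1 hs) (hPτ.2 h).2⟩
    · constructor
      · intro h
        rw [map_mul, hs] at h
        have h' : sign τ = -1 := by
          rcases Int.units_eq_one_or (sign τ) with h3 | h3
          · rw [h3] at h; exact absurd h (by decide)
          · exact h3
        simpa using DF.mul hd (hPc.2 hs).1 (hPτ.2 h').2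
      · intro h
        rw [map_mul, hs] at h
        have h' : sign τ = 1 := by
          rcases Int.units_eq_one_or (sign τ) with h3 | h3
          · exact h3
          · rw [h3] at h; exact absurd h (by decide)
        exact ⟨by simpa using DF.mul hd (hPc.2 hs).1 (hPτ.1 h'),
          by simpa using DF.mul hd (hPc.2 hs).2 (hPτ.1 h')⟩

/-- Every even permutation is a product of two involutions with equally large supports. -/
theorem exists_fac_even {σ : Perm α} (h : sign σ = 1) :
    ∃ i1 i2 : Perm α, Fac σ i1 i2 ∧ #i1.support = #i2.support := by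
  obtain ⟨i1, i2, hF, hd⟩ := (exists_DF σ).1 h
  exact ⟨i1, i2, hF, by omega⟩

end Cfsg.Agent.Lib.Classical.Herm.SpinRefl
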