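import Mathlib
import Cfsg.Agent.Lib.Classical.Herm.SpinRefl

/-!
# Every nontrivial even permutation is a commutator of even permutations, the second of which
has two disjoint transpositions among its cycles.
-/

set_option autoImplicit false

namespace Cfsg.Agent.Lib.Classical.Herm.SpinCombo

open Equiv Equiv.Perm Finset
open Cfsg.Agent.Lib.Classical.Herm.SpinRefl

variable {α : Type*} [DecidableEq α] [Fintype α]

theorem cycleType_invol {i : Perm α} (h : i * i = 1) :
    i.cycleType = Multiset.replicate (#i.support / 2) 2 := by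
  have hall : ∀ b ∈ i.cycleType, b = 2 := by
    intro b hb
    have h1 := dvd_of_mem_cycleType hb
    have h2 : orderOf i ∣ 2 := orderOf_dvd_of_pow_eq_one (by rwa [pow_two])
    have h3 := two_le_of_mem_cycleType hb
    have := Nat.le_of_dvd (by norm_num) (h1.trans h2)
    omega
  rw [Multiset.eq_replicate]
  refine ⟨?_, hall⟩
  have hsum := sum_cycleType i
  have h5 : i.cycleType = Multiset.replicate (Multiset.card i.cycleType) 2 :=
    Multiset.eq_replicate.2 ⟨rfl, hall⟩
  rw [h5, Multiset.sum_replicate] at hsum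
  simp only [Multiset.card_replicate, smul_eq_mul] at hsum
  omega

theorem sign_invol {i : Perm α} (h : i * i = 1) : sign i = (-1) ^ (#i.support / 2) := by
  rw [sign_of_cycleType, cycleType_invol h]
  simp [pow_add, pow_mul]

theorem invol_apply {i : Perm α} (h : i * i = 1) (x : α) : i (i x) = x := by
  have := congrArg (fun f : Perm α => f x) h
  simpa using this

theorem comm_swap {i : Perm α} {a b : α} (ha : i a = b) (hb : i b = a) : Commute i (swap a b) := by
  have h := swap_apply_apply i a b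
  rw [ha, hb, swap_comm] at h
  have h2 : swap a b * i = i * swap a b := by
    conv_lhs => rw [h]
    simp [mul_assoc]
  exact h2.symm

theorem points {i : Perm α} (h : i * i = 1) (F : Finset α) (hF : ∀ x ∈ F, i x ∈ F)
    (hc : #F + 4 ≤ #i.support) : ∃ a b c d : α, a ≠ b ∧ a ≠ c ∧ a ≠ d ∧ b ≠ c ∧ b ≠ d ∧ c ≠ d ∧
      i a = b ∧ i b = a ∧ i c = d ∧ i d = c ∧ a ∉ F ∧ b ∉ F ∧ c ∉ F ∧ d ∉ F := by
  have hii := invol_apply h
  have hT : 4 ≤ #(i.support \ F) := by
    have := Finset.le_card_sdiff F i.support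
    omega
  have hne : (i.support \ F).Nonempty := by
    rw [← Finset.card_pos]; omega
  obtain ⟨a, ha⟩ := hne
  rw [mem_sdiff, mem_support] at ha
  have hbF : i a ∉ F := fun hb => ha.2 (by simpa [hii] using hF _ hb)
  have hT2 : 2 ≤ #((i.support \ F) \ {a, i a}) := by
    have h1 := Finset.le_card_sdiff ({a, i a} : Finset α) (i.support \ F)
    have h2 : #({a, i a} : Finset α) ≤ 2 := Finset.card_le_two
    omega
  have hne2 : ((i.support \ F) \ {a, i a}).Nonempty := by
    rw [← Finset.card_pos]; omega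
  obtain ⟨c, hc'⟩ := hne2
  simp only [mem_sdiff, mem_support, mem_insert, mem_singleton, not_or] at hc'
  obtain ⟨⟨hc1, hc2⟩, hc3, hc4⟩ := hc'
  have hdF : i c ∉ F := fun hb => hc2 (by simpa [hii] using hF _ hb)
  refine ⟨a, i a, c, i c, Ne.symm ha.1, Ne.symm hc3, ?_, Ne.symm hc4, ?_, Ne.symm hc1, rfl,
    hii a, rfl, hii c, ha.2, hbF, hc2, hdF⟩
  · intro hac
    apply hc4
    rw [hac, hii]
  · intro hac
    exact hc3 (i.injective hac).symm

/-- The conclusion for `σ`. -/
def CommGoal (σ : Perm α) : Prop :=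
  ∃ al be : Perm α, sign al = 1 ∧ sign be = 1 ∧ al * be * al⁻¹ * be⁻¹ = σ ∧
    ∃ a b c d : α, a ≠ b ∧ a ≠ c ∧ a ≠ d ∧ b ≠ c ∧ b ≠ d ∧ c ≠ d ∧
      be a = b ∧ be b = a ∧ be c = d ∧ be d = c

theorem fix_parity {al be σ : Perm α} {a b : α} (h : al * be * al⁻¹ * be⁻¹ = σ) (hab : a ≠ b)
    (ha : be a = b) (hb : be b = a) : ∃ al' : Perm α, sign al' = 1 ∧ al' * be * al'⁻¹ * be⁻¹ = σ := by
  rcases Int.units_eq_one_or (sign al) with hs | hs
  · exact ⟨al, hs, h⟩
  · refine ⟨al * swap a b, ?_, ?_⟩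
    · rw [map_mul, hs, sign_swap hab]; decide
    · have hc : swap a b * be = be * swap a b := (comm_swap ha hb).eq.symm
      have e : al * swap a b * be * (al * swap a b)⁻¹ = al * be * al⁻¹ := by
        rw [mul_assoc al, hc, mul_inv_rev, swap_inv]
        simp [mul_assoc]
      rw [e, h]

theorem isConj_of_card {i1 i2 : Perm α} (h1 : i1 * i1 = 1) (h2 : i2 * i2 = 1)
    (hc : #i1.support = #i2.support) : ∃ al : Perm α, al * i1 * al⁻¹ = i2 := by
  have : IsConj i1 i2 := by
    rw [isConj_iff_cycleType_eq, cycleType_invol h1, cycleType_invol h2, hc]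
  exact isConj_iff.1 this

theorem combo_even {σ i1 i2 : Perm α} (h1 : i1 * i1 = 1) (h2 : i2 * i2 = 1) (hm : i2 * i1 = σ)
    (hc : #i1.support = #i2.support) (hs : sign i1 = 1) (h4 : 4 ≤ #i1.support) : CommGoal σ := by
  obtain ⟨al0, hal0⟩ := isConj_of_card h1 h2 hc
  obtain ⟨a, b, c, d, h12, h13, h14, h23, h24, h34, ha, hb, hc', hd, -⟩ :=
    points h1 ∅ (by simp) (by simpa using h4)
  have hinv : i1⁻¹ = i1 := inv_eq_of_mul_eq_one_left h1
  have hcomm : al0 * i1 * al0⁻¹ * i1⁻¹ = σ := by rw [hal0, hinv, hm]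
  obtain ⟨al, hal, hcm⟩ := fix_parity hcomm h12 ha hb
  exact ⟨al, i1, hal, hs, hcm, a, b, c, d, h12, h13, h14, h23, h24, h34, ha, hb, hc', hd⟩

/-- An element commuting with `i`, mapping `r` to `x`, fixing all the fixed points of `i`. -/
theorem transit {i : Perm α} (h : i * i = 1) {r x : α} (hr : i r ≠ r) (hx : i x ≠ x) :
    ∃ k : Perm α, Commute i k ∧ k r = x ∧ ∀ q, i q = q → k q = q := by
  have hii := invol_apply h
  by_cases h1 : r = x
  · subst h1
    exact ⟨1, Commute.one_right _, rfl, fun _ _ => rfl⟩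
  by_cases h2 : r = i x
  · refine ⟨swap x r, comm_swap h2.symm (by rw [h2, hii]), by simp, ?_⟩
    intro q hq
    refine swap_apply_of_ne_of_ne ?_ ?_
    · rintro rfl
      exact hx hq
    · rintro rfl
      exact hr hq
  have h3 : x ≠ i r := by
    intro h3
    apply h2
    rw [h3, hii]
  have h4 : i r ≠ i x := fun h4 => h1 (i.injective h4)
  have hd : Disjoint (swap r x) (swap (i r) (i x)) := by
    apply swap_disj
    · exact swap_apply_of_ne_of_ne (Ne.symm hr) h2
    · exact swap_apply_of_ne_of_ne h3 (Ne.symm hx)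
  refine ⟨swap r x * swap (i r) (i x), ?_, ?_, ?_⟩
  · have e := swap_apply_apply i r x
    have e2 := swap_apply_apply i (i r) (i x)
    rw [hii, hii] at e2
    have : i * (swap r x * swap (i r) (i x)) * i⁻¹
        = (i * swap r x * i⁻¹) * (i * swap (i r) (i x) * i⁻¹) := by
      group
    have e3 : i * (swap r x * swap (i r) (i x)) * i⁻¹ = swap r x * swap (i r) (i x) := by
      rw [this, ← e, ← e2, hd.commute.eq]
    have e4 : i * (swap r x * swap (i r) (i x)) = (swap r x * swap (i r) (i x)) * i := by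
      calc i * (swap r x * swap (i r) (i x))
          = (i * (swap r x * swap (i r) (i x)) * i⁻¹) * i := by group
        _ = _ := by rw [e3]
    exact e4
  · rw [mul_apply, swap_apply_of_ne_of_ne (Ne.symm hr) h2, swap_apply_left]
  · intro q hq
    have hq1 : q ≠ r := by
      rintro rfl
      exact hr hq
    have hq2 : q ≠ x := by
      rintro rfl
      exact hx hq
    have hq3 : q ≠ i r := by
      intro h5
      have h6 : i q = r := by rw [h5, hii]
      rw [hq] at h6
      exact hq1 h6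
    have hq4 : q ≠ i x := by
      intro h5
      have h6 : i q = x := by rw [h5, hii]
      rw [hq] at h6
      exact hq2 h6
    rw [mul_apply, swap_apply_of_ne_of_ne hq3 hq4, swap_apply_of_ne_of_ne hq1 hq2]

theorem combo_odd {σ i1 i2 : Perm α} (h1 : i1 * i1 = 1) (h2 : i2 * i2 = 1) (hm : i2 * i1 = σ)
    (hc : #i1.support = #i2.support) (hs : sign i1 = -1) (h6 : 6 ≤ #i1.support)
    {x0 y0 : α} (hx1 : i1 x0 = x0) (hx2 : i2 x0 ≠ x0) (hy1 : i1 y0 ≠ y0) (hy2 : i2 y0 = y0) :
    CommGoal σ := by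
  obtain ⟨al0, hal0⟩ := isConj_of_card h1 h2 hc
  have hinv : i1⁻¹ = i1 := inv_eq_of_mul_eq_one_left h1
  have hii1 := invol_apply h1
  have hint : ∀ w, i2 (al0 w) = al0 (i1 w) := by
    intro w
    rw [← hal0]
    simp
  have hp : i2 (al0 x0) = al0 x0 := by rw [hint, hx1]
  have hr : i2 (al0 y0) ≠ al0 y0 := by
    rw [hint]
    exact fun h => hy1 (al0.injective h)
  obtain ⟨k2, hk2c, hk2r, hk2f⟩ := transit h2 hr hx2
  have hk1c : Commute i2 (swap (al0 x0) y0) := (swap_disj hp hy2).commute.symm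
  have hk1r : swap (al0 x0) y0 (al0 y0) = al0 y0 := by
    refine swap_apply_of_ne_of_ne ?_ ?_
    · intro h
      rw [h, hp] at hr
      exact hr rfl
    · intro h
      rw [h, hy2] at hr
      exact hr rfl
  set al1 : Perm α := k2 * swap (al0 x0) y0 * al0 with hal1
  have hal1c : al1 * i1 * al1⁻¹ = i2 := by
    have e1 : k2 * swap (al0 x0) y0 * i2 * (k2 * swap (al0 x0) y0)⁻¹ = i2 := by
      have hcomm : Commute i2 (k2 * swap (al0 x0) y0) := hk2c.mul_right hk1c
      rw [← hcomm.eq, mul_inv_cancel_right]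
    rw [hal1, ← e1, ← hal0]
    simp [mul_assoc]
  have hal1x : al1 x0 = y0 := by
    rw [hal1, mul_apply, mul_apply, swap_apply_left, hk2f y0 hy2]
  have hal1y : al1 y0 = x0 := by
    rw [hal1, mul_apply, mul_apply, hk1r, hk2r]
  have hxy : x0 ≠ y0 := by
    rintro rfl
    exact hy1 hx1
  set d : Perm α := swap x0 y0 with hd
  have hdc : al1 * d * al1⁻¹ = d := by
    have := swap_apply_apply al1 x0 y0
    rw [hal1x, hal1y, swap_comm] at this
    rw [← this]
  set be : Perm α := i1 * d with hbe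
  have hbes : sign be = 1 := by
    rw [hbe, map_mul, hs, hd, sign_swap hxy]
    decide
  have hcomm : al1 * be * al1⁻¹ * be⁻¹ = σ := by
    have e : al1 * be * al1⁻¹ = i2 * d := by
      calc al1 * be * al1⁻¹ = (al1 * i1 * al1⁻¹) * (al1 * d * al1⁻¹) := by
            rw [hbe]; group
        _ = i2 * d := by rw [hal1c, hdc]
    rw [e, hbe, mul_inv_rev, hinv, hd, swap_inv, mul_assoc, swap_mul_self_mul, hm]
  have hF : ∀ x ∈ ({y0, i1 y0} : Finset α), i1 x ∈ ({y0, i1 y0} : Finset α) := by
    intro x hx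
    simp only [mem_insert, mem_singleton] at hx ⊢
    rcases hx with rfl | rfl
    · right; rfl
    · left; exact hii1 _
  have hFc : #({y0, i1 y0} : Finset α) + 4 ≤ #i1.support := by
    have : #({y0, i1 y0} : Finset α) ≤ 2 := Finset.card_le_two
    omega
  obtain ⟨a, b, c, d', h12, h13, h14, h23, h24, h34, ha, hb, hc', hd', haF, hbF, hcF, hdF⟩ :=
    points h1 _ hF hFc
  simp only [mem_insert, mem_singleton, not_or] at haF hbF hcF hdF
  have hne : ∀ w, i1 w ≠ w → w ≠ x0 := by
    rintro w hw rfl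
    exact hw hx1
  have hdfix : ∀ w, i1 w ≠ w → w ≠ y0 → d w = w := fun w hw hw2 =>
    swap_apply_of_ne_of_ne (hne w hw) hw2
  have haa : i1 a ≠ a := by rw [ha]; exact Ne.symm h12
  have hbb : i1 b ≠ b := by rw [hb]; exact h12
  have hcc : i1 c ≠ c := by rw [hc']; exact Ne.symm h34
  have hdd : i1 d' ≠ d' := by rw [hd']; exact h34
  have hbea : be a = b := by
    rw [hbe, mul_apply, hdfix a haa haF.1, ha]
  have hbeb : be b = a := by
    rw [hbe, mul_apply, hdfix b hbb hbF.1, hb]
  have hbec : be c = d' := by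
    rw [hbe, mul_apply, hdfix c hcc hcF.1, hc']
  have hbed : be d' = c := by
    rw [hbe, mul_apply, hdfix d' hdd hdF.1, hd']
  obtain ⟨al, hal, hcm⟩ := fix_parity hcomm h12 hbea hbeb
  exact ⟨al, be, hal, hbes, hcm, a, b, c, d', h12, h13, h14, h23, h24, h34, hbea, hbeb, hbec, hbed⟩

theorem dbl_disj {a b c d : α} (h13 : a ≠ c) (h14 : a ≠ d) (h23 : b ≠ c) (h24 : b ≠ d) :
    Disjoint (swap a b) (swap c d) :=
  swap_disj (swap_apply_of_ne_of_ne h13 h14) (swap_apply_of_ne_of_ne h23 h24)

theorem dbl_facts {a b c d : α} (h12 : a ≠ b) (h13 : a ≠ c) (h14 : a ≠ d) (h23 : b ≠ c)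
    (h24 : b ≠ d) (h34 : c ≠ d) :
    (swap a b * swap c d) * (swap a b * swap c d) = 1 ∧ sign (swap a b * swap c d) = 1 ∧
      #(swap a b * swap c d).support = 4 := by
  have hd := dbl_disj h13 h14 h23 h24
  refine ⟨?_, ?_, ?_⟩
  · rw [hd.commute.symm.mul_mul_mul_comm, swap_mul_self, swap_mul_self, one_mul]
  · rw [map_mul, sign_swap h12, sign_swap h34]; decide
  · rw [hd.card_support_mul, card_support_swap h12, card_support_swap h34]

omit [Fintype α] in
theorem dbl_prod {p q r s : α} (hpq : p ≠ q) (hrs : r ≠ s) (hpr : p ≠ r) (hps : p ≠ s) (hqr : q ≠ r)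
    (hqs : q ≠ s) :
    (swap p s * swap q r) * (swap p r * swap q s) = swap r s * swap p q := by
  ext x
  simp only [Perm.coe_mul, Function.comp_apply, swap_apply_def]
  split_ifs <;> simp_all

theorem exists_comm (hcard : 5 ≤ Fintype.card α) {σ : Perm α} (hs : sign σ = 1) (hne : σ ≠ 1) :
    CommGoal σ := by
  obtain ⟨i1, i2, hF, hc⟩ := exists_fac_even hs
  have h1 := hF.h1
  have h2 := hF.h2
  have hm := hF.hm
  have hdvd : 2 ∣ #i1.support := two_dvd_card_support (by rwa [pow_two])
  have hsi := sign_invol h1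
  have hne0 : #i1.support ≠ 0 := by
    intro h0
    have e1 : i1 = 1 := support_eq_empty_iff.1 (Finset.card_eq_zero.1 h0)
    have e2 : i2 = 1 := support_eq_empty_iff.1 (Finset.card_eq_zero.1 (by omega))
    apply hne
    rw [← hm, e1, e2, one_mul]
  by_cases hM2 : #i1.support = 2
  · -- two transpositions
    obtain ⟨p, q, hpq, rfl⟩ := card_support_eq_two.1 hM2
    obtain ⟨r, s, hrs, rfl⟩ := card_support_eq_two.1 (hc ▸ hM2)
    by_cases hov : p ≠ r ∧ p ≠ s ∧ q ≠ r ∧ q ≠ s
    · obtain ⟨hpr, hps, hqr, hqs⟩ := hov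
      obtain ⟨f1, f2, f3⟩ := dbl_facts hpr hpq hps hqr.symm hrs hqs
      obtain ⟨g1, g2, g3⟩ := dbl_facts hps hpq hpr hqs.symm hrs.symm hqr
      refine combo_even f1 g1 ?_ (by rw [f3, g3]) f2 (by rw [f3])
      rw [dbl_prod hpq hrs hpr hps hqr hqs, hm]
    · have hw : ∃ w, r ∈ ({p, q, w} : Finset α) ∧ s ∈ ({p, q, w} : Finset α) := by
        simp only [not_and_or, not_not, ne_eq] at hov
        rcases hov with h | h | h | h
        · exact ⟨s, by simp [h], by simp⟩
        · exact ⟨r, by simp, by simp [h]⟩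
        · exact ⟨s, by simp [h], by simp⟩
        · exact ⟨r, by simp, by simp [h]⟩
      obtain ⟨w, hr', hs'⟩ := hw
      have hT : 1 < #({p, q, w} : Finset α)ᶜ := by
        rw [Finset.card_compl]
        have : #({p, q, w} : Finset α) ≤ 3 := Finset.card_le_three
        omega
      obtain ⟨u, hu, v, hv, huv⟩ := Finset.one_lt_card.1 hT
      simp only [mem_compl, mem_insert, mem_singleton, not_or] at hu hv hr' hs'
      have hu1 : p ≠ u := Ne.symm hu.1
      have hu2 : q ≠ u := Ne.symm hu.2.1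
      have hv1 : p ≠ v := Ne.symm hv.1
      have hv2 : q ≠ v := Ne.symm hv.2.1
      have hu3 : r ≠ u := by
        rintro rfl
        rcases hr' with h | h | h
        · exact hu.1 h
        · exact hu.2.1 h
        · exact hu.2.2 h
      have hu4 : s ≠ u := by
        rintro rfl
        rcases hs' with h | h | h
        · exact hu.1 h
        · exact hu.2.1 h
        · exact hu.2.2 h
      have hv3 : r ≠ v := by
        rintro rfl
        rcases hr' with h | h | h
        · exact hv.1 h
        · exact hv.2.1 h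
        · exact hv.2.2 h
      have hv4 : s ≠ v := by
        rintro rfl
        rcases hs' with h | h | h
        · exact hv.1 h
        · exact hv.2.1 h
        · exact hv.2.2 h
      obtain ⟨f1, f2, f3⟩ := dbl_facts hpq hu1 hv1 hu2 hv2 huv
      obtain ⟨g1, g2, g3⟩ := dbl_facts hrs hu3 hv3 hu4 hv4 huv
      refine combo_even f1 g1 ?_ (by rw [f3, g3]) f2 (by rw [f3])
      have hd := dbl_disj hu1 hv1 hu2 hv2
      rw [← hm, mul_assoc, ← mul_assoc (swap u v), ← hd.commute.eq, mul_assoc, swap_mul_self,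
        mul_one]
  · have hM4 : 4 ≤ #i1.support := by
      obtain ⟨t, ht⟩ := hdvd
      omega
    rcases Int.units_eq_one_or (sign i1) with hs1 | hs1
    · exact combo_even h1 h2 hm hc hs1 hM4
    · have hM6 : 6 ≤ #i1.support := by
        by_contra hlt
        have h4 : #i1.support = 4 := by
          obtain ⟨t, ht⟩ := hdvd
          omega
        rw [hsi, h4] at hs1
        exact absurd hs1 (by decide)
      have hb' := hF.hb' hne
      obtain ⟨x0, hx0, hx0'⟩ : ∃ x0 ∈ σ.support, x0 ∉ i1.support :=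
        Finset.exists_mem_notMem_of_card_lt_card (by omega)
      have hx1 : i1 x0 = x0 := by simpa using hx0'
      have hx2 : i2 x0 ≠ x0 := by
        rw [mem_support, ← hm, mul_apply, hx1] at hx0
        exact hx0
      have hnsub : ¬ i1.support ⊆ i2.support := by
        intro hsub
        have := Finset.eq_of_subset_of_card_le hsub (le_of_eq hc.symm)
        exact hx0' (this ▸ (mem_support.2 hx2))
      obtain ⟨y0, hy0, hy0'⟩ := Finset.not_subset.1 hnsub
      exact combo_odd h1 h2 hm hc hs1 hM6 hx1 hx2 (mem_support.1 hy0) (by simpa using hy0')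

end Cfsg.Agent.Lib.Classical.Herm.SpinCombo
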