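import Mathlib

/-!
# The 3-cycles `(a₀ a₁ i)` generate the alternating group.
-/

set_option autoImplicit false

namespace Cfsg.Agent.Lib.Classical.Herm.SpinGen

open Equiv Equiv.Perm Finset

variable {α : Type*} [DecidableEq α] [Fintype α]

/-- The cycle `a ↦ b ↦ c ↦ a`. -/
def c3 (a b c : α) : Perm α := swap a b * swap b c

omit [Fintype α] in
theorem c3_conj (g : Perm α) (a b c : α) : g * c3 a b c * g⁻¹ = c3 (g a) (g b) (g c) := by
  unfold c3
  rw [swap_apply_apply, swap_apply_apply]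
  group

omit [Fintype α] in
theorem c3_rot {a b c : α} (hab : a ≠ b) (hac : a ≠ c) (hbc : b ≠ c) : c3 a b c = c3 b c a := by
  unfold c3
  ext x
  simp only [Perm.coe_mul, Function.comp_apply, swap_apply_def]
  split_ifs <;> simp_all

omit [Fintype α] in
theorem c3_apply_left {a b c : α} (hab : a ≠ b) (hac : a ≠ c) : c3 a b c a = b := by
  unfold c3
  rw [mul_apply, swap_apply_of_ne_of_ne hab hac, swap_apply_left]

omit [Fintype α] in
theorem c3_apply_mid {a b c : α} (hab : a ≠ b) (hbc : b ≠ c) (hac : a ≠ c) : c3 a b c b = c := by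
  unfold c3
  rw [mul_apply, swap_apply_left, swap_apply_of_ne_of_ne (Ne.symm hac) (Ne.symm hbc)]

omit [Fintype α] in
theorem c3_apply_right {a b c : α} (hab : a ≠ b) : c3 a b c c = a := by
  unfold c3
  rw [mul_apply, swap_apply_right, swap_apply_right]

omit [Fintype α] in
theorem c3_apply_other {a b c x : α} (h1 : x ≠ a) (h2 : x ≠ b) (h3 : x ≠ c) : c3 a b c x = x := by
  unfold c3
  rw [mul_apply, swap_apply_of_ne_of_ne h2 h3, swap_apply_of_ne_of_ne h1 h2]

theorem c3_isThreeCycle {a b c : α} (hab : a ≠ b) (hac : a ≠ c) (hbc : b ≠ c) :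
    (c3 a b c).IsThreeCycle := by
  unfold c3
  rw [swap_comm a b]
  exact isThreeCycle_swap_mul_swap_same (Ne.symm hab) hbc hac

theorem c3_sign {a b c : α} (hab : a ≠ b) (hbc : b ≠ c) : sign (c3 a b c) = 1 := by
  unfold c3
  rw [map_mul, sign_swap hab, sign_swap hbc]; decide

theorem c3_pow_three {a b c : α} (hab : a ≠ b) (hac : a ≠ c) (hbc : b ≠ c) :
    (c3 a b c) ^ 3 = 1 := by
  have h := (c3_isThreeCycle hab hac hbc).orderOf
  rw [← h]
  exact pow_orderOf_eq_one _

omit [Fintype α] in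
theorem c3_inv {a b c : α} (hab : a ≠ b) (hac : a ≠ c) (hbc : b ≠ c) : (c3 a b c)⁻¹ = c3 a c b := by
  unfold c3
  ext x
  simp only [Perm.coe_inv, mul_inv_rev, swap_inv, Perm.coe_mul, Function.comp_apply, swap_apply_def]
  split_ifs <;> simp_all

theorem closure_c3 (hcard : 5 ≤ Fintype.card α) {a0 a1 : α} (h01 : a0 ≠ a1) :
    alternatingGroup α ≤ Subgroup.closure {σ : Perm α | ∃ i, i ≠ a0 ∧ i ≠ a1 ∧ σ = c3 a0 a1 i} := by
  set T := Subgroup.closure {σ : Perm α | ∃ i, i ≠ a0 ∧ i ≠ a1 ∧ σ = c3 a0 a1 i} with hT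
  have ht : ∀ i, i ≠ a0 → i ≠ a1 → c3 a0 a1 i ∈ T := fun i h1 h2 =>
    Subgroup.subset_closure ⟨i, h1, h2, rfl⟩
  -- step 1: all `c3 a0 i j`
  have h3 : ∀ i j, i ≠ a0 → j ≠ a0 → i ≠ j → c3 a0 i j ∈ T := by
    intro i j hi hj hij
    by_cases hi1 : i = a1
    · subst hi1
      exact ht j hj (Ne.symm hij)
    by_cases hj1 : j = a1
    · subst hj1
      have := T.inv_mem (ht i hi hi1)
      rwa [c3_inv h01 (Ne.symm hi) (Ne.symm hi1)] at this
    -- conjugate `t i` by `(t j)⁻¹`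
    have hg := c3_inv h01 (Ne.symm hj) (Ne.symm hj1)
    have h5 := T.mul_mem (T.mul_mem (T.inv_mem (ht j hj hj1)) (ht i hi hi1)) (ht j hj hj1)
    have ga0 : (c3 a0 a1 j)⁻¹ a0 = j := by
      rw [hg]; exact c3_apply_left (Ne.symm hj) h01
    have ga1 : (c3 a0 a1 j)⁻¹ a1 = a0 := by
      rw [hg]; exact c3_apply_right (Ne.symm hj)
    have gi : (c3 a0 a1 j)⁻¹ i = i := by
      rw [hg]; exact c3_apply_other hi hij hi1
    have e := c3_conj (c3 a0 a1 j)⁻¹ a0 a1 i
    rw [ga0, ga1, gi, inv_inv] at e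
    rw [e, c3_rot hj (Ne.symm hij) (Ne.symm hi)] at h5
    exact h5
  -- step 2
  have h4 : ∀ a i j, a ≠ a0 → i ≠ a0 → j ≠ a0 → a ≠ i → a ≠ j → i ≠ j → c3 a i j ∈ T := by
    intro a i j ha hi hj hai haj hij
    obtain ⟨k, -, hk⟩ := Finset.exists_mem_notMem_of_card_lt_card
      (s := ({a0, a, i, j} : Finset α)) (t := Finset.univ) (by
        rw [Finset.card_univ]
        have : #({a0, a, i, j} : Finset α) ≤ 4 := Finset.card_le_four
        omega)
    simp only [mem_insert, mem_singleton, not_or] at hk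
    have hg := h3 a k ha hk.1 (Ne.symm hk.2.1)
    have h5 := T.mul_mem (T.mul_mem hg (h3 i j hi hj hij)) (T.inv_mem hg)
    rw [c3_conj, c3_apply_left (Ne.symm ha) (Ne.symm hk.1), c3_apply_other hi (Ne.symm hai)
      (Ne.symm hk.2.2.1), c3_apply_other hj (Ne.symm haj) (Ne.symm hk.2.2.2)] at h5
    exact h5
  -- step 3
  have h6 : ∀ a b c, a ≠ b → a ≠ c → b ≠ c → c3 a b c ∈ T := by
    intro a b c hab hac hbc
    by_cases ha : a = a0
    · subst ha
      exact h3 b c (Ne.symm hab) (Ne.symm hac) hbc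
    by_cases hb : b = a0
    · subst hb
      rw [c3_rot hab hac hbc]
      exact h3 c a (Ne.symm hbc) ha (Ne.symm hac)
    by_cases hc : c = a0
    · subst hc
      rw [c3_rot hab hac hbc, c3_rot hbc (Ne.symm hab) (Ne.symm hac)]
      exact h3 a b ha hb hab
    exact h4 a b c ha hb hc hab hac hbc
  rw [← closure_three_cycles_eq_alternating, Subgroup.closure_le]
  intro σ hσ
  have hσ3 : σ.IsThreeCycle := hσ
  have hsup : σ.support.Nonempty := by
    rw [← Finset.card_pos, hσ3.card_support]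
    norm_num
  obtain ⟨a, ha⟩ := hsup
  have e := hσ3.eq_swap_mul_swap_iff_mem_support.2 ha
  have hnd := hσ3.nodup_iff_mem_support.2 ha
  simp only [List.nodup_cons, List.mem_cons, List.not_mem_nil, or_false, not_or, List.nodup_nil,
    and_true, not_false_eq_true] at hnd
  have h7 := h6 a (σ a) (σ (σ a)) (Ne.symm ?_) ?_ ?_
  · rw [SetLike.mem_coe]
    unfold c3 at h7
    rw [e]
    convert h7 using 1
  · exact Ne.symm hnd.1.1
  · exact hnd.1.2
  · exact hnd.2

end Cfsg.Agent.Lib.Classical.Herm.SpinGen
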