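import Mathlib
import Cfsg.Agent.Lib.Classical.Herm.SpinCarm
import Cfsg.Agent.Lib.Classical.Herm.SpinGen
import Cfsg.Agent.Lib.Classical.Herm.SpinCombo

/-!
# Lifting commutation relations to a double cover of the alternating group.
-/

set_option autoImplicit false

namespace Cfsg.Agent.Lib.Classical.Herm.SpinLift

open Equiv Equiv.Perm
open Cfsg.Agent.Lib.Classical.Herm.SpinGen
open Cfsg.Agent.Lib.Classical.Herm.SpinCombo

/-- A double cover of the alternating group, seen in the symmetric group. -/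
structure DC (G : Type*) [Group G] (n : ℕ) where
  p : G →* Perm (Fin n)
  z : G
  hz : z ≠ 1
  hz2 : z * z = 1
  hzc : ∀ g, z * g = g * z
  hker : ∀ g, p g = 1 ↔ g = 1 ∨ g = z
  hrange : ∀ σ : Perm (Fin n), sign σ = 1 → ∃ g, p g = σ
  hsign : ∀ g, sign (p g) = 1

namespace DC

variable {G : Type*} [Group G] {n : ℕ} (D : DC G n)

theorem pz : D.p D.z = 1 := (D.hker _).2 (Or.inr rfl)

theorem lift_eq {g h : G} (e : D.p g = D.p h) : g = h ∨ g = D.z * h := by
  have h1 : D.p (g * h⁻¹) = 1 := by rw [map_mul, map_inv, e, mul_inv_cancel]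
  rcases (D.hker _).1 h1 with h2 | h2
  · left; exact mul_inv_eq_one.1 h2
  · right; exact mul_inv_eq_iff_eq_mul.1 h2

theorem central_of_p_one {e : G} (he : D.p e = 1) (g : G) : e * g = g * e := by
  rcases (D.hker e).1 he with rfl | rfl
  · simp
  · exact D.hzc g

theorem zinv : D.z⁻¹ = D.z := inv_eq_of_mul_eq_one_left D.hz2

theorem sq_one_of_p_one {e : G} (he : D.p e = 1) : e * e = 1 := by
  rcases (D.hker e).1 he with rfl | rfl
  · simp
  · exact D.hz2

theorem comm_of_cube {x y : G} (hx : (D.p x) ^ 3 = 1) (e : D.p x * D.p y = D.p y * D.p x) :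
    x * y = y * x := by
  have h1 : D.p (x * y) = D.p (y * x) := by rw [map_mul, map_mul, e]
  rcases D.lift_eq h1 with h | h
  · exact h
  exfalso
  have hc : D.p (x ^ 3) = 1 := by rw [map_pow, hx]
  have hcc := D.central_of_p_one hc
  have h2 : y⁻¹ * x * y = D.z * x := by
    calc y⁻¹ * x * y = y⁻¹ * (D.z * (y * x)) := by rw [mul_assoc, h]
      _ = y⁻¹ * ((y * x) * D.z) := by rw [D.hzc]
      _ = x * D.z := by simp [mul_assoc]
      _ = D.z * x := (D.hzc x).symm
  have h3 : (y⁻¹ * x * y) ^ 3 = x ^ 3 := by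
    have := conj_pow (a := y⁻¹) (b := x) (i := 3)
    rw [inv_inv] at this
    rw [this, mul_assoc, hcc, ← mul_assoc, inv_mul_cancel, one_mul]
  rw [h2, (show Commute D.z x from D.hzc x).mul_pow] at h3
  have h4 : D.z ^ 3 = D.z := by
    rw [pow_succ, pow_two, D.hz2, one_mul]
  rw [h4] at h3
  exact D.hz (mul_eq_right.1 h3)

theorem comm_lift_left {g h g' : G} (hc : g * h = h * g) (e : D.p g' = D.p g) :
    g' * h = h * g' := by
  rcases D.lift_eq e with rfl | rfl
  · exact hc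
  · rw [mul_assoc, hc, ← mul_assoc, D.hzc, mul_assoc]

theorem comm_lift {g h g' h' : G} (hc : g * h = h * g) (e1 : D.p g' = D.p g)
    (e2 : D.p h' = D.p h) : g' * h' = h' * g' := by
  have h1 := D.comm_lift_left hc e1
  exact (D.comm_lift_left h1.symm e2).symm

theorem comm_of_closure {u : G} {S : Set (Perm (Fin n))}
    (hS : ∀ s ∈ S, s.IsThreeCycle ∧ s * D.p u = D.p u * s) {σ : Perm (Fin n)}
    (hσ : σ ∈ Subgroup.closure S) {g : G} (hg : D.p g = σ) : g * u = u * g := by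
  have hle : Subgroup.closure S ≤ (Subgroup.centralizer {u}).map D.p := by
    rw [Subgroup.closure_le]
    intro s hs
    obtain ⟨h3, hc⟩ := hS s hs
    obtain ⟨x, hx⟩ := D.hrange s h3.sign
    refine ⟨x, ?_, hx⟩
    rw [SetLike.mem_coe, Subgroup.mem_centralizer_singleton_iff]
    apply D.comm_of_cube
    · rw [hx, ← h3.orderOf]; exact pow_orderOf_eq_one _
    · rw [hx]; exact hc
  obtain ⟨c, hc, hpc⟩ := hle hσ
  rw [SetLike.mem_coe, Subgroup.mem_centralizer_singleton_iff] at hc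
  exact D.comm_lift_left hc (hg.trans hpc.symm)

theorem comm_of_off_support {b0 : Perm (Fin n)} (hs : sign b0 = 1) {u g : G} (hg : D.p g = b0)
    (T : Finset (Fin n)) (h1 : ∀ x ∈ T, b0 x = x) (h2 : ∀ x, x ∉ T → D.p u x = x) :
    g * u = u * g := by
  classical
  let q : Fin n → Prop := fun x => x ∉ T
  have hq1 : ∀ x, q (b0 x) ↔ q x := by
    intro x
    simp only [q, not_iff_not]
    constructor
    · intro h
      have h3 := h1 _ h
      rw [b0.injective.eq_iff] at h3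
      rwa [h3] at h
    · intro h
      rw [h1 x h]
      exact h
  have hq2 : ∀ x, b0 x ≠ x → q x := fun x hx hT => hx (h1 x hT)
  have e1 : ofSubtype (subtypePerm b0 hq1) = b0 := ofSubtype_subtypePerm hq1 hq2
  have e2 : sign (subtypePerm b0 hq1) = 1 := by rw [sign_subtypePerm b0 hq1 hq2, hs]
  have hb1 : subtypePerm b0 hq1 ∈ alternatingGroup (Subtype q) := mem_alternatingGroup.2 e2
  rw [← closure_three_cycles_eq_alternating] at hb1
  have hb0 : b0 ∈ Subgroup.closure
      ((ofSubtype : Perm (Subtype q) →* Perm (Fin n)) '' {σ | IsThreeCycle σ}) := by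
    rw [← MonoidHom.map_closure]
    exact ⟨_, hb1, e1⟩
  refine D.comm_of_closure ?_ hb0 hg
  rintro s ⟨τ, hτ, rfl⟩
  constructor
  · have hτ' : IsThreeCycle τ := hτ
    unfold IsThreeCycle at hτ' ⊢
    rw [cycleType_ofSubtype]
    exact hτ'
  · have hd : Disjoint (ofSubtype τ) (D.p u) := by
      intro x
      by_cases hx : x ∈ T
      · left
        exact ofSubtype_apply_of_not_mem τ (by simpa [q] using hx)
      · right
        exact h2 x hx
    exact hd.commute

/-- Lifts of `(a b)(c d)` and `(a c)(b d)` commute. -/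
def Cm (a b c d : Fin n) : Prop :=
  ∀ u v : G, D.p u = swap a b * swap c d → D.p v = swap a c * swap b d → u * v = v * u

theorem Cm_conj {a b c d : Fin n} {τ : Perm (Fin n)} (h : D.Cm a b c d) (hτ : sign τ = 1) :
    D.Cm (τ a) (τ b) (τ c) (τ d) := by
  intro u' v' hu hv
  obtain ⟨t, ht⟩ := D.hrange τ hτ
  have e1 : D.p (t⁻¹ * u' * t) = swap a b * swap c d := by
    rw [map_mul, map_mul, map_inv, ht, hu, swap_apply_apply, swap_apply_apply]
    group
  have e2 : D.p (t⁻¹ * v' * t) = swap a c * swap b d := by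
    rw [map_mul, map_mul, map_inv, ht, hv, swap_apply_apply, swap_apply_apply]
    group
  have h3 := h _ _ e1 e2
  have h4 : t⁻¹ * (u' * v') * t = t⁻¹ * (v' * u') * t := by
    calc t⁻¹ * (u' * v') * t = t⁻¹ * u' * t * (t⁻¹ * v' * t) := by group
      _ = t⁻¹ * v' * t * (t⁻¹ * u' * t) := h3
      _ = t⁻¹ * (v' * u') * t := by group
  exact mul_left_cancel (mul_right_cancel h4)

theorem flip_id {p q r s : Fin n} (h12 : p ≠ q) (h13 : p ≠ r) (h14 : p ≠ s) (h23 : q ≠ r)
    (h24 : q ≠ s) (h34 : r ≠ s) :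
    (swap p q * swap r s) * (swap q r * swap p s) = swap p r * swap q s := by
  ext x
  simp only [Perm.coe_mul, Function.comp_apply, swap_apply_def]
  split_ifs <;> simp_all

theorem Cm_flip {p q r s : Fin n} (h12 : p ≠ q) (h13 : p ≠ r) (h14 : p ≠ s) (h23 : q ≠ r)
    (h24 : q ≠ s) (h34 : r ≠ s) (h : D.Cm q p r s) : D.Cm p q r s := by
  intro u v hu hv
  have hsg : sign (swap q r * swap p s) = 1 := by
    rw [map_mul, sign_swap h23, sign_swap h14]; decide
  obtain ⟨w, hw⟩ := D.hrange _ hsg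
  have hu' : D.p u = swap q p * swap r s := by rw [hu, swap_comm]
  have h1 := h u w hu' hw
  have e : D.p v = D.p (u * w) := by
    rw [hv, map_mul, hu, hw, flip_id h12 h13 h14 h23 h24 h34]
  have h2 : (u * w) * u = u * (u * w) := by
    rw [mul_assoc, ← h1]
  exact (D.comm_lift_left h2 e).symm

theorem Cm_all {a b c d : Fin n} (ab : a ≠ b) (ac : a ≠ c) (ad : a ≠ d) (bc : b ≠ c) (bd : b ≠ d)
    (cd : c ≠ d) (h : D.Cm a b c d) {p q r s : Fin n} (h12 : p ≠ q) (h13 : p ≠ r) (h14 : p ≠ s)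
    (h23 : q ≠ r) (h24 : q ≠ s) (h34 : r ≠ s) : D.Cm p q r s := by
  have hf : Function.Injective ![a, b, c, d] := by
    intro i j hij
    fin_cases i <;> fin_cases j <;> simp_all
  have hg : Function.Injective ![p, q, r, s] := by
    intro i j hij
    fin_cases i <;> fin_cases j <;> simp_all
  obtain ⟨τ, hτ⟩ := Perm.exists_extending_pair _ _ hf hg
  have ha : τ a = p := hτ 0
  have hb : τ b = q := hτ 1
  have hc : τ c = r := hτ 2
  have hd : τ d = s := hτ 3
  rcases Int.units_eq_one_or (sign τ) with hs | hs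
  · have := D.Cm_conj h hs
    rwa [ha, hb, hc, hd] at this
  · have hs' : sign (swap p q * τ) = 1 := by
      rw [map_mul, hs, sign_swap h12]; decide
    have := D.Cm_conj h hs'
    simp only [mul_apply, ha, hb, hc, hd] at this
    rw [swap_apply_left, swap_apply_right, swap_apply_of_ne_of_ne (Ne.symm h13) (Ne.symm h23),
      swap_apply_of_ne_of_ne (Ne.symm h14) (Ne.symm h24)] at this
    exact D.Cm_flip h12 h13 h14 h23 h24 h34 this

theorem dbl_mul {a b c d : Fin n} (ab : a ≠ b) (ac : a ≠ c) (ad : a ≠ d) (bc : b ≠ c) (bd : b ≠ d)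
    (cd : c ≠ d) : (swap a b * swap c d) * (swap a c * swap b d) = swap a d * swap b c := by
  ext x
  simp only [Perm.coe_mul, Function.comp_apply, swap_apply_def]
  split_ifs <;> simp_all

theorem sq_one {a b c d : Fin n} (ab : a ≠ b) (ac : a ≠ c) (ad : a ≠ d) (bc : b ≠ c) (bd : b ≠ d)
    (cd : c ≠ d) (h : D.Cm a b c d) {s : G} (hs : D.p s = swap a b * swap c d) : s * s = 1 := by
  obtain ⟨t, ht⟩ := D.hrange (c3 b c d) (c3_sign bc cd)
  have wa : c3 b c d a = a := c3_apply_other ab ac ad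
  have wb : c3 b c d b = c := c3_apply_left bc bd
  have wc : c3 b c d c = d := c3_apply_mid bc cd bd
  have wd : c3 b c d d = b := c3_apply_right bc
  set w := c3 b c d with hw
  have e1 : D.p (t * s * t⁻¹) = swap a c * swap b d := by
    rw [map_mul, map_mul, map_inv, ht, hs]
    calc w * (swap a b * swap c d) * w⁻¹ = (w * swap a b * w⁻¹) * (w * swap c d * w⁻¹) := by group
      _ = swap (w a) (w b) * swap (w c) (w d) := by rw [swap_apply_apply, swap_apply_apply]
      _ = swap a c * swap b d := by rw [wa, wb, wc, wd, swap_comm d b]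
  have e2 : D.p (t * (t * s * t⁻¹) * t⁻¹) = swap a d * swap b c := by
    rw [map_mul, map_mul, map_inv, ht, e1]
    calc w * (swap a c * swap b d) * w⁻¹ = (w * swap a c * w⁻¹) * (w * swap b d * w⁻¹) := by group
      _ = swap (w a) (w c) * swap (w b) (w d) := by rw [swap_apply_apply, swap_apply_apply]
      _ = swap a d * swap b c := by rw [wa, wc, wb, wd, swap_comm c b]
  have hcomm := h s (t * s * t⁻¹) hs e1
  have he : D.p (s * s) = 1 := by
    rw [map_mul, hs]
    exact (dbl_facts ab ac ad bc bd cd).1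
  have hcc := D.central_of_p_one he
  have hs1 : (t * s * t⁻¹) * (t * s * t⁻¹) = s * s := by
    calc (t * s * t⁻¹) * (t * s * t⁻¹) = t * (s * s) * t⁻¹ := by group
      _ = s * s := by rw [← hcc t, mul_inv_cancel_right]
  have h4 : (s * (t * s * t⁻¹)) * (s * (t * s * t⁻¹)) = 1 := by
    have hc : Commute (t * s * t⁻¹) s := hcomm.symm
    rw [hc.mul_mul_mul_comm, hs1]
    exact D.sq_one_of_p_one he
  have h5 : D.p (t * (t * s * t⁻¹) * t⁻¹) = D.p (s * (t * s * t⁻¹)) := by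
    rw [e2, map_mul, hs, e1, dbl_mul ab ac ad bc bd cd]
  have h6 : (t * (t * s * t⁻¹) * t⁻¹) * (t * (t * s * t⁻¹) * t⁻¹) = 1 := by
    rcases D.lift_eq h5 with h7 | h7
    · rw [h7, h4]
    · rw [h7]
      have hc : Commute (s * (t * s * t⁻¹)) D.z := (D.hzc _).symm
      rw [hc.mul_mul_mul_comm, h4, D.hz2, one_mul]
  have h7 : (t * (t * s * t⁻¹) * t⁻¹) * (t * (t * s * t⁻¹) * t⁻¹) = s * s := by
    calc (t * (t * s * t⁻¹) * t⁻¹) * (t * (t * s * t⁻¹) * t⁻¹)
        = t * ((t * s * t⁻¹) * (t * s * t⁻¹)) * t⁻¹ := by group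
      _ = t * (s * s) * t⁻¹ := by rw [hs1]
      _ = s * s := by rw [← hcc t, mul_inv_cancel_right]
  exact h7.symm.trans h6

theorem exists_cube_lift {σ : Perm (Fin n)} (hs : sign σ = 1) (h3 : σ ^ 3 = 1) :
    ∃ x, D.p x = σ ∧ x ^ 3 = 1 := by
  obtain ⟨x, hx⟩ := D.hrange σ hs
  have hc : D.p (x ^ 3) = 1 := by rw [map_pow, hx, h3]
  rcases (D.hker _).1 hc with h | h
  · exact ⟨x, hx, h⟩
  · refine ⟨D.z * x, by rw [map_mul, D.pz, one_mul, hx], ?_⟩
    rw [(show Commute D.z x from D.hzc x).mul_pow, h, pow_succ, pow_two, D.hz2, one_mul, D.hz2]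

theorem comm_congr_left {g h k : G} (e : D.p g = D.p h) : g * k * g⁻¹ * k⁻¹ = h * k * h⁻¹ * k⁻¹ := by
  rcases D.lift_eq e with rfl | rfl
  · rfl
  · have e1 : D.z * h * k * (D.z * h)⁻¹ = h * k * h⁻¹ := by
      rw [mul_inv_rev, D.zinv]
      calc D.z * h * k * (h⁻¹ * D.z) = D.z * (h * k * h⁻¹) * D.z := by group
        _ = (h * k * h⁻¹) * (D.z * D.z) := by rw [D.hzc, mul_assoc]
        _ = _ := by rw [D.hz2, mul_one]
    rw [e1]

theorem comm_congr_right {g h k : G} (e : D.p g = D.p h) : k * g * k⁻¹ * g⁻¹ = k * h * k⁻¹ * h⁻¹ := by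
  rcases D.lift_eq e with rfl | rfl
  · rfl
  · rw [mul_inv_rev, D.zinv]
    have e1 : k * (D.z * h) = D.z * (k * h) := by rw [← mul_assoc, ← D.hzc, mul_assoc]
    rw [e1]
    calc D.z * (k * h) * k⁻¹ * (h⁻¹ * D.z) = D.z * (k * h * k⁻¹ * h⁻¹) * D.z := by group
      _ = (k * h * k⁻¹ * h⁻¹) * (D.z * D.z) := by rw [D.hzc, mul_assoc]
      _ = _ := by rw [D.hz2, mul_one]

theorem t_mul {a0 a1 i j : Fin n} (h01 : a0 ≠ a1) (h0i : a0 ≠ i) (h0j : a0 ≠ j) (h1i : a1 ≠ i)
    (h1j : a1 ≠ j) (hij : i ≠ j) : c3 a0 a1 i * c3 a0 a1 j = swap a0 i * swap a1 j := by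
  unfold c3
  ext x
  simp only [Perm.coe_mul, Function.comp_apply, swap_apply_def]
  split_ifs <;> simp_all

theorem not_Cm [Finite G] (hn : 5 ≤ n) (hperf : commutator G = ⊤) {a b c d : Fin n} (ab : a ≠ b)
    (ac : a ≠ c) (ad : a ≠ d) (bc : b ≠ c) (bd : b ≠ d) (cd : c ≠ d) : ¬ D.Cm a b c d := by
  intro hCm
  have hall : ∀ {p q r s : Fin n}, p ≠ q → p ≠ r → p ≠ s → q ≠ r → q ≠ s → r ≠ s → D.Cm p q r s :=
    fun h12 h13 h14 h23 h24 h34 => D.Cm_all ab ac ad bc bd cd hCm h12 h13 h14 h23 h24 h34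
  let a0 : Fin n := ⟨0, by omega⟩
  let a1 : Fin n := ⟨1, by omega⟩
  have h01 : a0 ≠ a1 := by simp [a0, a1, Fin.ext_iff]
  have hL : ∀ i : Fin n, ∃ x : G, i ≠ a0 → i ≠ a1 → D.p x = c3 a0 a1 i ∧ x ^ 3 = 1 := by
    intro i
    by_cases h0 : i = a0
    · exact ⟨1, fun h => absurd h0 h⟩
    by_cases h1 : i = a1
    · exact ⟨1, fun _ h => absurd h1 h⟩
    obtain ⟨x, hx, hx3⟩ := D.exists_cube_lift (c3_sign h01 (Ne.symm h1))
      (c3_pow_three h01 (Ne.symm h0) (Ne.symm h1))
    exact ⟨x, fun _ _ => ⟨hx, hx3⟩⟩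
  choose L hL using hL
  let y : ℕ → G := fun k => if h : k + 2 < n then L ⟨k + 2, h⟩ else 1
  have hy : ∀ k (h : k + 2 < n), y k = L ⟨k + 2, h⟩ := fun k h => dif_pos h
  have hne0 : ∀ k (h : k + 2 < n), (⟨k + 2, h⟩ : Fin n) ≠ a0 := by
    intro k h
    simp [a0, Fin.ext_iff]
  have hne1 : ∀ k (h : k + 2 < n), (⟨k + 2, h⟩ : Fin n) ≠ a1 := by
    intro k h
    simp [a1, Fin.ext_iff]
  have hy3 : ∀ i < n - 2, y i ^ 3 = 1 := by
    intro i hi
    have h : i + 2 < n := by omega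
    rw [hy i h]
    exact (hL _ (hne0 i h) (hne1 i h)).2
  have hyy : ∀ i < n - 2, ∀ j < n - 2, i ≠ j → (y i * y j) ^ 2 = 1 := by
    intro i hi j hj hij
    have h1 : i + 2 < n := by omega
    have h2 : j + 2 < n := by omega
    rw [hy i h1, hy j h2, pow_two]
    have hIJ : (⟨i + 2, h1⟩ : Fin n) ≠ ⟨j + 2, h2⟩ := by
      simp only [ne_eq, Fin.mk.injEq]
      omega
    have h0I := Ne.symm (hne0 i h1)
    have h0J := Ne.symm (hne0 j h2)
    have h1I := Ne.symm (hne1 i h1)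
    have h1J := Ne.symm (hne1 j h2)
    refine D.sq_one h0I h01 h0J (Ne.symm h1I) hIJ h1J
      (hall h0I h01 h0J (Ne.symm h1I) hIJ h1J) ?_
    rw [map_mul, (hL _ (hne0 i h1) (hne1 i h1)).1, (hL _ (hne0 j h2) (hne1 j h2)).1]
    exact t_mul h01 h0I h0J h1I h1J hIJ
  have hbound := Cfsg.Agent.Lib.Classical.Herm.SpinCarm.carmichael_bound (n - 2) y hy3 hyy
  rw [Nat.sub_add_cancel (by omega)] at hbound
  set H := Subgroup.closure (y '' {i | i < n - 2}) with hH
  have hmap : alternatingGroup (Fin n) ≤ H.map D.p := by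
    refine (closure_c3 (by simpa using hn) h01).trans ?_
    rw [Subgroup.closure_le]
    rintro σ ⟨i, hi0, hi1, rfl⟩
    have hi2 : 2 ≤ i.val := by
      have h3 : i.val ≠ 0 := fun h => hi0 (Fin.ext h)
      have h4 : i.val ≠ 1 := fun h => hi1 (Fin.ext h)
      omega
    have hk : (i.val - 2) + 2 < n := by
      have := i.isLt
      omega
    have hki : (⟨(i.val - 2) + 2, hk⟩ : Fin n) = i := Fin.ext (by simp; omega)
    refine ⟨y (i.val - 2), Subgroup.subset_closure ⟨i.val - 2, ?_, rfl⟩, ?_⟩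
    · have := i.isLt
      simp only [Set.mem_setOf_eq]
      omega
    · rw [hy _ hk, hki]
      exact (hL i hi0 hi1).1
  have hcardA : 2 * Nat.card (alternatingGroup (Fin n)) = n.factorial := by
    have : Nontrivial (Fin n) := Fin.nontrivial_iff_two_le.2 (by omega)
    rw [Nat.card_eq_fintype_card, two_mul_card_alternatingGroup, Fintype.card_perm, Fintype.card_fin]
  let f : H → alternatingGroup (Fin n) := fun h => ⟨D.p h, mem_alternatingGroup.2 (D.hsign h)⟩
  have hf : Function.Surjective f := by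
    rintro ⟨σ, hσ⟩
    obtain ⟨h, hh, e⟩ := hmap hσ
    exact ⟨⟨h, hh⟩, Subtype.ext e⟩
  have hinj := (hf.bijective_of_nat_card_le (by omega)).1
  have hzH : D.z ∉ H := by
    intro hz
    have h3 : f ⟨D.z, hz⟩ = f ⟨1, H.one_mem⟩ := Subtype.ext (by simp [f, D.pz])
    have h4 := hinj h3
    exact D.hz (congrArg Subtype.val h4)
  apply hzH
  have hcomm : commutator G ≤ H := by
    rw [commutator_def, Subgroup.commutator_le]
    intro g1 _ g2 _
    obtain ⟨h1, hh1, e1⟩ := hmap (mem_alternatingGroup.2 (D.hsign g1))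
    obtain ⟨h2, hh2, e2⟩ := hmap (mem_alternatingGroup.2 (D.hsign g2))
    rw [commutatorElement_def, D.comm_congr_left e1.symm, D.comm_congr_right e2.symm]
    exact H.mul_mem (H.mul_mem (H.mul_mem hh1 hh2) (H.inv_mem hh1)) (H.inv_mem hh2)
  exact hcomm (hperf ▸ Subgroup.mem_top _)

theorem anti [Finite G] (hn : 5 ≤ n) (hperf : commutator G = ⊤) {a b c d : Fin n} (ab : a ≠ b)
    (ac : a ≠ c) (ad : a ≠ d) (bc : b ≠ c) (bd : b ≠ d) (cd : c ≠ d) {u v : G}
    (hu : D.p u = swap a b * swap c d) (hv : D.p v = swap a c * swap b d) :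
    u * v = D.z * (v * u) := by
  have h1 : D.p (u * v) = D.p (v * u) := by
    rw [map_mul, map_mul, hu, hv, dbl_mul ab ac ad bc bd cd,
      dbl_mul ac ab ad (Ne.symm bc) cd bd, swap_comm c b]
  rcases D.lift_eq h1 with h | h
  · exact absurd (fun u' v' hu' hv' => D.comm_lift h (hu'.trans hu.symm) (hv'.trans hv.symm))
      (D.not_Cm hn hperf ab ac ad bc bd cd)
  · exact h

theorem anti_of_swaps [Finite G] (hn : 5 ≤ n) (hperf : commutator G = ⊤) {β : Perm (Fin n)}
    (hs : sign β = 1) {a b c d : Fin n} (ab : a ≠ b)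
    (ac : a ≠ c) (ad : a ≠ d) (bc : b ≠ c) (bd : b ≠ d) (cd : c ≠ d)
    (ha : β a = b) (hb : β b = a) (hc : β c = d) (hd : β d = c) {u g : G}
    (hu : D.p u = swap a c * swap b d) (hg : D.p g = β) : u * g = D.z * (g * u) := by
  obtain ⟨f1, f2, f3⟩ := dbl_facts ab ac ad bc bd cd
  obtain ⟨v, hv⟩ := D.hrange _ f2
  have hanti := D.anti hn hperf ab ac ad bc bd cd hv hu
  have hg0 : D.p (v * g) = (swap a b * swap c d) * β := by rw [map_mul, hv, hg]
  have hs0 : sign ((swap a b * swap c d) * β) = 1 := by rw [map_mul, f2, hs, one_mul]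
  have hfix : ∀ x ∈ ({a, b, c, d} : Finset (Fin n)), ((swap a b * swap c d) * β) x = x := by
    intro x hx
    simp only [Finset.mem_insert, Finset.mem_singleton] at hx
    rcases hx with rfl | rfl | rfl | rfl
    · rw [mul_apply, mul_apply, ha, swap_apply_of_ne_of_ne bc bd, swap_apply_right]
    · rw [mul_apply, mul_apply, hb, swap_apply_of_ne_of_ne ac ad, swap_apply_left]
    · rw [mul_apply, mul_apply, hc, swap_apply_right, swap_apply_of_ne_of_ne (Ne.symm ac) (Ne.symm bc)]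
    · rw [mul_apply, mul_apply, hd, swap_apply_left, swap_apply_of_ne_of_ne (Ne.symm ad) (Ne.symm bd)]
  have hoff : ∀ x, x ∉ ({a, b, c, d} : Finset (Fin n)) → D.p u x = x := by
    intro x hx
    simp only [Finset.mem_insert, Finset.mem_singleton, not_or] at hx
    rw [hu, mul_apply, swap_apply_of_ne_of_ne hx.2.1 hx.2.2.2,
      swap_apply_of_ne_of_ne hx.1 hx.2.2.1]
  have hcomm := D.comm_of_off_support hs0 hg0 _ hfix hoff
  apply mul_left_cancel (a := v)
  calc v * (u * g) = (v * u) * g := by rw [mul_assoc]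
    _ = D.z * (u * v) * g := by rw [hanti]
    _ = D.z * (u * (v * g)) := by simp [mul_assoc]
    _ = D.z * ((v * g) * u) := by rw [← hcomm]
    _ = (D.z * v) * (g * u) := by simp [mul_assoc]
    _ = (v * D.z) * (g * u) := by rw [D.hzc]
    _ = v * (D.z * (g * u)) := by rw [mul_assoc]

/-- Every element of a perfect double cover is a commutator. -/
theorem all_commutators (D : DC G n) [Finite G] (hn : 5 ≤ n) (hperf : commutator G = ⊤) (g : G) :
    ∃ a b : G, a * b * a⁻¹ * b⁻¹ = g := by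
  by_cases hσ : D.p g = 1
  · rcases (D.hker g).1 hσ with rfl | rfl
    · exact ⟨1, 1, by simp⟩
    · let a : Fin n := ⟨0, by omega⟩
      let b : Fin n := ⟨1, by omega⟩
      let c : Fin n := ⟨2, by omega⟩
      let d : Fin n := ⟨3, by omega⟩
      have ab : a ≠ b := by simp [a, b, Fin.ext_iff]
      have ac : a ≠ c := by simp [a, c, Fin.ext_iff]
      have ad : a ≠ d := by simp [a, d, Fin.ext_iff]
      have bc : b ≠ c := by simp [b, c, Fin.ext_iff]
      have bd : b ≠ d := by simp [b, d, Fin.ext_iff]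
      have cd : c ≠ d := by simp [c, d, Fin.ext_iff]
      obtain ⟨f1, f2, f3⟩ := dbl_facts ab ac ad bc bd cd
      obtain ⟨g1, g2, g3⟩ := dbl_facts ac ab ad (Ne.symm bc) cd bd
      obtain ⟨u, hu⟩ := D.hrange _ f2
      obtain ⟨v, hv⟩ := D.hrange _ g2
      have h := D.anti hn hperf ab ac ad bc bd cd hu hv
      refine ⟨u, v, ?_⟩
      rw [h]
      group
  · obtain ⟨al, be, hal, hbe, hcm, a, b, c, d, ab, ac, ad, bc, bd, cd, ha, hb, hc, hd⟩ :=
      Cfsg.Agent.Lib.Classical.Herm.SpinCombo.exists_comm (σ := D.p g) (by simpa using hn) (D.hsign g) hσ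
    obtain ⟨a0, ha0⟩ := D.hrange al hal
    obtain ⟨b0, hb0⟩ := D.hrange be hbe
    have h1 : D.p (a0 * b0 * a0⁻¹ * b0⁻¹) = D.p g := by
      simp only [map_mul, map_inv, ha0, hb0, hcm]
    rcases D.lift_eq h1 with h | h
    · exact ⟨a0, b0, h⟩
    · obtain ⟨g1, g2, g3⟩ := dbl_facts ac (Ne.symm bc |> fun _ => ab) ad (Ne.symm bc) cd bd
      obtain ⟨u, hu⟩ := D.hrange (swap a c * swap b d) g2
      have hanti := D.anti_of_swaps hn hperf hbe ab ac ad bc bd cd ha hb hc hd hu hb0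
      refine ⟨a0 * u, b0, ?_⟩
      calc a0 * u * b0 * (a0 * u)⁻¹ * b0⁻¹ = a0 * (u * b0) * u⁻¹ * a0⁻¹ * b0⁻¹ := by group
        _ = a0 * (D.z * (b0 * u)) * u⁻¹ * a0⁻¹ * b0⁻¹ := by rw [hanti]
        _ = a0 * (b0 * u * D.z) * u⁻¹ * a0⁻¹ * b0⁻¹ := by rw [D.hzc]
        _ = a0 * b0 * (u * D.z * u⁻¹) * a0⁻¹ * b0⁻¹ := by group
        _ = a0 * b0 * (D.z * u * u⁻¹) * a0⁻¹ * b0⁻¹ := by rw [D.hzc u]
        _ = a0 * b0 * D.z * a0⁻¹ * b0⁻¹ := by rw [mul_inv_cancel_right]
        _ = D.z * (a0 * b0) * a0⁻¹ * b0⁻¹ := by rw [D.hzc (a0 * b0)]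
        _ = D.z * (a0 * b0 * a0⁻¹ * b0⁻¹) := by group
        _ = D.z * (D.z * g) := by rw [h]
        _ = g := by rw [← mul_assoc, D.hz2, one_mul]

end DC

end Cfsg.Agent.Lib.Classical.Herm.SpinLift
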