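import Mathlib
import Cfsg.Agent.Lib.Classical.Herm.SzAutGroup
import Cfsg.Prelude.Def_Solvable
import Cfsg.Prelude.Def_Transfer

/-!
# The order and the `2`-core of the automorphism group of a Sylow `2`-subgroup of `SU₃(2ⁿ)`
-/

set_option autoImplicit false
set_option linter.unusedSectionVars false
set_option linter.unusedSimpArgs false
set_option linter.unusedVariables false
set_option linter.style.haveILetI false

open Cfsg
open Cfsg.Agent.Lib.Classical.Herm.Basic
open Cfsg.Agent.Lib.Classical.Herm.Tv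
open Cfsg.Agent.Lib.Classical.Herm.Unip
open Cfsg.Agent.Lib.Classical.Herm.Subfield
open Cfsg.Agent.Lib.Classical.Herm.SzModel
open Cfsg.Agent.Lib.Classical.Herm.SzAut
open Cfsg.Agent.Lib.Classical.Herm.SzAutGroup
open Cfsg.Agent.Lib.Classical.Herm.SU3Sylow

namespace Cfsg.Agent.Lib.Classical.Herm.SzAutCard

/-- The elements of `ΓL₁`. -/
def psi {F : Type*} [Field F] (u : Fˣ × (F ≃+* F)) : Equiv.Perm F := u.2.toEquiv.trans (Units.mulLeft u.1)

theorem psi_apply {F : Type*} [Field F] (u : Fˣ × (F ≃+* F)) (a : F) : psi u a = (u.1 : F) * u.2 a := rfl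

theorem psi_inj {F : Type*} [Field F] : Function.Injective (psi (F := F)) := by
  rintro ⟨u, τ⟩ ⟨v, σ⟩ h1
  have h2 : (u : F) = v := by
    have := DFunLike.congr_fun h1 1
    rw [psi_apply, psi_apply] at this
    simpa using this
  have h3 : u = v := Units.ext h2
  subst h3
  have h4 : τ = σ := by
    ext a
    have := DFunLike.congr_fun h1 a
    rw [psi_apply, psi_apply] at this
    exact mul_left_cancel₀ u.ne_zero this
  rw [h4]

variable {F : Type*} [Field F] [Fintype F] {q : ℕ} [CharP F 2]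
variable {S : Type*} [Group S] {A B : S → F} (h : IsSz q A B) (hF : Fintype.card F = q ^ 2)

/-- The action of automorphisms on the first coordinate. -/
noncomputable def rhoFun (α : S ≃* S) (a : F) : F := A (α (Classical.choose (h.exists_A hF a)))

theorem rhoFun_A (α : S ≃* S) (x : S) : rhoFun h hF α (A x) = A (α x) := by
  apply A_congr h hF
  exact Classical.choose_spec (h.exists_A hF (A x))

theorem rhoFun_one (a : F) : rhoFun h hF 1 a = a := Classical.choose_spec (h.exists_A hF a)

theorem rhoFun_mul (α β : S ≃* S) (a : F) : rhoFun h hF (α * β) a = rhoFun h hF α (rhoFun h hF β a) := by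
  obtain ⟨x, rfl⟩ := h.exists_A hF a
  rw [rhoFun_A, rhoFun_A, rhoFun_A]
  rfl

include h hF

/-- The homomorphism from `Aut S` to the permutations of `F`. -/
noncomputable def rho : (S ≃* S) →* Equiv.Perm F where
  toFun α :=
    { toFun := rhoFun h hF α
      invFun := rhoFun h hF α⁻¹
      left_inv := fun a => by rw [← rhoFun_mul, inv_mul_cancel, rhoFun_one]
      right_inv := fun a => by rw [← rhoFun_mul, mul_inv_cancel, rhoFun_one] }
  map_one' := by
    ext a
    exact rhoFun_one h hF a
  map_mul' α β := by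
    ext a
    exact rhoFun_mul h hF α β a

theorem rho_A (α : S ≃* S) (x : S) : rho h hF α (A x) = A (α x) := rhoFun_A h hF α x

theorem mem_ker_rho {α : S ≃* S} : α ∈ (rho h hF).ker ↔ ∀ x, A (α x) = A x := by
  rw [MonoidHom.mem_ker]
  constructor
  · intro h1 x
    rw [← rho_A h hF, h1]
    rfl
  · intro h1
    ext a
    obtain ⟨x, rfl⟩ := h.exists_A hF a
    rw [rho_A, h1]
    rfl

theorem range_rho : ((rho h hF).range : Set (Equiv.Perm F)) = Set.range (psi (F := F)) := by
  ext σ
  constructor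
  · rintro ⟨α, rfl⟩
    obtain ⟨lam, hl, τ, hτ, -⟩ := exists_gammaL h hF α
    refine ⟨(Units.mk0 lam hl, τ), ?_⟩
    ext a
    obtain ⟨x, rfl⟩ := h.exists_A hF a
    rw [rho_A, hτ, psi_apply]
    rfl
  · rintro ⟨⟨u, τ⟩, rfl⟩
    obtain ⟨γ, hγ⟩ := h.exists_gam hF u.ne_zero τ
    refine ⟨γ, ?_⟩
    ext a
    obtain ⟨x, rfl⟩ := h.exists_A hF a
    rw [rho_A, (hγ x).1, psi_apply]

theorem card_range_rho : Nat.card (rho h hF).range = Nat.card Fˣ * Nat.card (F ≃+* F) := by
  have h1 : Nat.card (rho h hF).range = Nat.card (Set.range (psi (F := F))) := by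
    rw [← range_rho h hF]
    rfl
  rw [h1, Nat.card_range_of_injective psi_inj, Nat.card_prod]

/-- Elements of the kernel fix the centre. -/
theorem ker_fix_center {α : S ≃* S} (hα : ∀ x, A (α x) = A x) {z : S} (hz : A z = 0) : α z = z := by
  have hq := two_le_q hF
  have hq0 : q ≠ 0 := by omega
  obtain ⟨lam, hl, τ, hτ, hτ'⟩ := exists_gammaL h hF α
  obtain ⟨x₁, hx₁⟩ := h.exists_A hF 1
  have h1 : lam = 1 := by
    have h2 := hτ x₁
    rw [hα, hx₁, map_one, mul_one] at h2
    exact h2.symm
  subst h1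
  have h2 : ∀ a, τ a = a := by
    intro a
    obtain ⟨x, rfl⟩ := h.exists_A hF a
    have h3 := hτ x
    rw [hα, one_mul] at h3
    exact h3.symm
  apply h.inj
  · rw [hα]
  · rw [hτ' z hz, one_pow, one_mul, h2]

theorem ker_mul_self {α : S ≃* S} (hα : ∀ x, A (α x) = A x) (x : S) : α (α x) = x := by
  have hq := two_le_q hF
  have hq0 : q ≠ 0 := by omega
  have h5 : A (x⁻¹ * α x) = 0 := by
    rw [h.A_mul, h.A_inv, hα, add_self']
  have h6 := ker_fix_center h hF hα h5
  have h7 : α x = x * (x⁻¹ * α x) := by group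
  have h8 : x⁻¹ * α x * (x⁻¹ * α x) = 1 := (h.sq_eq_one_iff hq0).2 h5
  set u := x⁻¹ * α x with hu
  rw [h7, map_mul, h6, h7, mul_assoc, h8, mul_one]

/-- The shearing function of an element of the kernel. -/
noncomputable def shearFun (α : S ≃* S) (a : F) : F :=
  B (α (Classical.choose (h.exists_A hF a))) + B (Classical.choose (h.exists_A hF a))

theorem shearFun_A {α : S ≃* S} (hα : ∀ x, A (α x) = A x) (x : S) :
    shearFun h hF α (A x) = B (α x) + B x := by
  have hq := two_le_q hF
  have hq0 : q ≠ 0 := by omega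
  have key : ∀ y z : S, A z = 0 → B (α (y * z)) + B (y * z) = B (α y) + B y := by
    intro y z hz
    have hzfix := ker_fix_center h hF hα hz
    rw [map_mul, hzfix, h.B_mul, h.B_mul, hα, hz]
    have h4 : (2 : F) = 0 := two_F
    linear_combination (B z) * h4
  have hyA : A (Classical.choose (h.exists_A hF (A x))) = A x :=
    Classical.choose_spec (h.exists_A hF (A x))
  show B (α (Classical.choose (h.exists_A hF (A x)))) + B (Classical.choose (h.exists_A hF (A x))) = _
  generalize Classical.choose (h.exists_A hF (A x)) = y at hyA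
  have hz : A (y⁻¹ * x) = 0 := by
    rw [h.A_mul, h.A_inv, hyA, add_self']
  have h1 := key y (y⁻¹ * x) hz
  rw [mul_inv_cancel_left] at h1
  exact h1.symm

/-- The shearing map as an additive map. -/
noncomputable def shearHom {α : S ≃* S} (hα : ∀ x, A (α x) = A x) : F →+ F :=
  AddMonoidHom.mk' (shearFun h hF α) (by
    intro a c
    obtain ⟨x, rfl⟩ := h.exists_A hF a
    obtain ⟨y, rfl⟩ := h.exists_A hF c
    rw [← h.A_mul, shearFun_A h hF hα, shearFun_A h hF hα, shearFun_A h hF hα, map_mul, h.B_mul,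
      h.B_mul, hα, hα]
    have h4 : (2 : F) = 0 := two_F
    linear_combination (A y * A x ^ q) * h4)

theorem shearHom_fixed {α : S ≃* S} (hα : ∀ x, A (α x) = A x) (a : F) :
    shearHom h hF hα a ^ q = shearHom h hF hα a := by
  obtain ⟨x, rfl⟩ := h.exists_A hF a
  show shearFun h hF α (A x) ^ q = shearFun h hF α (A x)
  rw [shearFun_A h hF hα, pow_q_add hF]
  have h1 := h.con (α x)
  have h2 := h.con x
  rw [hα] at h1
  have h4 : (2 : F) = 0 := two_F
  linear_combination h1 + h2 + (A x ^ (q + 1) - B (α x) - B x) * h4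

/-- The kernel of `rho` is the space of additive maps into the fixed field. -/
theorem card_ker_rho :
    Nat.card (rho h hF).ker = Nat.card {φ : F →+ F // ∀ a, φ a ^ q = φ a} := by
  have hmem : ∀ α : (rho h hF).ker, ∀ x, A (α.1 x) = A x := fun α => (mem_ker_rho h hF).1 α.2
  let Φ : (rho h hF).ker → {φ : F →+ F // ∀ a, φ a ^ q = φ a} :=
    fun α => ⟨shearHom h hF (hmem α), shearHom_fixed h hF (hmem α)⟩
  apply Nat.card_eq_of_bijective Φ
  constructor
  · intro α β hαβ
    apply Subtype.ext
    ext x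
    apply h.inj
    · rw [hmem, hmem]
    · have h1 := congrArg (fun u => u.1 (A x)) hαβ
      change shearFun h hF α.1 (A x) = shearFun h hF β.1 (A x) at h1
      rw [shearFun_A h hF (hmem α), shearFun_A h hF (hmem β)] at h1
      exact add_right_cancel h1
  · rintro ⟨φ, hφ⟩
    obtain ⟨γ, hγ⟩ := h.exists_shear hF φ hφ
    have hγk : γ ∈ (rho h hF).ker := (mem_ker_rho h hF).2 fun x => (hγ x).1
    refine ⟨⟨γ, hγk⟩, ?_⟩
    apply Subtype.ext
    ext a
    obtain ⟨x, rfl⟩ := h.exists_A hF a
    show shearFun h hF γ (A x) = φ (A x)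
    rw [shearFun_A h hF (fun x => (hγ x).1), (hγ x).2]
    have h4 : (2 : F) = 0 := two_F
    linear_combination (B x) * h4

omit h in
/-- Counting additive maps into the fixed field. -/
theorem card_hom {n : ℕ} (hq : q = 2 ^ n) :
    Nat.card {φ : F →+ F // ∀ a, φ a ^ q = φ a} = 2 ^ (2 * n ^ 2) := by
  classical
  letI := ZMod.algebra F 2
  let W₀ : AddSubgroup F :=
    { carrier := {x | x ^ q = x}
      add_mem' := fun {a b} ha hb => by
        show (a + b) ^ q = a + b
        rw [pow_q_add hF, ha, hb]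
      zero_mem' := zero_pow_q hF
      neg_mem' := fun {a} ha => by
        show (-a) ^ q = -a
        rw [pow_q_neg hF, ha] }
  let W : Submodule (ZMod 2) F := AddSubgroup.toZModSubmodule 2 W₀
  have hmemW : ∀ x : F, x ∈ W ↔ x ^ q = x := fun x => Iff.rfl
  let Φ : {φ : F →+ F // ∀ a, φ a ^ q = φ a} → (F →ₗ[ZMod 2] W) := fun φ =>
    AddMonoidHom.toZModLinearMap 2
      ({ toFun := fun a => ⟨φ.1 a, φ.2 a⟩
         map_zero' := Subtype.ext (map_zero φ.1)
         map_add' := fun a b => Subtype.ext (map_add φ.1 a b) } : F →+ W)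
  have hΦ : Function.Bijective Φ := by
    constructor
    · intro φ ψ h1
      apply Subtype.ext
      ext a
      have := congrArg (fun u => ((u a : W) : F)) h1
      exact this
    · intro l
      refine ⟨⟨(W.subtype.toAddMonoidHom).comp l.toAddMonoidHom, fun a => (l a).2⟩, ?_⟩
      ext a
      rfl
  rw [Nat.card_eq_of_bijective Φ hΦ]
  have hcW : Nat.card W = 2 ^ n := by
    rw [← hq, ← card_fixed hF]
    rfl
  have hcF : Nat.card F = 2 ^ (2 * n) := by
    rw [Nat.card_eq_fintype_card, hF, hq, ← pow_mul, mul_comm]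
  have hrF : Module.finrank (ZMod 2) F = 2 * n := by
    have h1 := Module.natCard_eq_pow_finrank (K := ZMod 2) (V := F)
    rw [hcF, Nat.card_zmod] at h1
    exact (Nat.pow_right_injective (le_refl 2) h1).symm
  have hrW : Module.finrank (ZMod 2) W = n := by
    have h1 := Module.natCard_eq_pow_finrank (K := ZMod 2) (V := W)
    rw [hcW, Nat.card_zmod] at h1
    exact (Nat.pow_right_injective (le_refl 2) h1).symm
  have h1 := Module.natCard_eq_pow_finrank (K := ZMod 2) (V := (F →ₗ[ZMod 2] W))
  rw [h1, Nat.card_zmod, Module.finrank_linearMap, hrF, hrW]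
  congr 1
  ring

theorem card_ker {n : ℕ} (hq : q = 2 ^ n) : Nat.card (rho h hF).ker = 2 ^ (2 * n ^ 2) := by
  rw [card_ker_rho, card_hom hF hq]

theorem card_aut {n : ℕ} (hq : q = 2 ^ n) (hn : 1 ≤ n) :
    Nat.card (S ≃* S) = 2 ^ (2 * n ^ 2) * (2 * n * (q ^ 2 - 1)) := by
  have hfin := h.finite hF
  have h1 := Subgroup.card_mul_index (rho h hF).ker
  rw [Subgroup.index_ker, card_ker h hF hq, card_range_rho] at h1
  rw [← h1]
  congr 1
  have hF' : Fintype.card F = 2 ^ (2 * n) := by rw [hF, hq, ← pow_mul, mul_comm]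
  rw [Cfsg.Agent.Lib.Classical.Herm.AutStruct.card_ringAut 2 (2 * n) hF', Nat.card_units,
    Nat.card_eq_fintype_card, hF, mul_comm]

/-- The `2`-core of `Aut S` is the kernel of `rho`. -/
theorem pCore_eq : pCore 2 (S ≃* S) = (rho h hF).ker := by
  have hq := two_le_q hF
  have hq0 : q ≠ 0 := by omega
  have hfin := h.finite hF
  have hk2 : ∀ α ∈ (rho h hF).ker, α ^ 2 = 1 := by
    intro α hα
    ext x
    rw [pow_two]
    exact ker_mul_self h hF ((mem_ker_rho h hF).1 hα) x
  apply le_antisymm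
  · apply sSup_le
    rintro N ⟨hN, hNp⟩ α hα
    obtain ⟨lam, hl, τ, hτ, -⟩ := exists_gammaL h hF α
    -- every element of `N` has `2`-power order
    have hpow : ∀ β ∈ N, ∃ k : ℕ, β ^ 2 ^ k = 1 := by
      intro β hβ
      obtain ⟨k, hk⟩ := hNp ⟨β, hβ⟩
      refine ⟨k, ?_⟩
      have := congrArg Subtype.val hk
      simpa using this
    -- the field automorphism is trivial
    have hτ1 : ∀ ω : F, τ ω = ω := by
      intro ω
      by_cases hω : ω = 0
      · rw [hω, map_zero]
      obtain ⟨β, hβ⟩ := h.exists_gam hF hω (RingEquiv.refl F)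
      have hβ1 : ∀ x, A (β x) = ω * A x := fun x => by simpa using (hβ x).1
      set c := α * β * α⁻¹ * β⁻¹ with hc
      have hcN : c ∈ N := by
        have h1 : α * β * α⁻¹ * β⁻¹ = α * (β * α⁻¹ * β⁻¹) := by group
        rw [hc, h1]
        exact N.mul_mem hα (hN.conj_mem _ (N.inv_mem hα) β)
      have hcA : ∀ y, A (c y) * ω = τ ω * A y := by
        intro y
        obtain ⟨x, rfl⟩ : ∃ x, y = β (α x) := ⟨α⁻¹ (β⁻¹ y), by simp⟩
        have h1 : c (β (α x)) = α (β x) := by
          rw [hc]
          simp [MulAut.mul_apply]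
        rw [h1, hτ, hβ1, hβ1, hτ, map_mul]
        ring
      set κ := τ ω / ω with hκ
      have hcA' : ∀ y, A (c y) = κ * A y := by
        intro y
        rw [hκ]
        field_simp
        rw [hcA]
      obtain ⟨k, hk⟩ := hpow c hcN
      have hiter : ∀ m : ℕ, ∀ y, A ((c ^ m) y) = κ ^ m * A y := by
        intro m
        induction m with
        | zero => intro y; simp
        | succ m ih =>
          intro y
          rw [pow_succ, MulAut.mul_apply, ih, hcA']
          ring
      obtain ⟨x₁, hx₁⟩ := h.exists_A hF 1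
      have h2 := hiter (2 ^ k) x₁
      rw [hk, MulAut.one_apply, hx₁, mul_one] at h2
      have h3 : κ = 1 := eq_one_of_pow (p := 2) h2.symm
      rw [hκ, div_eq_one_iff_eq hω] at h3
      exact h3
    -- and then the scalar is trivial
    have hτ2 : ∀ x, A (α x) = lam * A x := fun x => by rw [hτ, hτ1]
    obtain ⟨k, hk⟩ := hpow α hα
    have hiter : ∀ m : ℕ, ∀ y, A ((α ^ m) y) = lam ^ m * A y := by
      intro m
      induction m with
      | zero => intro y; simp
      | succ m ih =>
        intro y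
        rw [pow_succ, MulAut.mul_apply, ih, hτ2]
        ring
    obtain ⟨x₁, hx₁⟩ := h.exists_A hF 1
    have h2 := hiter (2 ^ k) x₁
    rw [hk, MulAut.one_apply, hx₁, mul_one] at h2
    have h3 : lam = 1 := eq_one_of_pow (p := 2) h2.symm
    rw [mem_ker_rho]
    intro x
    rw [hτ2, h3, one_mul]
  · apply le_sSup
    refine ⟨inferInstance, ?_⟩
    intro α
    refine ⟨1, ?_⟩
    apply Subtype.ext
    simpa using hk2 α.1 α.2

theorem isElementaryAbelian_pCore : IsElementaryAbelian 2 (pCore 2 (S ≃* S)) := by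
  rw [pCore_eq h hF]
  have hk2 : ∀ α ∈ (rho h hF).ker, α ^ 2 = 1 := by
    intro α hα
    ext x
    rw [pow_two]
    exact ker_mul_self h hF ((mem_ker_rho h hF).1 hα) x
  refine ⟨⟨⟨?_⟩⟩, hk2⟩
  rintro ⟨a, ha⟩ ⟨b, hb⟩
  apply Subtype.ext
  show a * b = b * a
  have h1 : (a * b) ^ 2 = 1 := hk2 _ ((rho h hF).ker.mul_mem ha hb)
  have h2 : a ^ 2 = 1 := hk2 _ ha
  have h3 : b ^ 2 = 1 := hk2 _ hb
  calc a * b = a * (a * b * (a * b)) * b := by rw [← pow_two, h1, mul_one]
    _ = a ^ 2 * b * a * b ^ 2 := by simp only [pow_two, mul_assoc]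
    _ = b * a := by rw [h2, h3, one_mul, mul_one]

end Cfsg.Agent.Lib.Classical.Herm.SzAutCard
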